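import Cfsg.Agent.H8.OType
import Cfsg.Agent.H2.FrobCompl
import Cfsg.Agent.H2.Frob
import Cfsg.Agent.H17.Central

/-! Order types and Frobenius groups. -/

namespace H8

open Subgroup

universe u

/-- Every Sylow subgroup has a cyclic subgroup of index dividing two. -/
def CycS (X : Type*) [Group X] : Prop :=
  ∀ r : ℕ, r.Prime → ∀ k : ℕ, r ^ k ∣ Nat.card X → ∃ g : X, r ^ k ∣ 2 * orderOf g

variable {G H : Type*} [Group G] [Group H]

theorem orderOf_dvd_mk_mul_card [Finite G] (N : Subgroup G) [N.Normal] (g : G) :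
    orderOf g ∣ orderOf (g : G ⧸ N) * Nat.card N := by
  rw [orderOf_dvd_iff_pow_eq_one, pow_mul]
  have h1 : g ^ orderOf (g : G ⧸ N) ∈ N := by
    rw [← QuotientGroup.eq_one_iff, QuotientGroup.mk_pow, pow_orderOf_eq_one]
  exact congrArg Subtype.val (pow_card_eq_one' (G := N) (x := ⟨_, h1⟩))

theorem CycS.quotient [Finite G] (h : CycS G) (N : Subgroup G) [N.Normal] : CycS (G ⧸ N) := by
  intro r hr k hk
  obtain ⟨b, m, hm, hb⟩ := Nat.exists_eq_pow_mul_and_not_dvd (n := Nat.card N)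
    Nat.card_pos.ne' r hr.ne_one
  have h1 : r ^ (k + b) ∣ Nat.card G := by
    rw [card_eq_card_quotient_mul_card_subgroup N, pow_add]
    exact Nat.mul_dvd_mul hk (hb ▸ dvd_mul_right _ _)
  obtain ⟨g, hg⟩ := h r hr _ h1
  refine ⟨g, ?_⟩
  have h2 : r ^ (k + b) ∣ (2 * orderOf (g : G ⧸ N)) * r ^ b * m := by
    refine hg.trans ?_
    rw [mul_assoc, mul_assoc, ← hb]
    exact Nat.mul_dvd_mul_left _ (orderOf_dvd_mk_mul_card N g)
  have h3 := (Nat.Coprime.pow_left _ ((Nat.Prime.coprime_iff_not_dvd hr).2 hm)).dvd_of_dvd_mul_right h2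
  rw [pow_add] at h3
  exact Nat.dvd_of_mul_dvd_mul_right (pow_pos hr.pos _) h3

theorem CycS.card_dvd [Finite G] (h : CycS G) (M : Subgroup G) [M.Normal] {r : ℕ} (hr : r.Prime)
    (hM : ∀ x ∈ M, x ^ r = 1) (hp : IsPGroup r M) : Nat.card M ∣ 2 * r := by
  haveI := Fact.mk hr
  obtain ⟨a, ha⟩ := IsPGroup.iff_card.1 hp
  obtain ⟨b, m, hm, hb⟩ := Nat.exists_eq_pow_mul_and_not_dvd (n := Nat.card (G ⧸ M))
    Nat.card_pos.ne' r hr.ne_one
  have h1 : r ^ (a + b) ∣ Nat.card G := by
    rw [card_eq_card_quotient_mul_card_subgroup M, pow_add, mul_comm, ha]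
    exact Nat.mul_dvd_mul (hb ▸ dvd_mul_right _ _) dvd_rfl
  obtain ⟨g, hg⟩ := h r hr _ h1
  have h2 : orderOf g ∣ Nat.card (G ⧸ M) * r := by
    rw [orderOf_dvd_iff_pow_eq_one, pow_mul]
    apply hM
    rw [← QuotientGroup.eq_one_iff, QuotientGroup.mk_pow, pow_card_eq_one']
  have h3 : r ^ (a + b) ∣ (2 * r) * r ^ b * m := by
    refine hg.trans ((Nat.mul_dvd_mul_left _ h2).trans ?_)
    rw [hb]
    exact Dvd.intro 1 (by ring)
  have h4 := (Nat.Coprime.pow_left _ ((Nat.Prime.coprime_iff_not_dvd hr).2 hm)).dvd_of_dvd_mul_right h3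
  rw [pow_add] at h4
  rw [ha]
  exact Nat.dvd_of_mul_dvd_mul_right (pow_pos hr.pos _) h4

theorem sylow_normal_of_normal_pgroup_quotient [Finite G] {p : ℕ} [Fact p.Prime] (S : Sylow p G)
    (M : Subgroup G) [M.Normal] (hM : IsPGroup p M)
    (h : ((S : Subgroup G).map (QuotientGroup.mk' M)).Normal) : (S : Subgroup G).Normal := by
  have h1 : M ≤ S := hM.le_sylow_of_normal S
  have h2 : ((S : Subgroup G).map (QuotientGroup.mk' M)).comap (QuotientGroup.mk' M) = S := by
    rw [comap_map_eq, QuotientGroup.ker_mk', sup_eq_left.2 h1]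
  rw [← h2]
  infer_instance

theorem sylow_normal_of_small_normal [Finite G] {p : ℕ} [hp : Fact p.Prime] (S : Sylow p G)
    (M : Subgroup G) [M.Normal] (hM : Nat.card M ≤ p)
    (h : ((S : Subgroup G).map (QuotientGroup.mk' M)).Normal) : (S : Subgroup G).Normal := by
  have h2 : ((S : Subgroup G).map (QuotientGroup.mk' M)).comap (QuotientGroup.mk' M) =
      (S : Subgroup G) ⊔ M := by
    rw [comap_map_eq, QuotientGroup.ker_mk']
  haveI hL : ((S : Subgroup G) ⊔ M).Normal := by rw [← h2]; infer_instance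
  set L := (S : Subgroup G) ⊔ M with hLdef
  let T : Sylow p L := S.subtype le_sup_left
  have hT : (T : Subgroup L) = (S : Subgroup G).subgroupOf L := rfl
  have hidx : (T : Subgroup L).index ≤ p := by
    rw [hT]
    have h3 := card_sup_dvd_mul M S
    rw [sup_comm, ← hLdef, ← ((S : Subgroup G).subgroupOf L).card_mul_index,
      Nat.card_congr (subgroupOfEquivOfLe (le_sup_left : (S : Subgroup G) ≤ L)).toEquiv,
      mul_comm (Nat.card M)] at h3
    exact (Nat.le_of_dvd Nat.card_pos (Nat.dvd_of_mul_dvd_mul_left Nat.card_pos h3)).trans hM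
  have hc1 := card_sylow_modEq_one p L
  have hc2 : Nat.card (Sylow p L) ≤ p :=
    (Nat.le_of_dvd (Nat.pos_of_ne_zero index_ne_zero_of_finite) T.card_dvd_index).trans hidx
  have hc3 : Nat.card (Sylow p L) = 1 := by
    have hp1 := hp.out.one_lt
    rcases hc2.eq_or_lt with h4 | h4
    · rw [h4] at hc1
      have := (Nat.modEq_zero_iff_dvd.2 (dvd_refl p)).symm.trans hc1
      rw [Nat.ModEq, Nat.zero_mod, Nat.mod_eq_of_lt hp1] at this
      omega
    · rw [Nat.ModEq, Nat.mod_eq_of_lt h4, Nat.mod_eq_of_lt hp1] at hc1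
      exact hc1
  haveI : Subsingleton (Sylow p L) := (Nat.card_eq_one_iff_unique.1 hc3).1
  haveI hch : (T : Subgroup L).Characteristic := Sylow.characteristic_of_subsingleton T
  have h5 : (T : Subgroup L).map L.subtype = S := by
    rw [hT, subgroupOf_map_subtype, inf_eq_left.2 le_sup_left]
  rw [← h5]
  infer_instance

theorem CycS.sylow_normal_aux {p : ℕ} [hp : Fact p.Prime] (h5 : 5 ≤ p) (k : ℕ) :
    ∀ (X : Type u) [Group X] [Finite X], Nat.card X = k → Group.IsSolvable X → CycS X →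
      (∀ q : ℕ, q.Prime → q ∣ Nat.card X → q ≤ p) → ∀ S : Sylow p X, (S : Subgroup X).Normal := by
  induction k using Nat.strong_induction_on with
  | _ k ih =>
  intro X _ _ hk hs hC hmax S
  by_cases h0 : (⊤ : Subgroup X) = ⊥
  · have : (S : Subgroup X) = ⊥ := eq_bot_iff.2 (h0 ▸ le_top)
    rw [this]; infer_instance
  obtain ⟨M, r, hMn, hM0, -, hr, -, hMr, hMp, -⟩ :=
    H1.exists_minimal_normal_elementary (⊤ : Subgroup X) inferInstance h0
  have hlt : Nat.card (X ⧸ M) < k := by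
    rw [← hk, card_eq_card_quotient_mul_card_subgroup M]
    exact lt_mul_of_one_lt_right Nat.card_pos ((one_lt_card_iff_ne_bot _).2 hM0)
  have h1 := ih _ hlt (X ⧸ M) rfl inferInstance (hC.quotient M)
    (fun q hq h => hmax q hq (h.trans (card_quotient_dvd_card M)))
    (S.mapSurjective (QuotientGroup.mk'_surjective M))
  by_cases hrp : r = p
  · subst hrp
    exact sylow_normal_of_normal_pgroup_quotient S M hMp h1
  · refine sylow_normal_of_small_normal S M ?_ h1
    have h2 := hC.card_dvd M hr hMr hMp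
    haveI := Fact.mk hr
    obtain ⟨a, ha⟩ := IsPGroup.iff_card.1 hMp
    by_cases h3 : r = 2
    · subst h3
      exact (Nat.le_of_dvd (by norm_num) h2).trans (by omega)
    · have h4 : Nat.card M ∣ r := by
        rw [ha] at h2 ⊢
        exact (Nat.Coprime.pow_left _ ((Nat.coprime_primes hr Nat.prime_two).2 h3)).dvd_of_dvd_mul_left h2
      refine (Nat.le_of_dvd hr.pos h4).trans (hmax r hr ?_)
      refine dvd_trans ?_ M.card_subgroup_dvd_card
      rw [ha]
      refine dvd_pow_self _ fun h => ?_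
      rw [h, pow_zero] at ha
      exact hM0 (card_eq_one.1 ha)

theorem CycS.tower {X : Type u} [Group X] [Finite X] (hs : Group.IsSolvable X) (h : CycS X)
    {n : ℕ} (hn : 5 ≤ n) : ∃ K : Subgroup X, K.Normal ∧ HallP (fun q => n ≤ q) K :=
  tower_of_class (fun X _ _ => Group.IsSolvable X ∧ CycS X) 5
    (fun _ _ _ N _ h => ⟨by have := h.1; infer_instance, h.2.quotient N⟩)
    (fun X _ _ h _ _ h5 hmax S => CycS.sylow_normal_aux h5 _ X rfl h.1 h.2 hmax S) n hn _ X rfl
    ⟨hs, h⟩

theorem CycS.of_injective [Finite G] [Finite H] (h : CycS G) (f : G →* H)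
    (hf : Function.Injective f) (hc : Nat.card H = Nat.card G) : CycS H := by
  intro r hr k hk
  obtain ⟨g, hg⟩ := h r hr k (hc ▸ hk)
  exact ⟨f g, by rwa [orderOf_injective f hf]⟩

theorem cycS_of_fpf [Finite G] {C K : Subgroup G} (hK : K ≠ ⊥) (hCK : C ≤ normalizer (K : Set G))
    (hfpf : ∀ a ∈ C, a ≠ 1 → K ⊓ centralizer {a} = ⊥) : CycS C := by
  intro r hr k hk
  haveI := Fact.mk hr
  obtain ⟨S⟩ : Nonempty (Sylow r C) := inferInstance
  set P := (S : Subgroup C).map C.subtype with hP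
  have hPC : P ≤ C := map_subtype_le _
  have hcP : r ^ k ∣ Nat.card P := by
    rw [hP, card_map_of_injective C.subtype_injective]
    exact S.pow_dvd_card_of_pow_dvd_card hk
  have key : ∃ g : P, Nat.card P ∣ 2 * orderOf g := by
    rcases H2.sylow_cyclic_or_quaternion_of_fpf hK (hPC.trans hCK) (fun a ha => hfpf a (hPC ha))
      (S.isPGroup'.map C.subtype) with h1 | ⟨-, n, ⟨e⟩⟩
    · obtain ⟨g, hg⟩ := IsCyclic.exists_ofOrder_eq_natCard (α := P)
      exact ⟨g, hg ▸ dvd_mul_left _ _⟩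
    · refine ⟨e.symm (QuaternionGroup.a 1), ?_⟩
      rw [MulEquiv.orderOf_eq, QuaternionGroup.orderOf_a_one, Nat.card_congr e.toEquiv,
        Nat.card_eq_fintype_card, QuaternionGroup.card]
      exact Dvd.intro 1 (by ring)
  obtain ⟨g, hg⟩ := key
  refine ⟨⟨g, hPC g.2⟩, hcP.trans (hg.trans (dvd_of_eq ?_))⟩
  rw [← orderOf_coe, ← orderOf_coe (a := (⟨g, hPC g.2⟩ : C))]

section frob

variable {F : Type*} [Group F] [Finite F] {C N : Subgroup F}

theorem frob_card_ker (hC : Cfsg.IsFrobeniusComplement C)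
    (hN : (N : Set F) = Cfsg.frobeniusKernel C) : Nat.card N = C.index := by
  rw [← H2.card_frobKernel hC, ← hN]; rfl

theorem frob_index_ker (hC : Cfsg.IsFrobeniusComplement C)
    (hN : (N : Set F) = Cfsg.frobeniusKernel C) : N.index = Nat.card C := by
  have h1 := N.card_mul_index
  rw [← C.card_mul_index, frob_card_ker hC hN, mul_comm (Nat.card C)] at h1
  exact Nat.eq_of_mul_eq_mul_left (Nat.pos_of_ne_zero index_ne_zero_of_finite) h1

theorem frob_ker_coprime (hC : Cfsg.IsFrobeniusComplement C)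
    (hN : (N : Set F) = Cfsg.frobeniusKernel C) : (Nat.card N).Coprime N.index := by
  rw [frob_index_ker hC hN, frob_card_ker hC hN]
  exact (H2.frob_coprime hC).symm

theorem frob_orderOf (hC : Cfsg.IsFrobeniusComplement C)
    (hN : (N : Set F) = Cfsg.frobeniusKernel C) (x : F) :
    orderOf x ∣ Nat.card N ∨ orderOf x ∣ N.index := by
  by_cases hx : x ∈ Cfsg.frobeniusKernel C
  · left
    rw [← hN] at hx
    exact N.orderOf_dvd_natCard hx
  · right
    rw [H2.mem_frobKernel_iff] at hx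
    push Not at hx
    obtain ⟨g, hg⟩ := hx.2
    rw [frob_index_ker hC hN]
    have := C.orderOf_dvd_natCard hg
    have e : orderOf (g⁻¹ * x * g) = orderOf x := by
      simpa using (MulAut.conj g⁻¹).orderOf_eq x
    rwa [e] at this

theorem frob_fpf (hC : Cfsg.IsFrobeniusComplement C)
    (hN : (N : Set F) = Cfsg.frobeniusKernel C) :
    ∀ a ∈ C, a ≠ 1 → N ⊓ centralizer {a} = ⊥ := by
  intro a ha ha1
  rw [eq_bot_iff]
  intro x hx
  have h1 : x ∈ Cfsg.frobeniusKernel C := by rw [← hN]; exact hx.1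
  have h2 : a * x = x * a := (mem_centralizer_iff.1 hx.2) a rfl
  have h3 : x ∈ C := H2.frob_mem hC ha ha1 (by
    rw [mul_assoc, h2, ← mul_assoc, inv_mul_cancel, one_mul]; exact ha)
  exact H2.eq_one_of_mem_frobKernel h1 1 (by simpa using h3)

theorem frob_ker_ne_bot (hC : Cfsg.IsFrobeniusComplement C)
    (hN : (N : Set F) = Cfsg.frobeniusKernel C) : N ≠ ⊥ := by
  intro h
  have := frob_card_ker hC hN
  rw [h, card_bot, eq_comm, index_eq_one] at this
  exact hC.2.1 this

theorem frob_cycS [N.Normal] (hC : Cfsg.IsFrobeniusComplement C)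
    (hN : (N : Set F) = Cfsg.frobeniusKernel C) : CycS (F ⧸ N) := by
  have h1 : CycS C := cycS_of_fpf (frob_ker_ne_bot hC hN) le_normalizer_of_normal (frob_fpf hC hN)
  refine h1.of_injective ((QuotientGroup.mk' N).comp C.subtype) ?_ (frob_index_ker hC hN)
  rw [injective_iff_map_eq_one]
  intro a ha
  have h2 : (a : F) ∈ Cfsg.frobeniusKernel C := by
    rw [← hN]
    exact (QuotientGroup.eq_one_iff _).1 ha
  exact Subtype.ext (H2.eq_one_of_mem_frobKernel h2 1 (by simp))

theorem normal_map_of_normal_hall (N : Subgroup F) [N.Normal] (K : Subgroup N) [K.Normal]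
    (hc : (Nat.card K).Coprime K.index) : (K.map N.subtype).Normal := by
  refine ⟨?_⟩
  rintro _ ⟨x, hx, rfl⟩ g
  refine ⟨⟨g * x * g⁻¹, Normal.conj_mem inferInstance _ x.2 g⟩, ?_, rfl⟩
  rw [SetLike.mem_coe, ← mem_iff_pow_of_normal_hall K hc] at hx ⊢
  apply Subtype.ext
  have := congrArg Subtype.val hx
  simp only [SubgroupClass.coe_pow, OneMemClass.coe_one] at this ⊢
  rw [conj_pow, this]; simp

theorem hallP_self (hc : (Nat.card N).Coprime N.index) : HallP (fun q => q ∣ Nat.card N) N :=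
  ⟨fun _ _ h => h, fun p hp h1 h2 => hp.ne_one (Nat.eq_one_of_dvd_coprimes hc h2 h1)⟩

theorem OT.exists_of_nilpotent [Finite G] (h : OT F G) [N.Normal]
    (hc : (Nat.card N).Coprime N.index) (hn : Group.IsNilpotent N) :
    ∃ L : Subgroup G, L.Normal ∧ HallP (fun q => q ∣ Nat.card N) L ∧ Group.IsSolvable L := by
  obtain ⟨L, h1, h2, h3⟩ := h.tower (fun _ => False) (fun q => q ∣ Nat.card N) ⊥ inferInstance
    (hallP_bot fun _ _ _ => id) inferInstance 0 (fun n _ => by
      obtain ⟨K, hK, hH⟩ := tower_of_supS (H1.supS_of_isNilpotent hn) n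
      refine ⟨K.map N.subtype, normal_map_of_normal_hall N K hH.coprime, ?_, ?_⟩
      · intro p hp hd
        rw [card_map_of_injective N.subtype_injective] at hd
        exact Or.inr ⟨hd.trans K.card_subgroup_dvd_card, hH.1 p hp hd⟩
      · rintro p hp hd (h4 | h4)
        · exact h4
        · rw [index_map_subtype] at hd
          rcases (Nat.Prime.dvd_mul hp).1 hd with h5 | h5
          · exact hH.2 p hp h5 h4.2
          · exact hp.ne_one (Nat.eq_one_of_dvd_coprimes hc h4.1 h5))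
  exact ⟨L, h1, h2.congr fun p _ _ => by simp, h3⟩

theorem OT.isFrobenius [Finite G] (h : OT F G) [N.Normal] (hC : Cfsg.IsFrobeniusComplement C)
    (hN : (N : Set F) = Cfsg.frobeniusKernel C) (hn : Group.IsNilpotent N) :
    ∃ D : Subgroup G, Cfsg.IsFrobeniusComplement D := by
  have hc := frob_ker_coprime hC hN
  obtain ⟨L, hL, hH, -⟩ := h.exists_of_nilpotent hc hn
  have hcard : Nat.card L = Nat.card N := hH.card_eq (hallP_self hc) h.card_eq.symm
  have hidx : L.index = N.index := by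
    have h1 := L.card_mul_index
    rw [← h.card_eq, ← N.card_mul_index, hcard] at h1
    exact Nat.eq_of_mul_eq_mul_left Nat.card_pos h1
  obtain ⟨D, hD⟩ := exists_right_complement'_of_coprime hH.coprime
  have hDc : Nat.card D = N.index := by rw [← hidx, hD.symm.index_eq_card]
  refine ⟨D, (H2.isFrob_iff D).2 ⟨?_, ?_, ?_⟩⟩
  · intro h0
    rw [h0, card_bot, frob_index_ker hC hN, eq_comm, card_eq_one] at hDc
    exact hC.1 hDc
  · intro h0
    have h1 := hD.index_eq_card
    rw [h0, index_top, hcard, eq_comm, card_eq_one] at h1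
    exact frob_ker_ne_bot hC hN h1
  · intro x hx hx1 g hg
    obtain ⟨⟨d, l⟩, rfl⟩ := hD.symm.2 g
    simp only at hg ⊢
    set y := (d : G)⁻¹ * x * d with hy
    have hyD : y ∈ D := D.mul_mem (D.mul_mem (D.inv_mem d.2) hx) d.2
    have hy1 : y ≠ 1 := by
      intro h1
      apply hx1
      have : x = d * y * (d : G)⁻¹ := by rw [hy]; group
      rw [this, h1]; simp
    have h1 : y⁻¹ * ((l : G)⁻¹ * y * l) ∈ D := by
      refine D.mul_mem (D.inv_mem hyD) ?_
      have e : (l : G)⁻¹ * y * l = ((d : G) * l)⁻¹ * x * (d * l) := by rw [hy]; group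
      rw [e]; exact hg
    have h2 : y⁻¹ * ((l : G)⁻¹ * y * l) ∈ L := by
      have e : y⁻¹ * ((l : G)⁻¹ * y * l) = (y⁻¹ * (l : G)⁻¹ * y⁻¹⁻¹) * l := by group
      rw [e]
      exact L.mul_mem (hL.conj_mem _ (L.inv_mem l.2) _) l.2
    have h3 : y⁻¹ * ((l : G)⁻¹ * y * l) = 1 := disjoint_def.1 hD.disjoint h2 h1
    have h4 : Commute y (l : G) := by
      have : y * l = l * (y * (y⁻¹ * ((l : G)⁻¹ * y * l))) := by group
      rw [Commute, SemiconjBy, this, h3, mul_one]
    have hoy : orderOf y ∣ N.index := hDc ▸ D.orderOf_dvd_natCard hyD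
    have hol : orderOf (l : G) ∣ Nat.card N := hcard ▸ L.orderOf_dvd_natCard l.2
    have h5 := h4.orderOf_mul_eq_mul_orderOf_of_coprime
      (Nat.Coprime.coprime_dvd_left hoy (Nat.Coprime.coprime_dvd_right hol hc.symm))
    obtain ⟨z, hz⟩ := h.exists_orderOf (y * l)
    rcases frob_orderOf hC hN z with h6 | h6
    · rw [hz, h5] at h6
      exact absurd (orderOf_eq_one_iff.1
        (Nat.eq_one_of_dvd_coprimes hc ((dvd_mul_right _ _).trans h6) hoy)) hy1
    · rw [hz, h5] at h6
      have h7 := orderOf_eq_one_iff.1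
        (Nat.eq_one_of_dvd_coprimes hc hol ((dvd_mul_left _ _).trans h6))
      rw [h7, mul_one]
      exact d.2

theorem OT.isSolvable_of_frobenius [Finite G] (h : OT F G) [N.Normal]
    (hC : Cfsg.IsFrobeniusComplement C) (hN : (N : Set F) = Cfsg.frobeniusKernel C)
    (hn : Group.IsNilpotent N) (hs : Group.IsSolvable F) : Group.IsSolvable G := by
  have hc := frob_ker_coprime hC hN
  obtain ⟨L0, hL0, hH0, hs0⟩ := h.exists_of_nilpotent hc hn
  obtain ⟨L, h1, h2, h3⟩ := h.tower (fun q => q ∣ Nat.card N) (fun _ => True) L0 hL0 hH0 hs0 5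
    (fun n hn5 => by
      obtain ⟨K, hK, hH⟩ := CycS.tower inferInstance (frob_cycS hC hN) hn5
      refine ⟨K.comap (QuotientGroup.mk' N), inferInstance, HallP.comap_mk' N
        (hH.congr fun p hp hd => ⟨fun h4 => Or.inr ⟨trivial, h4⟩, ?_⟩) fun p _ hd => Or.inl hd⟩
      rintro (h4 | h4)
      · exact absurd (Nat.eq_one_of_dvd_coprimes hc h4 hd) hp.ne_one
      · exact h4.2)
  refine H1.isSolvable_of_normal_quotient L h3
    (H17.isSolvable_of_two_primes Nat.prime_two Nat.prime_three fun r hr hd => ?_)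
  have h4 : ¬ 5 ≤ r := fun h5 => h2.2 r hr hd (Or.inr ⟨trivial, h5⟩)
  have h5 := hr.two_le
  have h6 : r ≠ 4 := by rintro rfl; norm_num at hr
  omega

end frob

end H8
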