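import Mathlib

/-! Set-up for the 3-local recognition of the alternating group of degree 8. -/

set_option autoImplicit false
open Subgroup Equiv

namespace H8A

abbrev L0 : Subgroup (Perm (Fin 3) × Perm (Fin 5)) :=
  (((Equiv.Perm.sign).comp (MonoidHom.fst (Equiv.Perm (Fin 3)) (Equiv.Perm (Fin 5)))) *
    ((Equiv.Perm.sign).comp (MonoidHom.snd (Equiv.Perm (Fin 3)) (Equiv.Perm (Fin 5))))).ker

abbrev A8 := alternatingGroup (Fin 8)

theorem mem_L0 {a : Perm (Fin 3)} {b : Perm (Fin 5)} :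
    (a, b) ∈ L0 ↔ Perm.sign a * Perm.sign b = 1 := Iff.rfl

def el (a : Perm (Fin 3)) (b : Perm (Fin 5)) (h : Perm.sign a * Perm.sign b = 1 := by decide) :
    L0 := ⟨(a, b), h⟩

def ev (a : Perm (Fin 8)) (h : Perm.sign a = 1 := by decide) : A8 := ⟨a, h⟩

def z0 : L0 := el (swap 0 1 * swap 1 2) 1
def d0 : L0 := el 1 (swap 0 1 * swap 1 2)
def u0 : L0 := el (swap 0 1) (swap 0 1)
def r0 : L0 := el 1 (swap 0 1 * swap 3 4)
def v1 : L0 := el 1 (swap 0 1 * swap 2 3)
def va : L0 := el 1 (swap 0 1 * swap 2 4)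
def vb : L0 := el 1 (swap 0 2 * swap 1 4)
def z8 : A8 := ev (swap 0 1 * swap 1 2)
def d8 : A8 := ev (swap 3 4 * swap 4 5)
def a8 : A8 := ev (swap 3 4 * swap 5 7)
def b8 : A8 := ev (swap 3 5 * swap 4 7)
def s8 : A8 := ev (swap 0 3 * swap 1 4 * swap 2 5 * swap 6 7)

instance deL0 : DecidableEq L0 := fun x y =>
  decidable_of_iff (x.1.1 = y.1.1 ∧ x.1.2 = y.1.2) (by rw [Subtype.ext_iff, Prod.ext_iff])

/-- quantification over `L0` for `decide` -/
theorem all_L0 {p : L0 → Prop}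
    (h : ∀ (a : Perm (Fin 3)) (b : Perm (Fin 5)) (e : Perm.sign a * Perm.sign b = 1), p (el a b e))
    (x : L0) : p x := h x.1.1 x.1.2 x.2

variable {G : Type*} [Group G]

structure Hy (ι : L0 →* G) (s : G) : Prop where
  inj : Function.Injective ι
  nz : ι.range = normalizer (zpowers (ι z0) : Set G)
  n27 : ¬ 27 ∣ Nat.card G
  ss : s * s = 1
  sz : s * ι z0 * s = ι d0
  su : s * ι u0 = ι u0 * s
  cy : Nat.card (centralizer ({ι (z0 * d0)} : Set G)) = 18

namespace Hy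
variable {ι : L0 →* G} {s : G} (h : Hy ι s)
include h

theorem si : s⁻¹ = s := inv_eq_of_mul_eq_one_right h.ss

theorem sd : s * ι d0 * s = ι z0 := by
  rw [← h.sz]
  calc _ = s * s * ι z0 * (s * s) := by group
    _ = _ := by rw [h.ss, one_mul, mul_one]

theorem mem_of [Finite G] {g : G} (e : g * ι z0 * g⁻¹ ∈ zpowers (ι z0)) : g ∈ ι.range := by
  rw [h.nz]
  refine mem_normalizer_fintype ?_
  rintro _ ⟨k, rfl⟩
  simp only [← conj_zpow]
  exact zpow_mem e k

theorem sr [Finite G] : s * ι r0 * s = ι (u0 * r0) := by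
  have i := h.si
  have e1 : s * ι r0 * s * ι z0 * (s * ι r0 * s)⁻¹ = (ι z0)⁻¹ := by
    have : ι r0 * ι d0 * (ι r0)⁻¹ = (ι d0)⁻¹ := by
      rw [← map_inv, ← map_mul, ← map_mul, ← map_inv]; congr 1; decide
    calc _ = s * (ι r0 * (s * ι z0 * s⁻¹) * (ι r0)⁻¹) * s⁻¹ := by group
      _ = (s * ι d0 * s⁻¹)⁻¹ := by rw [i, h.sz, this]; simp [mul_assoc, i]
      _ = _ := by rw [i, h.sd]
  obtain ⟨x, hx⟩ := h.mem_of (e1 ▸ inv_mem (mem_zpowers _))
  have e2 : x * d0 = d0 * x := h.inj (by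
    have : ι r0 * ι z0 = ι z0 * ι r0 := by rw [← map_mul, ← map_mul]; congr 1
    rw [map_mul, map_mul, hx, ← h.sz]
    calc _ = s * (ι r0 * (s * s) * ι z0) * s := by group
      _ = s * (ι z0 * (s * s) * ι r0) * s := by rw [h.ss, mul_one, mul_one, this]
      _ = _ := by group)
  have e3 : x * u0 = u0 * x := h.inj (by
    have : Commute (ι r0) (ι u0) := by
      rw [Commute, SemiconjBy, ← map_mul, ← map_mul]; congr 1; decide
    rw [map_mul, map_mul, hx]
    exact ((Commute.mul_left h.su this).mul_left h.su).eq)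
  have e4 : x * z0 * x⁻¹ = z0⁻¹ := h.inj (by rw [map_mul, map_mul, map_inv, map_inv, hx, e1])
  rw [← hx]
  congr 1
  revert e2 e3 e4
  clear hx
  revert x
  refine all_L0 ?_
  decide +kernel

end Hy

end H8A
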