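import Cfsg.Agent.H8.A8h

set_option autoImplicit false
open Subgroup Equiv

namespace H8A

variable {G : Type*} [Group G] [Finite G]

theorem card6 {y s x : G} (oy : orderOf y = 3) (os : orderOf s = 2) (sy : Commute s y)
    (h18 : Nat.card (centralizer ({y} : Set G)) = 18) (xy : Commute x y) (xs : ¬ Commute x s) :
    centralizer {y} ⊓ centralizer {s} = zpowers (y * s) := by
  have o6 : orderOf (y * s) = 6 := by
    rw [sy.symm.orderOf_mul_eq_mul_orderOf_of_coprime (by rw [oy, os]; norm_num), oy, os]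
  have h1 : zpowers (y * s) ≤ centralizer {y} ⊓ centralizer {s} := zpowers_le.2
    ⟨mem_centralizer_singleton_iff.2 ((Commute.refl y).mul_left sy),
      mem_centralizer_singleton_iff.2 (sy.symm.mul_left (Commute.refl s))⟩
  have h2 := card_dvd_of_le h1
  have h3 := card_dvd_of_le (inf_le_left : centralizer {y} ⊓ centralizer {s} ≤ _)
  have h4 : Nat.card ↥(centralizer {y} ⊓ centralizer {s} : Subgroup G) ≠ 18 := fun e =>
    xs (mem_centralizer_singleton_iff.1 ((eq_of_le_of_card_ge inf_le_left (h18.trans e.symm).le).ge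
      (mem_centralizer_singleton_iff.2 xy)).2)
  rw [Nat.card_zpowers, o6] at h2
  rw [h18] at h3
  refine (eq_of_le_of_card_ge h1 ?_).symm
  rw [Nat.card_zpowers, o6]
  have := Nat.le_of_dvd (by norm_num) h3
  generalize Nat.card ↥(centralizer {y} ⊓ centralizer {s} : Subgroup G) = n at *
  interval_cases n <;> omega

theorem c6 {y s x : G} (oy : orderOf y = 3) (os : orderOf s = 2) (sy : Commute s y)
    (h18 : Nat.card (centralizer ({y} : Set G)) = 18) (xy : Commute x y) (xs : ¬ Commute x s) :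
    ∀ g, Commute g s → Commute g y → g ∈ zpowers y ∨ g * s ∈ zpowers y := fun g h1 h2 => by
  obtain ⟨k, rfl⟩ := (card6 oy os sy h18 xy xs).le
    ⟨mem_centralizer_singleton_iff.2 h2, mem_centralizer_singleton_iff.2 h1⟩
  have ss : s ^ (2 : ℤ) = 1 := orderOf_dvd_iff_zpow_eq_one.1 (by rw [os]; rfl)
  simp only
  rw [sy.symm.mul_zpow]
  rcases Int.even_or_odd' k with ⟨j, rfl | rfl⟩
  · left
    rw [zpow_mul s, ss, one_zpow, mul_one]
    exact zpow_mem (mem_zpowers y) _
  · right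
    rw [mul_assoc, ← zpow_add_one, show 2 * j + 1 + 1 = 2 * (j + 1) by ring, zpow_mul s, ss,
      one_zpow, mul_one]
    exact zpow_mem (mem_zpowers y) _

theorem card_conj {a b : G} (h : IsConj a b) :
    Nat.card (centralizer ({a} : Set G)) = Nat.card (centralizer ({b} : Set G)) := by
  obtain ⟨c, rfl⟩ := isConj_iff.1 h
  refine Nat.card_congr (Equiv.subtypeEquiv (MulAut.conj c).toEquiv fun x => ?_)
  rw [mem_centralizer_singleton_iff, mem_centralizer_singleton_iff]
  change _ ↔ c * x * c⁻¹ * _ = _ * (c * x * c⁻¹)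
  rw [conj_mul, conj_mul, mul_left_inj, mul_right_inj]

theorem nc {z y s r x : G} (oz : orderOf z = 3) (oy : orderOf y = 3) (os : orderOf s = 2)
    (n27 : ¬ 27 ∣ Nat.card G) (sy : Commute s y)
    (h18 : Nat.card (centralizer ({y} : Set G)) = 18) (xy : Commute x y) (xs : ¬ Commute x s)
    (h5 : 5 ∣ Nat.card (centralizer ({z} : Set G))) (rz : Commute r z) : ¬ IsConj r s := fun h => by
  have f3 : Fact (Nat.Prime 3) := ⟨Nat.prime_three⟩
  obtain ⟨c, rfl⟩ := isConj_iff.1 h
  set s := c * r * c⁻¹ with hs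
  have z1 : c * z * c⁻¹ ∈ centralizer {s} :=
    mem_centralizer_singleton_iff.2 (by rw [hs, conj_mul, conj_mul, rz.eq])
  have y1 : y ∈ centralizer {s} := mem_centralizer_singleton_iff.2 sy.symm
  have p3 : ∀ w : centralizer {s}, orderOf (w : G) = 3 → IsPGroup 3 (zpowers w) := fun w hw =>
    IsPGroup.of_card (n := 1) (by rw [Nat.card_zpowers, ← Subgroup.orderOf_coe, hw]; rfl)
  obtain ⟨P, hP⟩ := (p3 ⟨y, y1⟩ oy).exists_le_sylow
  have oz1 : orderOf (c * z * c⁻¹) = 3 := ((MulAut.conj c).orderOf_eq z).trans oz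
  obtain ⟨Q, hQ⟩ := (p3 ⟨_, z1⟩ oz1).exists_le_sylow
  obtain ⟨g, rfl⟩ := MulAction.exists_smul_eq (centralizer ({s} : Set G)) Q P
  have h1 : g * ⟨_, z1⟩ * g⁻¹ ∈ ((g • Q : Sylow 3 _) : Subgroup (centralizer ({s} : Set G))) :=
    smul_mem_pointwise_smul (⟨_, z1⟩ : centralizer ({s} : Set G)) (MulAut.conj g)
      (Q : Subgroup (centralizer ({s} : Set G))) (hQ (mem_zpowers _))
  obtain ⟨k, hk⟩ := IsPGroup.iff_card.1 (g • Q).2
  have hk2 : k ≤ 2 := by
    by_contra h2
    exact n27 ((pow_dvd_pow 3 (by omega : 3 ≤ k)).trans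
      (hk ▸ (card_subgroup_dvd_card _).trans (card_subgroup_dvd_card _)))
  have cm : ∀ a b : ((g • Q : Sylow 3 _) : Subgroup (centralizer ({s} : Set G))), a * b = b * a := by
    interval_cases k
    · have := (Nat.card_eq_one_iff_unique.1 hk).1
      exact fun a b => Subsingleton.elim _ _
    · exact (isCyclic_of_prime_card hk).commutative.1.1
    · exact IsPGroup.commutative_of_card_eq_prime_sq hk
  set w : G := g * (c * z * c⁻¹) * (g : G)⁻¹ with hw
  have wy : Commute w y := congrArg Subtype.val (congrArg Subtype.val (cm ⟨_, h1⟩ ⟨_, hP (mem_zpowers _)⟩))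
  have ws : Commute w s := mem_centralizer_singleton_iff.1 (g * ⟨_, z1⟩ * g⁻¹).2
  have ow : orderOf w = 3 := ((MulAut.conj (g : G)).orderOf_eq _).trans oz1
  have wz : w ∈ zpowers y := (c6 oy os sy h18 xy xs w ws wy).resolve_right fun e => by
    have h2 := orderOf_dvd_of_mem_zpowers e
    rw [ws.orderOf_mul_eq_mul_orderOf_of_coprime (by rw [ow, os]; norm_num), ow, os, oy] at h2
    omega
  have e : zpowers w = zpowers y :=
    eq_of_le_of_card_ge (zpowers_le.2 wz) (by rw [Nat.card_zpowers, Nat.card_zpowers, ow, oy])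
  have h3 : centralizer ({w} : Set G) ≤ centralizer {y} := fun t ht => by
    obtain ⟨j, hj⟩ := e.ge (mem_zpowers y)
    rw [← hj]
    exact mem_centralizer_singleton_iff.2
      ((show Commute t w from mem_centralizer_singleton_iff.1 ht).zpow_right j)
  have h4 := card_conj ((isConj_iff.2 ⟨c, rfl⟩ : IsConj z _).trans (isConj_iff.2 ⟨g, rfl⟩))
  have := (h4 ▸ h5).trans (card_dvd_of_le h3)
  omega

theorem exg (t : Perm (Fin 3)) (ht : t = 1 ∨ t = swap 0 1) (b : L0) : b ^ 9 = 1 →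
    b * z0 = z0 * b → ¬ (b = 1 ∨ b = z0 ∨ b = z0 * z0) →
    ∃ (γ : Perm (Fin 5)) (h : Perm.sign t * Perm.sign γ = 1), el t γ h * d0 * (el t γ h)⁻¹ = b ∨
      el t γ h * d0 * (el t γ h)⁻¹ = b * z0 ∨ el t γ h * d0 * (el t γ h)⁻¹ = b * z0 * z0 := by
  revert b
  rcases ht with rfl | rfl <;> refine all_L0 ?_ <;> decide +kernel

theorem cz (t : Perm (Fin 3)) (γ : Perm (Fin 5)) (h : Perm.sign t * Perm.sign γ = 1) (w : L0)
    (h1 : t * z0.1.1 * t⁻¹ = w.1.1) (h2 : w.1.2 = 1) : el t γ h * z0 * (el t γ h)⁻¹ = w :=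
  Subtype.ext (Prod.ext h1 (by
    rw [h2]
    change γ * 1 * γ⁻¹ = 1
    simp))

theorem exg2 (a b : L0) (az : a = z0 ∨ a = z0 * z0) (b9 : b ^ 9 = 1) (ba : b * a = a * b)
    (x1 : ¬ (b = 1 ∨ b = a ∨ b = a * a)) : ∃ g : L0, g * z0 * g⁻¹ = a ∧
      (g * d0 * g⁻¹ = b ∨ g * d0 * g⁻¹ = b * a ∨ g * d0 * g⁻¹ = b * a * a) := by
  rcases az with rfl | rfl
  · obtain ⟨γ, h, e⟩ := exg 1 (Or.inl rfl) b b9 ba x1
    exact ⟨_, cz _ _ h _ (by decide) rfl, e⟩
  · have z4 : z0 * z0 * (z0 * z0) = z0 := by decide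
    have c1 : Commute b (z0 * z0) := ba
    have c2 := c1.mul_right c1
    rw [z4] at c2 x1
    obtain ⟨γ, h, e⟩ := exg _ (Or.inr rfl) b b9 c2.eq fun e => x1 (by
      rcases e with e | e | e
      exacts [Or.inl e, Or.inr (Or.inr e), Or.inr (Or.inl e)])
    refine ⟨_, cz _ _ h _ (by decide) (by decide), ?_⟩
    rw [mul_assoc b (z0 * z0), z4, ← mul_assoc b z0]
    rcases e with e | e | e
    exacts [Or.inl e, Or.inr (Or.inr e), Or.inr (Or.inl e)]

theorem az0 (a : L0) : a ^ 3 = 1 → a ≠ 1 →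
    (el 1 (swap 0 1 * swap 1 2 * swap 2 3 * swap 3 4) * a *
      (el 1 (swap 0 1 * swap 1 2 * swap 2 3 * swap 3 4))⁻¹ = 1 ∨
    el 1 (swap 0 1 * swap 1 2 * swap 2 3 * swap 3 4) * a *
      (el 1 (swap 0 1 * swap 1 2 * swap 2 3 * swap 3 4))⁻¹ = a ∨
    el 1 (swap 0 1 * swap 1 2 * swap 2 3 * swap 3 4) * a *
      (el 1 (swap 0 1 * swap 1 2 * swap 2 3 * swap 3 4))⁻¹ = a * a) → a = z0 ∨ a = z0 * z0 := by
  revert a
  refine all_L0 ?_
  decide +kernel

theorem set0 (D : Subgroup G) (z : G) (hz : z ∈ D) (oz : orderOf z = 3) (hcard : Nat.card D = 9)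
    (hcomm : IsMulCommutative D) (j : L0 →* G) (ji : Function.Injective j)
    (jr : j.range = normalizer (zpowers z : Set G)) :
    ∃ ι : L0 →* G, Function.Injective ι ∧ ι.range = normalizer (zpowers z : Set G) ∧ ι z0 = z ∧
      D = closure {ι z0, ι d0} := by
  classical
  have cm : ∀ x ∈ D, Commute x z := fun x hx => congrArg Subtype.val (hcomm.1.1 ⟨x, hx⟩ ⟨z, hz⟩)
  have DN : D ≤ j.range := fun x hx => jr ▸ mem_normalizer_fintype (by
    rintro _ ⟨k, rfl⟩
    simp only
    rw [((cm x hx).zpow_right k).eq, mul_inv_cancel_right]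
    exact zpow_mem (mem_zpowers z) k)
  obtain ⟨a, rfl⟩ := DN hz
  obtain ⟨x, hx, x1⟩ : ∃ x ∈ D, x ∉ zpowers (j a) := SetLike.not_le_iff_exists.1 fun e => by
    have := card_le_of_le e
    rw [Nat.card_zpowers] at this
    omega
  obtain ⟨b, rfl⟩ := DN hx
  have a3 : a ^ 3 = 1 := ji (by rw [map_pow, map_one]; exact orderOf_dvd_iff_pow_eq_one.1 oz.dvd)
  have a1 : a ≠ 1 := fun e => by rw [e, map_one, orderOf_one] at oz; omega
  have mz : ∀ t : L0, j t ∈ zpowers (j a) ↔ t = 1 ∨ t = a ∨ t = a * a := fun t => by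
    rw [mem_zpowers_iff_mem_range_orderOf, oz]
    simp only [Finset.mem_image, Finset.mem_range, ← map_pow, ji.eq_iff]
    constructor
    · rintro ⟨k, hk, rfl⟩
      interval_cases k <;> simp [pow_two]
    · rintro (rfl | rfl | rfl)
      exacts [⟨0, by norm_num, by simp⟩, ⟨1, by norm_num, by simp⟩, ⟨2, by norm_num, pow_two _⟩]
  have an : ∀ g : L0, g * a * g⁻¹ = 1 ∨ g * a * g⁻¹ = a ∨ g * a * g⁻¹ = a * a := fun g => by
    rw [← mz, map_mul, map_mul, map_inv]
    exact (mem_normalizer_iff.1 (jr ▸ (⟨g, rfl⟩ : j g ∈ j.range)) _).1 (mem_zpowers _)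
  have az : a = z0 ∨ a = z0 * z0 := az0 a a3 a1 (an _)
  have b9 : b ^ 9 = 1 := ji (by
    rw [map_pow, map_one]
    exact congrArg Subtype.val (hcard ▸ pow_card_eq_one' (x := (⟨j b, hx⟩ : D))))
  rw [mz] at x1
  obtain ⟨g, g1, g2⟩ : ∃ g : L0, g * z0 * g⁻¹ = a ∧
      (g * d0 * g⁻¹ = b ∨ g * d0 * g⁻¹ = b * a ∨ g * d0 * g⁻¹ = b * a * a) := by
    exact exg2 a b az b9 (ji (by rw [map_mul, map_mul]; exact cm _ hx)) x1
  refine ⟨j.comp (MulAut.conj g).toMonoidHom, ji.comp (MulAut.conj g).injective, ?_,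
    congrArg j g1, ?_⟩
  · rw [MonoidHom.range_comp, MonoidHom.range_eq_top.2 (MulAut.conj g).surjective,
      ← MonoidHom.range_eq_map, jr]
  · change D = closure {j (g * z0 * g⁻¹), j (g * d0 * g⁻¹)}
    rw [g1]
    have h1 : closure {j a, j (g * d0 * g⁻¹)} ≤ D := (closure_le _).2 (by
      rintro _ (rfl | rfl)
      · exact hz
      · rcases g2 with e | e | e <;> rw [e]
        · exact hx
        · exact map_mul j _ _ ▸ mul_mem hx hz
        · rw [map_mul, map_mul]; exact mul_mem (mul_mem hx hz) hz)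
    have h2 : zpowers (j a) < closure {j a, j (g * d0 * g⁻¹)} :=
      lt_of_le_of_ne (zpowers_le.2 (subset_closure (by simp))) fun e => by
        have h3 : j (g * d0 * g⁻¹) ∈ zpowers (j a) := e.ge (subset_closure (by simp))
        refine x1 ((mz b).1 ?_)
        rcases g2 with e | e | e <;> rw [e] at h3
        · exact h3
        · rwa [map_mul, mul_mem_cancel_right (mem_zpowers _)] at h3
        · rwa [map_mul, map_mul, mul_mem_cancel_right (mem_zpowers _),
            mul_mem_cancel_right (mem_zpowers _)] at h3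
    have h3 : Nat.card (zpowers (j a)) < Nat.card (closure {j a, j (g * d0 * g⁻¹)}) :=
      not_le.1 fun e => h2.ne (eq_of_le_of_card_ge h2.le e)
    have h4 := card_dvd_of_le h1
    rw [Nat.card_zpowers, oz] at h3
    rw [hcard] at h4
    refine (eq_of_le_of_card_ge h1 ?_).symm
    rw [hcard]
    have := Nat.le_of_dvd (by norm_num) h4
    generalize Nat.card (closure {j a, j (g * d0 * g⁻¹)}) = n at *
    interval_cases n <;> omega

theorem set1 (D : Subgroup G) (z : G) (hz : z ∈ D) (oz : orderOf z = 3) (hcard : Nat.card D = 9)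
    (hcomm : IsMulCommutative D) (eL : normalizer (zpowers z : Set G) ≃* L0) :
    ∃ ι : L0 →* G, Function.Injective ι ∧ ι.range = normalizer (zpowers z : Set G) ∧ ι z0 = z ∧
      D = closure {ι z0, ι d0} :=
  set0 D z hz oz hcard hcomm ((normalizer (zpowers z : Set G)).subtype.comp eL.symm.toMonoidHom)
    ((subtype_injective _).comp eL.symm.injective) (by
      rw [MonoidHom.range_comp, MonoidHom.range_eq_top.2 eL.symm.surjective,
        ← MonoidHom.range_eq_map, range_subtype])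

end H8A
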