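import Cfsg.Agent.H6.Inv

/-! Binary affine groups: general lemmas on the point stabiliser `H` acting on the translation group `V`. -/

set_option autoImplicit false
set_option linter.unusedSectionVars false

namespace H8.Aff

open AddSubgroup

section
variable {V : Type*} [AddCommGroup V] {A B Y : AddSubgroup V}

theorem card_sup (h : Disjoint A B) : Nat.card (A ⊔ B : AddSubgroup V) = Nat.card A * Nat.card B := by
  rw [← relIndex_bot_left, ← relIndex_mul_relIndex ⊥ A _ bot_le le_sup_left, relIndex_bot_left, relIndex_sup_left,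
    ← inf_relIndex_right, h.eq_bot, relIndex_bot_left]

variable [Finite V]

theorem card_le_index (h : Disjoint A B) : Nat.card A ≤ B.index :=
  Nat.le_of_mul_le_mul_left (by rw [card_mul_index, mul_comm, ← card_sup h]; exact card_le_card_addGroup _)
    (Nat.card_pos (α := B))

theorem exists_of_index (h : B.index < Nat.card A) : ∃ w ∈ A, w ∈ B ∧ w ≠ 0 := by
  by_contra! h1
  exact (card_le_index (AddSubgroup.disjoint_def.2 fun ha hb => h1 _ ha hb)).not_gt h

theorem exists_of_card (hA : A ≤ Y) (hB : B ≤ Y) (h : Nat.card Y < Nat.card A * Nat.card B) :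
    ∃ w ∈ A, w ∈ B ∧ w ≠ 0 := by
  by_contra! h1
  rw [← card_sup (AddSubgroup.disjoint_def.2 fun ha hb => h1 _ ha hb)] at h
  exact (card_le_of_le (sup_le hA hB)).not_gt h

theorem sup_eq_top (h : Disjoint A B) (h1 : B.index ≤ Nat.card A) : A ⊔ B = ⊤ :=
  eq_top_of_le_card _ (by rw [card_sup h, ← B.card_mul_index, mul_comm]; exact Nat.mul_le_mul_right _ h1)

theorem card_part {ι : Type*} (S : Finset ι) (X : ι → AddSubgroup V) {q : ℕ} (hq : 1 < q)
    (h1 : ∀ i ∈ S, X i ≤ Y ∧ Nat.card (X i) = q) (h2 : ∀ i ∈ S, ∀ j ∈ S, ∀ w ∈ X i, w ∈ X j → w ≠ 0 → i = j)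
    (h3 : ∀ w ∈ Y, w ≠ 0 → ∃ i ∈ S, w ∈ X i) (hY : Nat.card Y = q * q) : S.card = q + 1 := by
  classical
  have := Fintype.ofFinite V
  have key : ∀ Z : AddSubgroup V, ((Finset.univ.filter (· ∈ Z)).erase 0).card = Nat.card Z - 1 := fun Z => by
    rw [Finset.card_erase_of_mem (by simp), Nat.card_eq_fintype_card, Fintype.card_subtype]
  have h4 : (Finset.univ.filter (· ∈ Y)).erase 0 = S.biUnion fun i => (Finset.univ.filter (· ∈ X i)).erase 0 := by
    ext w
    simp only [Finset.mem_erase, Finset.mem_filter, Finset.mem_univ, true_and, Finset.mem_biUnion]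
    exact ⟨fun h => (h3 w h.2 h.1).imp fun i hi => ⟨hi.1, h.1, hi.2⟩, fun ⟨i, hi, h⟩ => ⟨h.1, (h1 i hi).1 h.2⟩⟩
  have h5 := key Y
  rw [h4, Finset.card_biUnion fun i hi j hj hij => Finset.disjoint_left.2 fun w hw hw' => by
    simp only [Finset.mem_erase, Finset.mem_filter, Finset.mem_univ, true_and] at hw hw'
    exact hij (h2 i hi j hj w hw.2 hw'.2 hw.1), Finset.sum_const_nat fun i hi => (key _).trans (by rw [(h1 i hi).2]),
    hY] at h5
  obtain ⟨n, rfl⟩ : ∃ n, q = n + 1 := ⟨q - 1, by omega⟩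
  refine Nat.eq_of_mul_eq_mul_right (m := n) (by omega) ?_
  simp only [Nat.add_sub_cancel] at h5
  rw [h5, show (n + 1) * (n + 1) = (n + 1 + 1) * n + 1 by ring, Nat.add_sub_cancel]
end

variable {H : Type*} (V : Type*) [Group H] [AddCommGroup V] [DistribMulAction H V]

/-- the map `1 - g` -/
def om (g : H) : V →+ V := AddMonoidHom.id V - DistribSMul.toAddMonoidHom V g

/-- fixed vectors -/
def Fx (g : H) : AddSubgroup V := (om V g).ker

/-- the commutator space -/
def W (g : H) : AddSubgroup V := (om V g).range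

/-- the elements with smallest commutator space -/
def D (q : ℕ) (s : H) : Prop := Nat.card (W V s) = q

/-- the basic hypotheses -/
structure St (H V : Type*) [Group H] [AddCommGroup V] [DistribMulAction H V] (q : ℕ) : Prop where
  am : ∀ (s z : H) (a b : V), a - s • a = b - z • b → ∃ f : H, (∀ x : V, s • x = x → f • x = x) ∧
    (∀ x : V, z • x = x → f • x = x) ∧ f • a = s • a ∧ f • b = z • b ∧ ∀ x : V, s • x = z • x → f • x = s • x
  one_lt : 1 < q
  min : ∀ g : H, g ≠ 1 → q ≤ Nat.card (W V g)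
  faith : ∀ g : H, (∀ v : V, g • v = v) → g = 1

variable {V} {q : ℕ} {s t z g : H} {v w : V}

theorem om_apply (g : H) (v : V) : om V g v = v - g • v := rfl

theorem mem_Fx : v ∈ Fx V g ↔ g • v = v := by rw [Fx, AddMonoidHom.mem_ker, om_apply, sub_eq_zero, eq_comm]

theorem mem_W : w ∈ W V g ↔ ∃ v, v - g • v = w := Iff.rfl

theorem sub_mem_W (g : H) (v : V) : v - g • v ∈ W V g := ⟨v, rfl⟩

theorem index_Fx (g : H) : (Fx V g).index = Nat.card (W V g) := index_ker _

theorem smul_mem_W (k : H) (h : w ∈ W V g) : k • w ∈ W V (k * g * k⁻¹) := by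
  obtain ⟨v, rfl⟩ := mem_W.1 h
  exact mem_W.2 ⟨k • v, by rw [mul_smul, mul_smul, inv_smul_smul, smul_sub]⟩

theorem smul_W (hs : s * s = 1) (h : w ∈ W V s) : s • w = -w := by
  obtain ⟨v, rfl⟩ := mem_W.1 h
  rw [smul_sub, ← mul_smul, hs, one_smul, neg_sub]

theorem D.conj (h : D V q s) (k : H) : D V q (k * s * k⁻¹) := h ▸ Nat.card_congr
  ⟨fun w => ⟨k⁻¹ • w.1, by simpa [mul_assoc] using smul_mem_W k⁻¹ w.2⟩, fun w => ⟨k • w.1, smul_mem_W k w.2⟩,
    fun w => by simp, fun w => by simp⟩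

theorem W_mul (s t : H) : W V (s * t) ≤ W V s ⊔ W V t := by
  rintro _ ⟨v, rfl⟩
  rw [om_apply, mul_smul, show v - s • t • v = (t • v - s • t • v) + (v - t • v) by abel]
  exact add_mem_sup (sub_mem_W _ _) (sub_mem_W _ _)

theorem index_C (hs : D V q s) (ht : D V q t) : (Fx V s ⊓ Fx V t).index ≤ q * q := by
  have := index_inf_le (H := Fx V s) (K := Fx V t)
  rwa [index_Fx, index_Fx, hs, ht] at this

variable [Finite V] (h : St H V q)
include h

theorem St.ne_one (hs : D V q s) : s ≠ 1 := by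
  rintro rfl
  have h1 : W V (1 : H) = ⊥ := eq_bot_iff.2 fun w ⟨v, e⟩ => by simpa [om_apply] using e.symm
  have := h.one_lt
  rw [D, h1, card_bot] at hs
  omega

theorem St.exists_W (hs : D V q s) : ∃ w ∈ W V s, w ≠ 0 := by
  obtain ⟨⟨w, h1⟩, h2⟩ := ne_bot_iff_exists_ne_zero.1 ((one_lt_card_iff_ne_bot _).1 (hs.symm ▸ h.one_lt))
  exact ⟨w, h1, fun e => h2 (Subtype.ext e)⟩

theorem St.D_of (hg : g ≠ 1) (h1 : Nat.card (W V g) ≤ q) : D V q g := le_antisymm h1 (h.min g hg)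

theorem St.D_of_le (hs : D V q s) (hg : g ≠ 1) (h1 : ∀ x : V, s • x = x → g • x = x) :
    D V q g ∧ ∀ x : V, g • x = x → s • x = x := by
  have h2 : Fx V s ≤ Fx V g := fun x hx => mem_Fx.2 (h1 x (mem_Fx.1 hx))
  have h3 : D V q g := h.D_of hg (by rw [← hs, ← index_Fx, ← index_Fx]; exact index_antitone h2)
  refine ⟨h3, fun x hx => mem_Fx.1 ((eq_of_le_of_card_ge h2 (le_of_eq ?_)).ge (mem_Fx.2 hx))⟩
  refine Nat.eq_of_mul_eq_mul_right (zero_lt_one.trans h.one_lt) ?_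
  rw [← hs, ← index_Fx, card_mul_index, index_Fx, hs, ← h3, ← index_Fx, card_mul_index]

theorem St.star (hs : D V q s) {b : V} (h1 : b - z • b ∈ W V s) (h2 : z • b ≠ b) :
    (∀ x : V, z • x = x → s • x = x) ∧ s • b = z • b := by
  obtain ⟨a, ha⟩ := mem_W.1 h1
  obtain ⟨f, f1, f2, f3, f4, -⟩ := h.am s z a b ha
  have h3 := (h.D_of_le hs (g := f) (by rintro rfl; exact h2 (by simpa using f4.symm)) f1).2
  refine ⟨fun x hx => h3 x (f2 x hx), ?_⟩
  have := h3 (a - b) (by rw [smul_sub, f3, f4]; linear_combination (norm := abel) -ha)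
  rw [smul_sub] at this
  linear_combination (norm := abel) -this - ha

theorem St.sq (hs : D V q s) : s * s = 1 := h.faith _ fun a => by
  by_cases h1 : s • a = a
  · rw [mul_smul, h1, h1]
  have := (h.star hs (z := s⁻¹) (b := -(s • a)) (mem_W.2 ⟨a, by simp [add_comm, sub_eq_add_neg]⟩) (by
    simpa [eq_comm] using h1)).2
  simpa [mul_smul] using this

theorem St.inv (hs : D V q s) : s⁻¹ = s := inv_eq_of_mul_eq_one_right (h.sq hs)

theorem St.neg (hs : D V q s) (hw : w ∈ W V s) : s • w = -w := smul_W (h.sq hs) hw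

theorem St.eq_of (hs : D V q s) (ht : D V q t) (h1 : w ∈ W V s) (h2 : w ∈ W V t) (h0 : w ≠ 0) : s = t := by
  obtain ⟨b, rfl⟩ := mem_W.1 h2
  have h3 : t • b ≠ b := fun e => h0 (by rw [e, sub_self])
  obtain ⟨h4, h5⟩ := h.star hs h1 h3
  by_contra h6
  exact h3 ((h.D_of_le ht (g := t⁻¹ * s) (by rwa [Ne, inv_mul_eq_one, eq_comm]) fun x hx => by
    rw [mul_smul, h4 x hx, inv_smul_eq_iff, hx]).2 b (by rw [mul_smul, h5, inv_smul_smul]))

theorem St.disj (hs : D V q s) (ht : D V q t) (hst : s ≠ t) : Disjoint (W V s) (W V t) :=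
  AddSubgroup.disjoint_def.2 fun h1 h2 => by_contra fun h0 => hst (h.eq_of hs ht h1 h2 h0)

theorem St.card_U (hs : D V q s) (ht : D V q t) (hst : s ≠ t) : Nat.card (W V s ⊔ W V t : AddSubgroup V) = q * q := by
  rw [card_sup (h.disj hs ht hst), hs, ht]

theorem St.conj_eq (hs : D V q s) (ht : D V q t) (h1 : w ∈ W V s) (h0 : w ≠ 0) (h2 : g • w ∈ W V t) :
    g * s * g⁻¹ = t := h.eq_of (hs.conj g) ht (smul_mem_W g h1) h2 ((smul_ne_zero_iff_ne g).2 h0)

theorem St.comm (hs : D V q s) (h1 : w ∈ W V s) (h0 : w ≠ 0) (h2 : g • w ∈ W V s) : Commute g s :=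
  mul_inv_eq_iff_eq_mul.1 (h.conj_eq hs hs h1 h0 h2)

theorem St.pm (hs : D V q s) (hc : Commute g s) (h1 : w ∈ W V s) : g • w = w ∨ g • w = -w := by
  refine or_iff_not_imp_left.2 fun h2 => ?_
  have h3 := smul_mem_W g h1
  rw [hc.mul_inv_cancel] at h3
  rw [← (h.star hs (sub_mem h1 h3) h2).2, h.neg hs h1]

theorem St.fix_of_comm (hs : D V q s) (ht : D V q t) (hst : s ≠ t) (hc : Commute t s) (h1 : w ∈ W V s) :
    t • w = w := by
  have h3 := smul_mem_W t h1
  rw [hc.mul_inv_cancel] at h3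
  exact (sub_eq_zero.1 (AddSubgroup.disjoint_def.1 (h.disj hs ht hst) (sub_mem h1 h3) (sub_mem_W _ _))).symm

theorem St.swap (g : H) (v : V) : ∃ f : H, f • v = g • v ∧ f • g • v = v ∧ ∀ x : V, g • g • x = x → f • x = g • x := by
  obtain ⟨f, -, -, f3, f4, f5⟩ := h.am g g⁻¹ v (-(g • v)) (by simp [add_comm, sub_eq_add_neg])
  exact ⟨f, f3, by simpa using f4, fun x hx => f5 x (by rw [eq_inv_smul_iff, hx])⟩

theorem St.unip (h1 : g • g • (v - g • v) = v - g • v) : g • g • v = v := by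
  obtain ⟨f, f1, f2, f3⟩ := h.swap g v
  have := f3 _ h1
  rw [smul_sub, smul_sub, f1, f2] at this
  exact (sub_right_injective this).symm

theorem St.fx_mul (hs : D V q s) (ht : D V q t) (hst : s ≠ t) (hv : (s * t) • v = v) : s • v = v ∧ t • v = v := by
  have h1 : s • v = t • v := by rw [← h.inv hs, inv_smul_eq_iff, ← mul_smul, hv]
  have h2 := sub_eq_zero.1 (AddSubgroup.disjoint_def.1 (h.disj hs ht hst) (sub_mem_W s v) (h1 ▸ sub_mem_W t v))
  exact ⟨h2.symm, h1 ▸ h2.symm⟩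

theorem St.decomp (hs : D V q s) (ht : D V q t) (hst : s ≠ t) (hd : Disjoint (W V s ⊔ W V t) (Fx V s ⊓ Fx V t))
    (v : V) : ∃ x ∈ W V s, ∃ y ∈ W V t, ∃ c : V, s • c = c ∧ t • c = c ∧ v = x + y + c := by
  obtain ⟨u, hu, c, hc, rfl⟩ := mem_sup.1 ((sup_eq_top hd ((index_C hs ht).trans (h.card_U hs ht hst).ge)).ge
    (mem_top v))
  obtain ⟨x, hx, y, hy, rfl⟩ := mem_sup.1 hu
  exact ⟨x, hx, y, hy, c, mem_Fx.1 hc.1, mem_Fx.1 hc.2, rfl⟩

theorem St.cover0 (hs : D V q s) (ht : D V q t) (hst : s ≠ t) (hd : Disjoint (W V s ⊔ W V t) (Fx V s ⊓ Fx V t))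
    {u : V} (hu : u ∈ W V s ⊔ W V t) : ∃ f : H, ∃ u' ∈ W V s ⊔ W V t, u' - f • u' = u ∧ f • u' = s • t • u' ∧
      f • f • u' = u' ∧ ∀ c : V, s • c = c → t • c = c → f • c = c := by
  obtain ⟨⟨u', h1⟩, h2⟩ := Finite.injective_iff_surjective.1 (show Function.Injective fun x : (W V s ⊔ W V t :
      AddSubgroup V) => (⟨x.1 - (s * t) • x.1, W_mul s t (sub_mem_W _ _)⟩ : (W V s ⊔ W V t : AddSubgroup V)) from
    fun x y e => Subtype.ext (sub_eq_zero.1 (AddSubgroup.disjoint_def.1 hd (sub_mem x.2 y.2) (by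
      have := h.fx_mul hs ht hst (v := x.1 - y.1) (by
        have : x.1 - (s * t) • x.1 = y.1 - (s * t) • y.1 := congrArg Subtype.val e
        rw [smul_sub]
        linear_combination (norm := abel) -this)
      exact ⟨mem_Fx.2 this.1, mem_Fx.2 this.2⟩)))) ⟨u, hu⟩
  obtain ⟨f, f1, f2, f3⟩ := h.swap (s * t) u'
  exact ⟨f, u', h1, f1 ▸ congrArg Subtype.val h2, by rw [f1, mul_smul], by rw [f1, f2], fun c h3 h4 => by
    rw [f3 c (by simp only [mul_smul, h3, h4]), mul_smul, h4, h3]⟩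

end H8.Aff
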