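import Cfsg.Agent.H8.Aff1

/-! Binary affine groups: the planar case and characteristic two. -/

set_option autoImplicit false
set_option linter.unusedSectionVars false

namespace H8.Aff

open AddSubgroup

/-- irreducibility -/
def Irr (H V : Type*) [Group H] [AddCommGroup V] [DistribMulAction H V] : Prop :=
  ∀ Y : AddSubgroup V, (∀ g : H, ∀ v ∈ Y, g • v ∈ Y) → Y = ⊥ ∨ Y = ⊤

/-- the planar situation -/
structure Pl (H V : Type*) [Group H] [AddCommGroup V] [DistribMulAction H V] (q : ℕ) : Prop extends St H V q where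
  card : Nat.card V = q * q
  cover : ∀ v : V, v ≠ 0 → ∃ z : H, D V q z ∧ z • v = v
  uniq : ∀ (z z' : H) (v : V), D V q z → D V q z' → v ≠ 0 → z • v = v → z' • v = v → z = z'
  fix : ∀ (g : H) (v : V), v ≠ 0 → g • v = v → g = 1 ∨ D V q g
  neg : ∃ j : H, ∀ v : V, j • v = -v
  dich : (∀ v : V, v + v = 0 → v = 0) ∨ ∀ v : V, v + v = 0

variable {H V : Type*} [Group H] [AddCommGroup V] [DistribMulAction H V] {q : ℕ} {s t z g f : H} {v w : V}
  [Finite V] [Finite H] (h : St H V q)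
include h

theorem St.fix_W (hd : (∀ v : V, v + v = 0 → v = 0) ∨ ∀ v : V, v + v = 0) (hz : D V q z) (hv : v ∈ W V z)
    (h0 : v ≠ 0) (hg : g • v = v) (hw : w ∈ W V z) : g • w = w := by
  have hc := h.comm hz hv h0 (hg.symm ▸ hv)
  rcases h.pm hz hc hw with e | e
  · exact e
  rcases hd with hd | hd
  · rcases h.pm hz hc (add_mem hv hw) with e1 | e1 <;> rw [smul_add, hg, e] at e1
    · rw [hd w (by linear_combination (norm := abel) -e1), smul_zero]
    · exact absurd (hd v (by linear_combination (norm := abel) e1)) h0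
  · rw [e, neg_eq_iff_add_eq_zero, hd]

theorem St.D_of_W (hV : Nat.card V = q * q) (hz : D V q z) (hg : ∀ w ∈ W V z, g • w = w) : g = 1 ∨ D V q g := by
  refine or_iff_not_imp_left.2 fun h1 => h.D_of h1 (Nat.le_of_mul_le_mul_left ?_ (zero_lt_one.trans h.one_lt))
  rw [← index_Fx, ← hV, ← (Fx V g).card_mul_index, ← hz]
  exact Nat.mul_le_mul_right _ (card_le_of_le fun w hw => mem_Fx.2 (hg w hw))

section
variable (h2 : ∀ v : V, v + v = 0)
include h2

theorem St.e_sq4 (hg : g * g * (g * g) = 1) : g * g = 1 := h.faith _ fun v => by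
  have h3 : g • g • g • g • v = v := by simpa only [mul_smul, one_smul] using congrArg (· • v) hg
  rw [mul_smul]
  refine h.unip (h.unip ?_)
  simp only [smul_sub, h3]
  linear_combination (norm := abel) h2 (g • v) - h2 (g • g • g • v)

theorem St.e_pow (k : ℕ) : ∀ g : H, g ^ 2 ^ k = 1 → g * g = 1 := by
  induction k with
  | zero => intro g hg; simp_all
  | succ k ih => exact fun g hg => h.e_sq4 h2 (ih _ (by rwa [← pow_two, ← pow_mul, ← pow_succ']))

theorem St.e_inv (h1 : f • f • v = v) : ∃ z : H, z * z = 1 ∧ z • v = f • v ∧ ∀ c : V, f • c = c → z • c = c := by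
  obtain ⟨k, m, ⟨n, rfl⟩, e⟩ := Nat.exists_eq_two_pow_mul_odd (orderOf_pos f).ne'
  refine ⟨f ^ (2 * n + 1), h.e_pow h2 k _ (by rw [← pow_mul, mul_comm, ← e, pow_orderOf_eq_one]), ?_,
    fun c hc => (MulAction.stabilizer H c).pow_mem hc _⟩
  rw [pow_succ', mul_smul, pow_mul, (MulAction.stabilizer H v).pow_mem (show f ^ 2 • v = v by
    rw [pow_two, mul_smul, h1]) n]

theorem St.e_fix (hs : D V q s) (hc : Commute g s) (hw : w ∈ W V s) : g • w = w :=
  (h.pm hs hc hw).elim id fun e => by rw [e, neg_eq_iff_add_eq_zero, h2]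

theorem St.e_disj (hs : D V q s) (ht : D V q t) (hc : ¬ Commute s t) : Disjoint (W V s ⊔ W V t) (Fx V s ⊓ Fx V t) := by
  refine AddSubgroup.disjoint_def.2 fun {c} hu h3 => ?_
  obtain ⟨h3, h4⟩ := mem_inf.1 h3
  obtain ⟨x, hx, y, hy, rfl⟩ := mem_sup.1 hu
  rw [mem_Fx, smul_add] at h3 h4
  rw [h.e_fix h2 hs (Commute.refl s) hx, add_right_inj] at h3
  rw [h.e_fix h2 ht (Commute.refl t) hy, add_left_inj] at h4
  rw [by_contra fun e : ¬ x = 0 => hc (h.comm hs hx e (h4.symm ▸ hx)).symm,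
    by_contra fun e : ¬ y = 0 => hc (h.comm ht hy e (h3.symm ▸ hy)), add_zero]

theorem St.e_eq (hs : D V q s) (h1 : IsConj s t) (hc : Commute s t) : s = t := by
  obtain ⟨g, rfl⟩ := isConj_iff.1 h1
  obtain ⟨w, hw, w0⟩ := h.exists_W hs
  obtain ⟨f, f1, f2, -⟩ := h.swap g w
  obtain ⟨z, z2, z1, -⟩ := h.e_inv h2 (f := f) (v := w) (by rw [f1, f2])
  have ht := hs.conj g
  have e := h.conj_eq hs ht hw w0 (g := z) (by rw [z1, f1]; exact smul_mem_W g hw)
  generalize g * s * g⁻¹ = t at e hc ht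
  have e1 : z * s * (z * s) = t * s := by rw [← e, inv_eq_of_mul_eq_one_right z2]; group
  have := h.e_sq4 h2 (g := z * s) (by rw [e1, ← hc.symm.mul_mul_mul_comm, h.sq hs, h.sq ht, one_mul])
  rw [e1, mul_eq_one_iff_eq_inv, h.inv hs] at this
  exact this.symm

theorem St.e_one (hs : D V q s) (ht : D V q t) (hc : ¬ Commute s t) (h3 : Commute g s) (h4 : Commute g t)
    (h5 : ∀ c : V, s • c = c → t • c = c → g • c = c) : g = 1 := h.faith _ fun v => by
  obtain ⟨x, hx, y, hy, c, c1, c2, rfl⟩ := h.decomp hs ht (fun e => hc (e ▸ Commute.refl s)) (h.e_disj h2 hs ht hc) v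
  rw [smul_add, smul_add, h.e_fix h2 hs h3 hx, h.e_fix h2 ht h4 hy, h5 c c1 c2]

theorem St.e_conj0 (hs : D V q s) (ht : D V q t) (hc : ¬ Commute s t) : IsConj s t := by
  rcases Nat.even_or_odd (orderOf (s * t)) with he | ho
  · obtain ⟨h3, h4, h5⟩ := H6.exists_central_inv (h.sq hs) (h.sq ht) he
    exact absurd (h.e_one h2 hs ht hc h4 h5 fun c c1 c2 => (MulAction.stabilizer H c).pow_mem (mul_mem c1 c2) _)
      (H6.ord2_ne_one h3)
  · obtain ⟨k, hk⟩ := H6.exists_pow_conj_of_odd (h.sq hs) (h.sq ht) ho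
    exact isConj_iff.2 ⟨_, hk⟩

theorem St.e_conj1 (hs : D V q s) (ht : D V q t) (hc : ¬ Commute s t) (hf : f * f = 1) (h1 : ¬ Commute s f)
    (h5 : ∀ c : V, s • c = c → t • c = c → f • c = c) : IsConj s f := by
  rcases Nat.even_or_odd (orderOf (s * f)) with he | ho
  · obtain ⟨h3, h4, h6⟩ := H6.exists_central_inv (h.sq hs) hf he
    have h7 : ∀ c : V, s • c = c → t • c = c → (s * f) ^ (orderOf (s * f) / 2) • c = c := fun c c1 c2 =>
      (MulAction.stabilizer H c).pow_mem (mul_mem c1 (h5 c c1 c2)) _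
    generalize (s * f) ^ (orderOf (s * f) / 2) = z at h3 h4 h6 h7
    have hz := (h.D_of_le hs (H6.ord2_ne_one h3) fun v hv => by
      obtain ⟨x, hx, y, hy, c, c1, c2, rfl⟩ := h.decomp hs ht (fun e => hc (e ▸ Commute.refl s))
        (h.e_disj h2 hs ht hc) v
      rw [smul_add, smul_add, h.e_fix h2 hs (Commute.refl s) hx, c1, add_left_inj, add_right_inj] at hv
      rw [by_contra fun e : ¬ y = 0 => hc (h.comm ht hy e (hv.symm ▸ hy)), add_zero, smul_add, h.e_fix h2 hs h4 hx,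
        h7 c c1 c2]).1
    have h8 := h.e_eq h2 hs ((h.e_conj0 h2 hs ht hc).trans (h.e_conj0 h2 ht hz fun e =>
      H6.ord2_ne_one h3 (h.e_one h2 hs ht hc h4 e.symm h7))) h4.symm
    exact absurd (h8 ▸ h6) h1
  · obtain ⟨k, hk⟩ := H6.exists_pow_conj_of_odd (h.sq hs) hf ho
    exact isConj_iff.2 ⟨_, hk⟩

theorem St.e_cover (hs : D V q s) (ht : D V q t) (hc : ¬ Commute s t) (hu : v ∈ W V s ⊔ W V t) (h0 : v ≠ 0) :
    ∃ z : H, IsConj s z ∧ v ∈ W V z ∧ ∀ c : V, s • c = c → t • c = c → z • c = c := by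
  obtain ⟨f, u, -, f1, -, f2, f3⟩ := h.cover0 hs ht (fun e => hc (e ▸ Commute.refl s)) (h.e_disj h2 hs ht hc) hu
  obtain ⟨z, z2, z1, z3⟩ := h.e_inv h2 f2
  have z4 : ∀ c : V, s • c = c → t • c = c → z • c = c := fun c c1 c2 => z3 c (f3 c c1 c2)
  refine ⟨z, ?_, mem_W.2 ⟨u, z1 ▸ f1⟩, z4⟩
  by_cases h3 : Commute s z
  · refine (h.e_conj0 h2 hs ht hc).trans (h.e_conj1 h2 ht hs (fun e => hc e.symm) z2 (fun e => h0 ?_) fun c c1 c2 =>
      z4 c c2 c1)
    rw [← f1, ← z1, h.e_one h2 hs ht hc h3.symm e.symm z4, one_smul, sub_self]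
  · exact h.e_conj1 h2 hs ht hc z2 h3 z4

theorem St.e_main (hi : Irr H V) (hs : D V q s) : Pl H V q := by
  have hq := h.one_lt
  obtain ⟨t, ht, hc⟩ : ∃ t, D V q t ∧ ¬ Commute s t := by
    by_contra! h1
    obtain ⟨w, hw, w0⟩ := h.exists_W hs
    rcases hi (W V s) (fun g v hv => h.e_eq h2 hs (isConj_iff.2 ⟨g, rfl⟩) (h1 _ (hs.conj g)) ▸ smul_mem_W g hv)
      with e | e
    · exact w0 (e.le hw)
    · exact h.ne_one hs (h.faith _ fun v => h.e_fix h2 hs (Commute.refl s) (e.ge (mem_top v)))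
  have hst : s ≠ t := fun e => hc (e ▸ Commute.refl s)
  have hD : ∀ z, IsConj s z → D V q z := fun z hz => by
    obtain ⟨g, rfl⟩ := isConj_iff.1 hz
    exact hs.conj g
  have h1 : ∀ c : V, s • c = c → t • c = c → c = 0 := fun c c1 c2 => by
    rcases hi (⨅ g : H, Fx V (g * s * g⁻¹)) (fun k v hv => mem_iInf.2 fun g => mem_Fx.2 (by
      have := mem_Fx.1 (mem_iInf.1 hv (k⁻¹ * g))
      rwa [mul_inv_rev, inv_inv, mul_assoc, mul_assoc, mul_smul, inv_smul_eq_iff, ← mul_assoc, ← mul_assoc,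
        mul_smul] at this)) with e | e
    · refine e.le (mem_iInf.2 fun g => mem_Fx.2 ?_)
      obtain ⟨w, h3, h4, h5⟩ := exists_of_index (A := W V s ⊔ W V t) (B := Fx V (g * s * g⁻¹)) (by
        rw [index_Fx, hs.conj g, h.card_U hs ht hst]; nlinarith)
      obtain ⟨z, z1, z2, z3⟩ := h.e_cover h2 hs ht hc h3 h5
      rw [h.e_eq h2 (hs.conj g) ((isConj_iff.2 ⟨g, rfl⟩).symm.trans z1)
        (h.comm (hD z z1) z2 h5 ((mem_Fx.1 h4).symm ▸ z2)), z3 c c1 c2]
    · exact absurd (h.faith _ fun v => by simpa using mem_Fx.1 (mem_iInf.1 (e.ge (mem_top v)) 1)) (h.ne_one hs)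
  have h3 : W V s ⊔ W V t = ⊤ := eq_top_iff.2 fun v _ => by
    obtain ⟨x, hx, y, hy, c, c1, c2, rfl⟩ := h.decomp hs ht hst (h.e_disj h2 hs ht hc) v
    rw [h1 c c1 c2, add_zero]
    exact add_mem_sup hx hy
  have hV : Nat.card V = q * q := by rw [← h.card_U hs ht hst, h3, card_top]
  have h4 : ∀ v : V, v ≠ 0 → ∃ z : H, D V q z ∧ v ∈ W V z := fun v v0 => by
    obtain ⟨z, z1, z2, -⟩ := h.e_cover h2 hs ht hc (h3.ge (mem_top v)) v0
    exact ⟨z, hD z z1, z2⟩
  have h5 : ∀ z : H, D V q z → ∀ v : V, z • v = v → v ∈ W V z := fun z hz v hv => by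
    refine (eq_of_le_of_card_ge (fun w hw => mem_Fx.2 (h.e_fix h2 hz (Commute.refl z) hw)) (le_of_eq ?_)).ge
      (mem_Fx.2 hv)
    exact Nat.eq_of_mul_eq_mul_right (zero_lt_one.trans hq) (by rw [hz, ← hV, ← (Fx V z).card_mul_index, index_Fx, hz])
  refine ⟨h, hV, fun v v0 => ?_, fun z z' v hz hz' v0 e e' => h.eq_of hz hz' (h5 z hz v e) (h5 z' hz' v e') v0,
    fun g v v0 e => ?_, ⟨1, fun v => by rw [one_smul, eq_neg_iff_add_eq_zero, h2]⟩, Or.inr h2⟩
  · obtain ⟨z, hz, hv⟩ := h4 v v0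
    exact ⟨z, hz, h.e_fix h2 hz (Commute.refl z) hv⟩
  · obtain ⟨z, hz, hv⟩ := h4 v v0
    exact h.D_of_W hV hz fun w hw => h.fix_W (Or.inr h2) hz hv v0 e hw
end

end H8.Aff
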