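import Cfsg.Agent.H8.Aff2

/-! Binary affine groups: odd characteristic. -/

set_option autoImplicit false
set_option linter.unusedSectionVars false

namespace H8.Aff

open AddSubgroup

theorem friend {P : Type*} [Fintype P] [DecidableEq P] [Nonempty P] (adj : P → P → Prop) [DecidableRel adj] {p : ℕ}
    (hp : p.Prime) (h1 : ∀ x, ¬ adj x x) (h2 : ∀ x y, adj x y → adj y x)
    (h3 : ∀ x (S : Finset P), (∀ y, y ∈ S ↔ adj x y) → (S.card : ZMod p) = 1)
    (h4 : ∀ x y, x ≠ y → ∃! z, adj x z ∧ adj y z) : False := by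
  have := Fact.mk hp
  replace h3 := fun x => h3 x (Finset.univ.filter (adj x)) (by simp)
  let A : Matrix P P (ZMod p) := Matrix.of fun x y => if adj x y then 1 else 0
  let J : Matrix P P (ZMod p) := Matrix.of fun _ _ => 1
  have e1 : A * A = J := by
    ext x y
    have : ∀ z, A x z * A z y = if adj x z ∧ adj y z then 1 else 0 := fun z => by
      simp only [A, Matrix.of_apply, show adj z y ↔ adj y z from ⟨h2 _ _, h2 _ _⟩, ite_zero_mul_ite_zero, mul_one]
    simp only [Matrix.mul_apply, this, Finset.sum_boole, J, Matrix.of_apply]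
    by_cases e : x = y
    · simpa [e] using h3 y
    · obtain ⟨z, hz, hu⟩ := h4 x y e
      rw [Finset.card_eq_one.2 ⟨z, by ext w; simpa using ⟨fun h => hu w h, fun h => h ▸ hz⟩⟩, Nat.cast_one]
  have e2 : A * J = J := by
    ext x y
    simpa [Matrix.mul_apply, A, J] using h3 x
  have e3 : ∀ n, A ^ (n + 2) = J := fun n => by
    induction n with
    | zero => rw [zero_add, pow_two, e1]
    | succ n ih => rw [show n + 1 + 2 = n + 2 + 1 by ring, pow_succ', ih, e2]
  have e4 : J * J = J := by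
    conv_lhs => rw [← e1]
    rw [← e3 2]; simp only [pow_succ, pow_zero, one_mul, mul_assoc]
  have e5 := ZMod.trace_pow_card A
  obtain ⟨n, rfl⟩ : ∃ n, p = n + 2 := ⟨p - 2, by have := hp.two_le; omega⟩
  obtain ⟨x⟩ := ‹Nonempty P›
  have e6 := congrFun (congrFun e4 x) x
  rw [e3] at e5
  simp [Matrix.mul_apply, J] at e6
  simp [Matrix.trace, J, A, h1, e6] at e5

variable {H V : Type*} [Group H] [AddCommGroup V] [DistribMulAction H V] {q : ℕ} {s t r x y z g f : H} {v w : V}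
  [Finite V] [Finite H] (h : St H V q) (ho : ∀ v : V, v + v = 0 → v = 0)
include h ho

theorem St.o_zero (hs : D V q s) (hw : w ∈ W V s) (h1 : s • w = w) : w = 0 :=
  ho w (by have := h.neg hs hw; linear_combination (norm := abel) this - h1)

theorem St.o_disj (hs : D V q s) (ht : D V q t) : Disjoint (W V s ⊔ W V t) (Fx V s ⊓ Fx V t) := by
  refine AddSubgroup.disjoint_def.2 fun {c} hu h3 => ?_
  obtain ⟨h3, h4⟩ := mem_inf.1 h3
  obtain ⟨x, hx, y, hy, e⟩ := mem_sup.1 hu
  rw [mem_Fx] at h3 h4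
  have h5 : (s * t) • c = c := by rw [mul_smul, h4, h3]
  have h6 : (s * t) • x = x + (c + c) := by
    rw [mul_smul, eq_sub_of_add_eq e, smul_sub, h4, h.neg ht hy, eq_sub_of_add_eq' e, smul_sub, smul_neg, smul_sub, h3,
      h.neg hs hx]
    abel
  have := h.unip (g := s * t) (v := x) (by simp only [h6, sub_add_cancel_left, smul_neg, smul_add, h5])
  simp only [h6, smul_add, h5] at this
  exact ho _ (ho _ (by linear_combination (norm := abel) this))

variable {p : ℕ} (hp : p.Prime) (hpV : ∀ v : V, p • v = 0)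

theorem St.o_span (hy : D V q y) (hz : D V q z) (hyz : y ≠ z) {Z : AddSubgroup V} (hZ : Nat.card Z = q * q)
    (h1 : W V y ≤ Z) (h2 : W V z ≤ Z) : W V y ⊔ W V z = Z :=
  eq_of_le_of_card_ge (sup_le h1 h2) (by rw [hZ, h.card_U hy hz hyz])

include hp hpV

theorem St.o_cop : ¬ p ∣ Nat.card H := fun hd => by
  have := Fact.mk hp
  obtain ⟨g, hg⟩ := exists_prime_orderOf_dvd_card' p hd
  obtain ⟨v, hv⟩ : ∃ v : V, g • v ≠ v := by
    by_contra! h1
    rw [h.faith g h1, orderOf_one] at hg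
    exact hp.ne_one hg.symm
  have : Nontrivial (AddMonoid.End V) := ⟨0, 1, fun e => hv (by
    rw [show v = 0 from (DFunLike.congr_fun e v).symm, smul_zero])⟩
  have : CharP (AddMonoid.End V) p := (CharP.charP_iff_prime_eq_zero hp).2 (AddMonoidHom.ext fun v => hpV v)
  have h1 := sub_pow_char_of_commute p (Commute.one_left (DistribMulAction.toAddMonoidEnd H V g))
  rw [← map_pow, ← hg, pow_orderOf_eq_one, map_one, one_pow, sub_self, hg] at h1
  have h2 : ∀ (n : ℕ) (v : V), ((1 - DistribMulAction.toAddMonoidEnd H V g) ^ (n + 1)) v = 0 → g • v = v := by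
    intro n
    induction n with
    | zero => exact fun v hv => (sub_eq_zero.1 (show v - g • v = 0 by rw [zero_add, pow_one] at hv; exact hv)).symm
    | succ n ih =>
      intro v hv
      have h3 := ih (v - g • v) (by rw [pow_succ] at hv; exact hv)
      have h4 := h.unip (g := g) (v := v) (by rw [h3, h3])
      rw [smul_sub, h4] at h3
      exact (sub_eq_zero.1 (ho (v - g • v) (by linear_combination (norm := abel) -h3))).symm
  exact hv (h2 (p - 1) v (by rw [Nat.sub_add_cancel hp.one_le, h1]; rfl))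

theorem St.o_avg (C : AddSubgroup V) : ∃ Y : AddSubgroup V, Disjoint Y C ∧
    ∀ g : H, (∀ c ∈ C, g • c = c) → W V g ≤ Y := by
  classical
  let L := fixingSubgroup H (C : Set V)
  have := Fintype.ofFinite L
  let ν : V →+ V := ∑ k : L, DistribSMul.toAddMonoidHom V k.1
  have hν : ∀ v, ν v = ∑ k : L, k.1 • v := fun v => by simp [ν]
  refine ⟨ν.ker, AddSubgroup.disjoint_def.2 fun {c} h1 h2 => ?_, fun g hg _ ⟨v, e⟩ => ?_⟩
  · rw [AddMonoidHom.mem_ker, hν, Finset.sum_congr rfl fun k _ => (mem_fixingSubgroup_iff _).1 k.2 c h2,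
      Finset.sum_const, Finset.card_univ, ← Nat.card_eq_fintype_card] at h1
    refine AddMonoid.addOrderOf_eq_one_iff.1 (Nat.eq_one_of_dvd_coprimes ((Nat.Prime.coprime_iff_not_dvd hp).2
      fun e => h.o_cop ho hp hpV (e.trans L.card_subgroup_dvd_card)) (addOrderOf_dvd_of_nsmul_eq_zero (hpV c))
      (addOrderOf_dvd_of_nsmul_eq_zero h1))
  · rw [← e, AddMonoidHom.mem_ker, om_apply, map_sub, hν, hν, sub_eq_zero]
    exact (Fintype.sum_equiv (Equiv.mulRight (⟨g, (mem_fixingSubgroup_iff _).2 hg⟩ : L)) _ _ fun k => by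
      simp [mul_smul]).symm

theorem St.o_le (hs : D V q s) (ht : D V q t) (hst : s ≠ t) (hg : ∀ c : V, s • c = c → t • c = c → g • c = c) :
    W V g ≤ W V s ⊔ W V t := by
  obtain ⟨Y, h1, h2⟩ := h.o_avg ho hp hpV (Fx V s ⊓ Fx V t)
  rw [eq_of_le_of_card_ge (sup_le (h2 s fun c hc => mem_Fx.1 hc.1) (h2 t fun c hc => mem_Fx.1 hc.2))
    (((card_le_index h1).trans (index_C hs ht)).trans (h.card_U hs ht hst).ge)]
  exact h2 g fun c hc => hg c (mem_Fx.1 hc.1) (mem_Fx.1 hc.2)

theorem St.o_dich (hs : D V q s) (ht : D V q t) (hst : s ≠ t) (hg : ∀ c : V, s • c = c → t • c = c → g • c = c)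
    (h1 : g ≠ 1) (hv : g • v = v) (h2 : ¬ (s • v = v ∧ t • v = v)) : D V q g := by
  refine h.D_of h1 (not_lt.1 fun h3 => h2 ?_)
  have key : ∀ a : H, D V q a → W V a ≤ W V s ⊔ W V t → a • v = v := fun a ha h4 => by
    obtain ⟨w, h5, ⟨b, rfl⟩, h6⟩ := exists_of_card h4 (h.o_le ho hp hpV hs ht hst hg) (by
      rw [h.card_U hs ht hst, ha]
      exact Nat.mul_lt_mul_of_pos_left h3 (zero_lt_one.trans h.one_lt))
    exact (h.star ha (b := b) h5 fun e => h6 (by rw [om_apply, e, sub_self])).1 v hv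
  exact ⟨key s hs le_sup_left, key t ht le_sup_right⟩

theorem St.o_cover (hs : D V q s) (ht : D V q t) (hc : ¬ Commute s t) (hu : v ∈ W V s ⊔ W V t) (h0 : v ≠ 0) :
    ∃ z : H, D V q z ∧ v ∈ W V z ∧ W V z ≤ W V s ⊔ W V t := by
  have hst : s ≠ t := fun e => hc (e ▸ Commute.refl s)
  obtain ⟨f, u, hu', f1, f4, f2, f3⟩ := h.cover0 hs ht hst (h.o_disj ho hs ht) hu
  refine ⟨f, h.o_dich ho hp hpV hs ht hst f3 (by rintro rfl; simp [h0.symm] at f1) (v := u + f • u)
    (by rw [smul_add, f2, add_comm]) fun e => ?_, mem_W.2 ⟨u, f1⟩, h.o_le ho hp hpV hs ht hst f3⟩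
  have h1 : u + f • u = 0 := AddSubgroup.disjoint_def.1 (h.o_disj ho hs ht) (by
    rw [show u + f • u = u + u - v by rw [← f1]; abel]
    exact sub_mem (add_mem hu' hu') hu) (mem_inf.2 ⟨mem_Fx.2 e.1, mem_Fx.2 e.2⟩)
  have h2 : s • u = -(t • u) := eq_neg_of_add_eq_zero_left (by
    have : s • (u + f • u) = 0 := by rw [h1, smul_zero]
    rwa [smul_add, f4, ← mul_smul s s, h.sq hs, one_smul] at this)
  have h3 : t • u = u := by_contra fun e => hc (h.comm ht (sub_mem_W t u) (sub_ne_zero.2 (Ne.symm e)) (by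
    rw [show s • (u - t • u) = u - t • u by rw [smul_sub, h2, ← f4]; linear_combination (norm := abel) -h1]
    exact sub_mem_W t u))
  have h4 : u + u ∈ W V s := mem_W.2 ⟨u, by rw [h2, h3, sub_neg_eq_add]⟩
  have h5 : u = 0 := ho u (by_contra fun e => hc (h.comm hs h4 e (by rwa [smul_add, h3])).symm)
  simp [h5, h0.symm] at f1

theorem St.o_partner {a b : H} (ha : D V q a) (hb : D V q b) (hc : ¬ Commute a b) (hx : D V q x) :
    ∃ y, D V q y ∧ y ≠ x ∧ Commute x y ∧ W V y ≤ W V a ⊔ W V b := by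
  have hq := h.one_lt
  obtain ⟨w, h3, h4, h5⟩ := exists_of_index (A := W V a ⊔ W V b) (B := Fx V x) (by
    rw [index_Fx, hx, h.card_U ha hb fun e => hc (e ▸ Commute.refl a)]; nlinarith)
  obtain ⟨y, hy, h6, h7⟩ := h.o_cover ho hp hpV ha hb hc h3 h5
  exact ⟨y, hy, by rintro rfl; exact h5 (h.o_zero ho hx h6 (mem_Fx.1 h4)), h.comm hy h6 h5 ((mem_Fx.1 h4).symm ▸ h6), h7⟩

theorem St.o_trans (hs : D V q s) (k : H) (h1 : k * s * k⁻¹ ≠ s) (hc : Commute s (k * s * k⁻¹)) :
    ∃ g, D V q g ∧ ¬ Commute s g ∧ g * s * g⁻¹ = k * s * k⁻¹ := by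
  obtain ⟨w, hw, w0⟩ := h.exists_W hs
  obtain ⟨f, f1, f2, -⟩ := h.swap k w
  have ht := hs.conj k
  have hw' := smul_mem_W k hw
  have w1 := (smul_ne_zero_iff_ne k).2 w0
  generalize k * s * k⁻¹ = t at h1 hc ht hw'
  generalize k • w = w' at f1 f2 hw' w1
  have e1 := h.conj_eq hs ht hw w0 (f1.symm ▸ hw')
  have e2 := h.conj_eq ht hs hw' w1 (f2.symm ▸ hw)
  have a1 := h.neg hs hw
  have a2 := h.neg ht hw'
  have a3 := h.fix_of_comm hs ht h1.symm hc.symm hw
  have a4 := h.fix_of_comm ht hs h1 hc hw'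
  obtain ⟨f', g1, g2, -, -, g3⟩ := h.am f (s * t * f) 0 0 (by simp)
  have b1 := g1 (w + w') (by rw [smul_add, f1, f2, add_comm])
  have b2 := g2 (w - w') (by simp only [mul_smul, smul_sub, f1, f2, a1, a2, a3, a4, smul_neg]; abel)
  rw [smul_add] at b1
  rw [smul_sub] at b2
  have b3 : f' • w = w := sub_eq_zero.1 (ho _ (by linear_combination (norm := abel) b1 + b2))
  have b4 : f' • w' = w' := by rwa [b3, add_right_inj] at b1
  have b5 : (f'⁻¹ * f) • w = w' := by rw [mul_smul, f1, inv_smul_eq_iff, b4]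
  have b6 : (f'⁻¹ * f) • w' = w := by rw [mul_smul, f2, inv_smul_eq_iff, b3]
  have b7 := h.conj_eq hs ht hw w0 (b5.symm ▸ hw')
  refine ⟨f'⁻¹ * f, h.o_dich ho hp hpV hs ht h1.symm (fun c c1 c2 => ?_) (fun e => h1 (by rw [← b7, e]; simp))
    (v := w + w') (by rw [smul_add, b5, b6, add_comm]) fun e => w0 (ho w ?_), fun e => h1 (by
      rw [← b7, e.symm.mul_inv_cancel]), b7⟩
  · rw [mul_smul, inv_smul_eq_iff, g3 c (by
      rw [mul_smul, mul_smul, ← e1, mul_smul, mul_smul, inv_smul_smul, c1, ← e2, mul_smul, mul_smul, inv_smul_smul,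
        c2])]
  · have := e.1
    rw [smul_add, a1, a4] at this
    linear_combination (norm := abel) -this

theorem St.o_foot (hx : D V q x) (hz : D V q z) (h1 : z ≠ x) : ∃ n, D V q n ∧ n ≠ x ∧ Commute x n ∧
    W V z ≤ W V x ⊔ W V n ∧ W V n ≤ W V x ⊔ W V z := by
  by_cases hc : Commute x z
  · exact ⟨z, hz, h1, hc, le_sup_right, le_sup_right⟩
  obtain ⟨n, h2, h3, h4, h5⟩ := h.o_partner ho hp hpV hx hz hc hx
  exact ⟨n, h2, h3, h4, h.o_span ho hx h2 h3.symm (h.card_U hx hz h1.symm) le_sup_left h5 ▸ le_sup_right, h5⟩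

end H8.Aff
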