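import Cfsg.Agent.H8.Aff3

/-! Binary affine groups: odd characteristic, exclusion of rank three. -/

set_option autoImplicit false
set_option linter.unusedSectionVars false

namespace H8.Aff

open AddSubgroup

variable {H V : Type*} [Group H] [AddCommGroup V] [DistribMulAction H V] {q : ℕ} {s t r x y z g f : H} {v w : V}
  [Finite V] [Finite H] (h : St H V q) (ho : ∀ v : V, v + v = 0 → v = 0) {p : ℕ} (hp : p.Prime)
  (hpV : ∀ v : V, p • v = 0)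
include h ho

theorem St.o_card {Y : AddSubgroup V} (hY : Nat.card Y = q * q * q) (hx : D V q x) (h1 : W V x ≤ Y) :
    Nat.card (Fx V x ⊓ Y : AddSubgroup V) = q * q := by
  have hq := zero_lt_one.trans h.one_lt
  refine le_antisymm (Nat.le_of_mul_le_mul_right ?_ hq) (Nat.le_of_mul_le_mul_right ?_ hq)
  · have := card_le_of_le (sup_le inf_le_right h1 : (Fx V x ⊓ Y) ⊔ W V x ≤ Y)
    rwa [card_sup (AddSubgroup.disjoint_def.2 fun a b => h.o_zero ho hx b (mem_Fx.1 (mem_inf.1 a).1)), hY, hx] at this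
  · rw [← hY, ← relIndex_bot_left, ← relIndex_bot_left, ← relIndex_mul_relIndex ⊥ (Fx V x ⊓ Y) Y bot_le inf_le_right,
      inf_relIndex_right, ← hx, ← index_Fx, ← relIndex_top_right]
    exact Nat.mul_le_mul_left _ (relIndex_le_of_le_right le_top (by rw [relIndex_top_right]; exact index_ne_zero_of_finite))

include hp hpV

theorem St.o_perp {Y : AddSubgroup V} (hY : Nat.card Y = q * q * q) (hx : D V q x) (h1 : W V x ≤ Y) {a b : H}
    (ha : D V q a) (hb : D V q b) (hc : ¬ Commute a b) (h2 : W V a ⊔ W V b ≤ Y) (h3 : ¬ W V x ≤ W V a ⊔ W V b) :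
    ∃ y z : H, D V q y ∧ D V q z ∧ ¬ Commute y z ∧ W V y ⊔ W V z = Fx V x ⊓ Y := by
  have hab : a ≠ b := fun e => hc (e ▸ Commute.refl a)
  have key : ∀ c : H, D V q c → W V c ≤ W V a ⊔ W V b → ∃ n : H, D V q n ∧ W V n ≤ Fx V x ⊓ Y ∧ n ≠ x ∧
      W V c ≤ W V x ⊔ W V n := fun c hc h4 => by
    obtain ⟨n, n1, n2, n3, n4, n5⟩ := h.o_foot ho hp hpV hx hc (by rintro rfl; exact h3 h4)
    exact ⟨n, n1, le_inf (fun w hw => mem_Fx.2 (h.fix_of_comm n1 hx n2 n3 hw)) (n5.trans (sup_le h1 (h4.trans h2))),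
      n2, n4⟩
  have inj : ∀ c c' n : H, D V q c → D V q c' → D V q n → W V c ≤ W V a ⊔ W V b → W V c' ≤ W V a ⊔ W V b → n ≠ x →
      W V c ≤ W V x ⊔ W V n → W V c' ≤ W V x ⊔ W V n → c = c' := fun c c' n hc hc' hn a1 a2 a3 a4 a5 =>
    by_contra fun e => h3 (by
      rw [← h.o_span ho hc hc' e (h.card_U ha hb hab) a1 a2, h.o_span ho hc hc' e (h.card_U hx hn a3.symm) a4 a5]
      exact le_sup_left)
  have h4 : W V (a * b * a⁻¹) ≤ W V a ⊔ W V b := fun w hw => by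
    have h5 := smul_mem_W a⁻¹ hw
    rw [show a⁻¹ * (a * b * a⁻¹) * a⁻¹⁻¹ = b by group] at h5
    rw [show w = (w - a⁻¹ • w) + a⁻¹ • w by abel]
    exact add_mem_sup (by rw [h.inv ha]; exact sub_mem_W _ _) h5
  obtain ⟨n1, a1, a2, a3, a4⟩ := key a ha le_sup_left
  obtain ⟨n2, b1, b2, b3, b4⟩ := key b hb le_sup_right
  obtain ⟨n3, c1, c2, c3, c4⟩ := key _ (hb.conj a) h4
  have e12 : n1 ≠ n2 := by rintro rfl; exact hab (inj a b n1 ha hb a1 le_sup_left le_sup_right a3 a4 b4)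
  have e13 : n1 ≠ n3 := by
    rintro rfl
    exact hab (mul_left_cancel (eq_mul_inv_iff_mul_eq.1 (inj a _ n1 ha (hb.conj a) a1 le_sup_left h4 a3 a4 c4)))
  have e23 : n2 ≠ n3 := by
    rintro rfl
    exact hc (mul_inv_eq_iff_eq_mul.1 (inj b _ n2 hb (hb.conj a) b1 le_sup_right h4 b3 b4 c4).symm)
  have h5 := h.o_card ho hY hx h1
  by_cases e1 : Commute n3 n1
  · by_cases e2 : Commute n3 n2
    · obtain ⟨w, hw, w0⟩ := h.exists_W c1
      obtain ⟨u, hu, v, hv, rfl⟩ := mem_sup.1 ((h.o_span ho a1 b1 e12 h5 a2 b2).ge (c2 hw))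
      exact absurd (h.o_zero ho c1 hw (by
        rw [smul_add, h.fix_of_comm a1 c1 e13 e1 hu, h.fix_of_comm b1 c1 e23 e2 hv])) w0
    · exact ⟨n3, n2, c1, b1, e2, h.o_span ho c1 b1 e23.symm h5 c2 b2⟩
  · exact ⟨n3, n1, c1, a1, e1, h.o_span ho c1 a1 e13.symm h5 c2 a2⟩

theorem St.o_rank (hs : D V q s) (ht : D V q t) (hr : D V q r) (hc : ¬ Commute s t) (hc' : ¬ Commute s r) :
    W V r ≤ W V s ⊔ W V t := by
  classical
  by_contra h0
  have hq := h.one_lt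
  have hst : s ≠ t := fun e => hc (e ▸ Commute.refl s)
  have hsr : s ≠ r := fun e => hc' (e ▸ Commute.refl s)
  obtain ⟨Y, hY⟩ : ∃ Y, Y = W V s ⊔ W V t ⊔ W V r := ⟨_, rfl⟩
  have y1 : W V s ⊔ W V t ≤ Y := hY ▸ le_sup_left
  have y2 : W V r ≤ Y := hY ▸ le_sup_right
  have y3 : W V s ≤ Y := le_sup_left.trans y1
  have hc3 : Nat.card Y = q * q * q := by
    rw [hY, card_sup (AddSubgroup.disjoint_def.2 fun {w} a b => by_contra fun w0 => by
      obtain ⟨z, z1, z2, z3⟩ := h.o_cover ho hp hpV hs ht hc a w0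
      exact h0 (h.eq_of z1 hr z2 b w0 ▸ z3)), h.card_U hs ht hst, hr]
  have perp : ∀ x : H, D V q x → W V x ≤ Y → ∃ y z : H, D V q y ∧ D V q z ∧ ¬ Commute y z ∧ W V y ⊔ W V z = Fx V x ⊓ Y := by
    intro x hx h1
    by_cases e1 : W V x ≤ W V s ⊔ W V t
    swap
    · exact h.o_perp ho hp hpV hc3 hx h1 hs ht hc y1 e1
    by_cases e2 : W V x ≤ W V s ⊔ W V r
    swap
    · exact h.o_perp ho hp hpV hc3 hx h1 hs hr hc' (sup_le y3 y2) e2
    obtain rfl : x = s := by_contra fun e => h0 (by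
      rw [← h.o_span ho hx hs e (h.card_U hs ht hst) e1 le_sup_left,
        h.o_span ho hx hs e (h.card_U hs hr hsr) e2 le_sup_left]
      exact le_sup_right)
    obtain ⟨y, z, a1, a2, a3, a4⟩ := h.o_perp ho hp hpV hc3 hr y2 hs ht hc y1 h0
    refine h.o_perp ho hp hpV hc3 hx h1 a1 a2 a3 (a4.le.trans inf_le_right) fun e => ?_
    obtain ⟨w, hw, w0⟩ := h.exists_W hx
    exact hc' (h.comm hx hw w0 ((mem_Fx.1 (a4.le (e hw)).1).symm ▸ hw)).symm
  have cov : ∀ x : H, D V q x → W V x ≤ Y → ∀ w ∈ Fx V x ⊓ Y, w ≠ 0 → ∃ z : H, D V q z ∧ w ∈ W V z ∧ W V z ≤ Fx V x ⊓ Y :=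
    fun x hx h1 w hw w0 => by
      obtain ⟨y, z, a1, a2, a3, a4⟩ := perp x hx h1
      exact a4 ▸ h.o_cover ho hp hpV a1 a2 a3 (a4.ge hw) w0
  have := Fintype.ofFinite H
  have : Nonempty {x : H // D V q x ∧ W V x ≤ Y} := ⟨⟨s, hs, y3⟩⟩
  have := Fact.mk hp
  have adj : ∀ x y : {x : H // D V q x ∧ W V x ≤ Y}, W V y.1 ≤ Fx V x.1 ↔ y.1 ≠ x.1 ∧ Commute x.1 y.1 := fun x y => by
    obtain ⟨w, hw, w0⟩ := h.exists_W y.2.1
    exact ⟨fun e => ⟨fun e' => w0 (h.o_zero ho y.2.1 hw (mem_Fx.1 (e' ▸ e hw))), h.comm y.2.1 hw w0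
      ((mem_Fx.1 (e hw)).symm ▸ hw)⟩, fun e w hw => mem_Fx.2 (h.fix_of_comm y.2.1 x.2.1 e.1 e.2 hw)⟩
  refine friend (P := {x : H // D V q x ∧ W V x ≤ Y}) (fun x y => W V y.1 ≤ Fx V x.1) hp
    (fun x e => ((adj x x).1 e).1 rfl) (fun x y e => (adj y x).2 ⟨((adj x y).1 e).1.symm, ((adj x y).1 e).2.symm⟩)
    (fun x S mem => ?_) fun x y hxy => ?_
  · rw [card_part (Y := Fx V x.1 ⊓ Y) S (fun y => W V y.1) hq (fun y hy => ⟨le_inf ((mem y).1 hy) y.2.2, y.2.1⟩)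
      (fun y _ z _ w a b w0 => Subtype.ext (h.eq_of y.2.1 z.2.1 a b w0)) (fun w hw w0 => by
        obtain ⟨z, z1, z2, z3⟩ := cov x x.2.1 x.2.2 w hw w0
        exact ⟨⟨z, z1, z3.trans inf_le_right⟩, (mem _).2 (z3.trans inf_le_left), z2⟩)
      (h.o_card ho hc3 x.2.1 x.2.2)]
    obtain ⟨w, hw, w0⟩ := h.exists_W hs
    have := addOrderOf_dvd_natCard (W V s) hw
    rw [addOrderOf_eq_prime (hpV w) w0, hs] at this
    rw [Nat.cast_add, (ZMod.natCast_eq_zero_iff _ _).2 this, zero_add, Nat.cast_one]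
  · have hxy' : x.1 ≠ y.1 := fun e => hxy (Subtype.ext e)
    obtain ⟨w, h3, h4, h5⟩ := exists_of_index (A := Y) (B := Fx V x.1 ⊓ Fx V y.1) ((index_C x.2.1 y.2.1).trans_lt (by
      rw [hc3]; exact lt_mul_of_one_lt_right (by positivity) hq))
    obtain ⟨z, z1, z2, z3⟩ := cov x x.2.1 x.2.2 w ⟨h4.1, h3⟩ h5
    have z4 : W V z ≤ Fx V y.1 := fun u hu => mem_Fx.2 (h.fix_W (Or.inl ho) z1 z2 h5 (mem_Fx.1 h4.2) hu)
    refine ⟨⟨z, z1, z3.trans inf_le_right⟩, ⟨z3.trans inf_le_left, z4⟩, fun z' hz' => by_contra fun e => ?_⟩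
    have e' : z'.1 ≠ z := fun e' => e (Subtype.ext e')
    obtain ⟨u, u1, u2, u3⟩ := exists_of_card (sup_le x.2.2 y.2.2) (sup_le z'.2.2 (z3.trans inf_le_right)) (by
      rw [hc3, h.card_U x.2.1 y.2.1 hxy', h.card_U z'.2.1 z1 e', ← mul_assoc]
      exact lt_mul_of_one_lt_right (by positivity) hq)
    exact u3 (AddSubgroup.disjoint_def.1 (h.o_disj ho x.2.1 y.2.1) u1
      (sup_le (le_inf hz'.1 hz'.2) (le_inf (z3.trans inf_le_left) z4) u2))

theorem St.o_main (hi : Irr H V) (hs : D V q s) :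
    Pl H V q ∨ ∀ g : H, (∀ v : V, g • v = v) ∨ ∀ v : V, g • v = -v := by
  have hq := h.one_lt
  obtain ⟨w, hw, w0⟩ := h.exists_W hs
  by_cases h1 : ∀ g : H, g * s * g⁻¹ = s
  · have h2 : W V s = ⊤ := (hi _ fun g v hv => h1 g ▸ smul_mem_W g hv).resolve_left fun e => w0 (e.le hw)
    refine Or.inr fun g => or_iff_not_imp_right.2 fun h3 v => ?_
    obtain ⟨u, hu⟩ := not_forall.1 h3
    exact h.fix_W (Or.inl ho) hs (h2.ge (mem_top u)) (by rintro rfl; simp at hu)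
      ((h.pm hs (mul_inv_eq_iff_eq_mul.1 (h1 g)) (h2.ge (mem_top u))).resolve_right hu) (h2.ge (mem_top v))
  left
  have key : ∀ g : H, g * s * g⁻¹ ≠ s → ∃ r, D V q r ∧ ¬ Commute s r ∧ W V (g * s * g⁻¹) ≤ W V s ⊔ W V r := fun g hg => by
    by_cases hc : Commute s (g * s * g⁻¹)
    · obtain ⟨r, r1, r2, r3⟩ := h.o_trans ho hp hpV hs g hg hc
      refine ⟨r, r1, r2, fun u hu => ?_⟩
      have h5 := smul_mem_W r⁻¹ hu
      rw [← r3, show r⁻¹ * (r * s * r⁻¹) * r⁻¹⁻¹ = s by group] at h5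
      rw [show u = r⁻¹ • u + (u - r⁻¹ • u) by abel]
      exact add_mem_sup h5 (by rw [h.inv r1]; exact sub_mem_W _ _)
    · exact ⟨_, hs.conj g, hc, le_sup_right⟩
  obtain ⟨g, hg⟩ := not_forall.1 h1
  obtain ⟨t, ht, hc, -⟩ := key g hg
  have hst : s ≠ t := fun e => hc (e ▸ Commute.refl s)
  have h3 : W V s ⊔ W V t = ⊤ := by
    rcases hi (⨆ g : H, W V (g * s * g⁻¹)) (fun k v hv => iSup_induction (C := fun v => k • v ∈ ⨆ g : H,
      W V (g * s * g⁻¹)) _ hv (fun g v hv => mem_iSup_of_mem (k * g) (by simpa [mul_assoc] using smul_mem_W k hv))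
      (by simp) fun x y hx hy => by rw [smul_add]; exact add_mem hx hy) with e | e
    · exact absurd (e.le (mem_iSup_of_mem 1 (by simpa using hw))) w0
    · refine eq_top_iff.2 (e.ge.trans (iSup_le fun g => ?_))
      by_cases e1 : g * s * g⁻¹ = s
      · exact e1.symm ▸ le_sup_left
      obtain ⟨r, r1, r2, r3⟩ := key g e1
      exact r3.trans (sup_le le_sup_left (h.o_rank ho hp hpV hs ht r1 hc r2))
  have hV : Nat.card V = q * q := by rw [← h.card_U hs ht hst, h3, card_top]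
  have h4 : ∀ v : V, v ≠ 0 → ∃ z : H, D V q z ∧ v ∈ W V z := fun v v0 => by
    obtain ⟨z, z1, z2, -⟩ := h.o_cover ho hp hpV hs ht hc (h3.ge (mem_top v)) v0
    exact ⟨z, z1, z2⟩
  have h5 : ∀ y z : H, D V q y → D V q z → y ≠ z → W V y ⊔ W V z = ⊤ := fun y z hy hz e =>
    h.o_span ho hy hz e (by rw [card_top, hV]) le_top le_top
  refine ⟨h, hV, fun v v0 => ?_, fun z z' v hz hz' v0 e e' => by_contra fun e1 => v0 (AddSubgroup.disjoint_def.1
    (h.o_disj ho hz hz') ((h5 z z' hz hz' e1).ge (mem_top v)) ⟨mem_Fx.2 e, mem_Fx.2 e'⟩), fun g v v0 e => ?_, ?_,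
    Or.inl ho⟩
  · obtain ⟨z, hz, hv⟩ := h4 v v0
    obtain ⟨y, y1, y2, y3, -⟩ := h.o_partner ho hp hpV hs ht hc hz
    exact ⟨y, y1, h.fix_of_comm hz y1 y2.symm y3.symm hv⟩
  · obtain ⟨z, hz, hv⟩ := h4 v v0
    exact h.D_of_W hV hz fun w hw => h.fix_W (Or.inl ho) hz hv v0 e hw
  · obtain ⟨y, y1, y2, y3, -⟩ := h.o_partner ho hp hpV hs ht hc hs
    refine ⟨s * y, fun v => ?_⟩
    obtain ⟨a, ha, b, hb, rfl⟩ := mem_sup.1 ((h5 s y hs y1 y2.symm).ge (mem_top v))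
    rw [mul_smul, smul_add, h.fix_of_comm hs y1 y2.symm y3.symm ha, h.neg y1 hb, smul_add, smul_neg, h.neg hs ha,
      h.fix_of_comm y1 hs y2 y3 hb, neg_add]

end H8.Aff
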