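import Cfsg.Agent.H8.Aff4

/-! Binary affine groups: the field structure in the planar case. -/

set_option autoImplicit false
set_option linter.unusedSectionVars false

namespace H8.Aff

open AddSubgroup

section
variable {H V : Type*} [Group H] [AddCommGroup V] [DistribMulAction H V] {q : ℕ} {z z' g : H} {v : V}
  [Finite V] [Finite H] (h : Pl H V q)
include h

theorem Pl.card_Fx (hz : D V q z) : Nat.card (Fx V z) = q :=
  Nat.eq_of_mul_eq_mul_right (zero_lt_one.trans h.one_lt) (by rw [← h.card, ← (Fx V z).card_mul_index, index_Fx, hz])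

theorem Pl.exists_Fx (hz : D V q z) : ∃ v : V, z • v = v ∧ v ≠ 0 := by
  obtain ⟨⟨w, h1⟩, h2⟩ := ne_bot_iff_exists_ne_zero.1 ((one_lt_card_iff_ne_bot _).1 ((h.card_Fx hz).symm ▸ h.one_lt))
  exact ⟨w, mem_Fx.1 h1, fun e => h2 (Subtype.ext e)⟩

theorem Pl.not_neg (hz : D V q z) : ¬ ∀ v : V, z • v = -v := fun e => by
  obtain ⟨v, h1, h2⟩ := h.exists_Fx hz
  rcases h.dich with hd | hd
  · exact h2 (hd v (by have := e v; linear_combination (norm := abel) this - h1))
  · exact h.ne_one hz (h.faith _ fun v => by rw [e, neg_eq_iff_add_eq_zero, hd])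

theorem Pl.neg_D {j : H} (hj : ∀ v : V, j • v = -v) (hz : D V q z) : D V q (j * z) :=
  (h.D_of_W h.card hz fun w hw => by rw [mul_smul, h.toSt.neg hz hw, hj, neg_neg]).resolve_left fun e =>
    h.not_neg hz fun v => by rw [← neg_eq_iff_eq_neg, ← hj, ← mul_smul, e, one_smul]

theorem Pl.DD (hz : D V q z) (hz' : D V q z') : ¬ D V q (z * z') := fun h1 => by
  have h2 : z ≠ z' := by rintro rfl; exact h.ne_one h1 (h.sq hz)
  have hc : Commute z z' := by
    rw [Commute, SemiconjBy, ← h.inv h1, mul_inv_rev, h.inv hz, h.inv hz']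
  have key : ∀ z z' : H, D V q z → D V q z' → z ≠ z' → Commute z z' → ∀ v : V, z • v = v → z' • v = -v :=
    fun z z' hz hz' h2 hc v hv => eq_neg_of_add_eq_zero_right (by_contra fun e => h2 (h.uniq z z' _ hz hz' e
      (by rw [smul_add, ← mul_smul, hc.eq, mul_smul, hv]) (by rw [smul_add, ← mul_smul, h.sq hz', one_smul, add_comm])))
  refine h.not_neg h1 fun v => ?_
  obtain ⟨a, ha, b, hb, rfl⟩ := mem_sup.1 ((sup_eq_top (A := Fx V z) (B := Fx V z') (AddSubgroup.disjoint_def.2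
    fun a b => by_contra fun e => h2 (h.uniq z z' _ hz hz' e (mem_Fx.1 a) (mem_Fx.1 b))) (by
      rw [index_Fx, hz', h.card_Fx hz])).ge (mem_top v))
  rw [mem_Fx] at ha hb
  rw [mul_smul, smul_add, key z z' hz hz' h2 hc a ha, hb, smul_add, smul_neg, ha, key z' z hz' hz h2.symm hc.symm b hb,
    neg_add]

theorem Pl.RD (hg : ¬ D V q g) (hz : D V q z) : D V q (g * z) := by
  obtain ⟨v, h1, h2⟩ := h.exists_Fx hz
  obtain ⟨j, hj⟩ := h.neg
  have hjj : j⁻¹ = j := inv_eq_of_mul_eq_one_right (h.faith _ fun v => by rw [mul_smul, hj, hj, neg_neg])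
  by_cases h3 : v + g • v = 0
  · rcases h.fix (j * g) v h2 (by rw [mul_smul, hj, neg_eq_of_add_eq_zero_left h3]) with e | e
    · rw [eq_inv_of_mul_eq_one_right e, hjj]
      exact h.neg_D hj hz
    · have := h.neg_D hj e
      rw [← mul_assoc, mul_eq_one_iff_inv_eq.2 hjj, one_mul] at this
      exact absurd this hg
  obtain ⟨f, f1, f2, -⟩ := h.swap g v
  rcases h.fix f _ h3 (by rw [smul_add, f1, f2, add_comm]) with rfl | e
  · rw [(h.fix g v h2 (by simpa using f1.symm)).resolve_right hg, one_mul]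
    exact hz
  have h4 : (g⁻¹ * f) • v = v := by rw [mul_smul, f1, inv_smul_smul]
  rcases h.fix _ v h2 h4 with e1 | e1
  · exact absurd (inv_mul_eq_one.1 e1 ▸ e) hg
  · rwa [← h.uniq _ z v e1 hz h2 h4 h1, mul_inv_cancel_left]

theorem Pl.exists_D : ∃ z : H, D V q z := by
  have := h.one_lt
  have : Nontrivial V := Finite.one_lt_card_iff_nontrivial.1 (by rw [h.card]; nlinarith)
  obtain ⟨v, hv⟩ := exists_ne (0 : V)
  exact (h.cover v hv).imp fun _ h => h.1

/-- the rotations -/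
def Pl.R : Subgroup H where
  carrier := {g | ¬ D V q g}
  one_mem' := fun e => h.ne_one e rfl
  inv_mem' := fun {g} hg e => hg (by rwa [← h.inv e, inv_inv] at e)
  mul_mem' := fun {g g'} hg hg' => by
    obtain ⟨z, hz⟩ := h.exists_D
    have h1 := h.RD (g := g'⁻¹) (fun e => hg' (by rwa [← h.inv e, inv_inv] at e)) hz
    have h2 := h.DD (h.RD hg hz) h1
    rwa [← h.inv h1, mul_inv_rev, inv_inv, ← mul_assoc, mul_inv_cancel_right] at h2

theorem Pl.inverts (hg : g ∈ h.R) (hz : D V q z) : z * g * z = g⁻¹ := by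
  calc _ = g⁻¹ * (g * z * (g * z)) := by group
    _ = _ := by rw [h.sq (h.RD hg hz), mul_one]

theorem Pl.R_comm {g' : H} (hg : g ∈ h.R) (hg' : g' ∈ h.R) : g * g' = g' * g := by
  obtain ⟨z, hz⟩ := h.exists_D
  rw [← inv_inj, mul_inv_rev g', ← h.inverts (mul_mem hg hg') hz, ← h.inverts hg hz, ← h.inverts hg' hz]
  calc _ = z * g * (z * z) * g' * z := by rw [h.sq hz]; group
    _ = _ := by group

theorem Pl.card_R : Nat.card h.R = q + 1 := by
  classical
  have := Fintype.ofFinite H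
  obtain ⟨z, hz⟩ := h.exists_D
  rw [← card_part (Y := ⊤) (Finset.univ.filter fun z : H => D V q z) (fun z => Fx V z) h.one_lt
    (fun z hz => ⟨le_top, h.card_Fx (Finset.mem_filter.1 hz).2⟩) (fun z hz z' hz' w a b w0 => h.uniq z z' w
      (Finset.mem_filter.1 hz).2 (Finset.mem_filter.1 hz').2 w0 (mem_Fx.1 a) (mem_Fx.1 b))
    (fun w _ w0 => (h.cover w w0).imp fun z hz => ⟨by simpa using hz.1, mem_Fx.2 hz.2⟩) (by rw [card_top, h.card]),
    ← Fintype.card_subtype, ← Nat.card_eq_fintype_card]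
  exact Nat.card_congr ⟨fun g => ⟨g * z, h.RD g.2 hz⟩, fun g => ⟨g * z, h.DD g.2 hz⟩,
    fun g => by simp [mul_assoc, h.sq hz], fun g => by simp [mul_assoc, h.sq hz]⟩

theorem Pl.R_irr (Y : AddSubgroup V) (hY : ∀ g ∈ h.R, ∀ v ∈ Y, g • v ∈ Y) : Y = ⊥ ∨ Y = ⊤ := by
  let S : SubMulAction h.R V := ⟨{v | v ∈ Y ∧ v ≠ 0}, fun g v hv => ⟨hY g g.2 v hv.1, (smul_ne_zero_iff_ne g).2 hv.2⟩⟩
  have h1 := Nat.card_congr (MulAction.selfEquivOrbitsQuotientProd (G := h.R) (X := S) fun v => eq_bot_iff.2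
    fun g hg => Subtype.ext ((h.fix g v v.2.2 (congrArg Subtype.val hg)).resolve_right g.2))
  have h2 : Nat.card Y = Nat.card S + 1 := by
    change Set.ncard (Y : Set V) = Set.ncard ((Y : Set V) \ {0}) + 1
    exact (Set.ncard_diff_singleton_add_one Y.zero_mem).symm
  rw [Nat.card_prod, h.card_R] at h1
  rw [h1] at h2
  have h3 := Y.card_mul_index
  have hq := h.one_lt
  rw [h2, h.card] at h3
  generalize Nat.card (Quotient _) = k at h2 h3
  rw [← card_eq_one, ← index_eq_one, h2]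
  generalize Y.index = m at h3
  by_contra! h4
  have h5 : 1 ≤ k := Nat.pos_of_ne_zero (by rintro rfl; simp at h4)
  have h6 : (q + 1 : ℤ) ∣ m - 1 := ⟨q - 1 - k * m, by zify at h3; linear_combination h3⟩
  have h7 : 1 ≤ m := Nat.pos_of_ne_zero (by rintro rfl; simp at h3; omega)
  have := Int.le_of_dvd (by omega) h6
  have h8 : q + 2 ≤ m := by omega
  nlinarith [Nat.mul_le_mul (show q + 2 ≤ k * (q + 1) + 1 by nlinarith) h8]
end

theorem Pl.field {H : Type*} {V : Type} [Group H] [AddCommGroup V] [DistribMulAction H V] {q : ℕ} [Finite V] [Finite H]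
    (h : Pl H V q) : ∃ (F E : Type) (_ : Field F) (_ : Fintype F) (_ : Field E) (_ : Fintype E) (_ : Algebra F E)
      (e : V ≃+ E), Module.finrank F E = 2 ∧
      (∀ g : H, ∃ (a : E) (φ : E ≃ₐ[F] E), Algebra.norm F a = 1 ∧ ∀ v, e (g • v) = a * φ (e v)) ∧
      ∀ (a : E) (φ : E ≃ₐ[F] E), Algebra.norm F a = 1 → ∃ g : H, ∀ v, e (g • v) = a * φ (e v) := by
  classical
  have hq := h.one_lt
  obtain ⟨z, hz⟩ := h.exists_D
  obtain ⟨v₀, h1, h2⟩ := h.exists_Fx hz
  let ρ := DistribMulAction.toAddMonoidEnd H V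
  let E := Subring.centralizer (ρ '' h.R)
  have mem : ∀ a, a ∈ E ↔ ∀ g ∈ h.R, ρ g * a = a * ρ g := fun a => by simp [E, Subring.mem_centralizer_iff]
  have inj : ∀ (a : E) (v : V), a.1 v = 0 → a = 0 ∨ v = 0 := fun a v hv => by
    rcases h.R_irr (AddMonoidHom.ker a.1) (fun g hg w hw => (DFunLike.congr_fun ((mem a).1 a.2 g hg) w).symm.trans (by
      change g • a.1 w = 0
      rw [show a.1 w = 0 from hw, smul_zero])) with e | e
    · exact Or.inr (e.le hv)
    · exact Or.inl (Subtype.ext (AddMonoidHom.ext fun w => e.ge (mem_top w)))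
  have : Finite (AddMonoid.End V) := Finite.of_injective _ DFunLike.coe_injective
  have : Nontrivial E := ⟨0, 1, fun e => h2 (DFunLike.congr_fun (congrArg Subtype.val e) v₀).symm⟩
  have : NoZeroDivisors E := ⟨fun {a b} e => (inj a (b.1 v₀) (DFunLike.congr_fun (congrArg Subtype.val e) v₀)).imp_right
    fun e => (inj b v₀ e).resolve_right h2⟩
  have : IsDomain E := NoZeroDivisors.to_isDomain E
  letI : Field E := (Finite.isDomain_to_isField E).toField
  let ι : h.R →* E := (ρ.comp h.R.subtype).codRestrict E fun g => (mem _).2 fun k hk => by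
    change ρ k * ρ g = ρ g * ρ k
    rw [← map_mul, h.R_comm hk g.2, map_mul]
  let ev : E →+ V := ⟨⟨fun a => a.1 v₀, rfl⟩, fun _ _ => rfl⟩
  let e := AddEquiv.ofBijective ev ⟨(injective_iff_map_eq_zero ev).2 fun a ha => (inj a v₀ ha).resolve_right h2,
    AddMonoidHom.range_eq_top.1 ((h.R_irr ev.range fun g hg _ ⟨a, e⟩ => ⟨ι ⟨g, hg⟩ * a, e ▸ rfl⟩).resolve_left
      fun e => h2 (e.le ⟨1, rfl⟩))⟩
  have zz : ρ z * ρ z = 1 := by rw [← map_mul, h.sq hz, map_one]
  have hc : ∀ a ∈ E, ρ z * a * ρ z ∈ E := fun a ha => (mem _).2 fun g hg => by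
    have e1 : ρ g * ρ z = ρ z * ρ g⁻¹ := by
      rw [← h.inverts hg hz, map_mul, map_mul, ← mul_assoc, ← mul_assoc, zz, one_mul]
    have e2 : ρ g⁻¹ * ρ z = ρ z * ρ g := by
      rw [← h.inverts hg hz, map_mul, map_mul, mul_assoc, zz, mul_one]
    rw [← mul_assoc, ← mul_assoc, e1, mul_assoc (ρ z), (mem a).1 ha _ (inv_mem hg), mul_assoc, mul_assoc, e2, mul_assoc,
      mul_assoc]
  let φ : E ≃+* E :=
    { toFun := fun a => ⟨_, hc a.1 a.2⟩
      invFun := fun a => ⟨_, hc a.1 a.2⟩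
      left_inv := fun a => Subtype.ext (by simp only [← mul_assoc, zz, one_mul]; rw [mul_assoc, zz, mul_one])
      right_inv := fun a => Subtype.ext (by simp only [← mul_assoc, zz, one_mul]; rw [mul_assoc, zz, mul_one])
      map_mul' := fun a b => Subtype.ext (by
        change ρ z * (a.1 * b.1) * ρ z = ρ z * a.1 * ρ z * (ρ z * b.1 * ρ z)
        simp only [mul_assoc]; rw [← mul_assoc (ρ z) (ρ z), zz, one_mul])
      map_add' := fun a b => Subtype.ext (by
        change ρ z * (a.1 + b.1) * ρ z = ρ z * a.1 * ρ z + ρ z * b.1 * ρ z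
        rw [mul_add, add_mul]) }
  have e1 : ∀ (g : h.R) (a : E), g.1 • e a = e (ι g * a) := fun _ _ => rfl
  have e2 : ∀ a : E, z • e a = e (φ a) := fun a => by
    change z • a.1 v₀ = z • a.1 (z • v₀)
    rw [h1]
  let F := RingHom.eqLocusField φ.toRingHom (RingHom.id E)
  have hF : Nat.card F = q := (h.card_Fx hz).symm ▸ Nat.card_congr (e.toEquiv.subtypeEquiv fun a => by
    change φ a = a ↔ e a ∈ Fx V z
    rw [mem_Fx, e2, e.apply_eq_iff_eq])
  have hE : Nat.card E = q * q := h.card ▸ Nat.card_congr e.toEquiv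
  have hr : Module.finrank F E = 2 := Nat.pow_right_injective hq (by
    have := Module.natCard_eq_pow_finrank (K := F) (V := E)
    rw [hE, hF] at this
    simp only [← this, pow_two])
  let φ' : E ≃ₐ[F] E := AlgEquiv.ofRingEquiv (f := φ) fun a => a.2
  have e3 : ∀ ψ : E ≃ₐ[F] E, ψ = 1 ∨ ψ = φ' := fun ψ => by
    have h3 : φ' ≠ 1 := fun e3 => h.ne_one hz (h.faith _ fun v => by
      obtain ⟨a, rfl⟩ := e.surjective v
      rw [e2, show φ a = a from DFunLike.congr_fun e3 a])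
    by_contra! h4
    have := Fintype.two_lt_card_iff.2 ⟨ψ, 1, φ', h4.1, h4.2, h3.symm⟩
    exact (hr ▸ AlgEquiv.card_le).not_gt this
  have e4 : ∀ a : E, Algebra.norm F a = 1 ↔ ∃ g, ι g = a := fun a => by
    have h3 : ι.toHomUnits.range = rootsOfUnity (q + 1) E := Subgroup.eq_of_le_of_card_ge (fun _ ⟨g, e⟩ => by
      rw [← e, mem_rootsOfUnity, ← map_pow, ← h.card_R, pow_card_eq_one', map_one]) ((card_rootsOfUnity E _).trans (by
        rw [← h.card_R]
        exact (Nat.card_congr (MonoidHom.ofInjective ((injective_iff_map_eq_one _).2 fun g hg => Subtype.ext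
          (h.faith _ fun v => DFunLike.congr_fun (congrArg Subtype.val (congrArg Units.val hg)) v))).toEquiv).le))
    rw [← (algebraMap F E).injective.eq_iff, FiniteField.algebraMap_norm_eq_pow, map_one, hE, hF,
      show (q * q - 1) / (q - 1) = q + 1 from Nat.div_eq_of_eq_mul_left (by omega) (by
        rw [← pow_two, ← one_pow 2, Nat.sq_sub_sq, one_pow])]
    refine ⟨fun h4 => ?_, fun ⟨g, hg⟩ => by rw [← hg, ← map_pow, ← h.card_R, pow_card_eq_one', map_one]⟩
    obtain ⟨g, hg⟩ := h3.ge (show Units.mk0 a (by rintro rfl; simp at h4) ∈ _ from (mem_rootsOfUnity' _ _).2 h4)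
    exact ⟨g, congrArg Units.val hg⟩
  refine ⟨F, E, inferInstance, Fintype.ofFinite _, inferInstance, Fintype.ofFinite _, inferInstance, e.symm, hr,
    fun g => ?_, fun a ψ ha => ?_⟩
  · by_cases hg : D V q g
    · refine ⟨ι ⟨g * z, h.DD hg hz⟩, φ', (e4 _).2 ⟨_, rfl⟩, fun v => ?_⟩
      obtain ⟨a, rfl⟩ := e.surjective v
      rw [e.symm_apply_eq, e.symm_apply_apply, ← e1, show φ' a = φ a from rfl, ← e2, smul_smul, mul_assoc, h.sq hz, mul_one]
    · refine ⟨ι ⟨g, hg⟩, 1, (e4 _).2 ⟨_, rfl⟩, fun v => ?_⟩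
      obtain ⟨a, rfl⟩ := e.surjective v
      rw [e.symm_apply_eq, e.symm_apply_apply, ← e1, AlgEquiv.one_apply]
  · obtain ⟨g, rfl⟩ := (e4 a).1 ha
    rcases e3 ψ with rfl | rfl
    · refine ⟨g, fun v => ?_⟩
      obtain ⟨a, rfl⟩ := e.surjective v
      rw [e.symm_apply_eq, e.symm_apply_apply, ← e1, AlgEquiv.one_apply]
    · refine ⟨g * z, fun v => ?_⟩
      obtain ⟨a, rfl⟩ := e.surjective v
      rw [e.symm_apply_eq, e.symm_apply_apply, ← e1, show φ' a = φ a from rfl, ← e2, smul_smul]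

end H8.Aff
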