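import Cfsg.Agent.H8.Aff5
import Cfsg.Agent.H8.Bin1

/-! Binary affine groups: the classification. -/

set_option autoImplicit false
set_option linter.unusedSectionVars false

namespace H8.Aff

open AddSubgroup MulAction
open scoped Pointwise

theorem core {H : Type*} {V : Type} [Group H] [AddCommGroup V] [DistribMulAction H V] [Finite V] [Finite H]
    [Nontrivial V] (am : ∀ (s z : H) (a b : V), a - s • a = b - z • b → ∃ f : H, (∀ x : V, s • x = x → f • x = x) ∧
      (∀ x : V, z • x = x → f • x = x) ∧ f • a = s • a ∧ f • b = z • b ∧ ∀ x : V, s • x = z • x → f • x = s • x)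
    (faith : ∀ g : H, (∀ v : V, g • v = v) → g = 1) (hi : Irr H V) :
    ((Nat.card V).Prime ∧ Nat.card H ≤ 2) ∨ ∃ q, Pl H V q := by
  have deg : (∀ g : H, (∀ v : V, g • v = v) ∨ ∀ v : V, g • v = -v) → (Nat.card V).Prime ∧ Nat.card H ≤ 2 := fun h => by
    have : IsSimpleAddGroup V := ⟨fun Y _ => hi Y fun g v hv => (h g).elim (fun e => (e v).symm ▸ hv)
      fun e => (e v).symm ▸ neg_mem hv⟩
    refine ⟨IsSimpleAddGroup.prime_card, (Nat.card_le_card_of_injective (fun g : H => g = 1) fun g k e => ?_).trans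
      (by simp)⟩
    by_cases hg : g = 1
    · rw [hg, e.mp hg]
    · rw [← inv_mul_eq_one]
      exact faith _ fun v => by
        rw [mul_smul, inv_smul_eq_iff, (h g).resolve_left (hg ∘ faith g), (h k).resolve_left (hg ∘ e.mpr ∘ faith k)]
  by_cases h1 : ∀ g : H, g = 1
  · exact Or.inl (deg fun g => Or.inl fun v => by rw [h1 g, one_smul])
  have : Nonempty {g : H // g ≠ 1} := (not_forall.1 h1).elim fun g hg => ⟨⟨g, hg⟩⟩
  obtain ⟨⟨s, hs⟩, h2⟩ := Finite.exists_min fun g : {g : H // g ≠ 1} => Nat.card (W V g.1)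
  have h : St H V (Nat.card (W V s)) := ⟨am, (one_lt_card_iff_ne_bot _).2 fun e => hs (faith s fun v =>
    (sub_eq_zero.1 (e.le (sub_mem_W s v))).symm), fun g hg => h2 ⟨g, hg⟩, faith⟩
  obtain ⟨p, hp, h3⟩ := Nat.exists_prime_and_dvd (Finite.one_lt_card (α := V)).ne'
  have := Fact.mk hp
  obtain ⟨v₀, h4⟩ := exists_prime_addOrderOf_dvd_card' p h3
  have hpV : ∀ v : V, p • v = 0 := fun v => ((hi (nsmulAddMonoidHom p).ker fun g v hv => by
    rw [AddMonoidHom.mem_ker, nsmulAddMonoidHom_apply] at hv ⊢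
    rw [smul_comm, hv, smul_zero]).resolve_left fun e => hp.ne_one (by
      rw [← h4, show v₀ = 0 from e.le (h4 ▸ addOrderOf_nsmul_eq_zero v₀ : p • v₀ = 0), addOrderOf_zero])).ge (mem_top v)
  rcases hp.eq_two_or_odd' with rfl | ⟨k, rfl⟩
  · exact Or.inr ⟨_, h.e_main (fun v => two_nsmul v ▸ hpV v) hi rfl⟩
  · refine (h.o_main (fun v hv => ?_) hp hpV hi rfl).elim (fun h => Or.inr ⟨_, h⟩) fun h => Or.inl (deg h)
    rw [← hpV v, add_nsmul, mul_nsmul, two_nsmul, hv, nsmul_zero, zero_add, one_nsmul]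

theorem red {G Ω : Type*} [Group G] [Finite G] [MulAction G Ω] [FaithfulSMul G Ω] [IsPreprimitive G Ω]
    {N : Subgroup G} [hN : N.Normal] (h1 : N ≠ ⊥) (h2 : IsMulCommutative N) :
    ∃ (V : Type) (_ : AddCommGroup V) (_ : Nontrivial V) (ω₀ : Ω) (_ : DistribMulAction (stabilizer G ω₀) V)
      (ε : Ω ≃ V), ε ω₀ = 0 ∧ (∀ v, ∃ τ : G, ∀ ω, ε (τ • ω) = ε ω + v) ∧
      ∀ (h : stabilizer G ω₀) (ω : Ω), ε (h.1 • ω) = h • ε ω := by
  letI : CommGroup N := { (inferInstance : Group N) with mul_comm := h2.1.1 }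
  have := (Subgroup.nontrivial_iff_ne_bot N).2 h1
  obtain ⟨n, hn⟩ := exists_ne (1 : N)
  obtain ⟨ω₀, h3⟩ : ∃ ω : Ω, n.1 • ω ≠ ω := by
    by_contra! h3
    exact hn (Subtype.ext (eq_of_smul_eq_smul (α := Ω) fun ω => by simpa using h3 ω))
  have : IsPretransitive N Ω := IsQuasiPreprimitive.isPretransitive_of_normal fun e => h3 (e.ge (Set.mem_univ ω₀) n)
  let κ : Shrink.{0} (Additive N) ≃+ Additive N := Shrink.addEquiv
  let τ : Shrink.{0} (Additive N) → G := fun v => (κ v).toMul.1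
  have hτ : ∀ v w, τ (v + w) = τ v * τ w := fun v w => by simp [τ]
  have hτ0 : τ 0 = 1 := by simp [τ]
  have hs : ∀ k ∈ N, ∃ v, τ v = k := fun k hk => ⟨κ.symm (Additive.ofMul ⟨k, hk⟩), by simp [τ]⟩
  let ε := Equiv.ofBijective (fun v => τ v • ω₀) ⟨fun v w e => κ.injective (Additive.toMul.injective (Subtype.ext
    (eq_of_smul_eq_smul (α := Ω) fun ω => by
      obtain ⟨k, rfl⟩ := exists_smul_eq N ω₀ ω
      obtain ⟨u, hu⟩ := hs k k.2
      change τ v • k.1 • ω₀ = τ w • k.1 • ω₀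
      rw [← hu, ← mul_smul, ← mul_smul, ← hτ, ← hτ, add_comm v, add_comm w, hτ, hτ, mul_smul, mul_smul]
      exact congrArg _ e))), fun ω => by
        obtain ⟨k, rfl⟩ := exists_smul_eq N ω₀ ω
        obtain ⟨u, hu⟩ := hs k k.2
        exact ⟨u, congrArg (· • ω₀) hu⟩⟩
  have hε : ∀ v, ε v = τ v • ω₀ := fun _ => rfl
  have h0 : ε 0 = ω₀ := by rw [hε, hτ0, one_smul]
  refine ⟨_, inferInstance, κ.toEquiv.nontrivial, ω₀,
    { smul := fun h v => ε.symm (h.1 • ε v)
      one_smul := fun v => by change ε.symm ((1 : G) • _) = v; simp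
      mul_smul := fun g h v => by
        change ε.symm ((g.1 * h.1) • _) = ε.symm (g.1 • ε (ε.symm (h.1 • ε v))); simp [mul_smul]
      smul_zero := fun h => by change ε.symm (h.1 • ε 0) = 0; rw [h0, h.2, ← h0, ε.symm_apply_apply]
      smul_add := fun h v w => ?_ }, ε.symm, by rw [← h0, ε.symm_apply_apply], fun v => ⟨τ v, fun ω => ?_⟩,
    fun h ω => by change _ = ε.symm (h.1 • ε (ε.symm ω)); simp⟩
  · change ε.symm (h.1 • ε (v + w)) = ε.symm (h.1 • ε v) + ε.symm (h.1 • ε w)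
    have key : ∀ v, ∃ u, τ u = h.1 * τ v * h.1⁻¹ ∧ h.1 • ε v = ε u := fun v => by
      obtain ⟨u, hu⟩ := hs _ (hN.conj_mem _ (κ v).toMul.2 h.1)
      exact ⟨u, hu, by rw [hε, hε, hu, mul_smul, inv_smul_eq_iff.2 (Eq.symm h.2), mul_smul]⟩
    obtain ⟨a, a1, a2⟩ := key v
    obtain ⟨b, b1, b2⟩ := key w
    rw [a2, b2, ε.symm_apply_apply, ε.symm_apply_apply, ε.symm_apply_eq, hε, hε, hτ, hτ, a1, b1, conj_mul, mul_smul _ h.1⁻¹,
      inv_smul_eq_iff.2 (Eq.symm h.2), mul_smul h.1]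
  · obtain ⟨u, rfl⟩ := ε.surjective ω
    rw [ε.symm_apply_apply, ε.symm_apply_eq, hε, hε, add_comm, hτ, mul_smul]

theorem main {G Ω : Type*} [Group G] [Finite G] [MulAction G Ω] [FaithfulSMul G Ω] [Fintype Ω]
    [IsPreprimitive G Ω] {N : Subgroup G} [hN : N.Normal] (h1 : N ≠ ⊥) (h2 : IsMulCommutative N)
    (hml : H8.Bin.ML G Ω) :
    ((Fintype.card Ω).Prime ∧ ∀ ω : Ω, Nat.card ↥(MulAction.stabilizer G ω) ≤ 2) ∨
    (∃ (F E : Type) (_ : Field F) (_ : Fintype F) (_ : Field E) (_ : Fintype E) (_ : Algebra F E) (e : Ω ≃ E),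
        Module.finrank F E = 2 ∧
        ∀ σ : Equiv.Perm Ω, σ ∈ (MulAction.toPermHom G Ω).range ↔
          ∃ (a b : E) (φ : E ≃ₐ[F] E), Algebra.norm F a = 1 ∧ ∀ ω : Ω, e (σ ω) = a * φ (e ω) + b) := by
  obtain ⟨V, _, _, ω₀, _, ε, h0, hτ, hH⟩ := red (Ω := Ω) h1 h2
  have := Finite.of_equiv _ ε
  have aff : ∀ g : G, ∃ h : stabilizer G ω₀, ∀ ω, ε (g • ω) = h • ε ω + ε (g • ω₀) := fun g => by
    obtain ⟨τ, h3⟩ := hτ (-ε (g • ω₀))
    refine ⟨⟨τ * g, ε.injective (by rw [mul_smul, h3, add_neg_cancel, h0])⟩, fun ω => ?_⟩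
    rw [← hH, mul_smul, h3, neg_add_cancel_right]
  rcases core (H := stabilizer G ω₀) (V := V) (fun s z a b e => by
      obtain ⟨τ, h3⟩ := hτ (a - s • a)
      obtain ⟨f, f1, f2, f3⟩ := hml (τ * s) (τ * z)
      obtain ⟨k, hk⟩ := aff f
      have h4 : ∀ (r : stabilizer G ω₀) (x : V), ε ((τ * r) • ε.symm x) = r • x + (a - s • a) := fun r x => by
        rw [mul_smul, h3, hH, ε.apply_symm_apply]
      have h5 : ∀ x : V, s • x = z • x → k • x + ε (f • ω₀) = s • x + (a - s • a) := fun x hx => by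
        rw [← h4, ← f3 _ (ε.injective (by rw [h4, h4, hx])), hk (ε.symm x), ε.apply_symm_apply]
      have h6 := h5 0 (by simp)
      rw [smul_zero, smul_zero, zero_add, zero_add] at h6
      have h7 : ∀ x : V, s • x + (a - s • a) = x ∨ z • x + (a - s • a) = x → k • x + (a - s • a) = x := fun x hx => by
        have : f • ε.symm x = ε.symm x := hx.elim (fun e => f1 _ (ε.injective (by rw [h4, e, ε.apply_symm_apply])))
          fun e => f2 _ (ε.injective (by rw [h4, e, ε.apply_symm_apply]))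
        rw [← h6, ← ε.apply_symm_apply x, ← hk, this]
      have h8 := h7 a (Or.inl (by abel))
      have h9 := h7 b (Or.inr (by rw [e]; abel))
      refine ⟨k, fun x hx => ?_, fun x hx => ?_, by linear_combination (norm := abel) h8,
        by linear_combination (norm := abel) h9 - e, fun x hx => by simpa [h6] using h5 x hx⟩
      · have := h7 (a + x) (Or.inl (by rw [smul_add, hx]; abel))
        rw [smul_add] at this
        linear_combination (norm := abel) this - h8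
      · have := h7 (b + x) (Or.inr (by rw [smul_add, hx, e]; abel))
        rw [smul_add] at this
        linear_combination (norm := abel) this - h9)
    (fun g hg => Subtype.ext (eq_of_smul_eq_smul (α := Ω) fun ω => ε.injective (by rw [hH, hg]; simp)))
    (fun Y hY => by
      rcases IsPreprimitive.isTrivialBlock_of_isBlock (G := G) (B := {ω | ε ω ∈ Y})
        (isBlock_iff_smul_eq_of_mem.2 fun g a (ha : ε a ∈ Y)
        (hg : ε (g • a) ∈ Y) => Set.eq_of_subset_of_ncard_le (s := g • {ω | ε ω ∈ Y}) (t := {ω | ε ω ∈ Y}) (by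
          rintro _ ⟨ω, hω, rfl⟩
          obtain ⟨k, hk⟩ := aff g
          rw [hk] at hg
          change ε (g • ω) ∈ Y
          rw [hk]
          exact add_mem (hY k _ hω) ((add_mem_cancel_left (hY k _ ha)).1 hg)) (Set.ncard_smul_set _ _).ge) with e | e
      · exact Or.inl (eq_bot_iff.2 fun v hv => ε.symm.injective (e (by simpa using hv) (by simp)))
      · exact Or.inr (eq_top_iff.2 fun v _ => by simpa using e.ge (Set.mem_univ (ε.symm v)))) with h | ⟨q, h⟩
  · refine Or.inl ⟨by rw [← Nat.card_eq_fintype_card, Nat.card_congr ε]; exact h.1, fun ω => ?_⟩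
    obtain ⟨g, rfl⟩ := exists_smul_eq G ω₀ ω
    rw [stabilizer_smul_eq_stabilizer_map_conj, Subgroup.card_map_of_injective (MulAut.conj g).injective]
    exact h.2
  obtain ⟨F, E, _, _, _, _, _, e, h3, h4, h5⟩ := h.field
  refine Or.inr ⟨F, E, _, ‹_›, _, ‹_›, _, ε.trans e.toEquiv, h3, fun σ => ⟨?_, ?_⟩⟩
  · rintro ⟨g, rfl⟩
    obtain ⟨k, hk⟩ := aff g
    obtain ⟨a, φ, h6, h7⟩ := h4 k
    exact ⟨a, e (ε (g • ω₀)), φ, h6, fun ω => by
      change e (ε (g • ω)) = a * φ (e (ε ω)) + _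
      rw [hk, map_add, h7]⟩
  · rintro ⟨a, b, φ, h6, h7⟩
    obtain ⟨k, hk⟩ := h5 a φ h6
    obtain ⟨τ, h8⟩ := hτ (e.symm b)
    refine ⟨τ * k, Equiv.ext fun ω => (ε.trans e.toEquiv).injective ((h7 ω).symm ▸ ?_)⟩
    change e (ε ((τ * k.1) • ω)) = a * φ (e (ε ω)) + _
    rw [mul_smul, h8, hH, map_add, hk, e.apply_symm_apply]

end H8.Aff
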