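import Cfsg.Agent.H8.Bin1
import Cfsg.Agent.H26.SzSol

/-! Binary actions of the Suzuki groups. -/

set_option autoImplicit false
set_option linter.unusedSectionVars false

namespace H8.Bin

open Subgroup MulAction _root_.Cfsg H26 H26.Sz

variable {G Ω : Type*} [Group G] [MulAction G Ω]

theorem conj_fix {g k : G} {α : Ω} : g • k • α = k • α ↔ (k⁻¹ * g * k) • α = α := by
  rw [mul_smul, mul_smul, inv_smul_eq_iff]

theorem fix_pt {X : Type*} [MulAction G X] {α : Ω} {a : X} (h : ∀ g : G, g • α = α → g • a = a) {g k : G}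
    (e : g • k • α = k • α) : g • k • a = k • a := conj_fix.2 (h _ (conj_fix.1 e))

theorem ml_iff {a b : G} {x : Ω} : a • x = b • x ↔ (a⁻¹ * b) • x = x := by
  rw [mul_smul, inv_smul_eq_iff, eq_comm]

variable {F : Type*} [Field F] [Fintype F] {m : ℕ} (M : SzModel G F m) (h : ML G Ω) {α : Ω}
include h

theorem sz_frob0 (hB : ∀ g : G, g • α = α → g • M.inf = M.inf) {s : Fˣ} (hs : M.h s • α = α) : s = 1 := by
  by_contra s1
  have := M.charP
  have t0 : (2 : F) = 0 := CharTwo.two_eq_zero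
  have hi : (M.h s)⁻¹ • α = α := inv_smul_eq_iff.2 hs.symm
  have h1 : M.h s • M.w • α = M.w • α := conj_fix.2 (by rwa [M.w_inv, M.w_conj_h])
  obtain ⟨φ, hφ⟩ : ∃ φ : F, φ = s ^ 2 * M.σ s := ⟨_, rfl⟩
  have φ0 : φ ≠ 0 := by simp [hφ]
  have φ1 : 1 + φ ≠ 0 := fun e => s1 (Units.ext (M.sq_mul_σ_inj (by rw [← hφ]; simp; grind)))
  obtain ⟨f, f1, f2, f3⟩ := h (M.h s)⁻¹ (M.u 0 1 * M.h s * (M.u 0 1)⁻¹)
  have f4 : f = 1 := by
    refine M.eq_one_of_fix_three f (a := M.inf) (b := M.pt 0 0) (c := M.pt 0 1) (M.pt_ne_inf _ _).symm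
      (by simp [M.pt_inj]) (M.pt_ne_inf _ _).symm (hB f (f1 _ hi)) ?_ ?_
    · simpa only [M.w_smul_inf] using fix_pt hB (f1 _ (inv_smul_eq_iff.2 h1.symm))
    · have := fix_pt hB (k := M.u 0 1 * M.w) (f2 _ (by simp only [mul_smul, inv_smul_smul, h1]))
      simpa only [mul_smul, M.w_smul_inf, M.u_smul_zero] using this
  have e : (M.h s)⁻¹⁻¹ * (M.u 0 1 * M.h s * (M.u 0 1)⁻¹) * M.u 0 (φ / (1 + φ)) =
      M.u 0 (φ / (1 + φ)) * (M.h s * M.h s) := by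
    simp only [inv_inv, M.u_inv, mul_assoc, M.u_mul, M.h_mul_u, ← hφ]
    simp only [← mul_assoc, M.h_mul_u, ← hφ]
    simp only [mul_assoc, M.u_mul, M.h_mul_u, ← hφ]
    simp only [← mul_assoc, M.u_mul]
    congr 3
    · simp
    · simp; field_simp; grind
  have f5 := f3 ((M.u 0 (φ / (1 + φ)) * M.w) • α) (ml_iff.2 (by
    rw [mul_smul (M.u _ _), ← mul_smul _ (M.u _ _), e, mul_smul, mul_smul, h1, h1]))
  rw [f4, one_smul, eq_comm] at f5
  have f6 := fix_pt hB f5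
  rw [mul_smul, M.w_smul_inf, M.u_smul_zero, ← map_inv] at f6
  exact s1 (inv_eq_one.1 (M.h_fix (by simp [φ0, φ1]) f6))

theorem sz_frob (hB : ∀ g : G, g • α = α → g • M.inf = M.inf) {k : G} (hk : k • α = α) : k ∈ M.Q := by
  by_contra hQ
  obtain ⟨x, y, e⟩ := M.exists_fix_of_mem_B (M.mem_B_iff.2 (hB k hk)) hQ
  obtain ⟨s, hs⟩ := M.mem_H.1 (M.mem_H_iff.2 (show ((M.u x y)⁻¹ * k * M.u x y) • M.inf = M.inf ∧ _ from
    ⟨conj_fix.1 (by rw [M.u_smul_inf, hB k hk]), conj_fix.1 (by rw [M.u_smul_zero, e])⟩))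
  have := sz_frob0 M h (α := (M.u x y)⁻¹ • α) (s := s) (fun g hg => by
    simpa only [inv_smul_eq_iff.2 (M.u_smul_inf x y).symm] using fix_pt hB hg) (by
      rw [← hs, mul_smul, mul_smul, smul_inv_smul, hk])
  rw [this, map_one, mul_assoc, inv_mul_eq_one, eq_comm, mul_eq_right] at hs
  exact hQ (hs ▸ one_mem _)

omit h in
theorem sz_wr : (M.w * M.u 1 0) ^ 2 ^ 2 = 1 := by
  have := M.charP
  have t0 : (2 : F) = 0 := CharTwo.two_eq_zero
  apply M.inj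
  rw [map_pow, map_mul, M.ρ_w, M.ρ_u, map_one]
  ext i j
  fin_cases i <;> fin_cases j <;>
    simp [pow_succ, wM, uM, ff, Matrix.mul_apply, Fin.sum_univ_four, Matrix.vecMul, dotProduct] <;> grind

theorem sz_four (hQ : ∀ g : G, g • α = α → g ∈ M.Q) (hZ : ∀ b, M.u 0 b • α = α) {a b : F}
    (hu : M.u a b • α = α) : a = 0 := by
  by_contra a0
  have := M.finite
  have := M.charP
  have t0 : (2 : F) = 0 := CharTwo.two_eq_zero
  have hB : ∀ g : G, g • α = α → g • M.inf = M.inf := fun g hg => M.mem_B_iff.1 (M.Q_le_B (hQ g hg))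
  have h1 : ∀ x ∈ M.Q, ∃ k ∈ M.B, x • k • α = k • α := by
    rintro _ ⟨c, d, rfl⟩
    by_cases c0 : c = 0
    · exact ⟨1, one_mem _, by simp [c0, hZ]⟩
    obtain ⟨s, hs⟩ := M.σ_bij.2 (a / c)
    have s0 : s ≠ 0 := by rintro rfl; exact div_ne_zero a0 c0 (hs ▸ map_zero _)
    refine ⟨(M.h (Units.mk0 s s0))⁻¹, inv_mem (M.H_le_B (M.h_mem_H _)), conj_fix.2 ?_⟩
    rw [inv_inv, M.h_conj_u, Units.val_mk0, hs, div_mul_cancel₀ _ c0]
    generalize s ^ 2 * (a / c) * d = e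
    rw [show M.u a e = M.u 0 (e + b) * M.u a b by rw [M.u_mul]; congr 1 <;> simp; grind, mul_smul, hu, hZ]
  have h2 : ∀ x : G, x ^ 2 ^ 2 = 1 → ∃ k : G, x • k • α = k • α := fun x hx => by
    obtain ⟨k, hk⟩ := M.exists_le_conj_Q (H6.isPGroup_zpowers hx)
    obtain ⟨l, -, hl⟩ := h1 _ (M.mem_conj_Q.1 (hk (mem_zpowers x)))
    exact ⟨k * l, by rw [mul_smul]; exact conj_fix.2 hl⟩
  obtain ⟨k1, e1⟩ := h2 M.w (by rw [pow_two, pow_mul, pow_two M.w, M.w_mul_w, one_pow])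
  obtain ⟨k2, hk2, e2⟩ := h1 _ (M.u_mem_Q 1 0)
  obtain ⟨k3, e3⟩ := h2 _ (sz_wr M)
  obtain ⟨f, f1, f2, f3⟩ := h M.w (M.u 1 0)
  have f4 : f = 1 := by
    by_contra f0
    have h3 : f ∈ M.Q := by simpa [mul_assoc] using M.conj_mem_Q hk2 (hQ _ (conj_fix.1 (f2 _ e2)))
    have h4 := fix_pt hB e1
    rw [M.eq_inf_of_fix h3 f0 (fix_pt hB (f1 _ e1))] at h4
    exact M.w_not_mem_B h4
  have f5 : M.w • k3 • α = M.u 1 0 • k3 • α := ml_iff.2 (by rwa [M.w_inv])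
  have f6 := f3 _ f5
  rw [f4, one_smul, eq_comm] at f6
  have h4 := fix_pt hB f6
  rw [M.eq_inf_of_fix (M.u_mem_Q 1 0) (by simp [M.u_eq_one_iff]) (fix_pt hB (f5.symm.trans f6))] at h4
  exact M.w_not_mem_B h4

omit h in
theorem sz_top {S : Subgroup G} (hZ : M.Z ≤ S) (hB : ¬ S ≤ M.B) : S = ⊤ := by
  obtain ⟨g, hg, hgB⟩ := SetLike.not_le_iff_exists.1 hB
  have h1 : M.u 0 1 ≠ 1 := by simp [M.u_eq_one_iff]
  obtain ⟨l, hl, hw⟩ := M.exists_conj_w (t := g * M.u 0 1 * g⁻¹)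
    (by calc g * M.u 0 1 * g⁻¹ * (g * M.u 0 1 * g⁻¹) = g * (M.u 0 1 * M.u 0 1) * g⁻¹ := by group
      _ = 1 := by rw [M.u_zero_sq]; group)
    (fun h => hgB (M.mem_B_of_conj (M.u_mem_Q 0 1) h1 h))
  have h2 : (M.conj l).w ∈ S := hw ▸ S.mul_mem (S.mul_mem hg (hZ (M.u_mem_Z 1))) (S.inv_mem hg)
  rw [← M.conj_Z_of_mem_B hl] at hZ
  rw [← M.conj_B_of_mem_B hl] at hB
  generalize M.conj l = N at h2 hZ hB
  obtain ⟨y, y0, y1⟩ := N.exists_ne
  refine N.eq_top_of_Q_le ?_ hB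
  rintro _ ⟨a, b, rfl⟩
  by_cases h0 : a = 0
  · exact h0 ▸ hZ (N.u_mem_Z b)
  have hσ := N.σ_ne_zero h0
  have := N.u_div_mem h2 (hZ (N.u_mem_Z y)) (hZ (N.u_mem_Z 1)) y0 one_ne_zero y1 (b := (N.σ a * a)⁻¹)
    (hZ (N.u_mem_Z _)) (by simp [h0])
  rw [show (N.σ a * a)⁻¹ / N.σ (N.σ a * a)⁻¹ = a by rw [map_inv₀, map_mul, N.hσ]; field_simp] at this
  simpa [N.u_mul] using S.mul_mem (hZ (N.u_mem_Z b)) this

omit h in
theorem sz_bruhat (s : Fˣ) {Y : Subgroup G} (hY : Nat.card Y ≤ 4) :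
    ∃ x ∈ M.Q, x ∉ Y ∧ ∃ g ∈ M.Q, ∃ f ∈ M.Q, M.w * x * M.w = g * M.h s * M.w * f := by
  have := M.finite
  obtain ⟨x, hx, h1⟩ : ∃ x ∈ M.Q, ∀ k : Fˣ, (M.h k)⁻¹ * x * M.h k ∉ Y := by
    by_contra! hc
    choose k hk using fun x : M.Q => hc x x.2
    have := Nat.card_le_card_of_injective (fun x : M.Q => ((k x, ⟨_, hk x⟩) : Fˣ × Y)) fun x y e => by
      have e1 : k x = k y := congrArg Prod.fst e
      have e2 : (M.h (k x))⁻¹ * x * M.h (k x) = (M.h (k y))⁻¹ * y * M.h (k y) := congrArg (·.2.1) e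
      exact Subtype.ext (by simpa [e1] using e2)
    rw [M.card_Q, Nat.card_prod, Nat.card_units, Nat.card_eq_fintype_card] at this
    have h8 := M.eight_le_card
    have : (Fintype.card F - 1) * Nat.card Y ≤ Fintype.card F * 4 := Nat.mul_le_mul (by omega) hY
    nlinarith
  rcases M.bruhat (M.w * x * M.w) with ⟨a, b, s', e⟩ | ⟨a, b, s', c, d, e⟩
  · have h2 := M.mem_B_iff.1 (M.mem_B.2 ⟨a, b, s', e⟩)
    rw [mul_smul, mul_smul, M.w_smul_inf, ← eq_inv_smul_iff, M.w_inv, M.w_smul_inf] at h2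
    by_cases x1 : x = 1
    · exact absurd (by simp [x1]) (h1 1)
    · exact absurd (M.eq_inf_of_fix hx x1 h2) (M.pt_ne_inf _ _)
  obtain ⟨k, hk⟩ := M.exists_sq_eq (s * s'⁻¹)
  have hk' := M.H_le_B (M.h_mem_H k)
  refine ⟨_, by simpa using M.conj_mem_Q (inv_mem hk') hx, h1 k, _, M.conj_mem_Q hk' (M.u_mem_Q a b),
    _, M.conj_mem_Q hk' (M.u_mem_Q c d), ?_⟩
  have e1 : M.w * (M.h k)⁻¹ = M.h k * M.w := by rw [← map_inv, M.w_mul_h, inv_inv]
  have e2 : M.h k * M.w = M.w * (M.h k)⁻¹ := e1.symm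
  have e3 : M.h s = M.h k * M.h s' * M.h k := by
    rw [← map_mul, ← map_mul, mul_right_comm, hk, inv_mul_cancel_right]
  calc _ = M.w * (M.h k)⁻¹ * x * (M.h k * M.w) := by group
    _ = M.h k * (M.w * x * M.w) * (M.h k)⁻¹ := by rw [e1]; nth_rw 2 [e2]; group
    _ = M.h k * M.u a b * M.h s' * (M.w * (M.h k)⁻¹) * (M.h k * M.u c d * (M.h k)⁻¹) := by rw [e]; group
    _ = _ := by rw [e1, e3]; group

theorem sz_fpf0 {b b' : F} (hx : M.Fpf (M.u 0 b * (M.w * M.u 0 b' * M.w)))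
    (h1 : (M.u 0 b * (M.w * M.u 0 b' * M.w)) • α = α)
    (hC : ∀ g : G, g • α = α → g ∈ centralizer {M.u 0 b * (M.w * M.u 0 b' * M.w)}) : False := by
  have := M.finite
  have b0 : b ≠ 0 := by
    rintro rfl
    exact hx (M.pt 0 0) (by rw [M.u_zero, one_mul, mul_smul, mul_smul, M.w_smul_zero, M.u_smul_inf, M.w_smul_inf])
  have b1 : b' ≠ 0 := by
    rintro rfl
    exact hx M.inf (by rw [M.u_zero, mul_one, M.w_mul_w, mul_one, M.u_smul_inf])
  obtain ⟨s, hs⟩ := M.sq_mul_σ_surj (b' / b)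
  have s0 : s ≠ 0 := by rintro rfl; exact div_ne_zero b1 b0 (by simpa using hs.symm)
  have hd := M.h_conj_u (Units.mk0 s s0) 0 b
  rw [Units.val_mk0, hs, mul_zero, div_mul_cancel₀ _ b0] at hd
  obtain ⟨y, hy⟩ : ∃ y, y = M.u 0 b * (M.w * M.u 0 b' * M.w) := ⟨_, rfl⟩
  rw [← hy] at hx h1 hC
  obtain ⟨x, hxQ, hxY, g, hg, f, hf, e⟩ := sz_bruhat M (Units.mk0 s s0)
    (Y := normalizer (centralizer {y} : Set G) ⊓ M.Q) (by
      have h2 := card_dvd_of_le (inf_le_left : normalizer (centralizer {y} : Set G) ⊓ M.Q ≤ _)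
      have h3 := card_dvd_of_le (inf_le_right : normalizer (centralizer {y} : Set G) ⊓ M.Q ≤ _)
      rw [hx.card_normalizer] at h2
      rw [M.card_Q] at h3
      exact Nat.le_of_dvd (by norm_num) ((Nat.Coprime.coprime_dvd_left h3 (Nat.Coprime.coprime_dvd_right
        hx.card_centralizer_dvd (by simp))).dvd_of_dvd_mul_right h2))
  generalize M.h (Units.mk0 s s0) = d at e hd
  have hN : x ∉ normalizer (centralizer {y} : Set G) := fun e => hxY ⟨e, hxQ⟩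
  have c1 : ∀ c, ∀ z ∈ M.Q, M.u 0 c * z = z * M.u 0 c := by
    rintro c _ ⟨a, b, rfl⟩
    exact M.u_zero_comm _ _ _
  have e1 : y⁻¹ * (x * y * x⁻¹) = M.w * g * d * y * (M.w * g * d)⁻¹ := by
    have w2 := M.w_mul_w
    have e2 : x = M.w * (g * d * M.w * f) * M.w := by
      rw [← e, ← mul_assoc, ← mul_assoc, w2, one_mul, mul_assoc, w2, mul_one]
    have e3 : y⁻¹ * (x * y * x⁻¹) = M.w * M.u 0 b' * M.w * x * (M.w * M.u 0 b' * M.w) * x⁻¹ := by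
      rw [hy, mul_inv_rev, mul_inv_rev, mul_inv_rev, M.w_inv, inv_eq_of_mul_eq_one_right (M.u_zero_sq b'),
        ← mul_assoc x, ← c1 b x hxQ]
      group
    have e4 : M.w * g * d * y * (M.w * g * d)⁻¹ =
        M.w * (g * (d * M.u 0 b * d⁻¹)) * d * M.w * (M.u 0 b' * f) * f⁻¹ * M.w * d⁻¹ * g⁻¹ * M.w⁻¹ := by
      rw [hy]; group
    rw [e3, e4, hd, ← c1 _ _ hg, c1 _ _ hf, e2]
    simp only [mul_inv_rev, M.w_inv, mul_assoc, ← mul_assoc M.w M.w, w2, one_mul]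
  obtain ⟨k, f1, f2, f3⟩ := h y (x * y * x⁻¹)
  have f4 : k = 1 := by
    by_contra k1
    refine hN (inv_mem_iff.1 (hx.mem_normalizer_of_conj (g := x⁻¹) (hC _ (f1 _ h1)) k1 ?_))
    rw [inv_inv]
    exact hC _ (conj_fix.1 (f2 _ (by rw [mul_smul, mul_smul, inv_smul_smul, h1])))
  have f5 : y • (M.w * g * d) • α = (x * y * x⁻¹) • (M.w * g * d) • α :=
    ml_iff.2 (by rw [e1, mul_smul, mul_smul, inv_smul_smul, h1])
  have f6 := f3 _ f5
  rw [f4, one_smul, eq_comm] at f6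
  have f7 := hx.comm (hC _ (conj_fix.1 f6)) (hC _ (conj_fix.1 (f5.symm.trans f6)))
  refine hN (hx.mem_normalizer_of_conj (SzModel.self_mem_cent y) hx.ne_one (mem_centralizer_singleton_iff.2 ?_))
  generalize M.w * g * d = n at f7
  calc _ = n * (n⁻¹ * (x * y * x⁻¹) * n * (n⁻¹ * y * n)) * n⁻¹ := by group
    _ = _ := by rw [← f7]; group

theorem sz_fpf {y : G} (hx : M.Fpf y) (h1 : y • α = α) (hC : ∀ g : G, g • α = α → g ∈ centralizer {y}) :
    False := by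
  have := M.finite
  obtain ⟨j, hj, j2⟩ := H6.exists_ord2_mem_of_even (H := normalizer (centralizer {y} : Set G))
    (by rw [hx.card_normalizer]; exact Even.mul_right (by decide) _)
  have j3 := H6.ord2_mul_self j2
  obtain ⟨k, hk⟩ := M.exists_mem_conj_Q_of_sq j3
  have h2 := (M.conj k).YY_inv ((M.conj k).Z_le_Q hk) (H6.ord2_ne_one j2) ⟨hx.ne_one, hx.odd, hj⟩ j3
  rw [← M.fpf_conj_iff (g := k)] at hx
  generalize M.conj k = N at hk hx
  have h3 : j * y * (j * y) = 1 := by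
    rw [H6.ord2_inv j2] at h2
    rw [← mul_assoc, h2, inv_mul_cancel]
  obtain ⟨l, hl⟩ := N.exists_mem_conj_Q_of_sq h3
  have h4 : (j * y) • l • N.inf = l • N.inf := N.mem_conj_B_iff.1 ((N.conj l).Q_le_B ((N.conj l).Z_le_Q hl))
  have h5 : j • N.inf = N.inf := N.mem_B_iff.1 (N.Q_le_B (N.Z_le_Q hk))
  obtain ⟨g, g1, g2⟩ := N.exists_smul_inf_zero (p := N.inf) (p' := l • N.inf) fun e => hx N.inf (by
    rwa [← e, mul_smul, ← eq_inv_smul_iff, inv_smul_eq_iff.2 h5.symm] at h4)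
  have h6 : N.w * g⁻¹ * l ∈ N.B := N.mem_B_iff.2 (by rw [mul_smul, mul_smul, ← g2, inv_smul_smul, N.w_smul_zero])
  obtain ⟨b', hb'⟩ := N.conj_mem_Z h6 (N.mem_conj_Z.1 hl)
  rw [← N.conj_Z_of_mem_B (N.mem_B_iff.2 g1)] at hk
  obtain ⟨b, hb⟩ := hk
  have e : y = (N.conj g).u 0 b * ((N.conj g).w * (N.conj g).u 0 b' * (N.conj g).w) := by
    rw [← hb, N.conj_w, N.conj_u, ← hb']
    calc y = j * j * y := by rw [j3, one_mul]
      _ = j * (g * (N.w * N.w) * g⁻¹ * (j * y) * g * (N.w⁻¹ * N.w) * g⁻¹) := by rw [N.w_mul_w]; group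
      _ = _ := by group
  rw [← N.fpf_conj_iff (g := g)] at hx
  rw [e] at hx h1 hC
  exact sz_fpf0 _ h hx h1 hC

omit h in
include M in
theorem sz_hone (s t : G) (hs : orderOf s = 2) (ht : orderOf t = 2) : IsConj s t := by
  obtain ⟨k, rfl⟩ := M.exists_conj_u_zero_one (H6.ord2_mul_self hs) (H6.ord2_ne_one hs)
  obtain ⟨l, rfl⟩ := M.exists_conj_u_zero_one (H6.ord2_mul_self ht) (H6.ord2_ne_one ht)
  exact (isConj_iff.2 ⟨k, rfl⟩).symm.trans (isConj_iff.2 ⟨l, rfl⟩)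

omit h in
include M in
theorem sz_om : Om G := by
  have := M.finite
  refine om_of M.sylowQ fun x hx => ?_
  rw [M.mul_self_eq_one_iff_mem_Z hx, M.mem_Z_iff_central hx, mem_ZP]
  exact ⟨fun h => ⟨hx, fun y hy => (h y hy).symm⟩, fun h y hy => (h.2 y hy).symm⟩

omit h in
include M in
theorem sz_main (H : Subgroup G) (hH : H ≠ ⊤) : Bin G (G ⧸ H) ↔ H = ⊥ ∨ ∃ P : Sylow 2 G, H = ZP P := by
  have := M.finite
  refine ⟨fun hb => ?_, ?_⟩
  swap
  · rintro (rfl | ⟨P, rfl⟩)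
    · exact bin_bot
    refine bin_ZP (sz_om M) (fun s t u hs ht hu h1 h2 => ?_) P
    obtain ⟨k, hk⟩ := M.exists_mem_conj_Q_of_sq (H6.ord2_mul_self hs)
    generalize M.conj k = N at hk
    have h3 := N.mem_Q_of_comm (N.Z_le_Q hk) (H6.ord2_ne_one hs) h1.symm
    exact (N.mem_Z_iff_central h3).1 ((N.mul_self_eq_one_iff_mem_Z h3).1 (H6.ord2_mul_self ht)) u
      (N.mem_Q_of_comm (N.Z_le_Q hk) (H6.ord2_ne_one hs) h2.symm)
  have h := hb.ml
  have hf : ∀ N : SzModel G F m, H ≤ N.B → H ≤ N.Q := fun N hB g hg =>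
    sz_frob N h (fun g hg => N.mem_B_iff.1 (hB (smul_one_iff.1 hg))) (smul_one_iff.2 hg)
  rcases Nat.even_or_odd (Nat.card H) with he | ho
  · refine Or.inr (eq_ZP (sz_om M) h (sz_hone M) he ?_)
    obtain ⟨s, hs, s2⟩ := H6.exists_ord2_mem_of_even he
    obtain ⟨k, hk⟩ := M.exists_mem_conj_Q_of_sq (H6.ord2_mul_self s2)
    generalize M.conj k = N at hk
    have hZ : N.Z ≤ H := fun z hz => smul_one_iff.1 (fix_of_comm h (sz_hone N) s2
      ((N.mul_self_eq_one_iff_mem_Z (N.Z_le_Q hz)).2 hz) ((N.mem_Z_iff_central (N.Z_le_Q hk)).1 hk z (N.Z_le_Q hz))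
      (smul_one_iff.2 hs))
    have hQ := hf N (by_contra fun hB => hH (sz_top N hZ hB))
    intro x hx
    obtain ⟨a, b, rfl⟩ := hQ hx
    rw [sz_four N h (fun g hg => hQ (smul_one_iff.1 hg)) (fun b => smul_one_iff.2 (hZ (N.u_mem_Z b)))
      (smul_one_iff.2 hx), N.u_zero_sq]
  refine Or.inl (eq_bot_iff.2 fun x hx => ?_)
  have ho' := fun x (hx : x ∈ H) => H6.odd_orderOf_of_odd_card ho hx
  obtain ⟨U, ⟨k, rfl⟩ | ⟨k, rfl⟩ | ⟨y, hy, rfl⟩, hU⟩ := M.le_normalizer_of_solvable (H17.odd_solvable ho)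
  · exact (M.conj k).eq_one_of_odd_of_mem_Q (hf _ (by rwa [SzModel.normalizer_Q] at hU) hx) (ho' x hx)
  · exact (M.conj k).eq_one_of_odd_of_mem_Q (hf _ (fun g hg => (M.conj k).H_le_B (mem_of_odd_of_card (j := 1)
      (by rw [SzModel.card_normalizer_H, SzModel.card_H, pow_one]) (ho' g hg) (hU hg))) hx) (ho' x hx)
  · have h1 : H ≤ centralizer {y} := fun g hg => mem_of_odd_of_card (j := 2) hy.card_normalizer (ho' g hg) (hU hg)
    by_contra x1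
    exact sz_fpf M h (hy.of_mem (h1 hx) x1) (smul_one_iff.2 hx) fun g hg => by
      rw [hy.centralizer_eq (h1 hx) x1]; exact h1 (smul_one_iff.1 hg)

end H8.Bin
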