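import Cfsg.Agent.H8.Bin2
import Cfsg.Agent.H4.M2b

/-! Binary actions of `SL₂(q)`: the witnesses. -/

set_option autoImplicit false
set_option linter.unusedSectionVars false

namespace H8.Bin

open Subgroup MulAction _root_.Cfsg H4 Matrix
open scoped MatrixGroups

variable {F : Type*} [Field F] {Ω : Type*} [MulAction SL(2, F) Ω]

/-- a matrix of determinant one -/
def mk2 (a b c d : F) (h : a * d - b * c = 1) : SL(2, F) := ⟨!![a, b; c, d], by simp [det_fin_two, h]⟩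

theorem coe_mk2 (a b c d : F) (h : a * d - b * c = 1) : (mk2 a b c d h).1 = !![a, b; c, d] := rfl

theorem val_mul (a b : SL(2, F)) : (a * b).1 = a.1 * b.1 := rfl

theorem val_inv (g : SL(2, F)) : (g⁻¹).1 = !![g.1 1 1, -g.1 0 1; -g.1 1 0, g.1 0 0] := by
  rw [sl_inv_val, adjugate_fin_two]

theorem macbeath [Finite F] {τ : F} (hτ : τ * τ - 4 ≠ 0) (ζ : F) :
    ∃ A B : SL(2, F), A.1.trace = τ ∧ B.1.trace = τ ∧ (A * B).1.trace = ζ := by
  obtain ⟨x0, hx⟩ : ∃ x0, x0 = (τ * (τ * τ - ζ) - 2 * τ) / (τ * τ - 4) := ⟨_, rfl⟩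
  obtain ⟨z0, hz⟩ : ∃ z0, z0 = (2 * ζ - τ * τ) / (τ * τ - 4) := ⟨_, rfl⟩
  rw [eq_div_iff hτ] at hx hz
  have h1 : 2 * x0 + τ * z0 = τ := mul_right_cancel₀ hτ (by linear_combination 2 * hx + τ * hz)
  have h2 : τ * x0 + 2 * z0 = τ * τ - ζ := mul_right_cancel₀ hτ (by linear_combination τ * hx + 2 * hz)
  obtain ⟨a, b, e⟩ := exists_norm_eq (t := τ) (d := 1) (Or.inl (by rwa [mul_one])) (x0 * x0 + τ * x0 * z0 + z0 * z0 - 1)
  refine ⟨mk2 0 (-1) 1 τ (by simp), mk2 (a + x0) (ζ - τ * τ + τ * (a + x0) + (b + z0)) (b + z0) (τ - (a + x0))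
    (by linear_combination -e - (a + x0) * h1 - (b + z0) * h2), by simp [coe_mk2], by simp [coe_mk2], ?_⟩
  simp [val_mul, coe_mk2]
  ring

theorem three_eq (t0 : (2 : F) = 0) (hω : ∀ ω : F, ω * ω + ω + 1 ≠ 0) {A B : SL(2, F)} (hA : A.1.trace = 1)
    (hB : B.1.trace = 1) (hAB : (A * B).1.trace = 1) : B = A := by
  have h1 := sl2_det A
  have h2 := sl2_det B
  simp only [trace_fin_two, sl2_mul_apply] at hA hB hAB
  have h3 : B.1 0 1 = A.1 0 1 := by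
    by_contra h3
    have h4 := sub_ne_zero.2 h3
    refine hω (A.1 0 1 * (B.1 0 0 - A.1 0 0) / (B.1 0 1 - A.1 0 1) + A.1 0 0) ?_
    field_simp
    grind
  have h4 : B.1 0 0 = A.1 0 0 := by
    refine sub_eq_zero.1 (pow_eq_zero_iff two_ne_zero |>.1 ?_)
    grind
  have h5 : A.1 0 1 ≠ 0 := fun e => hω (A.1 0 0) (by grind)
  exact sl2_ext h4 h3 (mul_left_cancel₀ h5 (by grind)) (by grind)

theorem sq_of_trace {g : SL(2, F)} (h : g.1.trace = 0) : g * g = -1 :=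
  Subtype.ext ((val_mul g g).trans (by rw [m2_cayley, h, g.2]; simp))

theorem trace_of_sc_sq {g : SL(2, F)} (h1 : ¬ Sc g.1) (h : Sc (g * g).1) : g.1.trace = 0 := by
  refine (sc_lin_iff h1 (a := -1)).1 ?_
  rwa [val_mul, m2_cayley, g.2, sub_eq_neg_add, ← neg_smul] at h

theorem trace_sq (g : SL(2, F)) : (g * g).1.trace = g.1.trace * g.1.trace - 2 := by
  rw [val_mul, m2_cayley, g.2]; simp

theorem comm_at {G Ω : Type*} [Group G] [MulAction G Ω] {α : Ω}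
    (hab : ∀ a b : G, a • α = α → b • α = α → a * b = b * a) {k a b : G} (ha : a • k • α = k • α)
    (hb : b • k • α = k • α) : a * b = b * a := by
  have := hab _ _ (conj_fix.1 ha) (conj_fix.1 hb)
  calc _ = k * (k⁻¹ * a * k * (k⁻¹ * b * k)) * k⁻¹ := by group
    _ = _ := by rw [this]; group

variable (h : ML SL(2, F) Ω) (hS : ∀ g : SL(2, F), Sc g.1 → ∀ x : Ω, g • x = x) {α : Ω}
include h hS

theorem sl_nb (hab : ∀ a b : SL(2, F), a • α = α → b • α = α → a * b = b * a) {a b k1 k2 k3 : SL(2, F)}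
    (h1 : a • k1 • α = k1 • α) (h2 : b • k2 • α = k2 • α) (h3 : (a⁻¹ * b) • k3 • α = k3 • α) : a * b = b * a := by
  obtain ⟨f, f1, f2, f3⟩ := h a b
  by_cases hf : Sc f.1
  · have f4 := (f3 _ (ml_iff.2 h3)).symm.trans (hS f hf _)
    exact comm_at hab f4 ((ml_iff.2 h3).symm.trans f4)
  · exact Subtype.ext (comm_of_comm hf (congrArg Subtype.val (comm_at hab (f1 _ h1) h1))
      (congrArg Subtype.val (comm_at hab (f2 _ h2) h2)))

omit h in
theorem fix_of_trace [Finite F] {g x : SL(2, F)} (hg : g • α = α) (hd : g.1.trace * g.1.trace - 4 ≠ 0)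
    (hx : x.1.trace = g.1.trace ∨ x.1.trace = -g.1.trace) : ∃ k : SL(2, F), x • k • α = k • α := by
  rcases hx with hx | hx
  · obtain ⟨k, rfl⟩ := isConj_iff.1 (sl_isConj_of_disc hx.symm hd)
    exact ⟨k, by rw [mul_smul, mul_smul, inv_smul_smul, hg]⟩
  · obtain ⟨k, rfl⟩ := isConj_iff.1 (sl_isConj_of_disc (g := -g) (h := x) (by simp [hx]) (by simpa using hd))
    refine ⟨k, ?_⟩
    rw [mul_smul, mul_smul, inv_smul_smul, ← neg_one_mul, mul_smul, hg, hS _ (sl_sc_iff.2 (Or.inr rfl))]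

theorem sl_ab [Finite F] (hab : ∀ a b : SL(2, F), a • α = α → b • α = α → a * b = b * a) {g : SL(2, F)}
    (hg : g • α = α) (hd : g.1.trace * g.1.trace - 4 ≠ 0) {ζ : F} (hζ : ζ = g.1.trace ∨ ζ = -g.1.trace) :
    ζ = g.1.trace * g.1.trace - 2 := by
  obtain ⟨A, B, h1, h2, h3⟩ := macbeath hd ζ
  obtain ⟨k1, e1⟩ := fix_of_trace hS hg hd (x := A⁻¹) (Or.inl ((sl_trace_inv A).trans h1))
  obtain ⟨k2, e2⟩ := fix_of_trace hS hg hd (x := B) (Or.inl h2)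
  obtain ⟨k3, e3⟩ := fix_of_trace hS hg hd (x := A * B) (h3 ▸ hζ)
  have h4 : Commute A B := Commute.inv_left_iff.1 (sl_nb h hS hab e1 e2 (by rwa [inv_inv]))
  rcases sl_eq_or_inv_of_comm (congrArg Subtype.val h4.eq) (h1 ▸ hd) (h1.trans h2.symm) with rfl | rfl
  · rw [← h3, trace_sq, h1]
  · rw [mul_inv_cancel] at h3
    refine absurd ?_ hd
    rcases hζ with e | e <;> simp [e] at h3 <;> grind

theorem sl_a4 [Finite F] (t0 : (2 : F) = 0) (hab : ∀ a b : SL(2, F), a • α = α → b • α = α → a * b = b * a)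
    {g : SL(2, F)} (hg : g • α = α) (ht : g.1.trace = 1) (ω : F) : ω * ω + ω + 1 ≠ 0 := fun hω => by
  have hd : g.1.trace * g.1.trace - 4 ≠ 0 := by
    rw [ht]; exact fun e => one_ne_zero (α := F) (by linear_combination e + 2 * t0)
  obtain ⟨A, hA⟩ : ∃ A : SL(2, F), A.1 = !![ω, 0; 0, ω + 1] := ⟨mk2 _ _ _ _ (by linear_combination hω - t0), rfl⟩
  obtain ⟨B, hB⟩ : ∃ B : SL(2, F), B.1 = !![ω + 1, 1; 0, ω] := ⟨mk2 _ _ _ _ (by linear_combination hω - t0), rfl⟩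
  obtain ⟨k1, e1⟩ := fix_of_trace hS hg hd (x := A) (Or.inl (by simp [hA, ht]; linear_combination ω * t0))
  obtain ⟨k2, e2⟩ := fix_of_trace hS hg hd (x := B) (Or.inl (by simp [hB, ht]; linear_combination ω * t0))
  obtain ⟨k3, e3⟩ := fix_of_trace hS hg hd (x := A⁻¹ * B) (Or.inl (by
    simp [val_mul, val_inv, hA, hB, ht]; linear_combination (ω * ω + ω) * t0))
  have := congrArg (fun x : SL(2, F) => x.1 0 1) (sl_nb h hS hab e1 e2 e3)
  simp [val_mul, hA, hB] at this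

theorem sl_unip (t0 : (2 : F) ≠ 0) (hab : ∀ a b : SL(2, F), a • α = α → b • α = α → a * b = b * a) {a : F}
    (ha : upT a • α = α) : a = 0 := by
  by_contra a0
  have hi : (upT a)⁻¹ • α = α := inv_smul_eq_iff.2 ha.symm
  obtain ⟨R, hR⟩ : ∃ R : SL(2, F), R.1 = !![0, -a / 2; 2 / a, 0] := ⟨mk2 _ _ _ _ (by field_simp; ring), rfl⟩
  have e1 : R⁻¹ * loT (-4 / a) * R = upT a := by
    rw [mul_assoc, inv_mul_eq_iff_eq_mul]
    apply sl2_ext <;> simp [sl2_mul_apply, coe_upT, coe_loT, hR] <;> field_simp <;> ring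
  have e2 : (loT (2 / a))⁻¹ * ((upT a)⁻¹⁻¹ * loT (-4 / a)) * loT (2 / a) = -1 * (upT a)⁻¹ := by
    rw [mul_assoc, inv_mul_eq_iff_eq_mul, inv_inv, upT_inv]
    apply sl2_ext <;> simp [sl2_mul_apply, coe_upT, coe_loT] <;> field_simp <;> ring
  have := congrArg (fun x : SL(2, F) => x.1 0 0) (sl_nb h hS hab (a := (upT a)⁻¹) (k1 := 1) (k3 := loT (2 / a)) (by rw [one_smul, hi])
    (conj_fix.2 (e1 ▸ ha)) (conj_fix.2 (by rw [e2, mul_smul, hi, hS _ (sl_sc_iff.2 (Or.inr rfl))])))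
  simp [upT_inv, sl2_mul_apply, coe_upT, coe_loT, a0] at this
  exact t0 (pow_eq_zero_iff two_ne_zero |>.1 (by linear_combination this))

theorem sl_frob0 (hB : ∀ g : SL(2, F), g • α = α → g.1 1 0 = 0) {l : Fˣ} (hl : slTri l 0 • α = α) :
    (l : F) ^ 4 = 1 := by
  by_contra l4
  have l2 : (l : F) ^ 2 - 1 ≠ 0 := fun e => l4 (by grind)
  have l3 : 1 + (l : F) ^ 2 ≠ 0 := fun e => l4 (by grind)
  have l0 := l.ne_zero
  obtain ⟨w, hw⟩ : ∃ w : SL(2, F), w.1 = !![0, -1; 1, 0] := ⟨mk2 _ _ _ _ (by simp), rfl⟩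
  have hi : (slTri l 0)⁻¹ • α = α := inv_smul_eq_iff.2 hl.symm
  have h1 : slTri l 0 • w • α = w • α := conj_fix.2 (by
    rwa [show w⁻¹ * slTri l 0 * w = (slTri l 0)⁻¹ by
      apply sl2_ext <;> simp [hw, val_inv, sl2_mul_apply]])
  obtain ⟨f, f1, f2, f3⟩ := h (slTri l 0)⁻¹ (upT 1 * slTri l 0 * (upT 1)⁻¹)
  have f4 : Sc f.1 := by
    have a1 := hB f (f1 _ hi)
    have a2 := hB _ (conj_fix.1 (f1 _ (inv_smul_eq_iff.2 h1.symm)))
    have a3 := hB _ (conj_fix.1 (f2 ((upT 1 * w) • α) (by simp only [mul_smul, inv_smul_smul, h1])))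
    simp [hw, val_inv, sl2_mul_apply, coe_upT, a1] at a2 a3
    exact ⟨a2, a1, by grind⟩
  have e : (slTri l 0)⁻¹⁻¹ * (upT 1 * slTri l 0 * (upT 1)⁻¹) * upT ((l : F) ^ 2 / (1 + l ^ 2)) =
      upT ((l : F) ^ 2 / (1 + l ^ 2)) * (slTri l 0 * slTri l 0) := by
    rw [inv_inv, upT_inv]
    apply sl2_ext <;> simp [sl2_mul_apply, coe_upT] <;> field_simp <;> ring
  have f5 := (f3 ((upT ((l : F) ^ 2 / (1 + l ^ 2)) * w) • α) (ml_iff.2 (by
    rw [mul_smul (upT _), ← mul_smul _ (upT _), e, mul_smul, mul_smul, h1, h1]))).symm.trans (hS f f4 _)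
  have f6 := hB _ (conj_fix.1 f5)
  simp [hw, val_inv, sl2_mul_apply, coe_upT] at f6
  field_simp at f6
  exact l2 (by grind)

theorem sl_frob (hB : ∀ g : SL(2, F), g • α = α → g.1 1 0 = 0) {g : SL(2, F)} (hg : g • α = α) :
    g.1 0 0 ^ 4 = 1 := by
  obtain ⟨l, x, rfl⟩ := eq_slTri (hB g hg)
  by_contra l4
  have l2 : 1 - (l : F) ^ 2 ≠ 0 := fun e => l4 (by simp; grind)
  have l0 := l.ne_zero
  refine l4 (sl_frob0 h hS (α := (upT (x * l / (1 - (l : F) ^ 2)))⁻¹ • α) (fun g hg => ?_) (conj_fix.2 ?_))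
  · have := hB _ (conj_fix.1 hg)
    simpa [upT_inv, sl2_mul_apply, coe_upT] using this
  · rwa [show (upT (x * l / (1 - (l : F) ^ 2)))⁻¹⁻¹ * slTri l 0 * (upT (x * l / (1 - (l : F) ^ 2)))⁻¹ = slTri l x by
      rw [inv_inv, upT_inv]
      apply sl2_ext <;> simp [sl2_mul_apply, coe_upT] <;> field_simp <;> ring]

omit h hS in
theorem sl_top (hU : ∀ c : F, upT c • α = α) {g : SL(2, F)} (hg : g • α = α) (h0 : g.1 1 0 ≠ 0) :
    stabilizer SL(2, F) α = ⊤ := by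
  refine sl2_eq_top_of_upT_loT hU fun t => ?_
  have h1 := sl2_det g
  have h2 : loT t * (upT (-(g.1 0 0 / g.1 1 0)) * g) =
      upT (-(g.1 0 0 / g.1 1 0)) * g * upT (-t / g.1 1 0 ^ 2) := by
    apply sl2_ext <;> simp [sl2_mul_apply, coe_upT, coe_loT] <;> field_simp <;> grind
  have h3 : upT (-(g.1 0 0 / g.1 1 0)) * g ∈ stabilizer SL(2, F) α := mul_mem (hU _) hg
  exact (mul_mem_cancel_right h3).1 (h2 ▸ mul_mem h3 (hU _))

end H8.Bin
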