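import Cfsg.Agent.H8.Bin3
import Cfsg.Agent.H4.GD2

/-! Binary actions of `PSL₂(q)`. -/

set_option autoImplicit false
set_option linter.unusedSectionVars false

namespace H8.Bin

open Subgroup MulAction _root_.Cfsg H4 Matrix
open scoped MatrixGroups

variable {F : Type*} [Field F] [Fintype F] {G : Type*} [Group G] {φ : SL(2, F) →* G}

theorem eq_one_of_sc (t0 : (2 : F) = 0) {g : SL(2, F)} (h : Sc g.1) : g = 1 := by
  rcases sl_sc_iff.1 h with e | e
  · exact e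
  · rw [e]; apply sl2_ext <;> simp <;> grind

theorem trace_three (t0 : (2 : F) = 0) {g : SL(2, F)} (h1 : ¬ Sc g.1) (h : Sc (g * g * g).1) : g.1.trace = 1 := by
  have h2 : (g * g * g).1 = (-g.1.trace) • (1 : M2 F) + (g.1.trace * g.1.trace - 1) • g.1 := by
    rw [val_mul, val_mul, m2_cayley, sub_mul, smul_mul_assoc, m2_cayley, g.2]
    simp only [one_smul, one_mul]
    module
  have h3 := (sc_lin_iff h1).1 (h2 ▸ h)
  exact sub_eq_zero.1 (pow_eq_zero_iff two_ne_zero |>.1 (by linear_combination h3 + (1 - g.1.trace) * t0))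

theorem trace_two_pow (t0 : (2 : F) = 0) (g : SL(2, F)) (k : ℕ) : (g ^ 2 ^ k).1.trace = g.1.trace ^ 2 ^ k := by
  induction k with
  | zero => simp
  | succ k ih => rw [pow_succ, pow_mul, pow_two, trace_sq, ih, t0, sub_zero, pow_mul, pow_two]

theorem exists_ab (t0 : (2 : F) ≠ 0) (h4 : 4 ≤ Fintype.card F) (h5 : Fintype.card F ≠ 5) :
    ∃ a b : F, a ≠ 0 ∧ b ≠ 0 ∧ a * a + b * b = 1 := by
  obtain ⟨x, hx⟩ : IsCyclic Fˣ := inferInstance
  have h1 : (x : F) ^ 4 ≠ 1 := fun h => by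
    have h2 := orderOf_le_of_pow_eq_one (by norm_num : 0 < 4) (Units.ext (by simpa using h) : x ^ 4 = 1)
    rw [orderOf_eq_card_of_forall_mem_zpowers hx, Nat.card_units, Nat.card_eq_fintype_card] at h2
    have := odd_card_of_two_ne_zero t0
    omega
  have h2 : 1 + (x : F) ^ 2 ≠ 0 := fun e => h1 (by grind)
  have h3 : 1 - (x : F) ^ 2 ≠ 0 := fun e => h1 (by grind)
  exact ⟨(1 - x ^ 2) / (1 + x ^ 2), 2 * x / (1 + x ^ 2), div_ne_zero h3 h2, by simp [t0, h2], by field_simp; ring⟩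

variable (hφ : Function.Surjective φ) (hk : ∀ g, φ g = 1 ↔ Sc g.1)
include hk

theorem ord2_of_trace {g : SL(2, F)} (h : g.1.trace = 0) (h1 : ¬ Sc g.1) : orderOf (φ g) = 2 :=
  H6.ord2_of (by rw [← map_mul, sq_of_trace h, hk]; exact sl_sc_iff.2 (Or.inr rfl)) (mt (hk g).1 h1)

theorem comm_cases {a b : SL(2, F)} (h : φ a * φ b = φ b * φ a) : a * b = b * a ∨ a * b = -(b * a) := by
  have := sl_sc_iff.1 ((hk (a * b * (b * a)⁻¹)).1 (by rw [map_mul, map_inv, map_mul, map_mul, h, mul_inv_cancel]))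
  simpa only [mul_inv_eq_iff_eq_mul, one_mul, neg_mul] using this

theorem comm_of_neg {a b : SL(2, F)} (h : a * b = -(b * a)) : φ a * φ b = φ b * φ a := by
  rw [← map_mul, h, ← neg_one_mul, map_mul, (hk _).2 (sl_sc_iff.2 (Or.inr rfl)), one_mul, map_mul]

theorem lift_comm {a b : SL(2, F)} (h : φ a * φ b = φ b * φ a) (ho : Odd (orderOf (φ b))) : a * b = b * a := by
  rcases comm_cases hk h with e | e
  · exact e
  by_cases hb : Sc b.1
  · exact Subtype.ext (hb.comm _).symm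
  by_cases t0 : (2 : F) = 0
  · rw [e, ← neg_one_mul, eq_one_of_sc t0 (sl_sc_iff.2 (Or.inr rfl)), one_mul]
  have h1 := sl_trace_of_isConj (isConj_iff.2 ⟨a, show a * b * a⁻¹ = -b by rw [e, neg_mul, mul_inv_cancel_right]⟩)
  rw [sl_neg_val, trace_neg] at h1
  rw [ord2_of_trace hk (mul_left_cancel₀ t0 (by linear_combination h1)) hb] at ho
  exact absurd ho (by decide)

include hφ

theorem sl_hone (s t : G) (hs : orderOf s = 2) (ht : orderOf t = 2) : IsConj s t := by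
  have key : ∀ g, orderOf (φ g) = 2 → ¬ Sc g.1 ∧ g.1.trace = 0 := fun g hg =>
    have h1 := mt (hk g).2 (H6.ord2_ne_one hg)
    ⟨h1, trace_of_sc_sq h1 ((hk _).1 (by rw [map_mul, H6.ord2_mul_self hg]))⟩
  obtain ⟨s, rfl⟩ := hφ s
  obtain ⟨t, rfl⟩ := hφ t
  refine φ.map_isConj (sl_isConj_of (key s hs).1 (key t ht).1 ((key s hs).2.trans (key t ht).2.symm) ?_)
  rw [(key s hs).2, or_iff_not_imp_right]
  exact fun t0 e => t0 (pow_eq_zero_iff two_ne_zero |>.1 (by linear_combination -e))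

theorem sl_syl (t0 : (2 : F) = 0) (P : Sylow 2 G) : (∀ x ∈ P, x * x = 1) ∧ ZP P = P := by
  have h1 : ∀ x ∈ P, x * x = 1 := fun x hx => by
    obtain ⟨g, rfl⟩ := hφ x
    obtain ⟨k, e⟩ := H6.IsPGroup_pow_eq_one P.isPGroup' hx
    have h2 := trace_two_pow t0 g k
    rw [eq_one_of_sc t0 ((hk _).1 ((map_pow _ _ _).trans e))] at h2
    rw [← map_mul, sq_of_trace (pow_eq_zero_iff (pow_ne_zero k two_ne_zero) |>.1 (by simpa [t0] using h2.symm)), hk]
    exact sl_sc_iff.2 (Or.inr rfl)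
  exact ⟨h1, le_antisymm (fun x hx => (mem_ZP.1 hx).1) fun x hx => mem_ZP.2 ⟨hx, fun y hy =>
    H6.commute_of_mul_sq (h1 y hy) (h1 x hx) (h1 _ (P.mul_mem hy hx))⟩⟩

theorem sl_om (t0 : (2 : F) = 0) : Om G := fun P x hx => by
  rw [(sl_syl hφ hk t0 P).2]
  exact iff_of_true ((sl_syl hφ hk t0 P).1 x hx) hx

theorem sl_bin_syl (t0 : (2 : F) = 0) (P : Sylow 2 G) : Bin G (G ⧸ (P : Subgroup G)) := by
  have := Finite.of_surjective φ hφ
  rw [← (sl_syl hφ hk t0 P).2]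
  refine bin_ZP (sl_om hφ hk t0) (fun s t u hs _ _ h1 h2 => ?_) P
  obtain ⟨s, rfl⟩ := hφ s
  obtain ⟨t, rfl⟩ := hφ t
  obtain ⟨u, rfl⟩ := hφ u
  have key : ∀ a b, φ a * φ b = φ b * φ a → a.1 * b.1 = b.1 * a.1 := fun a b h => congrArg Subtype.val
    ((comm_cases hk h).elim id fun e => by
      rw [e, ← neg_one_mul, eq_one_of_sc t0 (sl_sc_iff.2 (Or.inr rfl)), one_mul])
  have := comm_of_comm (mt (hk s).2 (H6.ord2_ne_one hs)) (key _ _ h1) (key _ _ h2)
  exact (Commute.map (show Commute t u from Subtype.ext this) φ)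

theorem sl_bin_three (t0 : (2 : F) = 0) (hω : ∀ ω : F, ω * ω + ω + 1 ≠ 0) {H : Subgroup G} (h3 : Nat.card H = 3) :
    Bin G (G ⧸ H) := by
  have := Finite.of_surjective φ hφ
  have := Fact.mk Nat.prime_three
  have st : ∀ x : G ⧸ H, Nat.card (stabilizer G x) = 3 := fun x => by
    obtain ⟨g, rfl⟩ := QuotientGroup.mk_surjective x
    rw [← h3, ← H6.card_map_conj H g]
    congr 2
    ext k
    rw [mem_stabilizer_iff, smul_mk_iff, H6.mem_map_conj]
  have h1 : ∀ (x y : G ⧸ H) (g : G), g ≠ 1 → g • x = x → g • y = y → ∀ k : G, k • x = x → k • y = y := by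
    intro x y g g1 hx hy k hk
    obtain ⟨n, hn⟩ := mem_zpowers_of_prime_card (st x) (g := ⟨g, hx⟩) (g' := ⟨k, hk⟩) fun e => g1 (congrArg Subtype.val e)
    rw [← show g ^ n = k from congrArg Subtype.val hn]
    exact (stabilizer G y).zpow_mem hy n
  have tr : ∀ (x : G ⧸ H) (g : SL(2, F)), φ g ≠ 1 → φ g • x = x → g.1.trace = 1 := fun x g g1 hx =>
    trace_three t0 (mt (hk g).2 g1) ((hk _).1 (by
      have := congrArg Subtype.val (pow_card_eq_one' (x := (⟨φ g, hx⟩ : stabilizer G x)))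
      rw [st] at this
      rw [map_mul, map_mul, ← pow_three']
      exact this))
  refine bin_of_ti h1 fun x y z a b a1 b1 hab hx hy hz => h1 x y a a1 hx ?_
  obtain ⟨a, rfl⟩ := hφ a
  obtain ⟨b, rfl⟩ := hφ b
  have := three_eq t0 hω ((sl_trace_inv a).trans (tr x a a1 hx)) (tr y b b1 hy) (tr z _ (by
    rwa [map_mul, map_inv, Ne, inv_mul_eq_one]) (by rw [map_mul, map_inv]; exact ml_iff.1 hz))
  rwa [this, map_inv, inv_smul_eq_iff, eq_comm] at hy

theorem sl_even_odd [IsSimpleGroup G] (t0 : (2 : F) ≠ 0) (h4 : 4 ≤ Fintype.card F) (h5 : Fintype.card F ≠ 5)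
    {H : Subgroup G} (hH : H ≠ ⊤) (h : ML G (G ⧸ H)) : Odd (Nat.card H) := by
  have := Finite.of_surjective φ hφ
  have := nontrivial_quot hH
  rw [← Nat.not_even_iff_odd]
  intro he
  obtain ⟨s, hs, s2⟩ := H6.exists_ord2_mem_of_even he
  obtain ⟨c, d, e⟩ := exists_norm_eq (t := (0 : F)) (d := 1) (Or.inl fun e => t0 (pow_eq_zero_iff two_ne_zero |>.1
    (by linear_combination -e))) (-1)
  obtain ⟨a, b, a0, b0, e'⟩ := exists_ab t0 h4 h5
  obtain ⟨w, hw⟩ : ∃ w : SL(2, F), w.1 = !![0, 1; -1, 0] := ⟨mk2 _ _ _ _ (by simp), rfl⟩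
  have key : ∀ c d : F, c * c + d * d = -1 → ∃ R : SL(2, F), R.1 = !![c, d; d, -c] ∧ orderOf (φ R) = 2 ∧
      Commute (φ w) (φ R) := fun c d e => by
    refine ⟨mk2 c d d (-c) (by linear_combination -e), rfl, ord2_of_trace hk (by simp [coe_mk2]) fun hs => ?_,
      comm_of_neg hk (by apply sl2_ext <;> simp [sl_neg_val, sl2_mul_apply, coe_mk2, hw])⟩
    simp [Sc, coe_mk2] at hs
    have : c = 0 := mul_left_cancel₀ t0 (by linear_combination hs.2)
    simp [this, hs.1] at e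
  obtain ⟨R, h1, h2, h3⟩ := key c d (by linear_combination e)
  obtain ⟨R', h1', h2', h3'⟩ := key (a * c + b * d) (a * d - b * c) (by linear_combination (a * a + b * b) * e - e')
  have w2 := ord2_of_trace hk (g := w) (by simp [hw]) (by simp [Sc, hw])
  obtain ⟨k, hk'⟩ := isConj_iff.1 (sl_hone hφ hk _ _ s2 w2)
  rcases comm_cases hk (comm_trans h (sl_hone hφ hk) w2 (x := (k : G ⧸ H))
    (smul_mk_iff.2 (by simpa [← hk', mul_assoc] using hs)) h2 h2' h3 h3') with e1 | e1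
  · have := congrArg (fun x : SL(2, F) => x.1 0 1) e1
    simp [sl2_mul_apply, h1, h1'] at this
    exact b0 (mul_left_cancel₀ t0 (by linear_combination this + 2 * b * e))
  · have := congrArg (fun x : SL(2, F) => x.1 0 0) e1
    simp [sl_neg_val, sl2_mul_apply, h1, h1'] at this
    exact a0 (mul_left_cancel₀ t0 (by linear_combination -this + 2 * a * e))

theorem sl_even_even (t0 : (2 : F) = 0) {H : Subgroup G} (hH : H ≠ ⊤) (h : ML G (G ⧸ H))
    (he : Even (Nat.card H)) : ∃ P : Sylow 2 G, H = P := by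
  have := Finite.of_surjective φ hφ
  letI : MulAction SL(2, F) (G ⧸ H) := MulAction.compHom _ φ
  have e : ∀ (g : SL(2, F)) (x : G ⧸ H), g • x = φ g • x := fun _ _ => rfl
  have hS : ∀ g : SL(2, F), Sc g.1 → ∀ x : G ⧸ H, g • x = x := fun g hg x => by rw [e, (hk g).2 hg, one_smul]
  suffices h1 : ∀ x ∈ H, x * x = 1 by
    obtain ⟨P, hP⟩ := eq_ZP (sl_om hφ hk t0) h (sl_hone hφ hk) he h1
    exact ⟨P, hP.trans (sl_syl hφ hk t0 P).2⟩
  obtain ⟨s, hs, s2⟩ := H6.exists_ord2_mem_of_even he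
  have u2 := ord2_of_trace hk (g := upT (1 : F)) (by simp [coe_upT]; grind) (by simp [Sc, coe_upT])
  obtain ⟨k, hk'⟩ := isConj_iff.1 (sl_hone hφ hk _ _ s2 u2)
  have sq : ∀ c : F, upT c * upT c = 1 := fun c => by rw [← upT_add, ← two_mul, t0, zero_mul, upT_zero]
  have hU : ∀ c : F, upT c • (k : G ⧸ H) = k := fun c => fix_of_comm h (sl_hone hφ hk) u2
    (by rw [← map_mul, sq, map_one]) (Commute.map (by rw [Commute, SemiconjBy, ← upT_add, ← upT_add, add_comm]) φ)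
    (smul_mk_iff.2 (by simpa [← hk', mul_assoc] using hs))
  have hB : ∀ g : SL(2, F), g • (k : G ⧸ H) = k → g.1 1 0 = 0 := fun g hg => by
    by_contra h0
    refine hH (eq_top_iff.2 fun x _ => ?_)
    obtain ⟨y, hy⟩ := hφ (k * x * k⁻¹)
    simpa [hy, mul_assoc] using smul_mk_iff.1 ((sl_top hU hg h0).ge (mem_top y))
  intro x hx
  obtain ⟨y, hy⟩ := hφ (k * x * k⁻¹)
  have h1 : y • (k : G ⧸ H) = k := smul_mk_iff.2 (by simpa [hy, mul_assoc] using hx)
  have h2 := sl_frob (h.comp hφ e) hS hB h1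
  obtain ⟨l, c, rfl⟩ := eq_slTri (hB y h1)
  obtain rfl : l = 1 := Units.ext (sub_eq_zero.1 (pow_eq_zero_iff (n := 4) (by norm_num) |>.1 (by
    simp at h2 ⊢; grind)))
  have h3 := congrArg φ (sq c)
  rw [map_mul, ← slTri_one, hy, map_one] at h3
  simpa using h3

theorem sl_odd {H : Subgroup G} (h1 : H ≠ ⊥) (h : ML G (G ⧸ H)) (ho : Odd (Nat.card H)) :
    (2 : F) = 0 ∧ (∀ ω : F, ω * ω + ω + 1 ≠ 0) ∧ Nat.card H = 3 := by
  have := Finite.of_surjective φ hφ
  letI : MulAction SL(2, F) (G ⧸ H) := MulAction.compHom _ φ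
  have e : ∀ (g : SL(2, F)) (x : G ⧸ H), g • x = φ g • x := fun _ _ => rfl
  have hS : ∀ g : SL(2, F), Sc g.1 → ∀ x : G ⧸ H, g • x = x := fun g hg x => by rw [e, (hk g).2 hg, one_smul]
  replace h := h.comp hφ e
  have st : ∀ g : SL(2, F), g • ((1 : G) : G ⧸ H) = (1 : G) ↔ φ g ∈ H := fun g => smul_one_iff
  have ho' := fun x (hx : x ∈ H) => H6.odd_orderOf_of_odd_card ho hx
  have tr : ∀ g, φ g ∈ H → g.1.trace = 0 → Sc g.1 := fun g hg ht => by_contra fun hs =>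
    absurd (ord2_of_trace hk ht hs ▸ ho' _ hg) (by decide)
  obtain ⟨A, hA, hA1, hN, hc⟩ := H16.GD.exists_comm_char (H17.odd_solvable ho) h1
  obtain ⟨⟨x, hx⟩, x1⟩ := ne_bot_iff_exists_ne_one.1 hA1
  obtain ⟨g, rfl⟩ := hφ x
  have g1 : ¬ Sc g.1 := fun hs => x1 (Subtype.ext ((hk g).2 hs))
  have cm : ∀ a, φ a ∈ H → a * g * a⁻¹ * g = g * (a * g * a⁻¹) := fun a ha => lift_comm hk (congrArg Subtype.val
    (hc.1.1 ⟨_, by simpa using (mem_normalizer_iff.1 (hN (le_normalizer ha)) _).1 hx⟩ ⟨_, hx⟩)) (ho' _ (hA hx))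
  by_cases hd : g.1.trace * g.1.trace - 4 = 0
  · exfalso
    have t0 : (2 : F) ≠ 0 := fun t0 => g1 (tr g (hA hx) (by grind))
    obtain ⟨u, hu, hu'⟩ : ∃ u : SL(2, F), (u = g ∨ u = -g) ∧ Un u.1 1 := by
      rcases mul_self_eq_mul_self_iff.1 (show g.1.trace * g.1.trace = 2 * 2 by grind) with e | e
      · exact ⟨g, Or.inl rfl, g1, by rw [e]; norm_num, by simp⟩
      · refine ⟨-g, Or.inr rfl, fun hs => g1 ?_, by rw [sl_neg_val, trace_neg, e]; norm_num, by rw [(-g).2, one_mul]⟩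
        simpa [Sc, sl_neg_val] using hs
    obtain ⟨c, c0, hc⟩ := hu'.exists_isConj_upT
    obtain ⟨k, hk'⟩ := isConj_iff.1 hc
    have h2 : ∀ a, φ a ∈ H → a * u * a⁻¹ * u = u * (a * u * a⁻¹) := fun a ha => by
      rcases hu with rfl | rfl
      · exact cm a ha
      · simpa using cm a ha
    have hB : ∀ a : SL(2, F), a • k • ((1 : G) : G ⧸ H) = k • ((1 : G) : G ⧸ H) → a.1 1 0 = 0 := fun a ha => by
      have h3 : a * upT c * a⁻¹ * upT c = upT c * (a * upT c * a⁻¹) := by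
        rw [← hk']
        calc _ = k * (k⁻¹ * a * k * u * (k⁻¹ * a * k)⁻¹ * u) * k⁻¹ := by group
          _ = _ := by rw [h2 _ ((st _).1 (conj_fix.1 ha))]; group
      have := congrArg (fun x : SL(2, F) => x.1 0 0) h3
      simp [sl2_mul_apply, adjugate_fin_two, coe_upT, c0] at this
      exact pow_eq_zero_iff two_ne_zero |>.1 (mul_left_cancel₀ c0 (by linear_combination -this))
    have h3 : ∀ a : SL(2, F), a • k • ((1 : G) : G ⧸ H) = k • ((1 : G) : G ⧸ H) →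
        a.1 1 0 = 0 ∧ a.1 0 0 = a.1 1 1 := fun a ha => by
      refine ⟨hB a ha, ?_⟩
      have h4 := sl_frob h hS hB ha
      have h5 := sl2_det a
      rw [hB a ha] at h5
      by_contra h6
      have h7 := tr _ ((st _).1 (conj_fix.1 ha)) (by
        rw [← sl_trace_of_isConj (g := a) (isConj_iff.2 ⟨k⁻¹, by rw [inv_inv]⟩), trace_fin_two]
        grind)
      exact h6 ((sl_sc_iff_of_isConj (g := a) (isConj_iff.2 ⟨k⁻¹, by rw [inv_inv]⟩)).2 h7).2.2
    refine c0 (sl_unip h hS t0 (α := k • ((1 : G) : G ⧸ H)) (fun a b ha hb => ?_) ?_)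
    · apply sl2_ext <;> simp [sl2_mul_apply, h3 a ha, h3 b hb] <;> ring
    · rw [← hk', mul_smul, mul_smul, inv_smul_smul]
      rcases hu with rfl | rfl
      · rw [(st _).2 (hA hx)]
      · rw [← neg_one_mul, mul_smul, (st _).2 (hA hx), hS _ (sl_sc_iff.2 (Or.inr rfl))]
  have h2 : ∀ a, φ a ∈ H → g * a = a * g := fun a ha => by
    rcases sl_eq_or_inv_of_comm (congrArg Subtype.val (cm a ha).symm) hd
      (sl_trace_of_isConj (isConj_iff.2 ⟨a, rfl⟩)) with e1 | e1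
    · exact (mul_inv_eq_iff_eq_mul.1 e1).symm
    · obtain ⟨m, hm⟩ := H6.exists_sq_pow_of_odd (ho' _ ha)
      have h3 : Commute g (a * a) := by
        calc g * (a * a) = (a * (a * g * a⁻¹)⁻¹ * a⁻¹)⁻¹ * (a * a) := by rw [e1, inv_inv, e1, inv_inv]
          _ = _ := by simp [mul_assoc]
      refine lift_comm hk ?_ (ho' _ ha)
      rw [← hm, ← (Commute.refl _).mul_pow, ← map_mul]
      exact (h3.map φ).pow_right m
  have hab : ∀ a b : SL(2, F), a • ((1 : G) : G ⧸ H) = (1 : G) → b • ((1 : G) : G ⧸ H) = (1 : G) → a * b = b * a :=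
    fun a b ha hb => Subtype.ext (comm_of_comm g1 (congrArg Subtype.val (h2 a ((st a).1 ha)))
      (congrArg Subtype.val (h2 b ((st b).1 hb))))
  have hg := (st g).2 (hA hx)
  have t0 : (2 : F) = 0 := by
    have e1 := sl_ab h hS hab hg hd (Or.inl rfl)
    have e2 := sl_ab h hS hab hg hd (Or.inr rfl)
    by_contra t0
    exact g1 (tr g (hA hx) (mul_left_cancel₀ t0 (by linear_combination e1 - e2)))
  have h3 : ∀ a, φ a ∈ H → ¬ Sc a.1 → a.1.trace = 1 := fun a ha a1 => by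
    have h4 := mt (tr a ha) a1
    have e1 := sl_ab h hS hab ((st a).2 ha) (fun e => h4 (by grind)) (Or.inl rfl)
    exact mul_left_cancel₀ h4 (by linear_combination -e1 + t0)
  refine ⟨t0, sl_a4 h hS t0 hab hg (h3 g (hA hx) g1), ?_⟩
  have h4 : (H : Set G) = {1, φ g, φ g⁻¹} := by
    refine Set.Subset.antisymm (fun x hx' => ?_) ?_
    · obtain ⟨a, rfl⟩ := hφ x
      by_cases a1 : Sc a.1
      · exact Or.inl ((hk a).2 a1)
      · exact Or.inr ((sl_eq_or_inv_of_comm (congrArg Subtype.val (h2 a hx')) hd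
          ((h3 g (hA hx) g1).trans (h3 a hx' a1).symm)).imp (congrArg φ) (congrArg φ))
    · rintro _ (rfl | rfl | rfl)
      exacts [H.one_mem, hA hx, map_inv φ g ▸ H.inv_mem (hA hx)]
  have h5 : φ g ≠ 1 := mt (hk g).1 g1
  change Nat.card (H : Set G) = 3
  rw [h4, Nat.card_coe_set_eq, Set.ncard_eq_three]
  refine ⟨_, _, _, h5.symm, by simpa using h5, fun e => h5 ?_, rfl⟩
  exact H6.eq_one_of_odd_of_sq (ho' _ (hA hx)) (by nth_rw 1 [e]; rw [map_inv, inv_mul_cancel])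

theorem sl_main [IsSimpleGroup G] (h4 : 4 ≤ Fintype.card F) (h5 : Fintype.card F ≠ 5) (H : Subgroup G)
    (hH : H ≠ ⊤) : Bin G (G ⧸ H) ↔ H = ⊥ ∨ ((2 : F) = 0 ∧ ∃ P : Sylow 2 G, H = P) ∨
      ((2 : F) = 0 ∧ (∀ ω : F, ω * ω + ω + 1 ≠ 0) ∧ Nat.card H = 3) := by
  have := Finite.of_surjective φ hφ
  constructor
  · intro hb
    rcases Nat.even_or_odd (Nat.card H) with he | ho
    · have t0 : (2 : F) = 0 := by_contra fun t0 => Nat.not_even_iff_odd.2 (sl_even_odd hφ hk t0 h4 h5 hH hb.ml) he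
      exact Or.inr (Or.inl ⟨t0, sl_even_even hφ hk t0 hH hb.ml he⟩)
    · exact or_iff_not_imp_left.2 fun h1 => Or.inr (sl_odd hφ hk h1 hb.ml ho)
  · rintro (rfl | ⟨t0, P, rfl⟩ | ⟨t0, h1, h2⟩)
    exacts [bin_bot, sl_bin_syl hφ hk t0 P, sl_bin_three hφ hk t0 h1 h2]

omit hφ hk in
theorem mk_eq_one (g : SL(2, F)) : QuotientGroup.mk' (center SL(2, F)) g = 1 ↔ Sc g.1 :=
  (QuotientGroup.eq_one_iff g).trans sl_mem_center_iff

end H8.Bin
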