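import Cfsg.Agent.H8.Bin2
import Cfsg.Agent.H17.Sz14

/-! The unitary group `SU₃(q)`, `q` even, in a hyperbolic basis. -/

set_option autoImplicit false
set_option linter.unusedSectionVars false

namespace H8.Bin

open Subgroup MulAction _root_.Cfsg Matrix
open scoped MatrixGroups

attribute [-simp] H23.conj_apply
attribute [local simp] H23.conj_conj

variable {E : Type*} [Field E] [Fintype E] [CharP E 2] {q : ℕ} {hE : Fintype.card E = q ^ 2}

set_option quotPrecheck false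
local notation "σ" => H23.conj hE

/-- the form -/
def Jf (hE : Fintype.card E = q ^ 2) (u v : Fin 3 → E) : E :=
  u 0 * H23.conj hE (v 2) + u 1 * H23.conj hE (v 1) + u 2 * H23.conj hE (v 0)

/-- the group -/
def SUh (hE : Fintype.card E = q ^ 2) : Subgroup SL(3, E) := preserving (slToMat 3 E) (Jf hE)

theorem smul_vec {S : Subgroup SL(3, E)} (g : S) (x y z : E) : g • ![x, y, z] =
    ![g.1.1 0 0 * x + g.1.1 0 1 * y + g.1.1 0 2 * z, g.1.1 1 0 * x + g.1.1 1 1 * y + g.1.1 1 2 * z,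
      g.1.1 2 0 * x + g.1.1 2 1 * y + g.1.1 2 2 * z] := by
  change g.1.1 *ᵥ _ = _
  ext i
  fin_cases i <;> simp [mulVec, dotProduct, Fin.sum_univ_three]

theorem vec_eta (v : Fin 3 → E) : ∃ x y z, v = ![x, y, z] := ⟨v 0, v 1, v 2, by ext i; fin_cases i <;> rfl⟩

theorem mul_ent {S : Subgroup SL(3, E)} (g h : S) (i j : Fin 3) :
    (g * h).1.1 i j = g.1.1 i 0 * h.1.1 0 j + g.1.1 i 1 * h.1.1 1 j + g.1.1 i 2 * h.1.1 2 j := by
  change (g.1.1 * h.1.1) i j = _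
  rw [Matrix.mul_apply, Fin.sum_univ_three]

theorem one_ent {S : Subgroup SL(3, E)} (i j : Fin 3) : (1 : S).1.1 i j = (1 : Matrix (Fin 3) (Fin 3) E) i j := rfl

theorem ext3 {S : Subgroup SL(3, E)} {g h : S} (e : ∀ i j, g.1.1 i j = h.1.1 i j) : g = h :=
  Subtype.ext (Subtype.ext (Matrix.ext e))

theorem det3 {S : Subgroup SL(3, E)} (g : S) : g.1.1 0 0 * g.1.1 1 1 * g.1.1 2 2 - g.1.1 0 0 * g.1.1 1 2 * g.1.1 2 1 -
    g.1.1 0 1 * g.1.1 1 0 * g.1.1 2 2 + g.1.1 0 1 * g.1.1 1 2 * g.1.1 2 0 + g.1.1 0 2 * g.1.1 1 0 * g.1.1 2 1 -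
    g.1.1 0 2 * g.1.1 1 1 * g.1.1 2 0 = 1 := (det_fin_three _).symm.trans g.1.2

theorem Jf_smul (g : SUh hE) (u v : Fin 3 → E) : Jf hE (g • u) (g • v) = Jf hE u v := g.2 u v

theorem ne_of_smul {S : Subgroup SL(3, E)} {g : S} {v w : Fin 3 → E} (hv : v ≠ 0) {l : E} (h : g • v = l • w) :
    l ≠ 0 := by
  rintro rfl
  rw [zero_smul, ← smul_zero g] at h
  exact hv (MulAction.injective g h)

/-- constructor -/
def mkH (A : Matrix (Fin 3) (Fin 3) E) (hd : A.det = 1)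
    (hJ : ∀ a b c x y z, Jf hE (A *ᵥ ![a, b, c]) (A *ᵥ ![x, y, z]) = a * σ z + b * σ y + c * σ x) : SUh hE :=
  ⟨⟨A, hd⟩, fun (u v : Fin 3 → E) => show Jf hE (A *ᵥ u) (A *ᵥ v) = Jf hE u v from by
    obtain ⟨a, b, c, rfl⟩ := vec_eta u
    obtain ⟨x, y, z, rfl⟩ := vec_eta v
    exact hJ a b c x y z⟩

/-- unipotent elements -/
def uu (a c : E) (h : c + σ c = a * σ a) : SUh hE := mkH !![1, σ a, c; 0, 1, a; 0, 0, 1] (by simp [det_fin_three])
  fun x y z x' y' z' => by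
    have t0 : (2 : E) = 0 := CharTwo.two_eq_zero
    simp [Jf, mulVec, dotProduct, Fin.sum_univ_three]
    grind

/-- diagonal elements -/
def dd (hE : Fintype.card E = q ^ 2) (l : Eˣ) : SUh hE :=
  mkH !![(l : E), 0, 0; 0, H23.conj hE l / l, 0; 0, 0, (H23.conj hE l)⁻¹]
  (by simp [det_fin_three]; field_simp) fun x y z x' y' z' => by
    have : H23.conj hE l ≠ 0 := by simp
    simp [Jf, mulVec, dotProduct, Fin.sum_univ_three]
    field_simp

/-- the subgroup `SL₂(q)` -/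
def ll (a b c d : E) (ha : σ a = a) (hb : σ b = b) (hc : σ c = c) (hd : σ d = d) (h : a * d + b * c = 1) : SUh hE :=
  mkH !![a, 0, b; 0, 1, 0; c, 0, d] (by
    have t0 : (2 : E) = 0 := CharTwo.two_eq_zero
    simp [det_fin_three]; grind) fun x y z x' y' z' => by
    have t0 : (2 : E) = 0 := CharTwo.two_eq_zero
    simp [Jf, mulVec, dotProduct, Fin.sum_univ_three, ha, hb, hc, hd]
    grind

/-- the involution -/
def tt (hE : Fintype.card E = q ^ 2) : SUh hE := ll 0 1 1 0 (by simp) (by simp) (by simp) (by simp) (by simp)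

/-- central unipotent elements -/
def zz (b : E) (h : σ b = b) : SUh hE := uu 0 b (by simp [h, CharTwo.add_self_eq_zero])

theorem val_uu (a c : E) (h : c + σ c = a * σ a) : (uu a c h).1.1 = !![1, σ a, c; 0, 1, a; 0, 0, 1] := rfl
theorem val_dd (l : Eˣ) : (dd hE l).1.1 = !![(l : E), 0, 0; 0, σ l / l, 0; 0, 0, (σ l)⁻¹] := rfl
theorem val_ll (a b c d : E) (ha : σ a = a) (hb : σ b = b) (hc : σ c = c) (hd : σ d = d) (h : a * d + b * c = 1) :
    (ll a b c d ha hb hc hd h).1.1 = !![a, 0, b; 0, 1, 0; c, 0, d] := rfl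
theorem val_tt : (tt hE).1.1 = !![0, 0, 1; 0, 1, 0; 1, 0, 0] := rfl
theorem val_zz (b : E) (h : σ b = b) : (zz b h).1.1 = !![1, 0, b; 0, 1, 0; 0, 0, 1] := by simp [zz, val_uu]

theorem uu_smul (a c : E) (h : c + σ c = a * σ a) (x y z : E) :
    uu a c h • ![x, y, z] = ![x + σ a * y + c * z, y + a * z, z] := by simp [smul_vec, val_uu]

theorem dd_smul (l : Eˣ) (x y z : E) : dd hE l • ![x, y, z] = ![l * x, σ l / l * y, (σ l)⁻¹ * z] := by
  simp [smul_vec, val_dd]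

theorem tt_smul (x y z : E) : tt hE • ![x, y, z] = ![z, y, x] := by simp [smul_vec, val_tt]

theorem tt_tt : tt hE * tt hE = 1 := ext3 fun i j => by
  fin_cases i <;> fin_cases j <;> simp [mul_ent, one_ent, val_tt]

theorem tt_inv : (tt hE)⁻¹ = tt hE := inv_eq_of_mul_eq_one_right tt_tt

theorem dd_mul (l m : Eˣ) : dd hE (l * m) = dd hE l * dd hE m := ext3 fun i j => by
  fin_cases i <;> fin_cases j <;> simp [mul_ent, val_dd] <;> field_simp

theorem dd_one : dd hE 1 = 1 := ext3 fun i j => by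
  fin_cases i <;> fin_cases j <;> simp [one_ent, val_dd]

theorem dd_inv (l : Eˣ) : (dd hE l)⁻¹ = dd hE l⁻¹ :=
  inv_eq_of_mul_eq_one_right (by rw [← dd_mul, mul_inv_cancel, dd_one])

theorem dd_pow (l : Eˣ) (n : ℕ) : dd hE l ^ n = dd hE (l ^ n) := by
  induction n with
  | zero => simp [dd_one]
  | succ n ih => rw [pow_succ, ih, pow_succ, dd_mul]

theorem zz_comm (b : E) (hb : σ b = b) (a c : E) (h : c + σ c = a * σ a) : zz b hb * uu a c h = uu a c h * zz b hb :=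
  ext3 fun i j => by fin_cases i <;> fin_cases j <;> simp [mul_ent, val_zz, val_uu, add_comm]

theorem stab_e {g : SUh hE} (h : g • ![(1 : E), 0, 0] = ![1, 0, 0]) : ∃ a c h, g = uu a c h := by
  have t0 : (2 : E) = 0 := CharTwo.two_eq_zero
  have h1 := Jf_smul g ![1, 0, 0] ![0, 1, 0]
  have h2 := Jf_smul g ![1, 0, 0] ![0, 0, 1]
  have h3 := Jf_smul g ![0, 1, 0] ![0, 0, 1]
  have h4 := Jf_smul g ![0, 0, 1] ![0, 0, 1]
  have h5 := det3 g
  rw [h] at h1 h2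
  simp [smul_vec, Jf] at h h1 h2 h3 h4
  have h6 : g.1.1 2 2 = 1 := by simpa using congrArg σ h2
  have h7 : g.1.1 1 1 = 1 := by simpa [h, h1, h6] using h5
  simp [h1, h6, h7] at h3 h4
  refine ⟨g.1.1 1 2, g.1.1 0 2, by grind, ext3 fun i j => ?_⟩
  fin_cases i <;> fin_cases j <;> simp [val_uu, h, h1, h6, h7]
  grind

theorem borel {g : SUh hE} {l : E} (h : g • ![(1 : E), 0, 0] = l • ![1, 0, 0]) :
    ∃ m : Eˣ, (m : E) = l ∧ ∃ a c h, g = uu a c h * dd hE m := by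
  have l0 := ne_of_smul (by simp) h
  obtain ⟨a, c, h1, h2⟩ := stab_e (g := g * dd hE (Units.mk0 l l0)⁻¹) (by
    have : dd hE (Units.mk0 l l0)⁻¹ • ![(1 : E), 0, 0] = l⁻¹ • ![1, 0, 0] := by simp [dd_smul]
    rw [mul_smul, this, smul_comm, h, inv_smul_smul₀ l0])
  exact ⟨Units.mk0 l l0, rfl, a, c, h1, by rw [← h2, ← dd_inv, inv_mul_cancel_right]⟩

theorem three_pts {g : SUh hE} {l1 l2 l3 a c : E} (h1 : g • ![(1 : E), 0, 0] = l1 • ![1, 0, 0])
    (h2 : g • ![(0 : E), 0, 1] = l2 • ![0, 0, 1]) (h3 : g • ![c, a, 1] = l3 • ![c, a, 1]) (ha : a ≠ 0) (hc : c ≠ 0) :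
    ∃ l : E, ∀ v : Fin 3 → E, g • v = l • v := by
  obtain ⟨m, rfl, a', c', h, rfl⟩ := borel h1
  simp [mul_smul, uu_smul, dd_smul] at h2 h3
  refine ⟨l3, fun v => ?_⟩
  obtain ⟨x, y, z, rfl⟩ := vec_eta v
  simp [h2.1, h2.2.1, ha, hc] at h3
  simp [mul_smul, uu_smul, dd_smul, h2.1, h2.2.1, h3.2.2, h3.2.1]
  exact Or.inl h3.1

theorem exists_uu (a : E) : ∃ c, c + σ c = a * σ a := by
  have := H23.card_trace_eq hE (μ := a * σ a) (by rw [← H23.conj_apply hE]; simp [mul_comm])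
  obtain ⟨s, hs⟩ := (Nat.card_ne_zero.1 (this ▸ (H23.two_le_of_card_eq_sq hE).trans_lt' two_pos |>.ne')).1
  exact ⟨s, hs⟩

theorem conj1 {g : SUh hE} {l : Eˣ} (h : g • ![(1 : E), 0, 0] = (l : E) • ![1, 0, 0]) (hl : σ l ^ 2 ≠ l) :
    ∃ a c h b hb, (uu a c h)⁻¹ * g * uu a c h = zz b hb * dd hE l := by
  have t0 : (2 : E) = 0 := CharTwo.two_eq_zero
  obtain ⟨m, hm, a, c, h1, rfl⟩ := borel h
  obtain rfl : m = l := Units.ext hm
  have h2 : (m : E) + σ m ^ 2 ≠ 0 := fun e => hl (by grind)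
  obtain ⟨c', h3⟩ := exists_uu (hE := hE) (a * m / (m + σ m ^ 2))
  obtain ⟨m', hm', a2, c2, h4, e⟩ := borel (g := (uu _ c' h3)⁻¹ * (uu a c h1 * dd hE m) * uu _ c' h3) (l := m) (by
    rw [mul_smul, mul_smul, inv_smul_eq_iff]
    simp [mul_smul, uu_smul, dd_smul])
  obtain rfl : m' = m := Units.ext hm'
  obtain rfl : a2 = 0 := by
    rw [mul_assoc, inv_mul_eq_iff_eq_mul] at e
    have := congrArg (fun x : SUh hE => x.1.1 1 2) e
    have h5 : σ m' ≠ 0 := by simp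
    simp [mul_ent, val_uu, val_dd] at this
    field_simp at this
    exact mul_left_cancel₀ h2 (by grind)
  exact ⟨_, c', h3, c2, by simp at h4; grind, e⟩

theorem conj2 {g : SUh hE} {l : Eˣ} (h : g • ![(1 : E), 0, 0] = (l : E) • ![1, 0, 0]) (hl : σ l ^ 2 ≠ l)
    (hl' : l * σ l ≠ 1) : ∃ v : SUh hE, v • ![(1 : E), 0, 0] = ![1, 0, 0] ∧ v⁻¹ * g * v = dd hE l := by
  have t0 : (2 : E) = 0 := CharTwo.two_eq_zero
  obtain ⟨a, c, h1, b, hb, e⟩ := conj1 h hl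
  have h2 : 1 + l * σ l ≠ 0 := fun e => hl' (by grind)
  have h3 : σ (b / (1 + l * σ l)) = b / (1 + l * σ l) := by simp [hb, mul_comm]
  refine ⟨uu a c h1 * zz _ h3, by simp [mul_smul, zz, uu_smul], ?_⟩
  have h5 : σ l ≠ 0 := by simp
  have : zz b hb * dd hE l * zz _ h3 = zz _ h3 * dd hE l := ext3 fun i j => by
    fin_cases i <;> fin_cases j <;> simp [mul_ent, val_zz, val_dd]
    field_simp
    grind
  calc _ = (zz _ h3)⁻¹ * ((uu a c h1)⁻¹ * g * uu a c h1 * zz _ h3) := by group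
    _ = _ := by rw [e, this, inv_mul_cancel_left]

theorem iso_trans {x y z : E} (h : x * σ z + y * σ y + z * σ x = 0) (hz : z ≠ 0) :
    ∃ a c h, ![x, y, z] = z • (uu a c h * tt hE) • ![(1 : E), 0, 0] := by
  have t0 : (2 : E) = 0 := CharTwo.two_eq_zero
  have : σ z ≠ 0 := by simpa
  refine ⟨y / z, x / z, by simp; field_simp; grind, ?_⟩
  simp [mul_smul, tt_smul, uu_smul]
  constructor <;> field_simp

theorem stab_x {g : SUh hE} (h : g • ![(0 : E), 1, 0] = ![0, 1, 0]) :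
    ∃ a b c d ha hb hc hd h, g = ll a b c d ha hb hc hd h := by
  have t0 : (2 : E) = 0 := CharTwo.two_eq_zero
  have h1 := Jf_smul g ![1, 0, 0] ![0, 1, 0]
  have h2 := Jf_smul g ![0, 0, 1] ![0, 1, 0]
  have h3 := Jf_smul g ![1, 0, 0] ![1, 0, 0]
  have h4 := Jf_smul g ![1, 0, 0] ![0, 0, 1]
  have h5 := Jf_smul g ![0, 0, 1] ![1, 0, 0]
  have h6 := Jf_smul g ![0, 0, 1] ![0, 0, 1]
  have h7 := det3 g
  rw [h] at h1 h2
  simp [smul_vec, Jf] at h h1 h2 h3 h4 h5 h6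
  simp [h, h1, h2] at h3 h4 h5 h6 h7
  refine ⟨g.1.1 0 0, g.1.1 0 2, g.1.1 2 0, g.1.1 2 2, by grind, by grind, by grind, by grind, by grind,
    ext3 fun i j => ?_⟩
  fin_cases i <;> fin_cases j <;> simp [val_ll, h, h1, h2]

end H8.Bin
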