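import Cfsg.Agent.H8.Bin5

/-! Binary actions of `SU₃(q)`, `q` even: point stabilisers inside a Borel subgroup. -/

set_option autoImplicit false
set_option linter.unusedSectionVars false

namespace H8.Bin

open Subgroup MulAction _root_.Cfsg Matrix
open scoped MatrixGroups

attribute [-simp] H23.conj_apply
attribute [local simp] H23.conj_conj

variable {E : Type*} [Field E] [Fintype E] [CharP E 2] {q : ℕ} {hE : Fintype.card E = q ^ 2}
  {Ω : Type*} [MulAction (SUh hE) Ω] {α : Ω}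

set_option quotPrecheck false
local notation "σ" => H23.conj hE
local notation "𝐞" => (![1, 0, 0] : Fin 3 → E)

/-- fixed by the centre of the Sylow subgroup -/
def FZ (hE : Fintype.card E = q ^ 2) {Ω : Type*} [MulAction (SUh hE) Ω] (α : Ω) : Prop :=
  ∀ b hb, zz (hE := hE) b hb • α = α

/-- the stabiliser lies in the Borel subgroup -/
def FB (hE : Fintype.card E = q ^ 2) {Ω : Type*} [MulAction (SUh hE) Ω] (α : Ω) : Prop :=
  ∀ g : SUh hE, g • α = α → ∃ l : E, g • (![1, 0, 0] : Fin 3 → E) = l • ![1, 0, 0]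

theorem FZ.smul (h : FZ hE α) {k : SUh hE} {l : E} (hk : k • 𝐞 = l • 𝐞) : FZ hE (k • α) := fun b hb => by
  obtain ⟨m, -, a, c, h1, rfl⟩ := borel hk
  have h2 : σ m ≠ 0 := by simp
  have : zz b hb * dd hE m = dd hE m * zz (b / (m * σ m)) (by simp [hb, mul_comm]) := ext3 fun i j => by
    fin_cases i <;> fin_cases j <;> simp [mul_ent, val_zz, val_dd]
    field_simp
  rw [← mul_smul, ← mul_assoc, zz_comm, mul_assoc, this, ← mul_assoc, mul_smul, h]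

theorem FB.fix (h : FB hE α) {g k : SUh hE} (e : g • k • α = k • α) : ∃ l : E, g • k • 𝐞 = l • k • 𝐞 := by
  obtain ⟨l, hl⟩ := h _ (conj_fix.1 e)
  exact ⟨l, by rwa [mul_smul, mul_smul, inv_smul_eq_iff, smul_comm k] at hl⟩

theorem FB.smul (h : FB hE α) {k : SUh hE} {l : E} (hk : k • 𝐞 = l • 𝐞) : FB hE (k • α) := fun g hg => by
  obtain ⟨m, hm⟩ := h.fix hg
  rw [hk, smul_comm g, smul_comm m] at hm
  exact ⟨m, smul_right_injective _ (ne_of_smul (by simp) hk) hm⟩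

theorem inv_e {k : SUh hE} (hk : k • 𝐞 = 𝐞) : k⁻¹ • 𝐞 = (1 : E) • 𝐞 := by rw [one_smul, inv_smul_eq_iff, hk]

theorem uu_e (a c : E) (h : c + σ c = a * σ a) : uu a c h • 𝐞 = 𝐞 := by simp [uu_smul]

variable (h : ML (SUh hE) Ω) (hS : ∀ g : SUh hE, (∃ l : E, ∀ v : Fin 3 → E, g • v = l • v) → ∀ x : Ω, g • x = x)
  {a₀ : E} (ha₀ : H23.conj hE a₀ = a₀ + 1)
include h hS ha₀

theorem u_real0 (hB : FB hE α) {l : Eˣ} (hl : σ l = l) (hd : dd hE l • α = α) : l = 1 := by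
  by_contra l1
  have t0 : (2 : E) = 0 := CharTwo.two_eq_zero
  have l0 := l.ne_zero
  have l4 : (l : E) + 1 ≠ 0 := fun e => l1 (Units.ext (show (l : E) = 1 by linear_combination e - t0))
  have a0 : a₀ ≠ 0 := by rintro rfl; simp at ha₀
  have hu : a₀ + σ a₀ = 1 * σ 1 := by simp [ha₀]; grind
  have hi : (dd hE l)⁻¹ • α = α := inv_smul_eq_iff.2 hd.symm
  have h1 : dd hE l • tt hE • α = tt hE • α := conj_fix.2 (by
    rwa [show (tt hE)⁻¹ * dd hE l * tt hE = (dd hE l)⁻¹ by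
      rw [tt_inv, dd_inv]
      exact ext3 fun i j => by fin_cases i <;> fin_cases j <;> simp [mul_ent, val_tt, val_dd, hl]])
  obtain ⟨f, f1, f2, f3⟩ := h (dd hE l)⁻¹ (uu 1 a₀ hu * dd hE l * (uu 1 a₀ hu)⁻¹)
  obtain ⟨l1, e1⟩ := hB f (f1 _ hi)
  obtain ⟨l2, e2⟩ := hB.fix (f1 _ (inv_smul_eq_iff.2 h1.symm))
  obtain ⟨l3, e3⟩ := hB.fix (k := uu 1 a₀ hu * tt hE) (f2 _ (by simp only [mul_smul, inv_smul_smul, h1]))
  rw [tt_smul] at e2
  have f4 := hS f (three_pts (a := 1) (c := a₀) e1 e2 (by simpa [mul_smul, tt_smul, uu_smul] using e3) one_ne_zero a0)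
  obtain ⟨v, hv, e⟩ := conj2 (g := (dd hE l)⁻¹⁻¹ * (uu 1 a₀ hu * dd hE l * (uu 1 a₀ hu)⁻¹)) (l := l * l) (by
    simp only [inv_inv, mul_smul, inv_e (uu_e _ _ hu)]
    simp [dd_smul, uu_smul]) (by
      simp [hl]
      intro e
      exact l4 (pow_eq_zero_iff two_ne_zero |>.1 (mul_left_cancel₀ (mul_ne_zero l0 l0) (by grind)))) (by
      simp [hl]
      intro e
      exact l4 (pow_eq_zero_iff (n := 4) (by norm_num) |>.1 (by grind)))
  have f5 : (dd hE l)⁻¹ • (v * tt hE) • α = (uu 1 a₀ hu * dd hE l * (uu 1 a₀ hu)⁻¹) • (v * tt hE) • α :=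
    ml_iff.2 (by rw [mul_smul v]; exact conj_fix.2 (by rw [e, dd_mul, mul_smul, h1, h1]))
  have f6 := (f3 _ f5).symm.trans (f4 _)
  have key : ∀ k : SUh hE, k • 𝐞 = 𝐞 → dd hE l • (k * tt hE) • α = (k * tt hE) • α →
      k • (![0, 0, 1] : Fin 3 → E) = ![0, 0, 1] := fun k hk e => by
    obtain ⟨a, c, h2, rfl⟩ := stab_e hk
    obtain ⟨m, hm⟩ := hB.fix e
    simp [mul_smul, tt_smul, uu_smul, dd_smul, hl] at hm ⊢
    obtain ⟨h3, h4, rfl⟩ := hm
    field_simp at h3 h4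
    grind
  have h2 := key v hv (inv_smul_eq_iff.1 f6).symm
  have h3 := key ((uu 1 a₀ hu)⁻¹ * v) (by rw [mul_smul, hv, inv_e (uu_e _ _ hu), one_smul]) (by
    have := f5.symm.trans f6
    rw [mul_smul, mul_smul, ← eq_inv_smul_iff] at this
    simpa only [mul_smul] using this)
  rw [mul_smul, h2, inv_smul_eq_iff] at h3
  simp [uu_smul] at h3

theorem u_real (hB : FB hE α) {g : SUh hE} (hg : g • α = α) {l : E} (hl : σ l = l) (e : g • 𝐞 = l • 𝐞) : l = 1 := by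
  by_contra l1
  have t0 : (2 : E) = 0 := CharTwo.two_eq_zero
  have l0 := ne_of_smul (by simp) e
  obtain ⟨v, hv, e1⟩ := conj2 (l := Units.mk0 l l0) e (by
    simp [hl]
    exact fun e => l1 (mul_left_cancel₀ l0 (by grind))) (by
    simp [hl]
    exact fun e => l1 (sub_eq_zero.1 (pow_eq_zero_iff two_ne_zero |>.1 (by grind))))
  exact l1 (congrArg Units.val (u_real0 h hS ha₀ (hB.smul (inv_e hv)) (l := Units.mk0 l l0) hl (by
    rw [← e1, mul_smul, mul_smul, smul_inv_smul, hg])))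

theorem u_norm0 (hq : Even q) (hB : FB hE α) (hZ : FZ hE α) {l : Eˣ} (hl : l * σ l = 1) (hd : dd hE l • α = α) :
    (l : E) ^ 3 = 1 := by
  by_contra l3
  have t0 : (2 : E) = 0 := CharTwo.two_eq_zero
  have l0 := l.ne_zero
  have hl' : σ l = (l : E)⁻¹ := eq_inv_of_mul_eq_one_right hl
  have a0 : a₀ ≠ 0 := by rintro rfl; simp at ha₀
  have hu : a₀ + σ a₀ = 1 * σ 1 := by simp [ha₀]; grind
  obtain ⟨r, hr⟩ := hq
  obtain ⟨n, hn⟩ : ∃ n : Eˣ, n = l ^ r := ⟨_, rfl⟩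
  have n0 := n.ne_zero
  have h1 : (n : E) * n * l = 1 := by rw [hn, Units.val_pow_eq_pow_val, ← pow_add, ← hr, ← H23.conj_apply hE, mul_comm, hl]
  have h2 : H23.conj hE n = (n : E)⁻¹ := by rw [hn, Units.val_pow_eq_pow_val, map_pow, hl', inv_pow]
  have h3 : dd hE n • α = α := by rw [hn, ← dd_pow]; exact (stabilizer _ α).pow_mem hd r
  have hc : a₀ + σ a₀ = n * l ^ 2 * σ (n * l ^ 2) := by simp [ha₀, h2, hl']; field_simp; grind
  have h4 : dd hE l • tt hE • α = tt hE • α := conj_fix.2 (by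
    rwa [show (tt hE)⁻¹ * dd hE l * tt hE = dd hE l by
      rw [tt_inv]
      exact ext3 fun i j => by fin_cases i <;> fin_cases j <;> simp [mul_ent, val_tt, val_dd, hl']])
  obtain ⟨s, hs⟩ : ∃ s : SUh hE, s.1.1 = !![1 + a₀, a₀, a₀ * (a₀ + 1); 1, 0, a₀ + 1; 1, 1, a₀] :=
    ⟨mkH _ (by simp [det_fin_three]; grind) fun x y z x' y' z' => by
      simp [Jf, mulVec, dotProduct, Fin.sum_univ_three, ha₀]; grind, rfl⟩
  have h5 : s * (uu 1 a₀ hu * tt hE) = uu 1 a₀ hu * tt hE * zz 1 (map_one _) := ext3 fun i j => by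
    fin_cases i <;> fin_cases j <;> simp [mul_ent, val_zz, val_uu, val_tt, hs] <;> grind
  have h6 : s • (uu 1 a₀ hu * tt hE) • α = (uu 1 a₀ hu * tt hE) • α := by rw [← mul_smul, h5, mul_smul, hZ]
  obtain ⟨f, f1, f2, f3⟩ := h s⁻¹ (dd hE l)
  obtain ⟨l1, e1⟩ := hB f (f2 _ hd)
  obtain ⟨l2, e2⟩ := hB.fix (f2 _ h4)
  obtain ⟨l4, e3⟩ := hB.fix (f1 _ (inv_smul_eq_iff.2 h6.symm))
  rw [tt_smul] at e2
  have f4 := hS f (three_pts (a := 1) (c := a₀) e1 e2 (by simpa [mul_smul, tt_smul, uu_smul] using e3) one_ne_zero a0)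
  have h7 : (uu _ a₀ hc * tt hE) • 𝐞 = ![a₀, n * l ^ 2, 1] := by simp [mul_smul, tt_smul, uu_smul]
  obtain ⟨a, c, h8, b, hb, e⟩ := conj1 (g := (uu _ a₀ hc * tt hE)⁻¹ * (s * dd hE l) * (uu _ a₀ hc * tt hE)) (l := n)
    (by
      rw [mul_smul, mul_smul, inv_smul_eq_iff, smul_comm (uu _ a₀ hc * tt hE) (n : E), h7, mul_smul, dd_smul, smul_vec]
      simp [hs, hl']
      refine ⟨?_, ?_, ?_⟩ <;> field_simp <;> grind) (by
      rw [h2]
      intro e
      field_simp at e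
      exact l3 (by grind))
  have f5 : s⁻¹ • (uu _ a₀ hc * tt hE * uu a c h8) • α = dd hE l • (uu _ a₀ hc * tt hE * uu a c h8) • α :=
    ml_iff.2 (by
      rw [inv_inv, mul_smul (uu _ a₀ hc * tt hE)]
      exact conj_fix.2 (conj_fix.2 (by rw [e, mul_smul, h3, hZ])))
  obtain ⟨m, hm⟩ := hB.fix (f5.symm.trans ((f3 _ f5).symm.trans (f4 _)))
  rw [mul_smul, uu_e, h7, dd_smul] at hm
  simp [hl', a0] at hm
  obtain ⟨rfl, hm⟩ := hm
  field_simp at hm
  exact l3 hm.1.symm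

theorem u_norm (hq : Even q) (hB : FB hE α) (hZ : FZ hE α) {g : SUh hE} (hg : g • α = α) {l : E}
    (e : g • 𝐞 = l • 𝐞) : l * σ l = 1 ∧ l ^ 3 = 1 := by
  have l0 := ne_of_smul (by simp) e
  have h1 : l * σ l = 1 := by
    refine u_real h hS ha₀ hB (g := g ^ (q + 1)) ((stabilizer _ α).pow_mem hg _) (by simp [mul_comm]) ?_
    rw [H23.conj_apply, ← pow_succ']
    induction q + 1 with
    | zero => simp
    | succ k ih => rw [pow_succ, mul_smul, e, smul_comm, ih, smul_smul, pow_succ']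
  refine ⟨h1, by_contra fun l3 => ?_⟩
  obtain ⟨a, c, h2, b, hb, e1⟩ := conj1 (l := Units.mk0 l l0) e (by
    simp [eq_inv_of_mul_eq_one_right h1]
    intro e
    field_simp at e
    exact l3 e.symm)
  have h3 := hZ.smul (inv_e (uu_e a c h2))
  refine l3 (u_norm0 h hS ha₀ hq (hB.smul (inv_e (uu_e a c h2))) h3 (l := Units.mk0 l l0) h1 ?_)
  rw [← inv_mul_cancel_left (zz b hb) (dd hE _), ← e1, mul_smul, mul_smul, mul_smul, smul_inv_smul, hg,
    inv_smul_eq_iff, h3]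

theorem u_unip (hq : Even q) (hB : FB hE α) (hZ : FZ hE α) {g : SUh hE} (hg : g • α = α) :
    ∃ a c h, ∃ l : Eˣ, g = uu a c h * dd hE l ∧ ∀ v : Fin 3 → E, dd hE l • v = (l : E) • v := by
  obtain ⟨l, e⟩ := hB g hg
  obtain ⟨h1, h2⟩ := u_norm h hS ha₀ hq hB hZ hg e
  obtain ⟨m, rfl, a, c, h3, e1⟩ := borel e
  refine ⟨a, c, h3, m, e1, fun v => ?_⟩
  obtain ⟨x, y, z, rfl⟩ := vec_eta v
  have := m.ne_zero
  simp [dd_smul, eq_inv_of_mul_eq_one_right h1]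
  left
  field_simp
  exact h2.symm

theorem u_four (hq : Even q) {κ : E} (k1 : κ * σ κ = 1) (k2 : κ ^ 3 ≠ 1) (hB : FB hE α) (hZ : FZ hE α) {a c : E}
    {hu : c + σ c = a * σ a} (hg : uu a c hu • α = α) : a = 0 := by
  by_contra a0
  have t0 : (2 : E) = 0 := CharTwo.two_eq_zero
  have a1 : σ a ≠ 0 := by simpa
  have c0 : c ≠ 0 := by rintro rfl; simp [a0] at hu
  have c1 : σ c ≠ 0 := by simpa
  have k0 : κ ≠ 0 := left_ne_zero_of_mul_eq_one k1
  have k3 : σ κ = κ⁻¹ := eq_inv_of_mul_eq_one_right k1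
  have k4 : 1 + κ ^ 6 ≠ 0 := fun e => k2 (sub_eq_zero.1 (pow_eq_zero_iff two_ne_zero |>.1 (by grind)))
  have cls : ∀ m η : E, m ≠ 0 → σ m = m → η ≠ 0 → σ η = η⁻¹ → ∀ a' c' (hu' : c' + σ c' = a' * σ a'), a' = a * m * η ^ 3 →
      ∃ k : Eˣ, uu a' c' hu' • dd hE k • α = dd hE k • α := by
    rintro m η m0 hm η0 hη _ c' hu' rfl
    refine ⟨Units.mk0 (m / η) (div_ne_zero m0 η0), ?_⟩
    have : uu _ c' hu' * dd hE (Units.mk0 (m / η) (div_ne_zero m0 η0)) =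
        dd hE (Units.mk0 (m / η) (div_ne_zero m0 η0)) * (zz (c' / m ^ 2 + c) (by
          simp [hm, hη] at hu' ⊢
          field_simp at hu' ⊢
          grind) * uu a c hu) := ext3 fun i j => by
      fin_cases i <;> fin_cases j <;> simp [mul_ent, val_zz, val_uu, val_dd, hm, hη] <;> field_simp <;> grind
    rw [← mul_smul, this, mul_smul, mul_smul, hg, hZ]
  have hu1 : c + σ c = κ ^ 6 * a * σ (κ ^ 6 * a) := by simp [k3, hu]; field_simp
  have hu2 : c⁻¹ + σ c⁻¹ = a / c * σ (a / c) := by simp; field_simp; grind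
  have hu3 : c⁻¹ + σ c⁻¹ = κ ^ 6 * a / c * σ (κ ^ 6 * a / c) := by simp [k3]; field_simp; grind
  obtain ⟨a2, c2, h2, e2⟩ := stab_e (g := uu _ _ hu2 * (uu _ _ hu3)⁻¹) (by
    rw [mul_smul, inv_e (uu_e _ _ hu3), one_smul, uu_e])
  have e3 : a2 = (1 + κ ^ 6) * a / c := by
    have := congrArg (fun x : SUh hE => x.1.1 1 2) (mul_inv_eq_iff_eq_mul.1 e2)
    simp [mul_ent, val_uu] at this
    linear_combination -this - κ ^ 6 * a / c * t0
  obtain ⟨a3, c3, h3, e4⟩ := stab_e (g := (tt hE * uu a c hu * tt hE)⁻¹ *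
      (uu a2 c2 h2 * (tt hE * uu _ c hu1 * tt hE) * (uu a2 c2 h2)⁻¹)) (by
    rw [mul_smul, inv_smul_eq_iff, mul_smul, inv_e (uu_e _ _ h2), one_smul, ← e2, mul_smul, mul_smul,
      ← eq_inv_smul_iff, inv_smul_eq_iff, show (tt hE * uu a c hu * tt hE) • 𝐞 = c • uu _ _ hu2 • ![0, 0, 1] by
        simp [mul_smul, tt_smul, uu_smul, c0]; field_simp, smul_comm _ c, inv_smul_smul]
    simp [mul_smul, tt_smul, uu_smul, c0])
  rw [inv_mul_eq_iff_eq_mul, mul_inv_eq_iff_eq_mul] at e4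
  have e5 : a3 = a * ((κ ^ 3 + κ⁻¹ ^ 3) * (a * σ a) / (c * σ c)) * κ ^ 3 := by
    have := congrArg (fun x : SUh hE => σ (x.1.1 2 1)) e4
    simp [mul_ent, val_uu, val_tt, e3, k3] at this
    field_simp at this ⊢
    linear_combination -this + a * (κ ^ 6 + 1) * hu - (a * σ c * (1 + κ ^ 6) + c * a) * t0
  obtain ⟨m1, f1⟩ := cls 1 (κ ^ 2) one_ne_zero (map_one _) (pow_ne_zero _ k0) (by simp [k3]) _ c hu1 (by ring)
  obtain ⟨m2, f2⟩ := cls _ κ (by
    refine div_ne_zero (mul_ne_zero (fun e => k4 ?_) (mul_ne_zero a0 a1)) (mul_ne_zero c0 c1)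
    field_simp at e
    grind) (by simp [k3, mul_comm, add_comm]) k0 k3 a3 c3 h3 e5
  obtain ⟨f, g1, g2, g3⟩ := h (tt hE * uu a c hu * tt hE)⁻¹ (uu a3 c3 h3)
  have g4 : ∀ x : Ω, f • x = x := by
    obtain ⟨l, hl⟩ := (hB.smul (k := dd hE m2) (l := m2) (by simp [dd_smul])) f (g2 _ f2)
    obtain ⟨a4, c4, h4, l', e6, e7⟩ := u_unip h hS ha₀ hq hB hZ (conj_fix.1 (g1 (tt hE • α) (by
      rw [inv_smul_eq_iff, mul_smul, mul_smul, ← mul_smul (tt hE) (tt hE), tt_tt, one_smul, hg])))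
    rw [mul_assoc, inv_mul_eq_iff_eq_mul, ← eq_mul_inv_iff_mul_eq, tt_inv] at e6
    rw [e6] at hl ⊢
    simp [mul_smul, tt_smul, uu_smul, e7] at hl
    refine hS _ ⟨l', fun v => ?_⟩
    obtain ⟨x, y, z, rfl⟩ := vec_eta v
    simp [mul_smul, tt_smul, uu_smul, e7, hl.2.1, hl.2.2]
  have g5 : (tt hE * uu a c hu * tt hE)⁻¹ • (uu a2 c2 h2 * tt hE * dd hE m1) • α =
      uu a3 c3 h3 • (uu a2 c2 h2 * tt hE * dd hE m1) • α := ml_iff.2 (by
    rw [inv_inv, ← mul_inv_eq_iff_eq_mul.2 e4]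
    simp only [mul_smul, inv_smul_smul]
    rw [← mul_smul (tt hE) (tt hE), tt_tt, one_smul, f1])
  obtain ⟨m, hm⟩ := hB.fix (inv_smul_eq_iff.1 ((g3 _ g5).symm.trans (g4 _))).symm
  simp [mul_smul, tt_smul, uu_smul, dd_smul] at hm
  have h5 : c2 = 0 := by
    by_contra h5
    have : m = 1 := mul_right_cancel₀ (mul_ne_zero h5 m1.ne_zero) (by grind)
    exact mul_ne_zero a0 (mul_ne_zero h5 m1.ne_zero) (by grind)
  simp [h5, e3, k4, a0, c0, k3] at h2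
  field_simp at h2
  grind

end H8.Bin
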