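import Cfsg.Agent.H8.Bin6

/-! Binary actions of `SU₃(q)`, `q` even: point stabilisers containing `SL₂(q)`. -/

set_option autoImplicit false
set_option linter.unusedSectionVars false

namespace H8.Bin

open Subgroup MulAction _root_.Cfsg Matrix
open scoped MatrixGroups

attribute [-simp] H23.conj_apply
attribute [local simp] H23.conj_conj

variable {E : Type*} [Field E] [Fintype E] [CharP E 2] {q : ℕ} {hE : Fintype.card E = q ^ 2}

set_option quotPrecheck false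
local notation "σ" => H23.conj hE
local notation "𝐞" => (![1, 0, 0] : Fin 3 → E)
local notation "𝐱" => (![0, 1, 0] : Fin 3 → E)
local notation "𝐟" => (![0, 0, 1] : Fin 3 → E)

section
variable {Ω : Type*} [MulAction (SUh hE) Ω] {α : Ω}

theorem ll_fix (h1 : FZ hE α) (h2 : FZ hE (tt hE • α)) {a b c d : E} (ha : σ a = a) (hb : σ b = b) (hc : σ c = c)
    (hd : σ d = d) (h : a * d + b * c = 1) : ll a b c d ha hb hc hd h • α = α := by
  have t0 : (2 : E) = 0 := CharTwo.two_eq_zero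
  have h3 : ∀ b hb, (tt hE * zz b hb * tt hE) • α = α := fun b hb => by
    rw [mul_smul, mul_smul, h2, ← mul_smul, tt_tt, one_smul]
  have key : ∀ {a b c d : E} (ha : σ a = a) (hb : σ b = b) (hc : σ c = c) (hd : σ d = d) (h : a * d + b * c = 1),
      c ≠ 0 → ll a b c d ha hb hc hd h • α = α := fun {a b c d} ha hb hc hd h c0 => by
    rw [show ll a b c d ha hb hc hd h = zz ((a + 1) / c) (by simp [ha, hc]) * ((tt hE * zz c hc * tt hE) *
      zz ((d + 1) / c) (by simp [hd, hc])) from ext3 fun i j => by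
        fin_cases i <;> fin_cases j <;> simp [mul_ent, val_zz, val_ll, val_tt] <;> field_simp <;> grind,
      mul_smul, mul_smul, h1, h3, h1]
  by_cases c0 : c = 0
  · have := key (a := a) (b := b) (c := a + c) (d := b + d) ha hb (by simp [ha, hc]) (by simp [hb, hd]) (by grind)
      (by grind)
    rwa [show ll a b (a + c) (b + d) ha hb _ _ _ = (tt hE * zz 1 (map_one _) * tt hE) * ll a b c d ha hb hc hd h from
      ext3 fun i j => by fin_cases i <;> fin_cases j <;> simp [mul_ent, val_zz, val_ll, val_tt], mul_smul,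
      ← eq_inv_smul_iff, inv_smul_eq_iff.2 (h3 _ _).symm] at this
  · exact key ha hb hc hd h c0

theorem x_fix (h1 : FZ hE α) (h2 : FZ hE (tt hE • α)) {g : SUh hE} (hg : g • 𝐱 = 𝐱) : g • α = α := by
  obtain ⟨a, b, c, d, ha, hb, hc, hd, h, rfl⟩ := stab_x hg
  exact ll_fix h1 h2 ..

theorem iso_e (k : SUh hE) : k.1.1 0 0 * σ (k.1.1 2 0) + k.1.1 1 0 * σ (k.1.1 1 0) + k.1.1 2 0 * σ (k.1.1 0 0) = 0 := by
  simpa [smul_vec, Jf] using Jf_smul k 𝐞 𝐞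

theorem par_e {k : SUh hE} (h : k.1.1 2 0 = 0) : k • 𝐞 = k.1.1 0 0 • 𝐞 := by
  have := iso_e k
  simp [h] at this
  simp [smul_vec, h, this]

theorem exists_ll {a₀ : E} (ha₀ : σ a₀ = a₀ + 1) {k : SUh hE} (hk : k.1.1 1 0 ≠ 0) :
    ∃ l : SUh hE, l • 𝐱 = 𝐱 ∧ k • 𝐞 = k.1.1 1 0 • l • ![1, 1, a₀] := by
  have t0 : (2 : E) = 0 := CharTwo.two_eq_zero
  have h1 := iso_e k
  have h2 : σ (k.1.1 1 0) ≠ 0 := by simpa
  obtain ⟨x, hx⟩ : ∃ x, k.1.1 0 0 = k.1.1 1 0 * x := ⟨_, (mul_div_cancel₀ _ hk).symm⟩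
  obtain ⟨z, hz⟩ : ∃ x, k.1.1 2 0 = k.1.1 1 0 * x := ⟨_, (mul_div_cancel₀ _ hk).symm⟩
  have h3 : x * σ z + 1 + z * σ x = 0 := mul_left_cancel₀ (mul_ne_zero hk h2) (by
    rw [hx, hz, map_mul, map_mul] at h1; linear_combination h1)
  refine ⟨ll (x + (x + σ x) * a₀) (x + σ x) (z + (z + σ z) * a₀) (z + σ z) (by simp [ha₀]; grind)
    (by simp [add_comm]) (by simp [ha₀]; grind) (by simp [add_comm]) (by grind), by simp [smul_vec, val_ll], ?_⟩
  simp [smul_vec, val_ll, hx, hz, hk]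
  grind

theorem all_fz {a₀ : E} (ha₀ : σ a₀ = a₀ + 1) (h1 : FZ hE α) (h2 : FZ hE (tt hE • α)) {k₀ : SUh hE}
    (h3 : FZ hE (k₀⁻¹ • α)) (h4 : k₀.1.1 1 0 ≠ 0) (k : SUh hE) : FZ hE (k⁻¹ • α) := by
  have t0 : (2 : E) = 0 := CharTwo.two_eq_zero
  by_cases hk : k.1.1 1 0 = 0
  · by_cases hk' : k.1.1 2 0 = 0
    · exact h1.smul (l := (k.1.1 0 0)⁻¹) (by
        rw [inv_smul_eq_iff, smul_comm k, par_e hk', inv_smul_smul₀ (ne_of_smul (by simp) (par_e hk'))])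
    have h5 := iso_e k
    have h6 : σ (k.1.1 2 0) ≠ 0 := by simpa
    have h7 : σ (k.1.1 0 0 / k.1.1 2 0) = k.1.1 0 0 / k.1.1 2 0 := by
      simp [hk] at h5 ⊢; field_simp; grind
    have := h2.smul (k := k⁻¹ * zz _ h7 * tt hE) (l := (k.1.1 2 0)⁻¹) (by
      rw [mul_smul, mul_smul, inv_smul_eq_iff, smul_comm k (k.1.1 2 0)⁻¹]
      simp [smul_vec, val_tt, val_zz, hk, hk', div_eq_inv_mul])
    rwa [mul_smul, mul_smul, ← mul_smul (tt hE), tt_tt, one_smul, h1] at this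
  · obtain ⟨l, e1, e2⟩ := exists_ll ha₀ hk
    obtain ⟨l', e3, e4⟩ := exists_ll ha₀ h4
    have := h3.smul (k := k⁻¹ * l * l'⁻¹ * k₀) (l := k₀.1.1 1 0 * (k.1.1 1 0)⁻¹) (by
      rw [mul_smul, e4, mul_smul, smul_comm l'⁻¹, inv_smul_smul, mul_smul, inv_smul_eq_iff, smul_comm k, e2,
        smul_smul, inv_mul_cancel_right₀ hk, smul_comm l])
    rwa [mul_smul, mul_smul, mul_smul, smul_inv_smul, inv_smul_eq_iff.2 (x_fix h1 h2 e3).symm, x_fix h1 h2 e1] at this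

theorem x_par {a₀ : E} (ha₀ : σ a₀ = a₀ + 1) (h1 : FZ hE α) (h2 : FZ hE (tt hE • α)) {k : SUh hE}
    (h3 : ¬ FZ hE (k • α)) {g : SUh hE} (hg : g • α = α) : ∃ l : E, g • 𝐱 = l • 𝐱 := by
  have h4 : g⁻¹.1.1 1 0 = 0 := by_contra fun e => h3 (by
    simpa using all_fz ha₀ h1 h2 (k₀ := g⁻¹) (by rwa [inv_inv, hg]) e k⁻¹)
  have h5 : (g⁻¹ * tt hE).1.1 1 0 = 0 := by_contra fun e => h3 (by
    simpa using all_fz ha₀ h1 h2 (k₀ := g⁻¹ * tt hE) (by rwa [_root_.mul_inv_rev, inv_inv, tt_inv, mul_smul, hg]) e k⁻¹)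
  have h6 := Jf_smul g 𝐱 (g⁻¹ • 𝐞)
  have h7 := Jf_smul g 𝐱 (g⁻¹ • 𝐟)
  rw [smul_inv_smul] at h6 h7
  generalize g⁻¹ = g' at h4 h5 h6 h7
  rw [mul_ent] at h5
  simp [val_tt] at h5
  simp [smul_vec, Jf, h4, h5] at h6 h7
  exact ⟨g.1.1 1 1, by simp [smul_vec, h6, h7]⟩
end

/-- constructor for the standard form -/
def mkS (A : Matrix (Fin 3) (Fin 3) E) (hd : A.det = 1) (h : Aᵀ * A.map σ = 1) : SU 3 E q :=
  ⟨⟨A, hd⟩, (H13.mem_SU_iff_mat hE).2 h⟩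

theorem ex_dg {a b : E} (ha : a * σ a = 1) (hb : b * σ b = 1) :
    ∃ g : SU 3 E q, ∀ x y z : E, g • ![x, y, z] = ![a * x, b * y, (a * b)⁻¹ * z] := by
  have a0 := left_ne_zero_of_mul_eq_one ha
  have b0 := left_ne_zero_of_mul_eq_one hb
  refine ⟨mkS (hE := hE) !![a, 0, 0; 0, b, 0; 0, 0, (a * b)⁻¹] (by simp [det_fin_three]; field_simp) ?_,
    fun x y z => by simp [smul_vec, mkS]⟩
  ext i j
  fin_cases i <;> fin_cases j <;> simp [Matrix.mul_apply, Fin.sum_univ_three, ha, hb]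
  simp [eq_inv_of_mul_eq_one_right ha, eq_inv_of_mul_eq_one_right hb]
  field_simp

theorem ex_blk {c d : E} (h : c * σ c + d * σ d = 1) :
    ∃ g : SU 3 E q, ∀ x y z : E, g • ![x, y, z] = ![c * x + σ d * y, d * x + σ c * y, z] := by
  have t0 : (2 : E) = 0 := CharTwo.two_eq_zero
  refine ⟨mkS (hE := hE) !![c, σ d, 0; d, σ c, 0; 0, 0, 1] (by simp [det_fin_three]; grind) ?_,
    fun x y z => by simp [smul_vec, mkS]⟩
  ext i j
  fin_cases i <;> fin_cases j <;> simp [Matrix.mul_apply, Fin.sum_univ_three] <;> grind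

include hE in
theorem ex_cyc : ∃ g : SU 3 E q, ∀ x y z : E, g • ![x, y, z] = ![z, x, y] := by
  refine ⟨mkS (hE := hE) !![0, 0, 1; 1, 0, 0; 0, 1, 0] (by simp [det_fin_three]) ?_,
    fun x y z => by simp [smul_vec, mkS]⟩
  ext i j
  fin_cases i <;> fin_cases j <;> simp [Matrix.mul_apply, Fin.sum_univ_three]

theorem herm_smul (g : SU 3 E q) (u v : Fin 3 → E) : (g • u) 0 * σ ((g • v) 0) + (g • u) 1 * σ ((g • v) 1) +
    (g • u) 2 * σ ((g • v) 2) = u 0 * σ (v 0) + u 1 * σ (v 1) + u 2 * σ (v 2) := by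
  rw [← H17.herm3, ← H17.herm3]
  exact g.2 u v

theorem u_case2 {Ω : Type*} [MulAction (SU 3 E q) Ω] {α : Ω} (h : ML (SU 3 E q) Ω) {κ r : E} (k1 : κ * σ κ = 1)
    (k2 : κ ≠ 1) (hr : σ r = r) (r0 : r ≠ 0) (r1 : r + 1 ≠ 0) (hL : ∀ g : SU 3 E q, g • 𝐟 = 𝐟 → g • α = α)
    (hN : ∀ g : SU 3 E q, g • α = α → ∃ l : E, g • 𝐟 = l • 𝐟) : False := by
  have t0 : (2 : E) = 0 := CharTwo.two_eq_zero
  obtain ⟨c, hc⟩ := ex_cyc (hE := hE)
  have hL' : ∀ g k : SU 3 E q, g • k • 𝐟 = k • 𝐟 → g • k • α = k • α := fun g k e => conj_fix.2 (hL _ (conj_fix.1 e))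
  have hN' : ∀ g k : SU 3 E q, g • k • α = k • α → ∃ l : E, (k⁻¹ * g * k) • 𝐟 = l • 𝐟 ∧ g • k • 𝐟 = l • k • 𝐟 :=
    fun g k e => by
      obtain ⟨l, hl⟩ := hN _ (conj_fix.1 e)
      exact ⟨l, hl, by rwa [mul_smul, mul_smul, inv_smul_eq_iff, smul_comm k] at hl⟩
  have h1 : ∀ g : SU 3 E q, ∀ l : E, g • 𝐟 = l • 𝐟 → g • α = α := fun g l hg => by
    have h1 : l * σ l = 1 := by simpa [hg] using herm_smul (hE := hE) g 𝐟 𝐟
    have l0 := left_ne_zero_of_mul_eq_one h1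
    obtain ⟨a, ha⟩ := ex_dg (a := l⁻¹) (b := l) (by rw [map_inv₀, ← mul_inv, h1, inv_one]) h1
    obtain ⟨b, hb⟩ := ex_dg (a := 1) (b := l) (by simp) h1
    obtain ⟨f, f1, f2, f3⟩ := h a b
    have e1 := f1 _ (hL a (by simp [ha, l0]))
    have e2 := f2 _ (hL' b c (by simp [hc, hb]))
    have e3 : (a⁻¹ * f) • (c * c) • α = (c * c) • α := by
      rw [mul_smul, f3 _ (ml_iff.2 (hL' _ _ (by
        rw [mul_smul, inv_smul_eq_iff]; simp [mul_smul, hc, ha, hb]))), inv_smul_smul]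
    obtain ⟨l1, g1⟩ := hN _ e1
    obtain ⟨l2, g2, g2'⟩ := hN' _ _ e2
    obtain ⟨l3, g3, g3'⟩ := hN' _ _ e3
    have h2 := det3 f
    rw [mul_smul, inv_smul_eq_iff, smul_comm a, mul_smul, hc, hc, ha] at g3'
    rw [hc] at g2'
    have g1' := g1
    simp [smul_vec] at g1' g2' g3'
    simp [g1', g2', g3'] at h2
    have e4 : (f * ((c⁻¹ * f * c) * (((c * c)⁻¹ * (a⁻¹ * f) * (c * c)) * g))) • α = α := hL _ (by
      rw [mul_smul f, mul_smul (c⁻¹ * f * c), mul_smul ((c * c)⁻¹ * (a⁻¹ * f) * (c * c)), hg, smul_comm _ l, g3, smul_smul l, smul_comm _ (l * l3), g2,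
        smul_smul (l * l3), smul_comm f, g1, smul_smul, show l * l3 * l2 * l1 = 1 by linear_combination h2, one_smul])
    rwa [mul_smul f, ← eq_inv_smul_iff, inv_smul_eq_iff.2 e1.symm, mul_smul (c⁻¹ * f * c), ← eq_inv_smul_iff,
      inv_smul_eq_iff.2 (conj_fix.1 e2).symm, mul_smul ((c * c)⁻¹ * (a⁻¹ * f) * (c * c)), ← eq_inv_smul_iff,
      inv_smul_eq_iff.2 (conj_fix.1 e3).symm] at e4
  have h2 : ∀ g k : SU 3 E q, ∀ l : E, g • k • 𝐟 = l • k • 𝐟 → g • k • α = k • α := fun g k l e =>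
    conj_fix.2 (h1 _ l (by rw [mul_smul, mul_smul, e, smul_comm, inv_smul_smul]))
  have k0 := left_ne_zero_of_mul_eq_one k1
  have k3 : σ κ = κ⁻¹ := eq_inv_of_mul_eq_one_right k1
  have k4 : κ + 1 ≠ 0 := fun e => k2 (by linear_combination e - t0)
  have k5 : ∀ s : E, σ s = s → κ ≠ s := fun s hs e => k4 (pow_eq_zero_iff two_ne_zero |>.1 (by
    rw [e, hs] at k1; rw [e]; linear_combination k1 + (s + 1) * t0))
  have nm : ∀ x : E, x ≠ 0 → σ x / x * σ (σ x / x) = 1 := fun x hx => by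
    have : σ x ≠ 0 := by simpa
    simp; field_simp
  have c1 : (r + 1) ^ 2 * κ + r ^ 2 ≠ 0 := fun e => k5 (r ^ 2 / (r + 1) ^ 2) (by simp [hr]) (by field_simp; grind)
  have c2 : r * (r + 1) * (κ + 1) ≠ 0 := by simp [r0, r1, k4]
  obtain ⟨R, hR⟩ := ex_blk (hE := hE) (c := r + 1) (d := r) (by simp [hr]; linear_combination (r + r ^ 2) * t0)
  obtain ⟨T, hT⟩ := ex_blk (hE := hE) (c := (r + 1) * κ) (d := r) (by
    simp [hr, k3]; field_simp; linear_combination (r + r ^ 2) * t0)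
  obtain ⟨a, ha⟩ := ex_dg (nm κ k0) (show 1 * σ 1 = 1 by simp)
  obtain ⟨b, hb⟩ := ex_dg (nm _ c1) (nm _ c2)
  clear nm k5 h1
  obtain ⟨f, f1, f2, f3⟩ := h a (R * b * R⁻¹)
  obtain ⟨l1, -, g1⟩ := hN' _ _ (f1 _ (h2 a c (σ κ / κ) (by simp [hc, ha])))
  obtain ⟨l2, -, g2⟩ := hN' _ _ (f2 _ (h2 _ (R * c) (σ ((r + 1) ^ 2 * κ + r ^ 2) / ((r + 1) ^ 2 * κ + r ^ 2)) (by
    rw [mul_smul, mul_smul, mul_smul, inv_smul_smul, hc, hb, ← smul_comm R]; simp)))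
  obtain ⟨l3, -, g3⟩ := hN' (a⁻¹ * f) (T * c) (by
    rw [mul_smul, f3 _ (ml_iff.2 (hL' _ _ (by
      rw [mul_smul, inv_smul_eq_iff, mul_smul, mul_smul, show (T * c) • 𝐟 = R • ![(r + 1) ^ 2 * κ + r ^ 2,
        r * (r + 1) * (κ + 1), 0] by simp [mul_smul, hc, hT, hR, hr]; grind, inv_smul_smul, hb, hR,
        div_mul_cancel₀ _ c1, div_mul_cancel₀ _ c2, hR, ha]
      simp [hr, k3]
      constructor <;> field_simp <;> grind))), inv_smul_smul])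
  have g4 := herm_smul (hE := hE) f 𝐱 𝐞
  rw [mul_smul, inv_smul_eq_iff, smul_comm a, mul_smul, hc, hT, ha] at g3
  rw [mul_smul, hc, hR] at g2
  rw [hc] at g1
  have l0 := ne_of_smul (by simp) g1
  rw [g1] at g4
  simp [smul_vec, l0] at g1 g2 g3 g4
  simp [g1, g4, r0, r1, k3] at g2 g3
  obtain ⟨rfl, g2, -⟩ := g2
  obtain ⟨g3, g5, -⟩ := g3
  obtain rfl : l1 = l3 := by grind
  field_simp at g3
  exact k4 (pow_eq_zero_iff two_ne_zero |>.1 (by grind))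

end H8.Bin
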