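import Cfsg.Agent.H9.Ch2
import Cfsg.Agent.H4.Stable
import Cfsg.Agent.H1.Fitting
import Cfsg.Agent.H1.Cores

/-! Gagola groups: the support is Sylow when it is the `p`-core. -/

set_option autoImplicit false

namespace H8
open Subgroup hiding one
open CF H9 Cfsg

variable {G : Type*} [Group G] [Finite G] {N : Subgroup G} {χ : G → ℂ} {p : ℕ}

theorem gag_cam (h : Gag χ N) {y n : G} (hy : y ∉ N) (hn : n ∈ N) : IsConj y (y * n) :=
  H17.isConj_of_irr_eq fun ψ hψ => by
    by_cases e : ψ = χ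
    · subst e
      rw [not_not.1 (mt (h.supp y).1 hy), not_not.1 (mt (h.supp _).1 fun e' =>
        hy ((N.mul_mem_cancel_right hn).1 e'))]
    · exact (cfker_mul_right (irr_cf (mem_Irr_top.2 hψ)) (h.ker ψ (mem_Irr_top.2 hψ) e hn) y).symm

theorem gag_cent (h : Gag χ N) [Fact p.Prime] (hN : IsPGroup p N) {x : G} (hx : x ∈ N)
    (h1 : x ≠ 1) : IsPGroup p (centralizer ({x} : Set G)) := by
  obtain ⟨P, hP⟩ := h.sylow hN (h.index_cent hx h1)
  exact hP ▸ P.isPGroup'

theorem gag_elem (h : Gag χ N) [hp : Fact p.Prime] (hN : IsPGroup p N) :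
    (∀ a ∈ N, ∀ b ∈ N, a * b = b * a) ∧ ∀ a ∈ N, a ^ p = 1 := by
  obtain ⟨q, hq, h1, h2⟩ := h.elem
  refine ⟨fun a ha b hb => congrArg Subtype.val (h1.1.1 ⟨a, ha⟩ ⟨b, hb⟩), ?_⟩
  obtain ⟨x, hx, hx1⟩ := (bot_or_exists_ne_one N).resolve_left h.ne
  haveI := Fact.mk hq
  have h3 : orderOf x = q := orderOf_eq_prime (h2 x hx) hx1
  obtain ⟨k, hk⟩ := hN ⟨x, hx⟩
  have h4 : q ∣ p ^ k := h3 ▸ orderOf_dvd_of_pow_eq_one (congrArg Subtype.val hk)
  rwa [← (Nat.prime_dvd_prime_iff_eq hq hp.out).1 (hq.dvd_of_dvd_pow h4)]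

theorem gag_cent_eq (h : Gag χ N) [Fact p.Prime] (hN : IsPGroup p N) :
    centralizer (N : Set G) = pCore p G := by
  haveI := h.normal
  obtain ⟨x, hx, hx1⟩ := (bot_or_exists_ne_one N).resolve_left h.ne
  refine le_antisymm (H1.le_pCore ((gag_cent h hN hx hx1).to_le
    (centralizer_le (Set.singleton_subset_iff.2 hx)))) fun g hg => mem_centralizer_iff.2 fun y hy => ?_
  by_cases h1 : y = 1
  · simp [h1]
  obtain ⟨P, hP⟩ := h.sylow hN (h.index_cent hy h1)
  have : g ∈ centralizer ({y} : Set G) := hP ▸ (H1.isPGroup_pCore p).le_sylow_of_normal P hg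
  exact (mem_centralizer_singleton_iff.1 this).symm

/-- an element of order two modulo `N` acting non-trivially fixes more than `√#N` elements -/
theorem gag_two (h : Gag χ N) (hN : IsPGroup 2 N) {t : G} (ht : t ∉ centralizer (N : Set G))
    (h2 : t * t ∈ N) : Nat.card N < Nat.card ↥(N ⊓ centralizer {t}) ^ 2 := by
  haveI := h.normal
  obtain ⟨hc, he⟩ := gag_elem h hN
  have hi : ∀ a ∈ N, a * a = 1 := fun a ha => by rw [← pow_two]; exact he a ha
  have htN : t ∉ N := fun e => ht (mem_centralizer_iff.2 fun y hy => hc y hy t e)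
  have hm : ∀ n : N, t⁻¹ * n * t ∈ N := fun n => by simpa using h.normal.conj_mem _ n.2 t⁻¹
  let f : N →* G :=
    { toFun := fun n => t⁻¹ * n * t * n
      map_one' := by simp
      map_mul' := fun a b => by
        have := hc _ (hm b) _ a.2
        calc t⁻¹ * ((a : G) * b) * t * (a * b) = t⁻¹ * a * t * (t⁻¹ * b * t * a) * b := by group
          _ = _ := by rw [this]; group }
  have hf : ∀ n : N, f n = t⁻¹ * n * t * n := fun _ => rfl
  have h3 : ∀ n : N, t * t ≠ f n := fun n e => by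
    have h4 : (t * n) * (t * n) = 1 := by
      calc (t * n) * (t * n) = (t * t) * (t⁻¹ * n * t * n) := by group
        _ = 1 := by rw [← hf, ← e]; exact hi _ h2
    have h5 : ∀ m ∈ N, (t * m) * (t * m) = 1 := fun m hm' => by
      obtain ⟨g, hg⟩ := isConj_iff.1 ((gag_cam h htN n.2).symm.trans (gag_cam h htN hm'))
      rw [← hg]
      calc g * (t * n) * g⁻¹ * (g * (t * n) * g⁻¹) = g * ((t * n) * (t * n)) * g⁻¹ := by group
        _ = 1 := by rw [h4]; group
    have h6 : t * t = 1 := by simpa using h5 1 N.one_mem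
    refine ht (mem_centralizer_iff.2 fun y hy => ?_)
    calc y * t = t * (t * y * (t * y)) * y * (y * y)⁻¹ * (t * t)⁻¹ * (t * t) * ((t * t)⁻¹ * (t * t)) := by
          rw [h6, hi y hy]
          calc y * t = (t * t) * y * t * (y * y) := by rw [h6, hi y hy]; group
            _ = _ := by group
      _ = t * y := by rw [h5 y hy, hi y hy]; group
  have h4 : f.range < N ⊓ centralizer {t} := by
    refine lt_of_le_of_ne ?_ fun e => ?_
    · rintro _ ⟨n, rfl⟩
      refine ⟨N.mul_mem (hm n) n.2, mem_centralizer_singleton_iff.2 ?_⟩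
      rw [hf]
      calc t⁻¹ * n * t * n * t = t⁻¹ * (n * (t * n * t⁻¹)) * (t * t) := by group
        _ = t⁻¹ * ((t * n * t⁻¹) * n) * (t * t) := by rw [hc _ n.2 _ (h.normal.conj_mem _ n.2 t)]
        _ = n * t⁻¹ * (n * (t * t)) := by group
        _ = n * t⁻¹ * ((t * t) * n) := by rw [hc _ n.2 _ h2]
        _ = _ := by group
    · obtain ⟨n, hn⟩ := e.ge (show t * t ∈ N ⊓ centralizer {t} from
        ⟨h2, mem_centralizer_singleton_iff.2 (by group)⟩)
      exact h3 n hn.symm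
  have h5 : f.ker.map N.subtype ≤ N ⊓ centralizer {t} := by
    rintro _ ⟨n, hn, rfl⟩
    refine ⟨n.2, mem_centralizer_singleton_iff.2 ?_⟩
    have h6 : t⁻¹ * n * t * n = 1 := hn
    calc (n : G) * t = t * (t⁻¹ * n * t * n) * n * (n * n : G)⁻¹ := by group
      _ = t * n := by rw [h6, hi _ n.2]; group
  have h6 := card_le_of_le h5
  rw [card_map_of_injective N.subtype_injective] at h6
  have h7 := H1.card_lt_of_lt h4
  have h8 : Nat.card f.ker * Nat.card f.range = Nat.card N := by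
    rw [← f.ker.card_mul_index, index_ker]
  rw [← h8, sq]
  exact Nat.mul_lt_mul_of_le_of_lt h6 h7 Nat.card_pos

theorem inf_ne_bot_of_card {A B M : Subgroup G} [IsMulCommutative M] (hA : A ≤ M) (hB : B ≤ M)
    (h1 : Nat.card M < Nat.card A ^ 2) (h2 : Nat.card M < Nat.card B ^ 2) : A ⊓ B ≠ ⊥ := fun e => by
  have h3 : Nat.card A * Nat.card B ≤ Nat.card M := by
    rw [← Nat.card_prod]
    refine Nat.card_le_card_of_injective (fun x : A × B => (⟨x.1 * x.2, M.mul_mem (hA x.1.2)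
      (hB x.2.2)⟩ : M)) fun x y hxy => ?_
    have h4 : (x.1 : G) * x.2 = y.1 * y.2 := congrArg Subtype.val hxy
    have h5 : (y.1 : G)⁻¹ * x.1 = y.2 * (x.2 : G)⁻¹ := by
      rw [inv_mul_eq_iff_eq_mul, ← mul_assoc, ← h4]; group
    have h6 : (y.1 : G)⁻¹ * x.1 ∈ A ⊓ B :=
      ⟨A.mul_mem (A.inv_mem y.1.2) x.1.2, h5 ▸ B.mul_mem y.2.2 (B.inv_mem x.2.2)⟩
    rw [e, mem_bot] at h6
    rw [h6, eq_comm, mul_inv_eq_one] at h5
    exact Prod.ext (Subtype.ext (inv_mul_eq_one.1 h6).symm) (Subtype.ext h5.symm)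
  nlinarith [Nat.mul_le_mul h3 h3]

theorem gag_index (h : Gag χ N) [hp : Fact p.Prime] (hN : IsPGroup p N) (hO : N = pCore p G) :
    ¬ p ∣ N.index := by
  haveI := h.normal
  obtain ⟨hc, he⟩ := gag_elem h hN
  have hC : centralizer (N : Set G) = N := (gag_cent_eq h hN).trans hO.symm
  intro hd
  by_cases h2 : p = 2
  · subst h2
    obtain ⟨u, hu⟩ := exists_prime_orderOf_dvd_card' (G := G ⧸ N) 2 hd
    obtain ⟨t, rfl⟩ := QuotientGroup.mk_surjective u
    have ht : t ∉ N := fun e => by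
      rw [(QuotientGroup.eq_one_iff t).2 e, orderOf_one] at hu
      omega
    have ht2 : t * t ∈ N := by
      rw [← QuotientGroup.eq_one_iff, QuotientGroup.mk_mul, ← pow_two, ← hu, pow_orderOf_eq_one]
    refine ht (hO ▸ H4.mem_pCore_of_forall_conj fun g => ?_)
    haveI : IsMulCommutative N := ⟨⟨fun a b => Subtype.ext (hc _ a.2 _ b.2)⟩⟩
    have h3 := inf_ne_bot_of_card inf_le_left inf_le_left (gag_two h hN (hC.symm ▸ ht) ht2)
      (gag_two h hN (t := g * t * g⁻¹) (hC.symm ▸ fun e => ht (by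
        simpa [mul_assoc] using h.normal.conj_mem _ e g⁻¹)) (by
        simpa [mul_assoc] using h.normal.conj_mem _ ht2 g))
    obtain ⟨x, hx, hx1⟩ := (bot_or_exists_ne_one _).resolve_left h3
    refine (gag_cent h hN hx.1.1 hx1).to_le ((closure_le _).2 ?_)
    rintro _ (rfl | rfl)
    · exact mem_centralizer_singleton_iff.2 (mem_centralizer_singleton_iff.1 hx.1.2).symm
    · exact mem_centralizer_singleton_iff.2 (mem_centralizer_singleton_iff.1 hx.2.2).symm
  obtain ⟨x, hx, hx1⟩ := (bot_or_exists_ne_one N).resolve_left h.ne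
  obtain ⟨a, ha⟩ := IsPGroup.iff_card.1 hN
  have hodd : Odd (Nat.card N) := ha ▸ (hp.out.odd_of_ne_two h2).pow
  have h3 : 2 ∣ Nat.card G := by
    refine Dvd.dvd.trans ?_ (index_dvd_card (centralizer ({x} : Set G)))
    have := h.index_cent hx hx1
    obtain ⟨k, hk⟩ := hodd
    omega
  obtain ⟨t, ht⟩ := exists_prime_orderOf_dvd_card' 2 h3
  have htt : t * t = 1 := by rw [← pow_two, ← ht, pow_orderOf_eq_one]
  have hti : t⁻¹ = t := inv_eq_of_mul_eq_one_right htt
  have hfix : ∀ n ∈ N, n * t = t * n → n = 1 := fun n hn e => by_contra fun h1 => by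
    obtain ⟨k, hk⟩ := gag_cent h hN hn h1 ⟨t, mem_centralizer_singleton_iff.2 e.symm⟩
    have h4 : 2 ∣ p ^ k := ht ▸ orderOf_dvd_of_pow_eq_one (congrArg Subtype.val hk)
    exact h2 ((Nat.prime_dvd_prime_iff_eq Nat.prime_two hp.out).1
      (Nat.prime_two.dvd_of_dvd_pow h4)).symm
  have hinv : ∀ n ∈ N, t * n * t = n⁻¹ := fun n hn => by
    have h4 : t * n * t ∈ N := by simpa [hti] using h.normal.conj_mem _ hn t
    refine eq_inv_of_mul_eq_one_left (hfix _ (N.mul_mem h4 hn) ?_)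
    calc t * n * t * n * t = t * (n * (t * n * t)) := by group
      _ = _ := by rw [hc _ hn _ h4]
  -- `G = N C(t)`
  have hsq : ∀ n ∈ N, ∃ m ∈ N, m * m = n := fun n hn => by
    obtain ⟨k, hk⟩ := hp.out.odd_of_ne_two h2
    exact ⟨n ^ (k + 1), N.pow_mem hn _, by
      rw [← pow_add, show k + 1 + (k + 1) = p + 1 by omega, pow_succ, he n hn, one_mul]⟩
  have hG : ∀ g, ∃ m ∈ N, ∃ c, c * t = t * c ∧ g = m * c := fun g => by
    have h4 : g * t * g⁻¹ * t ∈ N := hC ▸ mem_centralizer_iff.2 fun y hy => by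
      have h5 := hinv _ hy
      have h6 := hinv _ (h.normal.conj_mem _ (N.inv_mem hy) g⁻¹)
      calc y * (g * t * g⁻¹ * t) = g * (g⁻¹ * y⁻¹ * g⁻¹⁻¹)⁻¹ * t * g⁻¹ * t := by group
        _ = g * t * g⁻¹ * (y⁻¹ * g * (t * t) * g⁻¹ * t) := by rw [← h6]; group
        _ = g * t * g⁻¹ * (t * y * (t * t)) := by rw [← h5, htt]; simp [mul_assoc, htt]
        _ = _ := by rw [htt]; group
    obtain ⟨m, hm, e⟩ := hsq _ h4
    refine ⟨m, hm, m⁻¹ * g, ?_, by group⟩
    have h5 := hinv _ hm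
    calc m⁻¹ * g * t = m⁻¹ * (g * t * g⁻¹ * t) * t * g * (g⁻¹ * (t * t)⁻¹ * g) := by group
      _ = (t * t) * m * t * g := by rw [← e, htt]; group
      _ = t * (t * m * t) * g := by group
      _ = _ := by rw [h5]; group
  obtain ⟨u, hu⟩ := exists_prime_orderOf_dvd_card' (G := G ⧸ N) p hd
  obtain ⟨g, rfl⟩ := QuotientGroup.mk_surjective u
  obtain ⟨m, hm, y, hy, rfl⟩ := hG g
  rw [QuotientGroup.mk_mul, (QuotientGroup.eq_one_iff m).2 hm, one_mul] at hu
  have hyN : y ∉ N := fun e => by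
    rw [(QuotientGroup.eq_one_iff y).2 e, orderOf_one] at hu
    exact hp.out.one_lt.ne hu
  have hyp : y ^ p = 1 := hfix _ (by
    rw [← QuotientGroup.eq_one_iff, QuotientGroup.mk_pow, ← hu, pow_orderOf_eq_one])
    (Commute.pow_left hy p)
  have h4 := H1.inf_centralizer_ne_bot_of_isPGroup hN (P := zpowers y)
    (IsPGroup.of_card (n := 1) (by
      rw [Nat.card_zpowers, pow_one]; exact orderOf_eq_prime hyp fun e => hyN (e ▸ N.one_mem)))
    (by rw [normalizer_eq_top]; exact le_top) h.ne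
  obtain ⟨n, hn, hn1⟩ := (bot_or_exists_ne_one _).resolve_left h4
  let F : N → N := fun a => ⟨y⁻¹ * a * y * (a : G)⁻¹, N.mul_mem
    (by simpa using h.normal.conj_mem _ a.2 y⁻¹) (N.inv_mem a.2)⟩
  have hF : Function.Surjective F := fun b => by
    obtain ⟨g, hg⟩ := isConj_iff.1 (gag_cam h hyN b.2)
    obtain ⟨m, hm, c, hc', rfl⟩ := hG g
    have h5 : y⁻¹ * (c * y * c⁻¹) = 1 := hfix _ (by
      have h6 : y⁻¹ * (c * y * c⁻¹) = (y⁻¹ * m⁻¹ * y⁻¹⁻¹) * b * m := by
        rw [show c * y * c⁻¹ = m⁻¹ * (y * b) * m by rw [← hg]; group]; group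
      exact h6 ▸ N.mul_mem (N.mul_mem (h.normal.conj_mem _ (N.inv_mem hm) _) b.2) hm)
      (((Commute.inv_left hy).mul_left ((Commute.mul_left hc' hy).mul_left
        (Commute.inv_left hc'))).eq)
    refine ⟨⟨m, hm⟩, Subtype.ext ?_⟩
    rw [inv_mul_eq_one] at h5
    calc y⁻¹ * m * y * m⁻¹ = y⁻¹ * (m * c * y * (m * c)⁻¹) := by
          conv_lhs => rw [show y⁻¹ * m * y * m⁻¹ = y⁻¹ * m * (c * y * c⁻¹) * m⁻¹ by rw [← h5]]
          group
      _ = b := by rw [hg]; group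
  have h5 := Finite.injective_iff_surjective.2 hF (a₁ := ⟨n, hn.1⟩) (a₂ := 1) (Subtype.ext (by
    have := mem_centralizer_iff.1 hn.2 y (mem_zpowers y)
    simp only [F, coe_one, mul_one, inv_one, inv_mul_cancel]
    rw [mul_assoc y⁻¹, ← this]; group))
  exact hn1 (congrArg Subtype.val h5)

end H8
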