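import Cfsg.Agent.H21.CD3
import Cfsg.Agent.H17.Central
import Cfsg.Agent.H4.SL2Deg
import Cfsg.Agent.H2.FiltG
import Cfsg.Agent.S0102
import Cfsg.Agent.S0252
import Cfsg.Agent.S0494

set_option autoImplicit false
open H17 Cfsg H15 CF Subgroup H21

namespace H8M5

variable {G : Type*} [Group G] [Finite G]

theorem a5_deg [IsSimpleGroup G] (h : Nat.card G = 60) :
    3 ∈ charDegrees G ∧ 4 ∈ charDegrees G := by
  letI : Fintype (GaloisField 2 2) := Fintype.ofFinite _
  have hF : Fintype.card (GaloisField 2 2) = 4 := by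
    rw [← Nat.card_eq_fintype_card, GaloisField.card 2 2 (by norm_num)]; norm_num
  obtain ⟨e⟩ := Cfsg.Agent.S0252.result hF
  obtain ⟨f⟩ := Cfsg.Agent.S0494.result h
  rw [← H4.deg_of_equiv (f.trans e.symm)]
  have h1 := H4.sub_mem_psl_deg (F := GaloisField 2 2) hF.ge
  have h2 := H4.card_mem_psl_deg (F := GaloisField 2 2)
  rw [hF] at h1 h2
  exact ⟨h1, h2⟩

theorem irr_of_deg {K : Subgroup G} {d : ℕ} (h : d ∈ charDegrees K) :
    ∃ θ ∈ Irr K, charDegree θ = d := by
  obtain ⟨χ, rfl⟩ := h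
  refine ⟨_, ext0_mem_Irr.2 χ.2, deg_congr ?_⟩
  have := congrFun (res_ext0 K χ.1) 1
  simpa using this

theorem c360 (h : Nat.card G = 360) (K : Subgroup G) [K.Normal] (hp : _root_.commutator K = ⊤)
    [IsSimpleGroup (K ⧸ center K)] (h60 : Nat.card (K ⧸ center K) = 60)
    (h10 : ∃ d ∈ charDegrees G, 10 ∣ d) : ∃ d ∈ charDegrees G, 6 ∣ d := by
  classical
  have : Fact (Nat.Prime 3) := ⟨by norm_num⟩
  by_contra hno
  have no6 : ∀ ξ ∈ Irr (⊤ : Subgroup G), ¬ 6 ∣ charDegree ξ := fun ξ hξ h6 =>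
    hno ⟨_, ⟨⟨ξ, mem_Irr_top.1 hξ⟩, rfl⟩, h6⟩
  have hn : (⊤ : Subgroup G) ≤ normalizer (K : Set G) := le_normalizer_of_normal
  have hzi : (center K).index = 60 := h60
  have hKZ := (center K).card_mul_index
  have hKG := K.card_mul_index
  have hz3 : ¬ 3 ∣ Nat.card (center K) := by
    have := Cfsg.Agent.S0102.result (G := K ⧸ center K) (H := K) (p := 3)
      (H2.sm_commutator_eq_top (H2.sm_noncomm_of_card (by rw [h60]; norm_num)))
      (fun P => isCyclic_of_prime_card (H2.sm_sylow_prime (by rw [h60]; norm_num)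
        (by rw [h60]; norm_num) P)) (QuotientGroup.mk' _) (QuotientGroup.mk'_surjective _)
      (QuotientGroup.ker_mk' _).le hp
    rwa [QuotientGroup.ker_mk'] at this
  obtain ⟨_, ⟨⟨χ, hχ⟩, rfl⟩, h10⟩ := h10
  replace hχ := mem_Irr_top.2 hχ
  change 10 ∣ charDegree χ at h10
  obtain ⟨θ, hθ, hd⟩ := exists_under (le_top : K ≤ ⊤) hχ
  have hov : χ ∈ IrrO ⊤ K θ := mem_over.2 ⟨hχ, hd⟩
  obtain ⟨m, hm, e1⟩ := deg_over le_top hn hθ hov
  rw [relIndex_top_right] at hm
  have hsq : charDegree θ ^ 2 ≤ 60 :=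
    hzi ▸ (irr_res hθ).sq_le_index_center (n := charDegree θ) (deg_cast hθ).symm
  rw [hzi] at hKZ
  rw [h, ← hKZ] at hKG
  have i6 : K.index ∣ 6 := Dvd.intro_left (Nat.card (center K)) (by linarith)
  have hθ5 : charDegree θ = 5 ∧ 2 ∣ m := by
    have h1 := hm.trans i6
    have h2 := Nat.le_of_dvd (by norm_num) h1
    have h3 : charDegree θ ≤ 7 := by nlinarith
    have h4 := deg_pos hθ
    rw [e1] at h10
    generalize charDegree θ = d at *
    interval_cases m <;> omega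
  have hz : Nat.card (center K) = 1 ∧ K.index = 6 := by
    have h1 := hθ5.2.trans hm
    have h2 := Nat.le_of_dvd (by norm_num) i6
    generalize K.index = i at *
    interval_cases i <;> omega
  have hK : Nat.card K = 60 := by omega
  have hdeg := fun d (hd : d ∈ charDegrees (K ⧸ center K)) =>
    irr_of_deg (H4.deg_of_surj (QuotientGroup.mk' _) (QuotientGroup.mk'_surjective _) hd)
  obtain ⟨φ, hφ, d3⟩ := hdeg 3 (a5_deg h60).1
  obtain ⟨ψ, hψ, d4⟩ := hdeg 4 (a5_deg h60).2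
  have hs := sum_deg_sq' K
  have bd : (orb ⊤ φ).card * 9 + (orb ⊤ θ).card * 25 + 16 ≤ 60 := by
    have od : ∀ {a b : G → ℂ}, b ∈ orb ⊤ a → charDegree b = charDegree a :=
      fun h => deg_congr (orb_one_apply h)
    have h1 : Disjoint (orb ⊤ φ) (orb ⊤ θ) := Finset.disjoint_left.2 fun a h1 h2 => by
      have := od h1; have := od h2; omega
    have h2 : ψ ∉ orb ⊤ φ ∪ orb ⊤ θ := fun h => by
      rcases Finset.mem_union.1 h with h | h <;> have := od h <;> omega
    have h3 := Finset.sum_le_sum_of_subset (f := fun χ => charDegree χ ^ 2)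
      (Finset.insert_subset hψ (Finset.union_subset (orb_subset_Irr hn hφ) (orb_subset_Irr hn hθ)))
    rw [Finset.sum_insert h2, Finset.sum_union h1,
      Finset.sum_congr rfl fun a h => by rw [od h, d3],
      Finset.sum_congr (s₁ := orb ⊤ θ) rfl fun a h => by rw [od h, hθ5.1], hs, hK, d4] at h3
    simp only [Finset.sum_const, smul_eq_mul] at h3
    omega
  have p1 : 0 < (orb ⊤ φ).card := Finset.card_pos.2 ⟨_, self_mem_orb _ _⟩
  have p2 : 0 < (orb ⊤ θ).card := Finset.card_pos.2 ⟨_, self_mem_orb _ _⟩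
  by_cases hc : ⁅(⊤ : Subgroup G), ⊤⁆ ≤ K
  · have hT : (⊤ : Subgroup G) = ⊤ ⊓ stab θ := by
      have : (stab θ).relIndex ⊤ = 1 := by rw [← card_orb]; omega
      exact (inf_eq_left.2 (relIndex_eq_one.1 this)).symm
    obtain ⟨e, -, -, h1, -, h2⟩ := central_inertia le_top hn hθ hT hc
    have h3 := (h2 χ hov).2
    rw [relIndex_top_right, hz.2] at h1
    rw [← deg_cast hχ, ← deg_cast hθ, relIndex_self, hθ5.1] at h3
    have h4 : charDegree χ = 1 * e * 5 := by exact_mod_cast h3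
    have h5 : e ^ 2 ∣ 6 := Dvd.intro _ h1
    have h6 : e ≤ 2 := by have := Nat.le_of_dvd (by norm_num) h5; nlinarith
    interval_cases e <;> omega
  obtain ⟨β, hβ, b1⟩ : ∃ β ∈ IrrQ ⊤ K, charDegree β ≠ 1 := by
    by_contra h
    push Not at h
    exact hc (der_le_of_deg le_top hn h)
  have b2 : charDegree β = 2 := by
    have h1 := sum_IrrQ_sq (le_top : K ≤ ⊤) hn
    rw [Finset.sum_congr rfl fun a h => by rw [← deg_cast (IrrQ_subset _ _ h)],
      relIndex_top_right, hz.2] at h1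
    have h2 : ∑ a ∈ IrrQ ⊤ K, charDegree a ^ 2 = 6 := by exact_mod_cast h1
    have h3 := Finset.single_le_sum (f := fun a => charDegree a ^ 2) (fun _ _ => Nat.zero_le _) hβ
    have h4 := deg_pos (IrrQ_subset _ _ hβ)
    have h5 : charDegree β ≤ 2 := by nlinarith
    omega
  obtain ⟨ξ, hξ⟩ := over_nonempty (le_top : K ≤ ⊤) hφ
  have hξ' := over_subset _ _ _ hξ
  obtain ⟨e, e0, e2, e3⟩ := deg_clifford le_top hn hφ hξ
  have n6 := no6 ξ hξ'
  rw [← card_orb, d3] at e3
  have t1 : (orb ⊤ φ).card = 1 := by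
    by_contra h
    rw [show (orb ⊤ φ).card = 2 by omega] at e3
    omega
  have hst : (⊤ : Subgroup G) ≤ stab φ := relIndex_eq_one.1 (by rw [← card_orb, t1])
  have e4 : e ^ 2 ≤ 6 := by
    have h1 := dot_Ind_self_of_stab le_top hn hφ hst
    have hI : IsChar ⊤ (Ind ⊤ K φ) := (irr_char hφ).Ind le_top
    have h2 := nrm_eq_sum hI.cf
    have h3 := Finset.single_le_sum (f := fun χ => ‖dot ⊤ (Ind ⊤ K φ) χ‖ ^ 2)
      (fun _ _ => by positivity) hξ'
    rw [← h2, nrm, h1, relIndex_top_right, hz.2, dot_Ind_left le_top φ (irr_cf hξ'),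
      ← dot_conj_symm, e2, Complex.norm_conj, Complex.norm_natCast, Complex.natCast_re] at h3
    exact_mod_cast h3
  have e5 : e = 1 := by
    have : e ≤ 2 := by nlinarith
    rw [t1] at e3
    interval_cases e <;> omega
  have hr := Res_eq_of_deg le_top hφ hξ (by rw [e3, e5, t1, d3])
  have hb := gall1_irr le_top hn (irr_char hξ') (hr ▸ hφ) hβ
  refine no6 _ hb ?_
  have : (charDegree (β * ξ) : ℂ) = (6 : ℕ) := by
    rw [deg_cast hb, Pi.mul_apply, ← deg_cast (IrrQ_subset _ _ hβ), ← deg_cast hξ', b2, e3, e5, t1]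
    norm_num
  rw [Nat.cast_injective this]

end H8M5
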