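import Cfsg.Agent.H8.NS2
import Cfsg.Agent.S0497

/-! Same-order counts of `A₆`. -/

set_option autoImplicit false
set_option linter.unusedSectionVars false

namespace H8.NS
open Subgroup H1.Ord

variable {G : Type*} [Group G] [Finite G]

theorem big3 {a b c : ℕ} (ha : a ≠ 0) (hb : b ≠ 0) (hc : c ≠ 0) (hab : a ≠ b) (hac : a ≠ c)
    (hbc : b ≠ c) (e1 : a % 2 = 0) (e2 : b % 2 = 0) (e3 : c % 2 = 0)
    (h1 : ∃ m, s G m = a) (h2 : ∃ m, s G m = b) (h4 : ∃ m, s G m = c) (h3 : s G 2 % 2 = 1) :
    1 + s G 2 + a + b + c ≤ Nat.card G := by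
  obtain ⟨m, hm⟩ := h1
  obtain ⟨n, hn⟩ := h2
  obtain ⟨l, hl⟩ := h4
  have a1 := s_one G
  have := sum_le (G := G) {1, 2, m, n, l}
  have b1 : m ≠ 1 := by rintro rfl; omega
  have b2 : m ≠ 2 := by rintro rfl; omega
  have b3 : n ≠ 1 := by rintro rfl; omega
  have b4 : n ≠ 2 := by rintro rfl; omega
  have b5 : m ≠ n := by rintro rfl; omega
  have b6 : l ≠ 1 := by rintro rfl; omega
  have b7 : l ≠ 2 := by rintro rfl; omega
  have b8 : m ≠ l := by rintro rfl; omega
  have b9 : n ≠ l := by rintro rfl; omega
  rw [Finset.sum_insert (by simp [b1.symm, b3.symm, b6.symm]),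
    Finset.sum_insert (by simp [b2.symm, b4.symm, b7.symm]), Finset.sum_insert (by simp [b5, b8]),
    Finset.sum_pair b9] at this
  omega

set_option maxHeartbeats 1600000 in
theorem a6 (hv : ∀ m, s G m = 0 ∨ s G m = 1 ∨ s G m = 45 ∨ s G m = 80 ∨ s G m = 90 ∨ s G m = 144)
    (h45 : ∃ m, s G m = 45) (h80 : ∃ m, s G m = 80) (h90 : ∃ m, s G m = 90)
    (h144 : ∃ m, s G m = 144) : Nonempty (G ≃* alternatingGroup (Fin 6)) := by
  haveI := Fact.mk Nat.prime_three
  haveI := Fact.mk Nat.prime_five
  haveI := Fact.mk (show Nat.Prime 7 by norm_num)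
  have s1 := s_one G
  have s2 : s G 2 = 45 := s_two (by norm_num) (by norm_num) h45
  have hv' : ∀ m, 2 < m → s G m = 0 ∨ s G m = 80 ∨ s G m = 90 ∨ s G m = 144 := by
    intro m hm
    have := s_even (G := G) hm
    have := hv m
    omega
  have h360 : 360 ≤ Nat.card G := by
    have := big3 (by norm_num) (by norm_num) (by norm_num) (by norm_num) (by norm_num) (by norm_num)
      (by norm_num) (by norm_num) (by norm_num) h80 h90 h144 (by omega)
    omega
  have hpr : ∀ p, p.Prime → p ∣ Nat.card G → p = 2 ∨ p = 3 ∨ p = 5 ∨ p = 7 := by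
    intro p hp h
    obtain ⟨a1, a2, a3⟩ := fprime hp h
    by_cases h2 : p = 2
    · exact Or.inl h2
    have := hv' p (by have := hp.two_le; omega)
    rcases this with e | e | e | e
    · exact absurd e a1
    · rw [e] at a2
      exact Or.inr (Or.inl ((Nat.prime_dvd_prime_iff_eq hp Nat.prime_three).1
        (hp.dvd_of_dvd_pow (n := 4) a2)))
    · rw [e] at a2 a3
      rcases (hp.dvd_mul (m := 7) (n := 13)).1 a2 with h | h
      · exact Or.inr (Or.inr (Or.inr ((Nat.prime_dvd_prime_iff_eq hp (by norm_num)).1 h)))
      · have := (Nat.prime_dvd_prime_iff_eq hp (by norm_num)).1 h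
        subst this; norm_num at a3
    · rw [e] at a2 a3
      rcases (hp.dvd_mul (m := 5) (n := 29)).1 a2 with h | h
      · exact Or.inr (Or.inr (Or.inl ((Nat.prime_dvd_prime_iff_eq hp (by norm_num)).1 h)))
      · have := (Nat.prime_dvd_prime_iff_eq hp (by norm_num)).1 h
        subst this; norm_num at a3
  have s3 : 3 ∣ Nat.card G → s G 3 = 80 := by
    intro h
    obtain ⟨a1, a2, -⟩ := fprime Nat.prime_three h
    have := hv' 3 (by norm_num); omega
  have s5 : 5 ∣ Nat.card G → s G 5 = 144 := by
    intro h
    obtain ⟨a1, a2, -⟩ := fprime Nat.prime_five h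
    have := hv' 5 (by norm_num); omega
  have zt : ∀ m t, 2 < m → m.totient = t → ¬ t ∣ 80 → ¬ t ∣ 90 → ¬ t ∣ 144 → s G m = 0 := by
    intro m t hm ht a b c
    have := tot G m
    rw [ht] at this
    rcases hv' m hm with e | e | e | e
    · exact e
    · exact absurd (e ▸ this) a
    · exact absurd (e ▸ this) b
    · exact absurd (e ▸ this) c
  have n7 : ¬ 7 ∣ Nat.card G := by
    intro h
    have b7 : s G 7 = 90 := by
      obtain ⟨a1, a2, -⟩ := fprime (show Nat.Prime 7 by norm_num) h
      have := hv' 7 (by norm_num); omega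
    have s49 : s G 49 = 0 :=
      zt 49 42 (by norm_num) (by decide +kernel) (by norm_num) (by norm_num) (by norm_num)
    have n49 : ¬ 7 ^ (1 + 1) ∣ Nat.card G := by
      intro h
      have := frob h
      rw [show Nat.divisors (7 ^ (1 + 1)) = {1, 7, 49} by decide +kernel] at this
      simp only [Finset.mem_insert, Finset.mem_singleton, Nat.reduceEqDiff, or_self,
        not_false_eq_true, Finset.sum_insert, Finset.sum_singleton] at this
      omega
    have a3 := s_cyc (G := G) (p := 7) (k := 1) (by rw [pow_one, b7]; norm_num) n49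
    rw [show Nat.totient (7 ^ 1) = 6 by decide, pow_one, b7] at a3
    have h5 : 5 ∣ Nat.card G :=
      Dvd.dvd.trans (by rw [show Nat.card (Sylow 7 G) = 15 by omega]; norm_num) (nsyl_card 7)
    have h35 : 35 ∣ Nat.card G := by clear * - h h5; omega
    have := frob h35
    rw [show Nat.divisors 35 = {1, 5, 7, 35} by decide +kernel] at this
    simp only [Finset.mem_insert, Finset.mem_singleton, Nat.reduceEqDiff, or_self,
      not_false_eq_true, Finset.sum_insert, Finset.sum_singleton] at this
    have c := tot G 35
    rw [show Nat.totient 35 = 24 by decide +kernel] at c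
    have b5 := s5 h5
    have b35 := hv' 35 (by norm_num)
    clear * - this c b5 b35 b7 s1
    omega
  have hpr' : ∀ p, p.Prime → p ∣ Nat.card G → p = 2 ∨ p = 3 ∨ p = 5 := by
    intro p hp h
    rcases hpr p hp h with h1 | h1 | h1 | rfl
    · exact Or.inl h1
    · exact Or.inr (Or.inl h1)
    · exact Or.inr (Or.inr h1)
    · exact absurd h n7
  have n25 : ¬ 5 ^ (1 + 1) ∣ Nat.card G := by
    intro h
    have b5 := s5 (Dvd.dvd.trans (by norm_num) h)
    have a1 := frob h
    rw [show Nat.divisors (5 ^ (1 + 1)) = {1, 5, 25} by decide] at a1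
    simp only [Finset.mem_insert, Finset.mem_singleton, Nat.reduceEqDiff, or_self,
      not_false_eq_true, Finset.sum_insert, Finset.sum_singleton] at a1
    have b25 : s G 25 = 80 := by
      have := hv' 25 (by norm_num)
      clear * - this a1 b5 s1
      omega
    have s125 : s G 125 = 0 :=
      zt 125 100 (by norm_num) (by decide +kernel) (by norm_num) (by norm_num) (by norm_num)
    have n125 : ¬ 5 ^ (2 + 1) ∣ Nat.card G := by
      intro h
      have := frob h
      rw [show Nat.divisors (5 ^ (2 + 1)) = {1, 5, 25, 125} by decide +kernel] at this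
      simp only [Finset.mem_insert, Finset.mem_singleton, Nat.reduceEqDiff, or_self,
        not_false_eq_true, Finset.sum_insert, Finset.sum_singleton] at this
      clear * - this b5 b25 s125 s1
      omega
    have a3 := s_cyc (G := G) (p := 5) (k := 2) (by norm_num; omega) n125
    rw [show Nat.totient (5 ^ 2) = 20 by decide] at a3
    norm_num at a3
    have := nsyl_mod (G := G) 5
    clear * - this a3 b25
    omega
  have s9 : s G 9 = 0 := by
    by_contra h
    have b3 := s3 (Dvd.dvd.trans (by norm_num) (s_card h))
    have c9 := tot G 9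
    rw [show Nat.totient 9 = 6 by decide] at c9
    have b9 := hv' 9 (by norm_num)
    have n27 : ¬ 3 ^ (2 + 1) ∣ Nat.card G := by
      intro h27
      have := frob h27
      rw [show Nat.divisors (3 ^ (2 + 1)) = {1, 3, 9, 27} by decide] at this
      simp only [Finset.mem_insert, Finset.mem_singleton, Nat.reduceEqDiff, or_self,
        not_false_eq_true, Finset.sum_insert, Finset.sum_singleton] at this
      have c27 := tot G 27
      rw [show Nat.totient 27 = 18 by decide] at c27
      have b27 := hv' 27 (by norm_num)
      clear * - this c27 b27 b9 c9 h b3 s1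
      omega
    have a3 := s_cyc (G := G) (p := 3) (k := 2) (by norm_num; omega) n27
    rw [show Nat.totient (3 ^ 2) = 6 by decide] at a3
    norm_num at a3
    have := nsyl_mod (G := G) 3
    clear * - this a3 b9 h
    omega
  have n243 : ¬ 3 ^ (4 + 1) ∣ Nat.card G := by
    intro h
    have := frob h
    rw [show Nat.divisors (3 ^ (4 + 1)) = {1, 3, 9, 27, 81, 243} by decide +kernel] at this
    simp only [Finset.mem_insert, Finset.mem_singleton, Nat.reduceEqDiff, or_self,
      not_false_eq_true, Finset.sum_insert, Finset.sum_singleton] at this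
    have z9 : ∀ m, 9 ∣ m → s G m = 0 := fun m hm => by
      by_contra h; exact s_dvd h hm s9
    have a1 := z9 27 (by norm_num)
    have a2 := z9 81 (by norm_num)
    have a3 := z9 243 (by norm_num)
    have b3 := s3 (Dvd.dvd.trans (by norm_num) h)
    clear * - this a1 a2 a3 b3 s9 s1
    omega
  have s4 : 4 ∣ Nat.card G → s G 4 = 90 := by
    intro h
    have := frob h
    rw [show Nat.divisors 4 = {1, 2, 4} by decide] at this
    simp only [Finset.mem_insert, Finset.mem_singleton, Nat.reduceEqDiff, or_self,
      not_false_eq_true, Finset.sum_insert, Finset.sum_singleton] at this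
    have b := hv' 4 (by norm_num)
    clear * - this b s1 s2
    omega
  have n16 : ¬ 2 ^ (3 + 1) ∣ Nat.card G := by
    intro h
    have := frob h
    rw [show Nat.divisors (2 ^ (3 + 1)) = {1, 2, 4, 8, 16} by decide] at this
    simp only [Finset.mem_insert, Finset.mem_singleton, Nat.reduceEqDiff, or_self,
      not_false_eq_true, Finset.sum_insert, Finset.sum_singleton] at this
    have b4 := s4 (Dvd.dvd.trans (by norm_num) h)
    have c8 := tot G 8
    rw [show Nat.totient 8 = 4 by decide] at c8
    have c16 := tot G 16
    rw [show Nat.totient 16 = 8 by decide] at c16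
    have b8 := hv' 8 (by norm_num)
    have b16 := hv' 16 (by norm_num)
    clear * - this b4 c8 c16 b8 b16 s1 s2
    omega
  have s8 : s G 8 = 0 := by
    by_contra h
    have a3 := s_cyc (G := G) (p := 2) (k := 3) (by norm_num; omega) n16
    rw [show Nat.totient (2 ^ 3) = 4 by decide] at a3
    norm_num at a3
    have := nsyl_mod (G := G) 2
    have b8 := hv' 8 (by norm_num)
    clear * - this a3 b8 h
    omega
  have h5 : 5 ∣ Nat.card G := by
    by_contra h5
    have hd : Nat.card G ∣ 648 := by
      refine dvd_of_pp fun p k hp hk h => ?_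
      rcases hpr' p hp ((dvd_pow_self p hk.ne').trans h) with rfl | rfl | rfl
      · exact pp_dvd n16 (by norm_num) h
      · exact pp_dvd n243 (by norm_num) h
      · exact absurd ((dvd_pow_self 5 hk.ne').trans h) h5
    have hG : Nat.card G = 648 := by
      obtain ⟨c, hc⟩ := hd
      have : c = 1 := by
        rcases c with _ | _ | c
        · omega
        · rfl
        · nlinarith
      subst this; omega
    have hE : ∀ m, s G m ≠ 0 → m ∣ 12 := by
      intro m hm
      refine dvd_of_pp fun p k hp hk h => ?_
      have hpG := ((dvd_pow_self p hk.ne').trans h).trans (s_card hm)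
      rcases hpr' p hp hpG with rfl | rfl | rfl
      · exact pp_dvd (a := 2) (fun h => s_dvd hm h s8) (by norm_num) h
      · exact pp_dvd (a := 1) (fun h => s_dvd hm h s9) (by norm_num) h
      · exact absurd hpG h5
    have hsum := card_eq_sum (G := G) (E := 12) (by norm_num) hE
    rw [show Nat.divisors 12 = {1, 2, 3, 4, 6, 12} by decide] at hsum
    simp only [Finset.mem_insert, Finset.mem_singleton, Nat.reduceEqDiff, or_self,
      not_false_eq_true, Finset.sum_insert, Finset.sum_singleton] at hsum
    have b3 := hv' 3 (by norm_num)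
    have b4 := hv' 4 (by norm_num)
    have b6 := hv' 6 (by norm_num)
    have b12 := hv' 12 (by norm_num)
    clear * - hsum b3 b4 b6 b12 s1 s2 hG
    omega
  have b5 := s5 h5
  have n5 : Nat.card (Sylow 5 G) = 36 := by
    have a3 := s_cyc (G := G) (p := 5) (k := 1) (by rw [pow_one, b5]; norm_num) n25
    rw [show Nat.totient (5 ^ 1) = 4 by decide, pow_one, b5] at a3
    omega
  have h3 : 3 ∣ Nat.card G := Dvd.dvd.trans (by rw [n5]; norm_num) (nsyl_card 5)
  have b3 := s3 h3
  have b10 : s G 10 = 0 := by
    have a := nsyl_dvd (G := G) (p := 5) (k := 1) (m := 10) (by simpa using h5) n25 (by norm_num)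
    rw [n5] at a
    have h10 : 10 ∣ Nat.card G := by
      have := s_card (G := G) (m := 2) (by omega)
      clear * - this h5
      omega
    have := frob h10
    rw [show Nat.divisors 10 = {1, 2, 5, 10} by decide] at this
    simp only [Finset.mem_insert, Finset.mem_singleton, Nat.reduceEqDiff, or_self, not_false_eq_true,
      Finset.sum_insert, Finset.sum_singleton] at this
    have b := hv' 10 (by norm_num)
    clear * - this b a b5 s1 s2
    omega
  have b15 : s G 15 = 0 := by
    have a := nsyl_dvd (G := G) (p := 5) (k := 1) (m := 15) (by simpa using h5) n25 (by norm_num)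
    rw [n5] at a
    have h15 : 15 ∣ Nat.card G := by
      clear * - h3 h5
      omega
    have := frob h15
    rw [show Nat.divisors 15 = {1, 3, 5, 15} by decide] at this
    simp only [Finset.mem_insert, Finset.mem_singleton, Nat.reduceEqDiff, or_self, not_false_eq_true,
      Finset.sum_insert, Finset.sum_singleton] at this
    have b := hv' 15 (by norm_num)
    clear * - this b a b5 s1 b3
    omega
  obtain ⟨x, hx, hdv⟩ := card_dvd h5 n25
  have hC : Nat.card (centralizer ({x} : Set G)) ∣ 5 := by
    refine cent_card Nat.prime_five n25 hx fun q hq h1 h2 => ?_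
    rcases hpr' q hq h2 with rfl | rfl | rfl
    · exact b10
    · exact b15
    · exact absurd rfl h1
  have h720 : Nat.card G ∣ 720 := by
    rw [n5] at hdv
    exact hdv.trans (Nat.mul_dvd_mul_left 144 hC)
  have hG : Nat.card G = 360 := by
    have : Nat.card G = 360 ∨ Nat.card G = 720 := by
      obtain ⟨c, hc⟩ := h720
      rcases c with _ | _ | _ | c
      · omega
      · omega
      · omega
      · nlinarith
    refine this.resolve_right fun hG => n16 ?_
    rw [hG]; norm_num
  haveI : Nontrivial G := Finite.one_lt_card_iff_nontrivial.1 (by omega)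
  haveI : IsSimpleGroup G := by
    refine ⟨fun N hN => ?_⟩
    by_contra hcon
    push Not at hcon
    have e := N.index_mul_card
    have e1 : Nat.card N ≠ 1 := fun h => hcon.1 (card_eq_one.1 h)
    have e2 : N.index ≠ 1 := fun h => hcon.2 (index_eq_one.1 h)
    rw [hG] at e
    have k5 : (5 : ℕ).Coprime N.index → 145 ≤ Nat.card N := fun h => by
      have := sol_le_normal N (by norm_num) h
      rw [Nat.prime_five.sum_divisors] at this; omega
    have k3 : (3 : ℕ).Coprime N.index → 81 ≤ Nat.card N := fun h => by
      have := sol_le_normal N (by norm_num) h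
      rw [Nat.prime_three.sum_divisors] at this; omega
    have k15 : (15 : ℕ).Coprime N.index → 225 ≤ Nat.card N := fun h => by
      have := sol_le_normal N (by norm_num) h
      rw [show Nat.divisors 15 = {1, 3, 5, 15} by decide] at this
      simp only [Finset.mem_insert, Finset.mem_singleton, Nat.reduceEqDiff, or_self,
        not_false_eq_true, Finset.sum_insert, Finset.sum_singleton] at this
      omega
    by_cases h5N : 5 ∣ Nat.card N
    · have hi : (5 : ℕ).Coprime N.index := by
        rw [Nat.prime_five.coprime_iff_not_dvd]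
        intro h
        have := Nat.mul_dvd_mul h h5N
        rw [e] at this; norm_num at this
      have a := k5 hi
      have a2 : N.index = 2 := by
        rcases hi' : N.index with _ | _ | _ | c
        · rw [hi'] at e; omega
        · exact absurd hi' e2
        · rfl
        · rw [hi'] at e; nlinarith
      have := k15 (by rw [a2]; norm_num)
      rw [a2] at e
      omega
    · have a := card_eq_sum (G := N) (E := 72) (by norm_num) fun m hm => (s_card hm).trans (by
        have h1 : Nat.card N ∣ 5 * 72 := Dvd.intro_left _ e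
        exact ((Nat.prime_five.coprime_iff_not_dvd.2 h5N).symm).dvd_of_dvd_mul_left h1)
      have hd : Nat.card N ∣ 72 := by
        have h1 : Nat.card N ∣ 5 * 72 := Dvd.intro_left _ e
        exact ((Nat.prime_five.coprime_iff_not_dvd.2 h5N).symm).dvd_of_dvd_mul_left h1
      rw [show Nat.divisors 72 = {1, 2, 3, 4, 6, 8, 9, 12, 18, 24, 36, 72} by decide +kernel] at a
      simp only [Finset.mem_insert, Finset.mem_singleton, Nat.reduceEqDiff, or_self,
        not_false_eq_true, Finset.sum_insert, Finset.sum_singleton] at a
      have f := fun m (hm : m ≠ 1) => fpf Nat.prime_five hx hC N h5N hm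
      have f2 := f 2 (by norm_num); have f3 := f 3 (by norm_num); have f4 := f 4 (by norm_num)
      have f6 := f 6 (by norm_num); have f8 := f 8 (by norm_num); have f9 := f 9 (by norm_num)
      have f12 := f 12 (by norm_num); have f18 := f 18 (by norm_num)
      have f24 := f 24 (by norm_num); have f36 := f 36 (by norm_num)
      have f72 := f 72 (by norm_num)
      have g1 := s_one N
      have hmod : Nat.card N % 5 = 1 := by
        clear * - a f2 f3 f4 f6 f8 f9 f12 f18 f24 f36 f72 g1
        omega
      have hm : Nat.card N ∈ Nat.divisors 72 := Nat.mem_divisors.2 ⟨hd, by norm_num⟩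
      rw [show Nat.divisors 72 = {1, 2, 3, 4, 6, 8, 9, 12, 18, 24, 36, 72} by decide +kernel] at hm
      simp only [Finset.mem_insert, Finset.mem_singleton] at hm
      have h6 : Nat.card N = 6 ∨ Nat.card N = 36 := by
        clear * - hm hmod e1
        omega
      rcases h6 with h | h
      · have p2 := s_pos (G := N) Nat.prime_two (by rw [h]; norm_num)
        have p3 := s_pos (G := N) Nat.prime_three (by rw [h]; norm_num)
        have c := sum_le (G := N) {2, 3}
        rw [Finset.sum_pair (by norm_num)] at c
        clear * - c p2 p3 f2 f3 h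
        omega
      · rw [h] at e
        have := k3 (by rw [show N.index = 10 by omega]; norm_num)
        omega
  exact Cfsg.Agent.S0497.result hG

theorem card_alt (n k : ℕ) : Nat.card {g : alternatingGroup (Fin n) // g ^ k = 1} =
    (Finset.univ.filter (fun g : Equiv.Perm (Fin n) => Equiv.Perm.sign g = 1 ∧ g ^ k = 1)).card := by
  rw [← Fintype.card_subtype, ← Nat.card_eq_fintype_card]
  refine Nat.card_congr ⟨fun g => ⟨g.1.1, Equiv.Perm.mem_alternatingGroup.1 g.1.2,
    congrArg Subtype.val g.2⟩, fun g => ⟨⟨g.1, Equiv.Perm.mem_alternatingGroup.2 g.2.1⟩,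
    Subtype.ext g.2.2⟩, fun _ => rfl, fun _ => rfl⟩

theorem set_eq {A : Type*} [Group A] [Finite A] (D : Finset ℕ) (hD : ∑ d ∈ D, s A d = Nat.card A)
    (h0 : ∀ d ∈ D, s A d ≠ 0) :
    ((fun m : ℕ => Nat.card {g : A // orderOf g = m}) '' Set.range (orderOf : A → ℕ)) =
      s A '' (D : Set ℕ) := by
  classical
  have : Set.range (orderOf : A → ℕ) = (D : Set ℕ) := by
    ext m
    constructor
    · rintro ⟨g, hg⟩
      by_contra hm
      have h1 := sum_le (G := A) (insert m D)
      rw [Finset.sum_insert hm] at h1
      have := s_ne.2 ⟨g, hg⟩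
      omega
    · intro hm
      exact s_ne.1 (h0 m hm)
  rw [this]; rfl

end H8.NS
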