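import Mathlib
import Cfsg.Agent.H1.Super

/-! Order types of finite groups: transfer of normal Hall subgroups. -/

namespace H8

open Subgroup

/-- Same order type. -/
def OT (G H : Type*) [Group G] [Group H] : Prop :=
  ∀ m : ℕ, Nat.card {g : G // orderOf g = m} = Nat.card {h : H // orderOf h = m}

variable {G H : Type*} [Group G] [Group H]

theorem OT.symm (h : OT G H) : OT H G := fun m => (h m).symm

theorem OT.exists_equiv [Finite G] [Finite H] (h : OT G H) :
    ∃ e : G ≃ H, ∀ g, orderOf (e g) = orderOf g := by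
  have h1 : ∀ m : ℕ, Nonempty ({g : G // orderOf g = m} ≃ {h : H // orderOf h = m}) :=
    fun m => Finite.card_eq.1 (h m)
  refine ⟨Equiv.ofFiberEquiv (f := orderOf) (g := orderOf) (fun m => (h1 m).some), fun g => ?_⟩
  exact Equiv.ofFiberEquiv_map _ g

theorem OT.card_eq [Finite G] [Finite H] (h : OT G H) : Nat.card G = Nat.card H := by
  obtain ⟨e, -⟩ := h.exists_equiv
  exact Nat.card_congr e

theorem OT.card_sol [Finite G] [Finite H] (h : OT G H) (m : ℕ) :
    Nat.card {g : G // g ^ m = 1} = Nat.card {g : H // g ^ m = 1} := by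
  obtain ⟨e, he⟩ := h.exists_equiv
  refine Nat.card_congr (e.subtypeEquiv fun g => ?_)
  rw [← orderOf_dvd_iff_pow_eq_one, ← orderOf_dvd_iff_pow_eq_one, he]

theorem OT.exists_orderOf [Finite G] [Finite H] (h : OT G H) (y : H) :
    ∃ x : G, orderOf x = orderOf y := by
  obtain ⟨e, he⟩ := h.exists_equiv
  exact ⟨e.symm y, by rw [← he, e.apply_symm_apply]⟩

theorem mem_iff_pow_of_normal_hall [Finite G] (K : Subgroup G) [K.Normal]
    (hc : (Nat.card K).Coprime K.index) (g : G) : g ^ Nat.card K = 1 ↔ g ∈ K := by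
  constructor
  · intro hg
    have h1 : orderOf (g : G ⧸ K) ∣ Nat.card K := by
      rw [orderOf_dvd_iff_pow_eq_one, ← QuotientGroup.mk_pow, hg, QuotientGroup.mk_one]
    have h2 : orderOf (g : G ⧸ K) ∣ K.index := orderOf_dvd_natCard _
    have h3 : orderOf (g : G ⧸ K) = 1 := Nat.eq_one_of_dvd_coprimes hc h1 h2
    rw [orderOf_eq_one_iff, QuotientGroup.eq_one_iff] at h3
    exact h3
  · intro hg
    have := pow_card_eq_one' (G := K) (x := ⟨g, hg⟩)
    exact congrArg Subtype.val this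

theorem card_sol_of_normal_hall [Finite G] (K : Subgroup G) [K.Normal]
    (hc : (Nat.card K).Coprime K.index) : Nat.card {g : G // g ^ Nat.card K = 1} = Nat.card K :=
  Nat.card_congr (Equiv.subtypeEquivRight (mem_iff_pow_of_normal_hall K hc))

theorem mem_iff_pow_of_card_sol [Finite G] (L : Subgroup G)
    (h : Nat.card {g : G // g ^ Nat.card L = 1} = Nat.card L) (g : G) :
    g ^ Nat.card L = 1 ↔ g ∈ L := by
  have hsub : (L : Set G) ⊆ {g : G | g ^ Nat.card L = 1} := fun g hg =>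
    congrArg Subtype.val (pow_card_eq_one' (G := L) (x := ⟨g, hg⟩))
  have heq : (L : Set G) = {g : G | g ^ Nat.card L = 1} := by
    apply Set.eq_of_subset_of_ncard_le hsub _ (Set.toFinite _)
    rw [← Nat.card_coe_set_eq, ← Nat.card_coe_set_eq]
    exact h.le
  exact ⟨fun hg => by rw [← SetLike.mem_coe, heq]; exact hg, fun hg => hsub hg⟩

theorem normal_of_card_sol [Finite G] (L : Subgroup G)
    (h : Nat.card {g : G // g ^ Nat.card L = 1} = Nat.card L) : L.Normal := by
  refine ⟨fun x hx g => ?_⟩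
  rw [← mem_iff_pow_of_card_sol L h] at hx ⊢
  rw [conj_pow, hx]; simp

theorem OT.normal_of_card [Finite G] [Finite H] (h : OT G H) (K : Subgroup G) [K.Normal]
    (hc : (Nat.card K).Coprime K.index) (L : Subgroup H) (hL : Nat.card L = Nat.card K) :
    L.Normal := by
  apply normal_of_card_sol
  rw [← h.card_sol, hL, card_sol_of_normal_hall K hc]

/-- `K` is a Hall subgroup for the set of primes `π`. -/
def HallP (π : ℕ → Prop) (K : Subgroup G) : Prop :=
  (∀ p : ℕ, p.Prime → p ∣ Nat.card K → π p) ∧ ∀ p : ℕ, p.Prime → p ∣ K.index → ¬ π p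

theorem coprime_of_pi {π : ℕ → Prop} {a b : ℕ} (ha : ∀ p : ℕ, p.Prime → p ∣ a → π p)
    (hb : ∀ p : ℕ, p.Prime → p ∣ b → ¬ π p) : a.Coprime b :=
  Nat.coprime_of_dvd fun p hp h1 h2 => hb p hp h2 (ha p hp h1)

theorem HallP.coprime {π : ℕ → Prop} {K : Subgroup G} (h : HallP π K) :
    (Nat.card K).Coprime K.index := coprime_of_pi h.1 h.2

theorem HallP.card_eq {π : ℕ → Prop} {K : Subgroup G} {L : Subgroup H} (hK : HallP π K)
    (hL : HallP π L) (hc : Nat.card G = Nat.card H) : Nat.card K = Nat.card L := by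
  have e : Nat.card K * K.index = Nat.card L * L.index := by
    rw [K.card_mul_index, L.card_mul_index, hc]
  apply Nat.dvd_antisymm
  · exact (coprime_of_pi hK.1 hL.2).dvd_of_dvd_mul_right (e ▸ dvd_mul_right _ _)
  · exact (coprime_of_pi hL.1 hK.2).dvd_of_dvd_mul_right (e ▸ dvd_mul_right _ _)

theorem HallP.congr {π ρ : ℕ → Prop} {K : Subgroup G} (hK : HallP π K)
    (h : ∀ p : ℕ, p.Prime → p ∣ Nat.card G → (π p ↔ ρ p)) : HallP ρ K :=
  ⟨fun p hp h1 => (h p hp (h1.trans K.card_subgroup_dvd_card)).1 (hK.1 p hp h1),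
    fun p hp h1 h2 => hK.2 p hp h1 ((h p hp (h1.trans K.index_dvd_card)).2 h2)⟩

theorem OT.normal_of_hallP [Finite G] [Finite H] (h : OT G H) {π : ℕ → Prop} {K : Subgroup G}
    [K.Normal] (hK : HallP π K) {L : Subgroup H} (hL : HallP π L) : L.Normal :=
  h.normal_of_card K hK.coprime L (hL.card_eq hK h.card_eq.symm)

theorem card_sup_dvd_mul [Finite G] (K P : Subgroup G) [K.Normal] :
    Nat.card (K ⊔ P : Subgroup G) ∣ Nat.card K * Nat.card P := by
  have h1 : K.relIndex (K ⊔ P) = K.relIndex P := by rw [relIndex_sup_left]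
  have h2 : Nat.card (K.subgroupOf (K ⊔ P)) * K.relIndex (K ⊔ P) = Nat.card (K ⊔ P : Subgroup G) :=
    (K.subgroupOf (K ⊔ P)).card_mul_index
  rw [Nat.card_congr (subgroupOfEquivOfLe (le_sup_left : K ≤ K ⊔ P)).toEquiv, h1] at h2
  rw [← h2]
  exact Nat.mul_dvd_mul_left _ (index_dvd_card _)

theorem HallP.sup_sylow [Finite G] {π : ℕ → Prop} {K : Subgroup G} [K.Normal] (hK : HallP π K)
    {p : ℕ} [Fact p.Prime] (P : Sylow p G) : HallP (fun q => π q ∨ q = p) (K ⊔ P) := by
  constructor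
  · intro q hq h1
    rcases (Nat.Prime.dvd_mul hq).1 (h1.trans (card_sup_dvd_mul K P)) with h2 | h2
    · exact Or.inl (hK.1 q hq h2)
    · right
      obtain ⟨n, hn⟩ := IsPGroup.iff_card.1 P.isPGroup'
      rw [hn] at h2
      exact (Nat.prime_dvd_prime_iff_eq hq Fact.out).1 (hq.dvd_of_dvd_pow h2)
  · rintro q hq h1 (h2 | rfl)
    · exact hK.2 q hq (h1.trans (index_dvd_of_le le_sup_left)) h2
    · exact P.not_dvd_index (h1.trans (index_dvd_of_le le_sup_right))

theorem isSolvable_sup_pgroup [Finite G] (K P : Subgroup G) [K.Normal] (hK : Group.IsSolvable K)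
    {p : ℕ} [Fact p.Prime] (hP : IsPGroup p P) : Group.IsSolvable (K ⊔ P : Subgroup G) := by
  have hP' : Group.IsSolvable P := by
    have := hP.isNilpotent
    infer_instance
  rw [sup_comm]
  exact H1.isSolvable_sup hP' hK le_normalizer_of_normal

theorem OT.tower [Finite G] [Finite H] (h : OT G H) (ρ σ : ℕ → Prop) (L0 : Subgroup H)
    (hn0 : L0.Normal) (h0 : HallP ρ L0) (hs : Group.IsSolvable L0) (n0 : ℕ)
    (hG : ∀ n, n0 ≤ n → ∃ K : Subgroup G, K.Normal ∧ HallP (fun q => ρ q ∨ (σ q ∧ n ≤ q)) K) :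
    ∃ L : Subgroup H, L.Normal ∧ HallP (fun q => ρ q ∨ (σ q ∧ n0 ≤ q)) L ∧ Group.IsSolvable L := by
  have key : ∀ k n, n0 ≤ n → Nat.card H < n + k →
      ∃ L : Subgroup H, L.Normal ∧ HallP (fun q => ρ q ∨ (σ q ∧ n ≤ q)) L ∧ Group.IsSolvable L := by
    intro k
    induction k with
    | zero =>
      intro n _ hlt
      refine ⟨L0, hn0, h0.congr fun p _ hp => ⟨Or.inl, ?_⟩, hs⟩
      rintro (h1 | ⟨-, h1⟩)
      · exact h1
      · have := Nat.le_of_dvd Nat.card_pos hp
        omega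
    | succ k ih =>
      intro n hn hlt
      obtain ⟨L, hL, hH, hLs⟩ := ih (n + 1) (by omega) (by omega)
      by_cases hp : n.Prime ∧ σ n
      · haveI := Fact.mk hp.1
        obtain ⟨P⟩ : Nonempty (Sylow n H) := inferInstance
        have h1 : HallP (fun q => ρ q ∨ (σ q ∧ n ≤ q)) (L ⊔ P) := by
          refine (hH.sup_sylow P).congr fun q _ _ => ⟨?_, ?_⟩
          · rintro ((h1 | ⟨h1, h2⟩) | rfl)
            · exact Or.inl h1
            · exact Or.inr ⟨h1, by omega⟩
            · exact Or.inr ⟨hp.2, le_rfl⟩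
          · rintro (h1 | ⟨h1, h2⟩)
            · exact Or.inl (Or.inl h1)
            · rcases h2.eq_or_lt with h3 | h3
              · exact Or.inr h3.symm
              · exact Or.inl (Or.inr ⟨h1, h3⟩)
        obtain ⟨K, hK, hKH⟩ := hG n hn
        exact ⟨L ⊔ P, h.normal_of_hallP hKH h1, h1, isSolvable_sup_pgroup L P hLs P.isPGroup'⟩
      · refine ⟨L, hL, hH.congr fun q hq _ => ⟨?_, ?_⟩, hLs⟩
        · rintro (h1 | ⟨h1, h2⟩)
          · exact Or.inl h1
          · exact Or.inr ⟨h1, by omega⟩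
        · rintro (h1 | ⟨h1, h2⟩)
          · exact Or.inl h1
          · rcases h2.eq_or_lt with h3 | h3
            · exact absurd ⟨h3 ▸ hq, h3 ▸ h1⟩ hp
            · exact Or.inr ⟨h1, h3⟩
  exact key (Nat.card H + 1) n0 le_rfl (by omega)

theorem hallP_bot {π : ℕ → Prop} (h : ∀ p : ℕ, p.Prime → p ∣ Nat.card G → ¬ π p) :
    HallP π (⊥ : Subgroup G) :=
  ⟨fun p hp h1 => by simp at h1; exact absurd h1 hp.ne_one, fun p hp h1 => h p hp (by simpa using h1)⟩

theorem card_comap_mk' [Finite G] (N : Subgroup G) [N.Normal] (K : Subgroup (G ⧸ N)) :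
    Nat.card (K.comap (QuotientGroup.mk' N)) = Nat.card K * Nat.card N := by
  have h1 := (K.comap (QuotientGroup.mk' N)).card_mul_index
  rw [index_comap_of_surjective _ (QuotientGroup.mk'_surjective N),
    card_eq_card_quotient_mul_card_subgroup N, ← K.card_mul_index] at h1
  apply Nat.eq_of_mul_eq_mul_right (Nat.pos_of_ne_zero K.index_ne_zero_of_finite)
  rw [h1]; ring

theorem HallP.comap_mk' [Finite G] {π : ℕ → Prop} (N : Subgroup G) [N.Normal]
    {K : Subgroup (G ⧸ N)} (hK : HallP π K) (hN : ∀ p : ℕ, p.Prime → p ∣ Nat.card N → π p) :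
    HallP π (K.comap (QuotientGroup.mk' N)) := by
  constructor
  · intro p hp h1
    rw [card_comap_mk'] at h1
    rcases (Nat.Prime.dvd_mul hp).1 h1 with h2 | h2
    · exact hK.1 p hp h2
    · exact hN p hp h2
  · intro p hp h1
    rw [index_comap_of_surjective _ (QuotientGroup.mk'_surjective N)] at h1
    exact hK.2 p hp h1

universe u

theorem tower_of_class (C : ∀ (X : Type u) [Group X] [Finite X], Prop) (n0 : ℕ)
    (hq : ∀ (X : Type u) [Group X] [Finite X] (N : Subgroup X) [N.Normal], C X → C (X ⧸ N))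
    (hn : ∀ (X : Type u) [Group X] [Finite X], C X → ∀ (p : ℕ) [Fact p.Prime], n0 ≤ p →
      (∀ q : ℕ, q.Prime → q ∣ Nat.card X → q ≤ p) → ∀ S : Sylow p X, (S : Subgroup X).Normal)
    (n : ℕ) (hn0 : n0 ≤ n) (k : ℕ) : ∀ (X : Type u) [Group X] [Finite X], Nat.card X = k → C X →
      ∃ K : Subgroup X, K.Normal ∧ HallP (fun q => n ≤ q) K := by
  induction k using Nat.strong_induction_on with
  | _ k ih =>
  intro X _ _ hk hC
  by_cases h1 : ∀ p : ℕ, p.Prime → p ∣ Nat.card X → ¬ n ≤ p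
  · exact ⟨⊥, inferInstance, hallP_bot h1⟩
  push Not at h1
  obtain ⟨r, hr, hrd, hnr⟩ := h1
  obtain ⟨p, hp, hpd, hmax⟩ := H1.exists_max_prime_dvd (n := Nat.card X) Nat.card_pos.ne'
    (fun h => hr.ne_one (by rwa [h, Nat.dvd_one] at hrd))
  haveI := Fact.mk hp
  obtain ⟨S⟩ : Nonempty (Sylow p X) := inferInstance
  have hnp : n ≤ p := hnr.trans (hmax r hr hrd)
  haveI := hn X hC p (hn0.trans hnp) hmax S
  have hlt : Nat.card (X ⧸ (S : Subgroup X)) < k := by
    rw [← hk, card_eq_card_quotient_mul_card_subgroup (S : Subgroup X)]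
    have : 1 < Nat.card S := (one_lt_card_iff_ne_bot _).2 (S.ne_bot_of_dvd_card hpd)
    exact lt_mul_of_one_lt_right Nat.card_pos this
  obtain ⟨K, hK, hKH⟩ := ih _ hlt _ rfl (hq X S hC)
  refine ⟨K.comap (QuotientGroup.mk' _), inferInstance, hKH.comap_mk' _ fun q hq h2 => ?_⟩
  obtain ⟨m, hm⟩ := IsPGroup.iff_card.1 S.isPGroup'
  rw [hm] at h2
  rw [(Nat.prime_dvd_prime_iff_eq hq hp).1 (hq.dvd_of_dvd_pow h2)]
  exact hnp

theorem tower_of_supS {X : Type u} [Group X] [Finite X] (h : H1.SupS X) (n : ℕ) :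
    ∃ K : Subgroup X, K.Normal ∧ HallP (fun q => n ≤ q) K :=
  tower_of_class (fun X _ _ => H1.SupS X) 0 (fun _ _ _ N _ h => h.quotient N)
    (fun _ _ _ h _ _ _ hmax S => h.sylow_normal hmax S) n n.zero_le _ X rfl h

theorem OT.isSolvable_of_supS [Finite G] [Finite H] (h : OT G H) (hG : H1.SupS G) :
    Group.IsSolvable H := by
  obtain ⟨L, -, hL, hs⟩ := h.tower (fun _ => False) (fun _ => True) ⊥ inferInstance
    (hallP_bot fun _ _ _ => id) inferInstance 0 (fun n _ => by
      obtain ⟨K, hK, hH⟩ := tower_of_supS hG n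
      exact ⟨K, hK, hH.congr fun p _ _ => by simp⟩)
  have : L = ⊤ := by
    rw [← index_eq_one]
    by_contra h1
    obtain ⟨p, hp, hpd⟩ := Nat.exists_prime_and_dvd h1
    exact hL.2 p hp hpd (by simp)
  subst this
  exact Group.isSolvable_of_surjective (f := (⊤ : Subgroup H).subtype)
    (fun x => ⟨⟨x, mem_top x⟩, rfl⟩)

end H8
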