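import Cfsg.Agent.H11.BGLib2
import Cfsg.Agent.H8.Cls
import Cfsg.Agent.H10.SylowIn

/-! Counting conjugacy classes of `π`-elements. -/

set_option autoImplicit false
set_option linter.unusedSectionVars false

namespace H8
open Subgroup Cfsg H1 Finset

variable {G : Type*} [Group G]

open Classical in
theorem card_cls_mul [Fintype G] (Q : ConjClasses G → Prop) :
    Nat.card {C // Q C} * Nat.card G =
      ∑ g with Q (ConjClasses.mk g), Nat.card (centralizer ({g} : Set G)) := by
  haveI := Fintype.ofFinite (ConjClasses G)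
  rw [← sum_fiberwise_of_maps_to (g := ConjClasses.mk) (t := univ.filter Q) (by simp),
    Nat.subtype_card (univ.filter Q) (by simp), ← smul_eq_mul, ← sum_const]
  refine sum_congr rfl fun C hC => ?_
  obtain ⟨x, rfl⟩ := ConjClasses.exists_rep C
  rw [sum_congr rfl (g := fun _ => Nat.card (centralizer ({x} : Set G))) fun g hg =>
    card_centralizer_of_isConj (ConjClasses.mk_eq_mk_iff_isConj.1 (mem_filter.1 hg).2),
    sum_const, smul_eq_mul, ← (centralizer ({x} : Set G)).index_mul_card, ← card_carrier_mk]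
  congr 1
  refine Nat.subtype_card _ fun g => ?_
  simp only [mem_filter, mem_univ, true_and, ConjClasses.mem_carrier_iff_mk_eq] at hC ⊢
  exact ⟨fun h => h.2, fun h => ⟨h ▸ hC, h⟩⟩

/-- the number of classes of `π`-elements -/
noncomputable def kpi (π : Set ℕ) (G : Type*) [Group G] : ℕ :=
  Nat.card {C : ConjClasses G // ∀ q : ℕ, q.Prime →
    (∃ g : G, ConjClasses.mk g = C ∧ q ∣ orderOf g) → q ∈ π}

theorem picl_iff {π : Set ℕ} {x : G} : (∀ q : ℕ, q.Prime →
    (∃ g : G, ConjClasses.mk g = ConjClasses.mk x ∧ q ∣ orderOf g) → q ∈ π) ↔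
      IsPiNat π (orderOf x) := by
  refine ⟨fun h q hq hd => h q hq ⟨x, rfl, hd⟩, fun h q hq ⟨g, hg, hd⟩ => h q hq ?_⟩
  obtain ⟨c, rfl⟩ := isConj_iff.1 (ConjClasses.mk_eq_mk_iff_isConj.1 hg)
  rwa [← MulAut.conj_apply, MulEquiv.orderOf_eq]

open Classical in
theorem kpi_mul [Fintype G] (π : Set ℕ) : kpi π G * Nat.card G =
    ∑ g : G with IsPiNat π (orderOf g), Nat.card (centralizer ({g} : Set G)) := by
  rw [kpi, card_cls_mul]
  simp only [picl_iff]

open Classical in
theorem coset_sum_le [Fintype G] (π : Set ℕ) (N : Subgroup G) [N.Normal] (a : G ⧸ N) :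
    ∑ y : G with IsPiNat π (orderOf y) ∧ QuotientGroup.mk (s := N) y = a,
      Nat.card (N ⊓ centralizer ({y} : Set G) : Subgroup G) ≤ kpi π N * Nat.card N := by
  choose s hs u hu hsu h1 h2 using H16.H11.exists_pi_part (G := G) π
  let T1 := univ.filter fun p : G × G =>
    p.1 ∈ N ∧ IsPiNat π (orderOf p.2) ∧ (p.2 : G ⧸ N) = a ∧ Commute p.1 p.2
  let T2 := univ.filter fun p : N × G =>
    IsPiNat π (orderOf p.1) ∧ (p.2 : G ⧸ N) = a ∧ Commute (p.1 : G) p.2
  have hz : ∀ {x y z : G}, y ∈ zpowers x → Commute x z → Commute y z := by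
    rintro x _ z ⟨i, rfl⟩ h; exact h.zpow_left i
  have e1 : #T1 = ∑ y : G with IsPiNat π (orderOf y) ∧ QuotientGroup.mk (s := N) y = a,
      Nat.card (N ⊓ centralizer ({y} : Set G) : Subgroup G) := by
    rw [card_eq_sum_card_fiberwise (f := Prod.snd) (t := univ.filter fun y : G =>
      IsPiNat π (orderOf y) ∧ (y : G ⧸ N) = a) fun p hp => by
        simp only [T1, coe_filter, mem_univ, true_and, Set.mem_setOf_eq] at hp ⊢
        exact ⟨hp.2.1, hp.2.2.1⟩]
    refine sum_congr rfl fun y hy => ?_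
    rw [Nat.subtype_card (univ.filter fun x => x ∈ N ⊓ centralizer ({y} : Set G)) (by simp)]
    simp only [mem_filter, mem_univ, true_and] at hy
    refine card_nbij' Prod.fst (fun x => (x, y)) ?_ ?_ ?_ ?_
    · rintro ⟨x, z⟩ hp
      simp only [T1, coe_filter, mem_filter, mem_univ, true_and, Set.mem_setOf_eq] at hp ⊢
      obtain ⟨h, rfl⟩ := hp
      exact ⟨h.1, mem_centralizer_singleton_iff.2 h.2.2.2⟩
    · intro x hx
      simp only [T1, coe_filter, mem_filter, mem_univ, true_and, Set.mem_setOf_eq] at hx ⊢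
      exact ⟨⟨hx.1, hy.1, hy.2, mem_centralizer_singleton_iff.1 hx.2⟩, trivial⟩
    · rintro ⟨x, z⟩ hp
      simp only [coe_filter, Set.mem_setOf_eq] at hp
      rw [← hp.2]
    · intro x _; rfl
  have e2 : #T1 ≤ #T2 := by
    refine card_le_card_of_injOn (fun p => if h : p.1 ∈ N then
      (⟨s p.1, zpowers_le.2 h (hs _)⟩, p.2 * u p.1) else 1) ?_ ?_
    · rintro ⟨x, y⟩ hp
      simp only [T1, T2, coe_filter, mem_univ, true_and, Set.mem_setOf_eq] at hp ⊢
      rw [dif_pos hp.1]
      refine ⟨by rw [← orderOf_coe]; exact h1 x, ?_, (hz (hs x) hp.2.2.2).mul_right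
        (hz (hs x) (hz (hu x) (Commute.refl x)).symm)⟩
      rw [QuotientGroup.mk_mul, (QuotientGroup.eq_one_iff _).2 (zpowers_le.2 hp.1 (hu x)), mul_one,
        hp.2.2.1]
    · rintro ⟨x, y⟩ hp ⟨x', y'⟩ hp' e
      simp only [T1, coe_filter, mem_univ, true_and, Set.mem_setOf_eq] at hp hp'
      simp only [dif_pos hp.1, dif_pos hp'.1, Prod.mk.injEq, Subtype.mk.injEq] at e
      obtain ⟨e3, e4⟩ := H16.H11.pi_part_unique
        (mem_centralizer_singleton_iff.2 (hz (hu x) hp.2.2.2).symm)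
        (mem_centralizer_singleton_iff.2 (hz (hu x') hp'.2.2.2).symm) hp.2.1 (h2 x) hp'.2.1 (h2 x') e.2
      exact Prod.ext (by simp only; rw [← hsu x, ← hsu x', e.1, e4]) e3
  rw [← e1, kpi_mul]
  refine e2.trans ?_
  rw [card_eq_sum_card_fiberwise (f := Prod.fst) (t := univ.filter fun x : N =>
    IsPiNat π (orderOf x)) fun p hp => by
      simp only [T2, coe_filter, mem_univ, true_and, Set.mem_setOf_eq] at hp ⊢
      exact hp.1]
  refine sum_le_sum fun x _ => ?_
  rcases (T2.filter fun p => p.1 = x).eq_empty_or_nonempty with e | ⟨⟨x0, w⟩, hw⟩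
  · rw [e]; simp
  simp only [T2, mem_filter, mem_univ, true_and] at hw
  obtain ⟨hw, rfl⟩ := hw
  rw [Nat.card_eq_fintype_card, ← card_univ]
  refine card_le_card_of_injOn (fun p => if h : w⁻¹ * p.2 ∈ N ∧ Commute (w⁻¹ * p.2) x0 then
    ⟨⟨_, h.1⟩, mem_centralizer_singleton_iff.2 (Subtype.ext h.2)⟩ else 1) (by simp) ?_
  have key : ∀ p ∈ (T2.filter fun p => p.1 = x0), w⁻¹ * p.2 ∈ N ∧ Commute (w⁻¹ * p.2) x0 := by
    rintro ⟨x, y⟩ hp
    simp only [T2, mem_filter, mem_univ, true_and] at hp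
    obtain ⟨hp, rfl⟩ := hp
    exact ⟨QuotientGroup.eq.1 (hw.2.1.trans hp.2.1.symm), hw.2.2.symm.inv_left.mul_left hp.2.2.symm⟩
  intro p hp p' hp' e
  simp only [dif_pos (key p hp), dif_pos (key p' hp'), Subtype.mk.injEq, mul_right_inj] at e
  exact Prod.ext ((mem_filter.1 hp).2.trans (mem_filter.1 hp').2.symm) e

theorem kpi_le [Finite G] (π : Set ℕ) (N : Subgroup G) [N.Normal] :
    kpi π G ≤ kpi π N * kpi π (G ⧸ N) := by
  classical
  haveI := Fintype.ofFinite G
  refine Nat.le_of_mul_le_mul_right ?_ (Nat.card_pos (α := G))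
  rw [kpi_mul, card_eq_card_quotient_mul_card_subgroup N, mul_comm (kpi π N), mul_mul_mul_comm,
    kpi_mul (G := G ⧸ N), sum_mul,
    ← sum_fiberwise_of_maps_to (g := fun y : G => (y : G ⧸ N))
      (t := univ.filter fun a : G ⧸ N => IsPiNat π (orderOf a)) fun y hy => by
        simp only [mem_filter, mem_univ, true_and] at hy ⊢
        exact fun q hq hd => hy q hq (hd.trans (orderOf_map_dvd (QuotientGroup.mk' N) y))]
  refine sum_le_sum fun a _ => ?_
  refine le_trans ?_ (Nat.mul_le_mul_left _ (coset_sum_le π N a))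
  rw [filter_filter, mul_sum]
  refine sum_le_sum fun y hy => ?_
  simp only [mem_filter, mem_univ, true_and] at hy
  rw [← H10.card_inf_mul_relIndex N, mul_comm]
  refine Nat.mul_le_mul_right _ ?_
  have := relIndex_ker (centralizer ({y} : Set G)) (QuotientGroup.mk' N)
  rw [QuotientGroup.ker_mk'] at this
  rw [this]
  refine card_le_of_le ?_
  rintro _ ⟨c, hc, rfl⟩
  rw [← hy.2]
  exact mem_centralizer_singleton_iff.2
    (Commute.map (mem_centralizer_singleton_iff.1 hc) (QuotientGroup.mk' N))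

theorem kpi_insert [Finite G] (π : Set ℕ) {p : ℕ} (hp : p.Prime) :
    kpi (insert p π) G ≤ kpi π G * p ^ (Nat.card G).factorization p := by
  classical
  haveI := Fact.mk hp
  haveI := Fintype.ofFinite G
  let A := {C : ConjClasses G // ∀ q : ℕ, q.Prime →
    (∃ g : G, ConjClasses.mk g = C ∧ q ∣ orderOf g) → q ∈ π}
  haveI := Fintype.ofFinite A
  choose r hr using fun C : A => ConjClasses.exists_rep C.1
  let S : ∀ C : A, Sylow p (centralizer ({r C} : Set G)) := fun C => default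
  have h1 : Nat.card (Σ C : A, S C) ≤ kpi π G * p ^ (Nat.card G).factorization p := by
    rw [Nat.card_sigma, kpi, Nat.card_eq_fintype_card, ← smul_eq_mul, ← card_univ, ← sum_const]
    refine sum_le_sum fun C _ => ?_
    have := (S C).card_eq_multiplicity
    refine this.le.trans (Nat.pow_le_pow_right hp.pos ?_)
    exact (Nat.factorization_le_iff_dvd Nat.card_pos.ne' Nat.card_pos.ne').2
      (card_subgroup_dvd_card _) p
  refine le_trans ?_ h1
  suffices H : ∀ C : {C : ConjClasses G // ∀ q : ℕ, q.Prime →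
      (∃ g : G, ConjClasses.mk g = C ∧ q ∣ orderOf g) → q ∈ insert p π}, ∃ z : Σ C : A, S C,
      ConjClasses.mk (r z.1 * z.2.1.1) = C.1 by
    choose f hf using H
    exact Nat.card_le_card_of_injective f fun C D e => Subtype.ext (by rw [← hf, ← hf, e])
  · rintro ⟨C, hC⟩
    obtain ⟨g, rfl⟩ := ConjClasses.exists_rep C
    rw [picl_iff] at hC
    obtain ⟨x, hx, y, hy, hxy, h2, h3⟩ := H16.H11.exists_pi_part {p} g
    have h4 : IsPiNat π (orderOf y) := fun q hq hd =>
      (hC q hq (hd.trans (orderOf_dvd_of_mem_zpowers hy))).resolve_left (h3 q hq hd)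
    let D : A := ⟨ConjClasses.mk y, picl_iff.2 h4⟩
    obtain ⟨c, hc⟩ := isConj_iff.1 (ConjClasses.mk_eq_mk_iff_isConj.1 (hr D).symm)
    have h5 : Commute x y := by
      obtain ⟨i, rfl⟩ := hx
      obtain ⟨j, hj⟩ := hy
      exact hj ▸ Commute.zpow_zpow_self g i j
    have h6 : c * x * c⁻¹ ∈ centralizer ({r D} : Set G) := mem_centralizer_singleton_iff.2 (by
      rw [← hc]; simpa using (h5.map (MulAut.conj c)).eq)
    obtain ⟨k, hk⟩ : ∃ k, orderOf x = p ^ k :=
      ⟨_, Nat.eq_prime_pow_of_unique_prime_dvd (orderOf_pos x).ne' fun hq hd => h2 _ hq hd⟩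
    have h7 : IsPGroup p (zpowers (⟨_, h6⟩ : centralizer ({r D} : Set G))) :=
      H10.isPGroup_zpowers_of_orderOf (k := k) (by
        rw [← orderOf_coe, ← hk]; exact (MulAut.conj c).orderOf_eq x)
    obtain ⟨R, hR⟩ := h7.exists_le_sylow
    obtain ⟨d, hd⟩ := MulAction.exists_smul_eq (centralizer ({r D} : Set G)) R (S D)
    have h8 : d * ⟨_, h6⟩ * d⁻¹ ∈ (S D : Subgroup (centralizer ({r D} : Set G))) := by
      rw [← hd]; exact smul_mem_pointwise_smul _ (MulAut.conj d) _ (hR (mem_zpowers _))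
    refine ⟨⟨D, _, h8⟩, ConjClasses.mk_eq_mk_iff_isConj.2 (IsConj.symm (isConj_iff.2 ⟨d * c, ?_⟩))⟩
    have e := mem_centralizer_singleton_iff.1 d.2
    simp only [Subgroup.coe_mul, Subgroup.coe_inv]
    calc _ = d * (c * y * c⁻¹) * (c * x * c⁻¹) * (d : G)⁻¹ := by rw [← hxy, h5.eq]; group
      _ = _ := by rw [hc, e]; group

theorem kpi_le_prod [Finite G] (s : Finset ℕ) (hs : ∀ p ∈ s, p.Prime) :
    kpi s G ≤ ∏ p ∈ s, p ^ (Nat.card G).factorization p := by
  classical
  induction s using Finset.induction_on with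
  | empty =>
    rw [prod_empty, kpi]
    refine Finite.card_le_one_iff_subsingleton.2 ⟨?_⟩
    have key : ∀ g : G, IsPiNat ((∅ : Finset ℕ) : Set ℕ) (orderOf g) → g = 1 := fun g h => by
      by_contra h1
      obtain ⟨q, hq, hd⟩ := Nat.exists_prime_and_dvd (n := orderOf g) (by simpa using h1)
      simpa using h q hq hd
    rintro ⟨C, hC⟩ ⟨D, hD⟩
    obtain ⟨g, rfl⟩ := ConjClasses.exists_rep C
    obtain ⟨h, rfl⟩ := ConjClasses.exists_rep D
    exact Subtype.ext (by simp only; rw [key g (picl_iff.1 hC), key h (picl_iff.1 hD)])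
  | insert p s hp ih =>
    rw [coe_insert, prod_insert hp, mul_comm]
    exact (kpi_insert _ (hs p (mem_insert_self _ _))).trans
      (Nat.mul_le_mul_right _ (ih fun q hq => hs q (mem_insert_of_mem hq)))

end H8
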