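import Cfsg.Agent.Lead.Qf0
import Cfsg.Agent.H4.PConstr
import Cfsg.Agent.H4.ZJ
import Cfsg.Agent.H8.Sdp
import Cfsg.Agent.S0205
import Cfsg.Agent.H2.Z2

/-! Reduction of Glauberman's factorization for coprime operator groups to its linear core. -/

set_option autoImplicit false

open Subgroup Cfsg H4 H15
open scoped MatrixGroups commutatorElement

universe u

namespace H8Red

structure Hy {Γ : Type*} [Group Γ] (p : ℕ) [Fact p.Prime] (K A : Subgroup Γ) : Prop where
  nK : K.Normal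
  sup : K ⊔ A = ⊤
  cop : (Nat.card A).Coprime (Nat.card K)
  pA : (Nat.card A).Coprime p
  ns : ¬ IsSec PSL(2, ZMod p) (K ⊓ centralizer (A : Set Γ))

theorem solv_or {X Y : Type*} [Group X] [Finite X] [Group Y] [Finite Y]
    (h : (Nat.card X).Coprime (Nat.card Y)) : Group.IsSolvable X ∨ Group.IsSolvable Y := by
  rcases Nat.even_or_odd (Nat.card X) with h1 | h1
  · right
    apply Cfsg.Agent.S0205.result
    rw [← Nat.not_even_iff_odd]
    intro h2
    have := Nat.dvd_gcd h1.two_dvd h2.two_dvd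
    rw [h] at this
    omega
  · exact Or.inl (Cfsg.Agent.S0205.result h1)

section
variable {Γ : Type*} [Group Γ] [Finite Γ] {p : ℕ} [hp : Fact p.Prime] {K A : Subgroup Γ}

theorem Hy.map_inf (h : Hy p K A) {Γ' : Type*} [Group Γ'] (f : Γ →* Γ') :
    (K ⊓ centralizer (A : Set Γ)).map f = K.map f ⊓ centralizer (A.map f : Set Γ') := by
  haveI := h.nK
  exact H1.map_inf_centralizer_of_coprime f le_normalizer_of_normal h.cop (solv_or h.cop)

theorem Hy.cop_map (h : Hy p K A) {Γ' : Type*} [Group Γ'] (f : Γ →* Γ') :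
    (Nat.card (A.map f)).Coprime (Nat.card (K.map f)) :=
  (h.cop.coprime_dvd_left (card_map_dvd A f)).coprime_dvd_right (card_map_dvd K f)

theorem Hy.map (h : Hy p K A) {Γ' : Type*} [Group Γ'] {f : Γ →* Γ'}
    (hf : Function.Surjective f) : Hy p (K.map f) (A.map f) where
  nK := h.nK.map f hf
  sup := by rw [← Subgroup.map_sup, h.sup, map_top_of_surjective f hf]
  cop := h.cop_map f
  pA := h.pA.coprime_dvd_left (card_map_dvd A f)
  ns := fun hs => h.ns (by rw [← h.map_inf] at hs; exact hs.of_map)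

theorem Hy.pow_mem (h : Hy p K A) (x : Γ) : x ^ Nat.card A ∈ K := by
  haveI := h.nK
  have hx : x ∈ ((K ⊔ A : Subgroup Γ) : Set Γ) := by rw [h.sup]; trivial
  rw [normal_mul] at hx
  obtain ⟨k, hk, a, ha, rfl⟩ := hx
  rw [← QuotientGroup.eq_one_iff, QuotientGroup.mk_pow]
  change ((k * a : Γ) : Γ ⧸ K) ^ _ = 1
  rw [QuotientGroup.mk_mul, (QuotientGroup.eq_one_iff k).2 hk, one_mul, ← QuotientGroup.mk_pow]
  have : a ^ Nat.card A = 1 := congrArg Subtype.val (pow_card_eq_one' (x := (⟨a, ha⟩ : A)))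
  rw [this]; rfl

theorem Hy.mem_map (h : Hy p K A) {Γ' : Type*} [Group Γ'] (f : Γ →* Γ') {x : Γ} {k : ℕ}
    (hx : f x ^ p ^ k = 1) : f x ∈ K.map f :=
  mem_of_pow_mem_of_coprime_orderOf (m := Nat.card A)
    (by rw [← map_pow]; exact ⟨_, h.pow_mem x, rfl⟩)
    ((h.pA.symm.pow_left k).coprime_dvd_left (orderOf_dvd_of_pow_eq_one hx))

theorem Hy.le (h : Hy p K A) {P : Subgroup Γ} (hP : IsPGroup p P) : P ≤ K := by
  intro x hx
  obtain ⟨k, hk⟩ := hP ⟨x, hx⟩
  have := h.mem_map (MonoidHom.id Γ) (x := x) (k := k) (congrArg Subtype.val hk)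
  rwa [Subgroup.map_id] at this

end

variable {p : ℕ} [hp : Fact p.Prime]

theorem min_cent (core : Lead.Qf.Core.{u} p) {Γ : Type u} [Group Γ] [Finite Γ]
    {K A N : Subgroup Γ} (h : Hy p K A) [hN : N.Normal] (h0 : N ≠ ⊥) (hc : IsMulCommutative N)
    (he : ∀ x ∈ N, x ^ p = 1) (hm : ∀ L : Subgroup Γ, L.Normal → L ≤ N → L = ⊥ ∨ L = N) {a : Γ}
    (ha : ∀ v ∈ N, Commute a ⁅v, a⁆) : a ∈ centralizer (N : Set Γ) := by
  letI : CommGroup N := { (inferInstance : Group N) with mul_comm := hc.is_comm.comm }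
  obtain ⟨inst⟩ : Nonempty (Module (ZMod p) (Additive N)) := ⟨AddCommGroup.zmodModule (fun x => by
    apply Additive.toMul.injective
    rw [toMul_nsmul, toMul_zero]
    exact Subtype.ext (he _ x.toMul.2))⟩
  let f : Γ →* MulAut N := MulAut.conjNormal
  let ρ0 : Γ →* Module.End (ZMod p) (Additive N) :=
    { toFun := fun g => AddMonoidHom.toZModLinearMap p (MonoidHom.toAdditive (f g).toMonoidHom)
      map_one' := LinearMap.ext fun v => by rw [map_one]; rfl
      map_mul' := fun g h => LinearMap.ext fun v => by rw [map_mul]; rfl }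
  have hρ : ∀ (g : Γ) (v : Additive N), ((ρ0 g v).toMul : Γ) = g * v.toMul * g⁻¹ := fun g v => rfl
  let ρ : Γ →* LinearMap.GeneralLinearGroup (ZMod p) (Additive N) := ρ0.toHomUnits
  have hρ' : ∀ g : Γ, (ρ g).1 = ρ0 g := fun g => rfl
  by_contra hne
  have h1 : ρ a ≠ 1 := by
    intro e
    apply hne
    intro v hv
    have := hρ a (Additive.ofMul ⟨v, hv⟩)
    rw [← hρ', e] at this
    change v = a * v * a⁻¹ at this
    exact eq_mul_inv_iff_mul_eq.1 this
  have hq : ((ρ a).1 - 1) * ((ρ a).1 - 1) = 0 := by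
    refine LinearMap.ext fun v => ?_
    rw [hρ', Module.End.mul_apply, LinearMap.sub_apply, Module.End.one_apply,
      LinearMap.zero_apply, sub_eq_zero]
    apply Additive.toMul.injective
    apply Subtype.ext
    rw [hρ]
    have e : ((((ρ0 a - 1) v).toMul : N) : Γ) = ⁅((v.toMul : N) : Γ), a⁆⁻¹ := by
      rw [LinearMap.sub_apply, Module.End.one_apply, toMul_sub, div_eq_mul_inv, Subgroup.coe_mul,
        Subgroup.coe_inv, hρ, commutatorElement_inv, commutatorElement_def]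
    rw [e, (ha _ v.toMul.2).inv_right.eq, mul_inv_cancel_right]
  have hirr : IsIrreducibleFor ρ.range := by
    constructor
    · obtain ⟨⟨x, hx⟩, hx1⟩ := (ne_bot_iff_exists_ne_one).1 h0
      exact ⟨Additive.ofMul ⟨x, hx⟩, fun e => hx1 (Additive.ofMul.injective e)⟩
    · intro W hW
      let L : Subgroup Γ := (AddSubgroup.toSubgroup' W.toAddSubgroup).map N.subtype
      have hL : ∀ v : Additive N, ((v.toMul : N) : Γ) ∈ L ↔ v ∈ W := fun v => by
        constructor
        · rintro ⟨w, hw, e⟩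
          have : w = v.toMul := Subtype.ext e
          subst this
          exact hw
        · exact fun hv => ⟨v.toMul, hv, rfl⟩
      have hLn : L.Normal := ⟨by
        rintro _ ⟨w, hw, rfl⟩ g
        have := hW (ρ g) ⟨g, rfl⟩ (Additive.ofMul w) hw
        exact (hL _).2 this⟩
      rcases hm L hLn (map_subtype_le _) with e | e
      · left
        rw [eq_bot_iff]
        intro v hv
        have := (hL v).2 hv
        rw [e, mem_bot] at this
        exact Additive.toMul.injective (Subtype.ext this)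
      · right
        rw [eq_top_iff]
        intro v _
        exact (hL v).1 (by rw [e]; exact v.toMul.2)
  haveI := h.nK
  have hs := core (Additive N) ρ.range (K.map ρ) (A.map ρ) hirr (map_le_range _ _)
    (map_le_range _ _) (by
      rw [MonoidHom.range_eq_map]
      exact (Subgroup.map_mono (le_normalizer_of_normal (H := K))).trans (le_normalizer_map ρ))
    (h.cop_map ρ) (by
      rintro _ ⟨x, rfl⟩ hx
      exact h.mem_map ρ (k := 1) (by rwa [pow_one])) (ρ a) ⟨a, rfl⟩ h1 hq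
  rw [← h.map_inf] at hs
  exact h.ns hs.of_map

theorem st (core : Lead.Qf.Core.{u} p) (n : ℕ) : ∀ {Γ : Type u} [Group Γ] [Finite Γ]
    {K A : Subgroup Γ}, Hy p K A → ∀ (B : Subgroup Γ) [B.Normal], IsPGroup p B →
    Nat.card B = n → IsPStableOn p B := by
  induction n using Nat.strong_induction_on with
  | _ n ih =>
  intro Γ _ _ K A h B hBn hB hn a ha
  by_cases h0 : B = ⊥
  · refine mk_mem_pCore_iff.2 ⟨⊤, inferInstance, trivial, fun d _ => ⟨0, fun x hx => ?_⟩⟩
    rw [h0] at hx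
    rw [(mem_bot.1 hx : x = 1), one_mul, mul_one]
  haveI : Group.IsNilpotent B := hB.isNilpotent
  obtain ⟨N, q, hN, hN0, hNB, hq, hNc, hNe, hNq, hm⟩ :=
    H1.exists_minimal_normal_elementary B inferInstance h0
  have hqp : q = p := by
    obtain ⟨⟨x, hx⟩, hx1⟩ := (ne_bot_iff_exists_ne_one).1 hN0
    have hx1' : x ≠ 1 := fun e => hx1 (Subtype.ext e)
    haveI : Fact q.Prime := ⟨hq⟩
    obtain ⟨k, hk⟩ := hB ⟨x, hNB hx⟩
    have h1 : orderOf x = q := orderOf_eq_prime (hNe x hx) hx1'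
    have h2 : orderOf x ∣ p ^ k := orderOf_dvd_of_pow_eq_one (congrArg Subtype.val hk)
    rw [h1] at h2
    exact (Nat.prime_dvd_prime_iff_eq hq hp.out).1 (hq.dvd_of_dvd_pow h2)
  subst hqp
  have haN := min_cent core h hN0 hNc hNe hm (a := a)
    fun v hv => quadratic_zpowers_iff.1 ha v (hNB hv)
  have hs := QuotientGroup.mk'_surjective N
  haveI := hBn.map (QuotientGroup.mk' N) hs
  have hlt : Nat.card (B.map (QuotientGroup.mk' N)) < n := by
    have e := H1.card_map_mk'_mul B N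
    rw [inf_eq_right.2 hNB, hn] at e
    have h1 : 1 < Nat.card N := (one_lt_card_iff_ne_bot N).2 hN0
    have h2 : 0 < Nat.card (B.map (QuotientGroup.mk' N)) := Nat.card_pos
    nlinarith
  have h1 := ih _ hlt (h.map hs) (B.map (QuotientGroup.mk' N)) (hB.map _) rfl
    (QuotientGroup.mk' N a) (by
      have := quadratic_map ha (QuotientGroup.mk' N)
      rwa [MonoidHom.map_zpowers] at this)
  obtain ⟨D, hD, haD, hDk⟩ := mk_mem_pCore_iff.1 h1
  refine mk_mem_pCore_iff.2 ⟨D.comap (QuotientGroup.mk' N) ⊓ centralizer (N : Set Γ),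
    inferInstance, ⟨haD, haN⟩, fun d hd => ?_⟩
  obtain ⟨k, hk⟩ := hDk _ hd.1
  refine ⟨k + 1, fun b hb => ?_⟩
  have e1 : ⁅b, d ^ q ^ k⁆ ∈ N := by
    rw [← QuotientGroup.eq_one_iff]
    change QuotientGroup.mk' N _ = 1
    rw [map_commutatorElement, commutatorElement_eq_one_iff_mul_comm, map_pow]
    exact hk _ ⟨b, hb, rfl⟩
  have e2 : Commute (d ^ q ^ k) ⁅b, d ^ q ^ k⁆ := (pow_mem hd.2 (q ^ k) _ e1).symm
  rw [← commutatorElement_eq_one_iff_mul_comm, pow_succ, pow_mul, commutator_pow_of_commute e2]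
  exact hNe _ e1

theorem zj (core : Lead.Qf.Core.{u} p) (hp2 : p ≠ 2) {Γ : Type u} [Group Γ] [Finite Γ]
    {K A : Subgroup Γ} (h : Hy p K A)
    (hc : K ⊓ centralizer (pCore p Γ : Set Γ) ≤ pCore p Γ) (S : Sylow p Γ) :
    (centerThompsonOf 0 (S : Subgroup Γ)).Normal := by
  have hst : ∀ (B : Subgroup Γ) [B.Normal], IsPGroup p B → IsPStableOn p B :=
    fun B _ hB => st core _ h B hB rfl
  have h1 := centerThompsonOf_inf_normal hp2 (n := 0) (Or.inl rfl) hst S (pCore p Γ)
    (H1.isPGroup_pCore p)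
  suffices hle : centerThompsonOf 0 (S : Subgroup Γ) ≤ pCore p Γ by rwa [inf_eq_left.2 hle] at h1
  intro y hy
  have hY : IsMulCommutative (centerThompsonOf 0 (S : Subgroup Γ)) :=
    isMulCommutative_centerThompsonOf _
  have hn : pCore p Γ ≤ normalizer (centerThompsonOf 0 (S : Subgroup Γ) : Set Γ) :=
    (H1.pCore_le_sylow S).trans ((le_norm_self _).trans
      (normalizer_le_normalizer_centerThompsonOf _))
  have hz : zpowers y ≤ centerThompsonOf 0 (S : Subgroup Γ) := zpowers_le.2 hy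
  have h2 := hst _ (H1.isPGroup_pCore p) y (le_cent_iff_comm.1
    (((commutator_mono le_rfl hz).trans (comm_le_right hn)).trans
    ((le_cent_self hY).trans (cent_anti hz))))
  obtain ⟨D, hD, hyD, hDk⟩ := mk_mem_pCore_iff.1 h2
  haveI := h.nK
  refine H1.le_pCore (N := D ⊓ K) ?_ ⟨hyD, h.le S.2 (centerThompsonOf_le _ hy)⟩
  rintro ⟨d, hd⟩
  obtain ⟨k, hk⟩ := hDk d hd.1
  obtain ⟨j, hj⟩ := H1.isPGroup_pCore p ⟨_, hc ⟨pow_mem hd.2 _, hk⟩⟩
  refine ⟨k + j, Subtype.ext ?_⟩
  change d ^ p ^ (k + j) = 1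
  rw [pow_add, pow_mul]
  exact congrArg Subtype.val hj

theorem red {G : Type u} [Group G] [Finite G] (p : ℕ) [hp : Fact p.Prime]
    (core : Lead.Qf.Core.{u} p) (hp5 : 5 ≤ p)
    (hG : Cfsg.IsPConstrained p G) (S : Sylow p G) (A : Subgroup (MulAut G))
    (hA : (Nat.card ↥A).Coprime (Nat.card G))
    (C : Subgroup G) (hC : ∀ g : G, g ∈ C ↔ ∀ a ∈ A, a g = g)
    {F : Type*} [Field F] [Fintype F] (hF : Fintype.card F = p)
    (hfix : ¬ Cfsg.Involves (Matrix.ProjectiveSpecialLinearGroup (Fin 2) F) ↥C) :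
    Cfsg.pPrimeCore p G ⊔
      Subgroup.normalizer (Cfsg.centerThompsonAOf (S : Subgroup G) : Set G) = ⊤ := by
  by_cases hpG : (Nat.card G).Coprime p
  · rw [H1.pPrimeCore_eq_top_iff.2 hpG, top_sup_eq]
  have hpd : p ∣ Nat.card G := by
    by_contra h
    exact hpG ((Nat.Prime.coprime_iff_not_dvd hp.out).2 h).symm
  have hcA : Nat.card (H8.sdR A.subtype ⊤) = Nat.card A := by rw [H8.card_sdR, card_top]
  have h0 : Hy p (H8.sdL A.subtype ⊤) (H8.sdR A.subtype ⊤) := by
    refine ⟨inferInstance, H8.sdL_sup_sdR _, ?_, ?_, fun hs => hfix ?_⟩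
    · rw [hcA, H8.card_sdL, card_top]; exact hA
    · rw [hcA]; exact hA.coprime_dvd_right hpd
    · have e : H8.sdL A.subtype ⊤ ⊓ centralizer (H8.sdR A.subtype ⊤ : Set (G ⋊[A.subtype] A)) ≤
          C.map SemidirectProduct.inl := by
        rintro _ ⟨⟨g, -, rfl⟩, hg⟩
        exact ⟨g, (hC g).2 fun a ha => (H8.inl_mem_centralizer_sdR _).1 hg ⟨a, ha⟩ trivial, rfl⟩
      haveI : NeZero p := ⟨hp.out.ne_zero⟩
      obtain ⟨ε⟩ := H2.z_psl_congr (F := ZMod p) (K := F) (by rw [ZMod.card, hF]) 2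
      obtain ⟨L, φ, hL, hφ⟩ := (hs.mono e).of_map.top_subgroup
      obtain ⟨K', R, hR, -, h⟩ := isSec_iff.1
        (⟨L, ε.toMonoidHom.comp φ, hL, ε.surjective.comp hφ⟩ :
          IsSec (Matrix.ProjectiveSpecialLinearGroup (Fin 2) F) (⊤ : Subgroup C))
      exact ⟨K', R, hR, h⟩
  set O := pPrimeCore p G with hO
  haveI hOn : (H8.sdL A.subtype O).Normal := by
    rw [← normalizer_eq_top_iff, eq_top_iff, ← H8.sdL_sup_sdR, sup_le_iff]
    refine ⟨(Subgroup.map_mono (le_normalizer_of_normal (H := O))).trans (le_normalizer_map _),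
      H8.sdR_le_normalizer _ fun a _ x hx => ?_⟩
    exact (characteristic_iff_le_comap.1 inferInstance (a : MulAut G)) hx
  have hs := QuotientGroup.mk'_surjective (H8.sdL A.subtype O)
  have h1 := h0.map hs
  let f : G →* (G ⋊[A.subtype] A) ⧸ H8.sdL A.subtype O :=
    (QuotientGroup.mk' _).comp SemidirectProduct.inl
  have hker : f.ker = O := by
    ext g
    rw [MonoidHom.mem_ker]
    exact (QuotientGroup.eq_one_iff _).trans (H8.inl_mem_sdL _)
  have hK : (H8.sdL A.subtype ⊤).map (QuotientGroup.mk' (H8.sdL A.subtype O)) = f.range := by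
    rw [map_map, ← MonoidHom.range_eq_map]
  rw [hK] at h1
  haveI := h1.nK
  let ψ : G ⧸ O →* _ := QuotientGroup.lift O f hker.ge
  have hψ : ∀ g : G, ψ g = f g := fun g => rfl
  have hψi : Function.Injective ψ := by
    rw [injective_iff_map_eq_one]
    intro x hx
    obtain ⟨g, rfl⟩ := QuotientGroup.mk_surjective x
    rw [QuotientGroup.eq_one_iff, ← hker]
    exact hx
  have hψr : ∀ x, ψ x ∈ f.range := fun x => by
    obtain ⟨g, rfl⟩ := QuotientGroup.mk_surjective x
    exact ⟨g, rfl⟩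
  have hQ : ∀ x ∈ pCore p (G ⧸ O), ψ x ∈ pCore p _ := fun x hx =>
    H1.map_pCore_subtype_le p f.range ⟨_, H1.map_pCore_le p (f := ψ.codRestrict _ hψr) (by
      rintro ⟨_, g, rfl⟩
      exact ⟨g, rfl⟩) ⟨x, hx, rfl⟩, rfl⟩
  have hc := isPConstrained_iff_quotient.1 hG
  obtain ⟨T, hT⟩ := (S.2.map f).exists_le_sylow
  have hTS : (T : Subgroup _) = (S : Subgroup G).map f := by
    refine le_antisymm (fun x hx => ?_) hT
    have hTK := h1.le T.2
    have h2 := (S.mapSurjective f.rangeRestrict_surjective).3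
      (Q := (T : Subgroup _).subgroupOf f.range) (T.2.comap_subtype) (by
        rintro _ ⟨s, hs, rfl⟩
        exact hT ⟨s, hs, rfl⟩)
    have h3 : (⟨x, hTK hx⟩ : f.range) ∈ (T : Subgroup _).subgroupOf f.range := hx
    rw [h2] at h3
    obtain ⟨s, hs, e⟩ := h3
    exact ⟨s, hs, congrArg Subtype.val e⟩
  have h2 := zj core (by omega) h1 (by
    rintro _ ⟨⟨g, rfl⟩, hg⟩
    refine hQ g (hc fun x hx => hψi ?_)
    rw [map_mul, map_mul]
    exact hg _ (hQ x hx)) T
  have hN := H1.coprime_card_pPrimeCore (G := G) p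
  rw [hTS, ← map_centerThompsonOf _ (by
    rw [hker]; exact H1.inf_eq_bot_of_isPGroup_of_coprime S.2 hN)] at h2
  rw [centerThompsonAOf_eq]
  refine sup_normalizer_eq_top_of_map_normal _ hN (S.2.to_le (centerThompsonOf_le _)) ?_
  have h3 := (h2.comap f).map (QuotientGroup.mk' O) (QuotientGroup.mk'_surjective O)
  rwa [comap_map_eq, hker, Subgroup.map_sup, (Subgroup.map_eq_bot_iff O).2
    (QuotientGroup.ker_mk' O).ge, sup_bot_eq] at h3

end H8Red
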