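import Cfsg.Agent.H2.FiltG
import Cfsg.Agent.H2.Sm7

set_option autoImplicit false
open Cfsg

namespace H8

theorem rng {G : Type*} [Group G] [Finite G] [IsSimpleGroup G] (hG : ¬ IsMulCommutative G)
    (h1 : 1092 < Nat.card G) (h2 : Nat.card G ≤ 3640) : Nat.card G = 2448 ∨ Nat.card G = 2520 ∨
      Nat.card G = 3420 ∨ Nat.card G = 3360 ∨ Nat.card G = 3600 := by
  have := H2.filt_range hG (ok := [1800, 2448, 2520, 2700, 3360, 3420, 3600]) (a := 274) (W :=
      [(0,137), (1,11), (1,23), (0,277), (0,139), (1,31), (1,7), (0,281), (1,47), (0,283), (0,71),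
      (1,19), (1,13), (1,41), (0,3), (0,17), (1,29), (1,97), (0,73), (0,293), (2,7), (1,59),
      (0,37), (1,11), (0,149), (1,23), (1,3), (1,43), (0,151), (1,101), (0,19), (1,61), (1,17),
      (0,307), (1,11), (1,103), (1,31), (0,311), (1,13), (0,313), (0,157), (1,7), (0,79), (0,317),
      (1,53), (1,29), (0,5), (1,107), (1,23), (1,19), (0,3), (1,13), (0,163), (1,109), (0,41),
      (1,47), (1,11), (0,331), (0,83), (1,37), (0,167), (1,67), (1,7), (0,337), (0,13), (1,113),
      (1,17), (1,31), (1,19), (0,7), (0,43), (1,23), (0,173), (0,347), (1,29), (0,349), (1,7),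
      (1,13), (0,11), (0,353), (1,59), (1,71), (0,89), (1,17), (0,179), (0,359), (1,5), (0,19),
      (0,181), (1,3), (1,13), (1,73), (1,61), (0,367), (0,23), (1,41), (1,37), (1,53), (1,31),
      (0,373), (1,17), (1,3), (0,47), (1,29), (1,7), (0,379), (1,19), (1,127), (0,191), (0,383),
      (0,3), (1,11), (0,193), (1,43), (0,97), (0,389), (1,13), (1,23), (0,7), (1,131), (0,197),
      (1,79), (1,11), (0,397), (0,199), (1,19), (0,5), (0,401), (1,67), (1,31), (0,101), (1,5),
      (1,29), (1,37), (1,17), (0,409), (1,41), (1,137), (0,103), (1,59), (1,23), (1,83), (0,13),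
      (1,139), (1,19), (0,419), (1,5), (0,421), (0,211), (1,47), (0,53), (1,17), (1,71), (1,61),
      (0,107), (1,3), (1,43), (0,431), (0,3), (0,433), (1,31), (1,29), (0,109), (1,23), (1,73),
      (0,439), (1,11), (2,7), (1,17), (0,443), (1,37), (1,89), (0,223), (1,149), (0,7), (0,449),
      (0,2), (1,41), (0,113), (1,151), (0,227), (1,13), (1,19), (0,457), (0,229), (1,17), (1,23),
      (0,461), (1,11), (0,463), (0,29), (1,31), (0,233), (0,467), (1,13), (1,67), (1,47), (1,157),
      (0,59), (1,43), (1,79), (1,19), (1,17), (1,53), (0,239), (0,479), (1,5), (1,37), (0,241),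
      (1,23), (0,11), (1,97), (0,3), (0,487), (0,61), (1,163), (1,5), (0,491), (1,41), (1,29),
      (1,19), (1,11), (0,31), (1,71), (1,83), (0,499), (0,5), (1,167), (0,251), (0,503), (1,7),
      (1,101), (1,23), (1,3), (0,127), (0,509), (1,17), (1,73), (0,2), (1,19), (0,257), (1,103),
      (1,43), (1,47), (1,37), (1,173), (1,13), (0,521), (1,29), (0,523), (0,131), (1,7), (0,263),
      (1,31), (1,11), (0,23), (1,53), (1,59), (1,19), (1,41), (1,89), (1,107), (0,67), (1,179),
      (0,269), (1,11), (1,5), (0,541), (0,271), (1,181), (0,17), (1,109), (1,13), (0,547),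
      (0,137), (1,61), (1,11), (1,29), (1,23), (1,79), (0,277), (1,37), (0,139), (0,557), (1,31),
      (1,43), (1,7), (1,17), (0,281), (0,563), (1,47), (1,113), (0,283), (1,7), (0,71), (0,569),
      (1,19), (0,571), (1,13), (1,191), (1,41), (1,23), (0,3), (0,577), (0,17), (1,193), (1,29),
      (1,83), (1,97), (1,53), (0,73), (1,13), (0,293), (0,587), (2,7), (1,31), (1,59), (1,197),
      (0,37), (0,593), (1,11), (1,17), (0,149), (1,199), (1,23), (0,599), (1,3), (0,601), (1,43),
      (1,67), (0,151), (1,5), (1,101), (0,607), (0,19), (1,29), (1,61), (1,47), (0,2), (0,613),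
      (0,307), (1,41), (1,11), (0,617), (1,103), (0,619), (1,31), (1,23), (0,311), (1,89), (1,13),
      (0,5), (0,313), (1,19), (0,157), (1,37), (0,2), (0,631), (0,79), (1,211), (0,317), (1,127),
      (1,53), (1,13), (1,29), (1,71), (0,5), (0,641), (1,107), (0,643), (1,23), (1,43), (1,19),
      (0,647), (0,3), (1,59), (1,13), (1,31), (0,163), (0,653), (1,109), (1,131), (0,41), (1,73),
      (1,47), (0,659), (1,11), (0,661), (0,331), (1,17), (0,83), (1,19), (1,37), (1,29), (0,167),
      (1,223), (1,67), (1,61), (1,7), (0,673), (0,337), (0,2), (0,13), (0,677), (1,113), (1,97),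
      (1,17), (1,227), (1,31), (0,683), (1,19), (1,137), (0,7), (1,229), (0,43), (1,53), (1,23),
      (0,691), (0,173), (1,11), (0,347), (1,139), (1,29), (1,41), (0,349), (1,233), (1,7),
      (0,701), (1,13), (1,37), (0,11), (1,47), (0,353), (1,101), (1,59), (0,709), (1,71), (1,79),
      (0,89), (1,31), (1,17), (1,13), (0,179), (1,239), (0,359), (0,719), (1,5), (1,103), (0,19),
      (1,241), (0,181), (1,29), (1,3), (0,727), (1,13), (0,3), (1,73), (1,43), (1,61), (0,733),
      (0,367), (1,5), (0,23), (1,67), (1,41), (0,739), (1,37), (1,19), (1,53), (0,743), (1,31),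
      (1,149), (0,373), (1,83), (1,17), (1,107), (1,3), (0,751), (0,47), (1,251), (1,29), (1,151),
      (1,7), (0,757), (0,379), (1,23), (1,19), (0,761), (1,127), (1,109), (0,191), (1,17),
      (0,383), (1,59), (0,3), (0,769), (1,11), (1,257), (0,193), (0,773), (1,43), (1,31), (0,97),
      (1,37), (0,389), (1,41), (1,13), (1,71), (1,23), (1,29), (0,7), (1,157), (1,131), (0,787),
      (0,197), (1,263), (1,79), (1,113), (1,11), (1,61), (0,397), (1,53), (0,199), (0,797),
      (1,19), (1,47), (0,5), (1,89), (0,401), (1,73), (1,67), (1,23), (1,31), (1,269), (0,101),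
      (0,809), (1,5), (0,811), (1,29), (1,271), (1,37), (1,163), (1,17), (1,43), (0,409), (1,13),
      (1,41), (0,821), (1,137), (0,823), (0,103), (1,11), (1,59), (0,827), (1,23), (0,829),
      (1,83), (1,277), (0,13), (1,17), (1,139), (1,167), (1,19), (1,31), (0,419), (0,839), (0,2),
      (0,29), (0,421), (1,281), (0,211), (1,5), (1,47), (1,7), (0,53), (1,283), (1,17), (1,37),
      (1,71), (0,853), (1,61), (0,2), (0,107), (0,857), (1,13), (0,859), (1,43), (1,41), (0,431),
      (0,863), (0,3), (1,173), (0,433), (1,3), (1,31), (1,79), (1,29), (1,67), (0,109), (1,97),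
      (1,23), (1,7), (1,73), (0,877), (0,439), (1,293), (1,11), (0,881), (2,7), (0,883), (1,17),
      (1,59), (0,443), (0,887), (1,37), (1,127), (1,89), (1,11), (0,223), (1,47), (1,149),
      (1,179), (0,7), (1,23), (0,449), (1,31), (0,2), (1,53), (1,41), (1,43), (0,113), (1,181),
      (1,151), (0,907), (0,227), (1,101), (1,13)])
    (by decide +kernel) (by omega) (lt_of_le_of_lt h2 (by decide +kernel))
  have k : GW.Known G → Nat.card G ≠ 1800 ∧ Nat.card G ≠ 2700 := fun h3 => by
    rcases H2.sm_known_card h3 with h4 | ⟨q, -, -, -, h4⟩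
    · omega
    have h5 : q < 23 := by
      by_contra h5
      have := Nat.mul_le_mul (not_lt.1 h5) (Nat.sub_le_sub_right
        (Nat.pow_le_pow_left (not_lt.1 h5) 2) 1)
      omega
    interval_cases q <;> omega
  have h3 : Nat.card G ≠ 1800 := fun h => by
    rcases H2.sm_known_eight hG (m := 225) h (by decide) with h3 | ⟨-, -, h3⟩
    · exact (k h3).1 h
    · omega
  have h4 : Nat.card G ≠ 2700 := fun h => (k (H2.sm_known_four hG (m := 675) h (by decide))).2 h
  simp only [List.mem_cons, List.not_mem_nil, or_false] at this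
  omega

end H8
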