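import Cfsg.Agent.H8.Idx
import Cfsg.Agent.H8.Cls
import Cfsg.Agent.H8.Sdp
import Cfsg.Agent.H1.Super
import Cfsg.Agent.H1.Coprime
import Cfsg.Agent.H3.Transfer2
import Cfsg.Agent.H4.Comm
import Cfsg.Agent.H9.Basic

/-! Groups whose class sizes are not divisible by `p ^ 2` (Knoche, Chillag–Herzog). -/

namespace H8

open Subgroup Cfsg
open scoped Pointwise commutatorElement

universe u

local notation "ix " x:max => Subgroup.index (Subgroup.centralizer ({x} : Set _))

variable {G : Type u} [Group G] [Finite G]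

theorem le_of_card_dvd_prime {p : ℕ} (hp : p.Prime) {T U : Subgroup G} (hT : Nat.card T ∣ p)
    {t : G} (ht : t ∈ T) (h1 : t ≠ 1) (hU : t ∈ U) : T ≤ U := by
  have hz : zpowers t ≤ T := (zpowers_le).2 ht
  have h2 : Nat.card (zpowers t) ∣ p := (card_dvd_of_le hz).trans hT
  have h3 : Nat.card (zpowers t) = p := by
    rcases (Nat.dvd_prime hp).1 h2 with h | h
    · rw [Nat.card_zpowers, orderOf_eq_one_iff] at h; exact absurd h h1
    · exact h
  have : zpowers t = T := eq_of_le_of_card_ge hz (by rw [h3]; exact Nat.le_of_dvd hp.pos hT)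
  rw [← this]; exact (zpowers_le).2 hU

/-- Knoche's theorem for groups of class at most two. -/
theorem knoche {p : ℕ} (hp : p.Prime) (h2 : commutator G ≤ center G) (h : ∀ x : G, (ix x) ∣ p) :
    Nat.card (commutator G) ∣ p := by
  have hc : ∀ a b g : G, g * ⁅a, b⁆ = ⁅a, b⁆ * g := fun a b g =>
    mem_center_iff.1 (h2 (commutator_mem_commutator (mem_top a) (mem_top b))) g
  let φ : G → G →* G := fun x =>
    { toFun := fun g => ⁅x, g⁆
      map_one' := by simp
      map_mul' := fun g k => by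
        have := hc x k g
        calc ⁅x, g * k⁆ = ⁅x, g⁆ * (g * ⁅x, k⁆) * g⁻¹ := by
              simp only [commutatorElement_def]; group
          _ = ⁅x, g⁆ * ⁅x, k⁆ := by rw [this]; group }
  have hker : ∀ x, (φ x).ker = centralizer {x} := fun x => by
    ext g
    rw [MonoidHom.mem_ker, mem_centralizer_singleton_iff]
    change ⁅x, g⁆ = 1 ↔ _
    rw [commutatorElement_eq_one_iff_mul_comm, eq_comm]
  have hcard : ∀ x, Nat.card (φ x).range ∣ p := fun x => by
    rw [← index_ker, hker]; exact h x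
  have hA : ∀ x y, x * y ≠ y * x → (φ x).range ≤ (φ y).range := fun x y hxy => by
    refine le_of_card_dvd_prime hp (hcard x) (t := ⁅x, y⁆) ⟨y, rfl⟩ ?_ ?_
    · rwa [Ne, commutatorElement_eq_one_iff_mul_comm]
    · rw [← commutatorElement_inv]; exact inv_mem ⟨x, rfl⟩
  by_cases hall : ∀ x y : G, x * y = y * x
  · have : commutator G = ⊥ := by
      rw [_root_.commutator_def, eq_bot_iff, commutator_le]
      intro a _ b _
      rw [mem_bot, commutatorElement_eq_one_iff_mul_comm]; exact hall a b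
    rw [this, card_bot]; exact one_dvd _
  push Not at hall
  obtain ⟨x, a, hxa⟩ := hall
  have : commutator G ≤ (φ x).range := by
    rw [_root_.commutator_def, commutator_le]
    intro y _ b _
    by_cases hyb : y * b = b * y
    · rw [commutatorElement_eq_one_iff_mul_comm.2 hyb]; exact one_mem _
    have hz : ∃ z, x * z ≠ z * x ∧ y * z ≠ z * y := by
      by_cases h1 : y * a = a * y
      · by_cases h3 : x * b = b * x
        · refine ⟨a * b, fun h4 => hxa ?_, fun h4 => hyb ?_⟩
          · have : x * a * b = a * x * b := by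
              rw [mul_assoc, h4, mul_assoc, mul_assoc, h3]
            exact mul_right_cancel this
          · have : a * (y * b) = a * (b * y) := by
              rw [← mul_assoc, ← h1, mul_assoc, h4, mul_assoc]
            exact mul_left_cancel this
        · exact ⟨b, h3, hyb⟩
      · exact ⟨a, hxa, h1⟩
    obtain ⟨z, hxz, hyz⟩ := hz
    exact hA z x (Ne.symm hxz) (hA y z hyz ⟨b, rfl⟩)
  exact (card_dvd_of_le this).trans (hcard x)

theorem commutator_le_of_relIndex_dvd {p : ℕ} [hp : Fact p.Prime] {P H : Subgroup G}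
    (hP : IsPGroup p P) (h : H.relIndex P ∣ p) : ⁅P, P⁆ ≤ H := by
  rcases (Nat.dvd_prime hp.out).1 h with h1 | h1
  · exact (commutator_le_self P).trans (relIndex_eq_one.1 h1)
  · haveI : (H.subgroupOf P).Normal := H9.normal_of_index_eq_prime hP h1
    haveI : IsCyclic (P ⧸ H.subgroupOf P) := isCyclic_of_prime_card (p := p) h1
    have h2 : commutator P ≤ H.subgroupOf P :=
      Normal.quotient_commutative_iff_commutator_le.1 inferInstance
    rw [commutator_le]
    intro a ha b hb
    exact h2 (commutator_mem_commutator (mem_top (⟨a, ha⟩ : P)) (mem_top (⟨b, hb⟩ : P)))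

theorem eq_of_relIndex_dvd_prime {p : ℕ} (hp : p.Prime) {H M P : Subgroup G} (h1 : H ≤ M)
    (h2 : M ≤ P) (h : H.relIndex P ∣ p) (hne : ¬ M ≤ H) : M = P := by
  have h3 := relIndex_mul_relIndex H M P h1 h2
  have h4 : H.relIndex M ≠ 1 := fun h5 => hne (relIndex_eq_one.1 h5)
  rw [← h3] at h
  have h5 : H.relIndex M = p :=
    ((Nat.dvd_prime hp).1 ((dvd_mul_right _ _).trans h)).resolve_left h4
  rw [h5] at h
  have h6 : M.relIndex P = 1 := by
    have := (Nat.mul_dvd_mul_iff_left hp.pos).1 (show p * M.relIndex P ∣ p * 1 by simpa using h)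
    exact Nat.dvd_one.1 this
  exact le_antisymm h2 (relIndex_eq_one.1 h6)

theorem relIndex_dvd_prime_of_not_sq {p : ℕ} [hp : Fact p.Prime] {P : Subgroup G} [P.Normal]
    (hP : IsPGroup p P) {x : G} (h : ¬ p ^ 2 ∣ ix x) :
    (centralizer ({x} : Set G)).relIndex P ∣ p := by
  obtain ⟨n, hn⟩ := hP.exists_card_eq
  have h1 : (centralizer ({x} : Set G)).relIndex P ∣ p ^ n := hn ▸ relIndex_dvd_card _ _
  obtain ⟨j, -, hj⟩ := (Nat.dvd_prime_pow hp.out).1 h1
  have h2 : ¬ p ^ 2 ∣ p ^ j := fun h3 => h (h3.trans (hj ▸ relIndex_dvd_index_of_normal' _ _))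
  rw [hj]
  have : j ≤ 1 := by
    by_contra h4
    exact h2 (pow_dvd_pow _ (by omega))
  calc p ^ j ∣ p ^ 1 := pow_dvd_pow _ this
    _ = p := pow_one p

theorem card_commutator_dvd_of_isPGroup {p : ℕ} [hp : Fact p.Prime]
    (hG : IsPGroup p (commutator G)) (h : ∀ x : G, ¬ p ^ 2 ∣ ix x) :
    Nat.card (commutator G) ∣ p := by
  obtain ⟨S, hS⟩ := hG.exists_le_sylow
  obtain ⟨P, hPS⟩ : ∃ P : Subgroup G, P = S := ⟨_, rfl⟩
  have hP : IsPGroup p P := hPS ▸ S.isPGroup'
  have hGP : commutator G ≤ P := hPS ▸ hS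
  haveI : P.Normal := Normal.of_commutator_le _ hGP
  have hcop : (Nat.card P).Coprime P.index := hPS ▸ S.card_coprime_index
  obtain ⟨K, hK⟩ := exists_right_complement'_of_coprime hcop
  have hKc : ∀ a ∈ K, ∀ b ∈ K, a * b = b * a := fun a ha b hb => by
    rw [← commutatorElement_eq_one_iff_mul_comm, ← mem_bot, ← hK.disjoint.eq_bot]
    refine mem_inf.2 ⟨hGP (commutator_mem_commutator (mem_top _) (mem_top _)), ?_⟩
    exact mul_mem (mul_mem (mul_mem ha hb) (inv_mem ha)) (inv_mem hb)
  have hdec : ∀ g : G, ∃ u ∈ P, ∃ k ∈ K, u * k = g := fun g => by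
    have : g ∈ P ⊔ K := by rw [hK.sup_eq_top]; exact mem_top g
    exact (H1.mem_sup_of_le_normalizer_left (by rw [normalizer_eq_top]; exact le_top)).1 this
  have hi : ∀ x : G, (centralizer ({x} : Set G)).relIndex P ∣ p := fun x =>
    relIndex_dvd_prime_of_not_sq hP (h x)
  have hPP : ∀ x : G, ⁅P, P⁆ ≤ centralizer {x} := fun x => commutator_le_of_relIndex_dvd hP (hi x)
  by_cases hc : ∀ k ∈ K, P ≤ centralizer {k}
  · have hKz : ∀ k ∈ K, ∀ g, g * k = k * g := fun k hk g => by
      obtain ⟨u, hu, l, hl, rfl⟩ := hdec g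
      have h1 := mem_centralizer_singleton_iff.1 (hc k hk hu)
      rw [mul_assoc, hKc l hl k hk, ← mul_assoc, h1, mul_assoc]
    refine knoche hp.out ?_ fun x => ?_
    · rw [_root_.commutator_def, commutator_le]
      intro a _ b _
      obtain ⟨u, hu, k, hk, rfl⟩ := hdec a
      obtain ⟨v, hv, l, hl, rfl⟩ := hdec b
      have : ⁅u * k, v * l⁆ = ⁅u, v⁆ := by
        have e1 := hKz k hk (v * l * (u * k)⁻¹ * (v * l)⁻¹)
        have e2 := hKz l hl (u⁻¹ * l⁻¹)
        calc ⁅u * k, v * l⁆ = u * (k * (v * l * k⁻¹)) * u⁻¹ * (v * l)⁻¹ := by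
              simp only [commutatorElement_def]; group
          _ = u * v * (l * (u⁻¹ * l⁻¹)) * v⁻¹ := by rw [← hKz k hk]; group
          _ = ⁅u, v⁆ := by rw [← e2]; simp only [commutatorElement_def]; group
      rw [this, mem_center_iff]
      intro g
      exact (mem_centralizer_singleton_iff.1 (hPP g (commutator_mem_commutator hu hv))).symm
    · have h1 : centralizer ({x} : Set G) ⊔ P = ⊤ := by
        rw [eq_top_iff, ← hK.sup_eq_top]
        refine sup_le le_sup_right (le_trans (fun k hk => ?_) le_sup_left)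
        exact mem_centralizer_singleton_iff.2 (hKz k hk x).symm
      rw [← relIndex_top_right, ← h1, relIndex_sup_normal_eq]
      exact hi x
  push Not at hc
  obtain ⟨k, hk, hkP⟩ := hc
  obtain ⟨A, hA⟩ : ∃ A, A = zpowers k := ⟨_, rfl⟩
  have hAK : A ≤ K := hA ▸ zpowers_le.2 hk
  have hCA : centralizer (A : Set G) = centralizer {k} := by
    rw [hA, zpowers_eq_closure, centralizer_closure]
  obtain ⟨D, hD⟩ : ∃ D, D = P ⊓ centralizer {k} := ⟨_, rfl⟩
  obtain ⟨Q, hQ⟩ : ∃ Q, Q = ⁅P, A⁆ := ⟨_, rfl⟩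
  have hDP : D ≤ P := hD ▸ inf_le_left
  have hDk : D ≤ centralizer {k} := hD ▸ inf_le_right
  have hQP : Q ≤ P := hQ ▸ commutator_le_left _ _
  have hnP : ∀ X : Subgroup G, X ≤ normalizer (P : Set G) := fun X => by
    rw [normalizer_eq_top]; exact le_top
  have hKA : K ≤ centralizer (A : Set G) := fun l hl => by
    rw [hCA]; exact mem_centralizer_singleton_iff.2 (hKc l hl k hk)
  have hKnA : K ≤ normalizer (A : Set G) := hKA.trans (centralizer_le_normalizer _)
  have hPPD : ⁅P, P⁆ ≤ D := hD ▸ le_inf (commutator_le_self P) (hPP k)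
  haveI hDn : D.Normal := by
    rw [← normalizer_eq_top_iff, eq_top_iff, ← hK.sup_eq_top]
    refine sup_le ?_ ?_
    · intro u hu
      refine mem_normalizer_fintype fun d hd => ?_
      have : u * d * u⁻¹ = ⁅u, d⁆ * d := by simp only [commutatorElement_def]; group
      rw [this]
      exact mul_mem (hPPD (commutator_mem_commutator hu (hDP hd))) hd
    · rw [hD, ← hCA]
      exact H1.le_normalizer_inf (hnP K) (H1.le_normalizer_centralizer hKnA)
  haveI hQn : Q.Normal := by
    rw [← normalizer_eq_top_iff, eq_top_iff, ← hK.sup_eq_top, hQ]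
    exact sup_le (le_normalizer_commutator_left P A) (H1.le_normalizer_commutator (hnP K) hKnA)
  have hAcop : (Nat.card A).Coprime (Nat.card P) := by
    refine Nat.Coprime.coprime_dvd_left (card_dvd_of_le hAK) ?_
    rw [← hK.symm.index_eq_card]; exact hcop.symm
  have hQA : ⁅Q, A⁆ = Q := by
    rw [hQ]
    exact H1.commutator_commutator_eq (hnP A) hAcop
      (Or.inr (by haveI := hP.isNilpotent; infer_instance))
  have hQD : Q ≤ centralizer (D : Set G) := by
    rw [hQ]
    refine H4.three_subgroups ?_ ?_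
    · have : ⁅A, D⁆ = ⊥ := by
        rw [commutator_comm, commutator_eq_bot_iff_le_centralizer, hCA]; exact hDk
      rw [this]; exact bot_le
    · rw [hCA]; exact (commutator_le_left _ _).trans hDk
  have hQnD : ¬ Q ≤ centralizer {k} := fun h1 => by
    have h2 : ⁅Q, A⁆ = ⊥ := by rw [commutator_eq_bot_iff_le_centralizer, hCA]; exact h1
    rw [hQA, hQ, commutator_eq_bot_iff_le_centralizer, hCA] at h2
    exact hkP h2
  have hDi : D.relIndex P ∣ p := by rw [hD, inf_relIndex_left]; exact hi k
  obtain ⟨u, huQ, huk⟩ := SetLike.not_le_iff_exists.1 hQnD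
  have hDu : D ⊔ zpowers u = P :=
    eq_of_relIndex_dvd_prime hp.out le_sup_left (sup_le hDP (zpowers_le.2 (hQP huQ))) hDi
      fun h1 => huk (hDk (h1 (mem_sup_right (mem_zpowers u))))
  have huP : P ≤ centralizer {u} := by
    rw [← hDu]
    refine sup_le (fun d hd => ?_) (zpowers_le.2 (mem_centralizer_singleton_iff.2 rfl))
    exact mem_centralizer_singleton_iff.2 (hQD huQ d hd)
  have hQc : ∀ q ∈ Q, P ≤ centralizer {q} := fun q hq => by
    rw [← hDu]
    refine sup_le (fun d hd => ?_) (zpowers_le.2 ?_)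
    · exact mem_centralizer_singleton_iff.2 (hQD hq d hd)
    · exact mem_centralizer_singleton_iff.2 (mem_centralizer_singleton_iff.1 (huP (hQP hq))).symm
  haveI : IsMulCommutative Q := H1.isMulCommutative_iff'.2 fun a ha b hb =>
    mem_centralizer_singleton_iff.1 (hQc b hb (hQP ha))
  have hQk : Q ⊓ centralizer {k} = ⊥ := by
    have := (H3.fitting_decomposition (A := Q) (H := A) (by rw [normalizer_eq_top]; exact le_top)
      ((hAcop.symm.coprime_dvd_left (card_dvd_of_le hQP)).coprime_dvd_right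
        (relIndex_dvd_card _ _))).1
    rwa [hQA, hCA] at this
  have hQDb : D ⊓ Q = ⊥ := by
    rw [eq_bot_iff, ← hQk]; exact le_inf inf_le_right (inf_le_left.trans hDk)
  have hDQ : D ⊔ Q = P := le_antisymm (sup_le hDP hQP)
    (hDu ▸ sup_le_sup_left (zpowers_le.2 huQ) _)
  have hQcard : Nat.card Q ∣ p := by
    have h1 := H1.card_inf_mul_relIndex D Q
    rw [hQDb, card_bot, one_mul, ← relIndex_sup_normal_eq, hDQ] at h1
    rw [← h1]; exact hDi
  have key : ∀ y : G, ¬ Q ≤ centralizer {y} → D ≤ centralizer {y} := fun y hy d hd => by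
    have h1 : (P ⊓ centralizer {y}) ⊔ Q = P :=
      eq_of_relIndex_dvd_prime hp.out le_sup_left (sup_le inf_le_left hQP)
        (by rw [inf_relIndex_left]; exact hi y)
        fun h1 => hy (le_sup_right.trans (h1.trans inf_le_right))
    have h2 : d ∈ (P ⊓ centralizer {y}) ⊔ Q := h1.symm ▸ hDP hd
    obtain ⟨c, hc, q, hq, rfl⟩ :=
      (H1.mem_sup_of_le_normalizer_right (by rw [normalizer_eq_top]; exact le_top)).1 h2
    have hcy := mem_centralizer_singleton_iff.1 (mem_inf.1 hc).2
    have h3 : y * (c * q) * y⁻¹ * (c * q)⁻¹ ∈ D ⊓ Q := by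
      refine mem_inf.2 ⟨mul_mem (hDn.conj_mem _ hd _) (inv_mem hd), ?_⟩
      have : y * (c * q) * y⁻¹ * (c * q)⁻¹ = c * (y * q * y⁻¹ * q⁻¹) * c⁻¹ := by
        rw [← mul_assoc y, ← hcy]; group
      rw [this]
      exact hQn.conj_mem _ (mul_mem (hQn.conj_mem _ hq _) (inv_mem hq)) _
    rw [hQDb, mem_bot] at h3
    rw [mem_centralizer_singleton_iff]
    calc c * q * y = (y * (c * q) * y⁻¹ * (c * q)⁻¹) * (c * q) * y := by rw [h3, one_mul]
      _ = y * (c * q) := by group
  have hDz : ∀ d ∈ D, ∀ y : G, d * y = y * d := fun d hd y => by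
    by_cases hy : Q ≤ centralizer {y}
    · have h1 : ¬ Q ≤ centralizer {y * k} := fun h1 => hQnD fun q hq => by
        have e1 := mem_centralizer_singleton_iff.1 (hy hq)
        have e2 := mem_centralizer_singleton_iff.1 (h1 hq)
        rw [mem_centralizer_singleton_iff]
        rw [← mul_assoc, e1, mul_assoc, mul_assoc] at e2
        exact mul_left_cancel e2
      have e1 := mem_centralizer_singleton_iff.1 (key _ h1 hd)
      have e2 := mem_centralizer_singleton_iff.1 (hDk hd)
      rw [mul_assoc, ← e2, ← mul_assoc, ← mul_assoc] at e1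
      exact mul_right_cancel e1
    · exact mem_centralizer_singleton_iff.1 (key y hy hd)
  have hdec2 : ∀ g : G, ∃ q ∈ Q, ∃ d ∈ D, ∃ l ∈ K, q * (d * l) = g := fun g => by
    obtain ⟨v, hv, l, hl, rfl⟩ := hdec g
    rw [← hDQ, sup_comm] at hv
    obtain ⟨q, hq, d, hd, rfl⟩ :=
      (H1.mem_sup_of_le_normalizer_left (by rw [normalizer_eq_top]; exact le_top)).1 hv
    exact ⟨q, hq, d, hd, l, hl, by group⟩
  have : commutator G ≤ Q := by
    rw [_root_.commutator_def, commutator_le]
    intro a _ b _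
    obtain ⟨q, hq, d, hd, l, hl, rfl⟩ := hdec2 a
    obtain ⟨q', hq', d', hd', l', hl', rfl⟩ := hdec2 b
    rw [← QuotientGroup.eq_one_iff]
    change QuotientGroup.mk' Q _ = 1
    have e1 : QuotientGroup.mk' Q q = 1 := (QuotientGroup.eq_one_iff q).2 hq
    have e2 : QuotientGroup.mk' Q q' = 1 := (QuotientGroup.eq_one_iff q').2 hq'
    rw [map_commutatorElement, map_mul _ q, map_mul _ q', e1, e2, one_mul, one_mul,
      ← map_commutatorElement]
    have : ⁅d * l, d' * l'⁆ = 1 := by
      rw [commutatorElement_eq_one_iff_mul_comm]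
      calc d * l * (d' * l') = d * (l * d') * l' := by group
        _ = d * d' * (l * l') := by rw [← hDz d' hd' l]; group
        _ = d' * d * (l' * l) := by rw [hDz d hd d', hKc l hl l' hl']
        _ = d' * (d * l') * l := by group
        _ = d' * l' * (d * l) := by rw [hDz d hd l']; group
    rw [this, map_one]
  exact (card_dvd_of_le this).trans hQcard

end H8
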