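import Cfsg.Agent.H8.Sqf
import Cfsg.Agent.H8.Cyc
import Cfsg.Agent.H1.Fitting
import Cfsg.Agent.H1.Solvable

/-! Groups with squarefree class sizes (Chillag–Herzog). -/

namespace H8

open Subgroup Cfsg
open scoped Pointwise commutatorElement

universe u

local notation "ix " x:max => Subgroup.index (Subgroup.centralizer ({x} : Set _))

theorem not_dvd_index_quotient {G : Type u} [Group G] {m : ℕ} (h : ∀ x : G, ¬ m ∣ ix x)
    (N : Subgroup G) [N.Normal] (y : G ⧸ N) : ¬ m ∣ ix y := by
  obtain ⟨x, rfl⟩ := QuotientGroup.mk_surjective y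
  exact fun h1 => h x (h1.trans (index_centralizer_mk_dvd N x))

theorem supS_of_not_sq_dvd (n : ℕ) : ∀ (G : Type u) [Group G] [Finite G] [Group.IsSolvable G],
    Nat.card G = n → (∀ p : ℕ, p.Prime → ∀ x : G, ¬ p ^ 2 ∣ ix x) → H1.SupS G := by
  induction n using Nat.strong_induction_on with
  | _ n ih =>
  intro G _ _ _ hn h
  rcases subsingleton_or_nontrivial G with h0 | h0
  · exact H1.supS_of_subsingleton
  obtain ⟨N, p, hN, hN0, -, hp, hNc, hNp, hPN, hmin⟩ :=
    H1.exists_minimal_normal_elementary (⊤ : Subgroup G) inferInstance top_ne_bot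
  haveI := Fact.mk hp
  have hq : H1.SupS (G ⧸ N) := ih _ (hn ▸ H1.card_quotient_lt hN0) (G ⧸ N) rfl
    fun q hq => not_dvd_index_quotient (h q hq) N
  refine H1.supS_of_prime_quotient N ?_ hq
  by_cases hc : centralizer (N : Set G) = ⊤
  · obtain ⟨⟨x, hx⟩, hx1⟩ := ne_bot_iff_exists_ne_one.1 hN0
    have hx1' : x ≠ 1 := fun h1 => hx1 (Subtype.ext h1)
    have hz : zpowers x ≤ center G := zpowers_le.2 (mem_center_iff.2 fun g =>
      ((show g ∈ centralizer (N : Set G) from hc ▸ mem_top g) x hx).symm)
    rcases hmin (zpowers x) (H1.normal_of_le_center hz) (zpowers_le.2 hx) with h1 | h1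
    · exact absurd (zpowers_eq_bot.1 h1) hx1'
    · rw [← h1, Nat.card_zpowers, orderOf_eq_prime (hNp x hx) hx1']; exact hp
  · have hNC : N ≤ centralizer (N : Set G) := fun a ha b hb =>
      H1.isMulCommutative_iff'.1 hNc b hb a ha
    have hq2 := hq.quotient_of_le hNC
    haveI : Nontrivial (G ⧸ centralizer (N : Set G)) := QuotientGroup.nontrivial_iff.2 hc
    obtain ⟨M, hM, hMp⟩ := hq2.exists_normal_prime
    haveI := Fact.mk hMp
    haveI : IsCyclic M := isCyclic_of_prime_card rfl
    obtain ⟨y, hy⟩ := M.isCyclic_iff_exists_zpowers_eq_top.1 inferInstance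
    obtain ⟨x, rfl⟩ := QuotientGroup.mk_surjective y
    have hM0 : M ≠ ⊥ := fun h1 => by
      rw [h1, card_bot] at hMp; exact Nat.not_prime_one hMp
    have h1 : N ⊓ centralizer (M.comap (QuotientGroup.mk' (centralizer (N : Set G))) : Set G)
        = ⊥ := by
      refine (hmin _ inferInstance inf_le_left).resolve_right fun h1 => hM0 ?_
      rw [eq_bot_iff]
      intro z hz
      obtain ⟨w, rfl⟩ := QuotientGroup.mk_surjective z
      rw [mem_bot, QuotientGroup.eq_one_iff]
      intro a ha
      exact ((mem_inf.1 (h1.symm ▸ ha : a ∈ N ⊓ _)).2 w hz).symm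
    have h2 : centralizer ({x} : Set G) ⊓ N = ⊥ := by
      rw [eq_bot_iff, ← h1]
      intro a ha
      obtain ⟨ha1, ha2⟩ := mem_inf.1 ha
      refine mem_inf.2 ⟨ha2, fun w hw => ?_⟩
      have hw' : (w : G ⧸ centralizer (N : Set G)) ∈ zpowers (x : G ⧸ _) := hy ▸ hw
      obtain ⟨i, hi⟩ := mem_zpowers_iff.1 hw'
      rw [← QuotientGroup.mk_zpow, QuotientGroup.eq] at hi
      have e1 : Commute a ((x ^ i)⁻¹ * w) := hi a ha2
      have e2 : Commute a x := mem_centralizer_singleton_iff.1 ha1
      have e3 : Commute a (x ^ i * ((x ^ i)⁻¹ * w)) := (e2.zpow_right i).mul_right e1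
      rw [mul_inv_cancel_left] at e3
      exact e3.symm
    have h3 := H1.card_inf_mul_relIndex (centralizer ({x} : Set G)) N
    rw [h2, card_bot, one_mul] at h3
    have h4 := relIndex_dvd_prime_of_not_sq hPN (h p hp x)
    rw [h3] at h4
    rcases (Nat.dvd_prime hp).1 h4 with h5 | h5
    · exact absurd (card_eq_one.1 h5) hN0
    · rw [h5]; exact hp

variable {G : Type u} [Group G] [Finite G]

theorem not_sq_dvd_card_commutator {p : ℕ} [hp : Fact p.Prime]
    (hn : Group.IsNilpotent (commutator G)) (h : ∀ x : G, ¬ p ^ 2 ∣ ix x) :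
    ¬ p ^ 2 ∣ Nat.card (commutator G) := by
  obtain ⟨N, hN⟩ : ∃ N, N = (pPrimeCore p (commutator G)).map (commutator G).subtype := ⟨_, rfl⟩
  haveI : N.Normal := hN ▸ H1.normal_map_char _ _
  have hNle : N ≤ commutator G := hN ▸ map_subtype_le _
  have hNc : (Nat.card N).Coprime p := by
    rw [hN, card_subtype]; exact H1.coprime_card_pPrimeCore p
  have hmap : commutator (G ⧸ N) = (commutator G).map (QuotientGroup.mk' N) := by
    rw [_root_.commutator_def, _root_.commutator_def, map_commutator,
      map_top_of_surjective _ (QuotientGroup.mk'_surjective N)]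
  have hP : IsPGroup p (commutator (G ⧸ N)) := by
    have h1 : commutator G = (pCore p (commutator G)).map (commutator G).subtype ⊔ N := by
      rw [hN, ← Subgroup.map_sup, H1.pCore_sup_pPrimeCore_eq_top, ← MonoidHom.range_eq_map,
        range_subtype]
    rw [hmap, h1, Subgroup.map_sup, H1.map_mk'_eq_bot_iff.2 le_rfl, sup_bot_eq]
    exact ((H1.isPGroup_pCore p).map _).map _
  have h1 := card_commutator_dvd_of_isPGroup hP (not_dvd_index_quotient h N)
  have h2 := H1.card_map_mk'_mul (commutator G) N
  rw [← hmap, inf_eq_right.2 hNle] at h2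
  intro h3
  rw [← h2] at h3
  have h4 := (Nat.Coprime.pow_left 2 hNc.symm).dvd_of_dvd_mul_right h3
  have h5 := Nat.le_of_dvd hp.out.pos (h4.trans h1)
  have := hp.out.two_le
  nlinarith

theorem squarefree_classes [Group.IsSolvable G] (h : ∀ x : G, Squarefree (ix x)) :
    IsSupersolvable G ∧ (IsCyclic (G ⧸ fittingSubgroup G) ∧ Squarefree (fittingSubgroup G).index) ∧
    IsCyclic (commutator G) ∧ Squarefree (Nat.card (commutator G)) ∧
    Subgroup.upperCentralSeries (fittingSubgroup G) 2 = ⊤ ∧ commutator (commutator G) = ⊥ := by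
  have h' : ∀ p : ℕ, p.Prime → ∀ x : G, ¬ p ^ 2 ∣ ix x := fun p hp x h1 =>
    Nat.squarefree_iff_prime_squarefree.1 (h x) p hp (by rwa [← pow_two])
  have hs := supS_of_not_sq_dvd _ G rfl h'
  haveI hn := hs.isNilpotent_commutator
  have hsq : Squarefree (Nat.card (commutator G)) :=
    Nat.squarefree_iff_prime_squarefree.2 fun p hp h1 => by
      haveI := Fact.mk hp
      exact not_sq_dvd_card_commutator hn (h' p hp) (by rwa [pow_two])
  haveI := IsZGroup.of_squarefree hsq
  have hcyc : IsCyclic (commutator G) := inferInstance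
  have hGF := hs.commutator_le_fitting
  have hFC : fittingSubgroup G ≤ centralizer (commutator G : Set G) := fun f hf => by
    have h1 : Nat.card (commutator G) ∣
        Nat.card (commutator G ⊓ centralizer {f} : Subgroup G) := by
      rw [← Nat.prod_primeFactors_of_squarefree hsq,
        Nat.prod_primeFactors_dvd_iff Nat.card_pos.ne']
      intro p hp
      have hpp := Nat.prime_of_mem_primeFactors hp
      haveI := Fact.mk hpp
      obtain ⟨x, hx⟩ := exists_prime_orderOf_dvd_card' p (Nat.dvd_of_mem_primeFactors hp)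
      haveI : ((zpowers x).map (commutator G).subtype).Normal :=
        normal_of_le_isCyclic hcyc (map_subtype_le _)
      have hcard : Nat.card ((zpowers x).map (commutator G).subtype) = p := by
        rw [card_subtype, Nat.card_zpowers, hx]
      have h2 := H1.fitting_le_centralizer_of_minimal ((zpowers x).map (commutator G).subtype)
        (fun K _ hK => by
          rcases (Nat.dvd_prime hpp).1 (hcard ▸ card_dvd_of_le hK) with h3 | h3
          · exact Or.inl (card_eq_one.1 h3)
          · exact Or.inr (eq_of_le_of_card_ge hK (by rw [h3, hcard]))) hf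
      refine Nat.mem_primeFactors.2 ⟨hpp, ?_, Nat.card_pos.ne'⟩
      rw [← hcard]
      refine card_dvd_of_le (le_inf (map_subtype_le _) fun y hy => ?_)
      exact mem_centralizer_singleton_iff.2 (h2 y hy)
    have h2 := eq_of_le_of_card_ge (inf_le_left (a := commutator G) (b := centralizer {f}))
      (Nat.le_of_dvd Nat.card_pos h1)
    intro y hy
    exact mem_centralizer_singleton_iff.1 (mem_inf.1 (h2.symm ▸ hy : y ∈ _ ⊓ _)).2
  have hCF : centralizer (commutator G : Set G) ≤ fittingSubgroup G := by
    refine H1.le_fitting (H1.isNilpotent_of_commutator_commutator_eq_bot ?_)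
    rw [commutator_comm, commutator_eq_bot_iff_le_centralizer]
    exact centralizer_le (commutator_mono le_top le_top)
  obtain ⟨x, hx⟩ := (commutator G).isCyclic_iff_exists_zpowers_eq_top.1 hcyc
  have hF : fittingSubgroup G = centralizer {x} := by
    rw [le_antisymm hFC hCF, ← hx, zpowers_eq_closure, centralizer_closure]
  have hFi : Squarefree (fittingSubgroup G).index := hF ▸ h x
  refine ⟨H1.isSupersolvable_iff_supS.2 hs, ⟨?_, hFi⟩, hcyc, hsq, ?_, ?_⟩
  · haveI : IsZGroup (G ⧸ fittingSubgroup G) := IsZGroup.of_squarefree hFi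
    haveI := H1.isNilpotent_of_comm (Normal.quotient_commutative_iff_commutator_le.2 hGF)
    infer_instance
  · rw [eq_top_iff]
    intro a _
    rw [Subgroup.mem_upperCentralSeries_succ_iff]
    intro b
    rw [Subgroup.upperCentralSeries_one, mem_center_iff]
    intro c
    exact Subtype.ext
      (hFC c.2 _ (commutator_mem_commutator (mem_top (a : G)) (mem_top (b : G)))).symm
  · rw [_root_.commutator_def (commutator G), eq_bot_iff, commutator_le]
    intro a _ b _
    rw [mem_bot, commutatorElement_eq_one_iff_mul_comm]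
    exact hcyc.isMulCommutative.is_comm.comm a b

end H8
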