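import Cfsg.Agent.Lead.Frob
import Cfsg.Agent.H26.ZS2

/-!
Bender's count of involutions for a trivial intersection subgroup: elementwise lemmas.
-/

set_option autoImplicit false
set_option linter.unusedSectionVars false

namespace H8.TI

open Subgroup

variable {G : Type*} [Group G]

/-- the normaliser -/
abbrev Nm (M : Subgroup G) : Subgroup G := Subgroup.normalizer (M : Set G)

theorem conj_mem {M : Subgroup G} {g x : G} (hg : g ∈ Nm M) (hx : x ∈ M) : g * x * g⁻¹ ∈ M :=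
  (Subgroup.mem_normalizer_iff.1 hg x).1 hx

theorem conj_mem' {M : Subgroup G} {g x : G} (hg : g ∈ Nm M) (hx : x ∈ M) : g⁻¹ * x * g ∈ M := by
  simpa using conj_mem (inv_mem hg) hx

theorem leN {M : Subgroup G} {x : G} (hx : x ∈ M) : x ∈ Nm M := Subgroup.le_normalizer hx

/-- the basic hypotheses -/
structure Hy (M : Subgroup G) (z : G) : Prop where
  ne : M ≠ ⊥
  ti : ∀ g, g ∉ Nm M → ∀ x ∈ M, g * x * g⁻¹ ∈ M → x = 1
  z1 : z ≠ 1
  zz : z * z = 1
  zN : z ∈ Nm M
  fac : ∀ w ∈ Nm M, ∃ x ∈ M, ∃ c ∈ Nm M, c * z = z * c ∧ w = x * c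
  odd : ∀ x ∈ M, x ≠ 1 → Odd (Nat.card (Subgroup.centralizer ({x} : Set G)))

theorem inv_eq_of_sq {u : G} (h : u * u = 1) : u⁻¹ = u := inv_eq_of_mul_eq_one_right h

namespace Hy

variable [Finite G] {M : Subgroup G} {z : G} (h : Hy M z)
include h

theorem exists_ne : ∃ x ∈ M, x ≠ 1 := by
  by_contra hc
  push Not at hc
  exact h.ne ((Subgroup.eq_bot_iff_forall _).2 hc)

theorem zinv : z⁻¹ = z := inv_eq_of_sq h.zz

/-- an element of square one centralising a nontrivial element of `M` is trivial -/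
theorem eq_one_of_comm {x t : G} (hx : x ∈ M) (h1 : x ≠ 1) (ht : t * t = 1) (e : t * x = x * t) :
    t = 1 :=
  H26.eq_one_of_sq_of_odd (H26.odd_orderOf_of_mem (h.odd x hx h1)
    (Subgroup.mem_centralizer_singleton_iff.2 e)) ht

theorem eq_one_of_sq {x : G} (hx : x ∈ M) (ht : x * x = 1) : x = 1 := by
  by_contra h1
  exact h1 (h.eq_one_of_comm hx h1 ht rfl)

theorem eq_one_of_comm' {x t : G} (hx : x ∈ M) (h1 : t ≠ 1) (ht : t * t = 1)
    (e : t * x = x * t) : x = 1 := by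
  by_contra h2
  exact h1 (h.eq_one_of_comm hx h2 ht e)

theorem exists_conj {t x : G} (htN : t ∈ Nm M) (h1 : t ≠ 1) (ht : t * t = 1) (hx : x ∈ M) :
    ∃ n ∈ M, n * t * n⁻¹ = x * t := by
  refine FT.fpf_conj htN ?_ hx
  rw [Subgroup.eq_bot_iff_forall]
  intro y hy
  exact h.eq_one_of_comm' hy.1 h1 ht (Subgroup.mem_centralizer_singleton_iff.1 hy.2).symm

theorem inverts {t x : G} (htN : t ∈ Nm M) (h1 : t ≠ 1) (ht : t * t = 1) (hx : x ∈ M) :
    t * x * t = x⁻¹ := by
  obtain ⟨n, -, e⟩ := h.exists_conj htN h1 ht hx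
  have : x * t * (x * t) = 1 := by
    rw [← e]
    calc n * t * n⁻¹ * (n * t * n⁻¹) = n * (t * t) * n⁻¹ := by group
      _ = 1 := by rw [ht]; group
  calc t * x * t = x⁻¹ * (x * t * (x * t)) := by group
    _ = x⁻¹ := by rw [this, mul_one]

theorem zx {x : G} (hx : x ∈ M) : z * x * z = x⁻¹ := h.inverts h.zN h.z1 h.zz hx

theorem zx' {x : G} (hx : x ∈ M) : z * x = x⁻¹ * z := by
  rw [← h.zx hx, mul_assoc, h.zz, mul_one]

theorem comm {x y : G} (hx : x ∈ M) (hy : y ∈ M) : x * y = y * x := by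
  have e1 := h.zx (mul_mem hx hy)
  have e2 : z * (x * y) * z = (z * x * z) * (z * y * z) := by
    calc z * (x * y) * z = z * x * (z * z) * y * z := by rw [h.zz]; group
      _ = _ := by group
  rw [e2, h.zx hx, h.zx hy, ← mul_inv_rev] at e1
  exact (inv_injective e1).symm

theorem isComm : IsMulCommutative M := ⟨⟨fun a b => Subtype.ext (h.comm a.2 b.2)⟩⟩

theorem eq_one_of_z {x : G} (hx : x ∈ M) (e : x * z = z * x) : x = 1 :=
  h.eq_one_of_comm' hx h.z1 h.zz e.symm

theorem z_not_mem : z ∉ M := fun hz => h.z1 (h.eq_one_of_sq hz h.zz)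

/-- the involutions of the normaliser lie in the coset `M z` -/
theorem invol_mem {t : G} (htN : t ∈ Nm M) (h1 : t ≠ 1) (ht : t * t = 1) : t * z ∈ M := by
  obtain ⟨x, hx, c, hc, hcz, rfl⟩ := h.fac t htN
  obtain ⟨y, hy, y1⟩ := h.exists_ne
  have hd : ∀ w ∈ M, z * c * w = w * (z * c) := by
    intro w hw
    have e1 := h.inverts htN h1 ht hw
    have e2 : x * c * w = w⁻¹ * (x * c) := by
      rw [← e1, mul_assoc (x * c * w), ht, mul_one]
    have e3 : c * w = w⁻¹ * c := by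
      rw [← mul_assoc, h.comm (inv_mem hw) hx, mul_assoc, mul_assoc] at e2
      exact mul_left_cancel e2
    rw [mul_assoc, e3, ← mul_assoc, h.zx' (inv_mem hw), inv_inv, mul_assoc]
  have hc' : c = z * (z * c) := by rw [← mul_assoc, h.zz, one_mul]
  have hdd : z * c * (z * c) = 1 := by
    have e1 : x * c * (x * c) = x * (z * x * z) * (z * c * (z * c)) := by
      calc x * c * (x * c) = x * (z * (z * c)) * (x * c) := by rw [← hc']
        _ = x * z * (z * c * x) * c := by group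
        _ = x * z * (x * (z * c)) * (z * (z * c)) := by rw [hd x hx, ← hc']
        _ = x * z * x * (z * (c * z)) * (z * c) := by group
        _ = x * z * x * (z * (z * c)) * (z * c) := by rw [hcz]
        _ = _ := by group
    rw [ht, h.zx hx, mul_inv_cancel, one_mul] at e1
    exact e1.symm
  have e := h.eq_one_of_comm hy y1 hdd (hd y hy)
  rw [hc', e, mul_one, mul_assoc, h.zz, mul_one]
  exact hx

theorem invol_eq {t : G} (htN : t ∈ Nm M) (ht : t * t = 1) (e : t * z = z * t) : t = 1 ∨ t = z := by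
  by_cases h1 : t = 1
  · exact Or.inl h1
  right
  have := h.eq_one_of_z (h.invol_mem htN h1 ht) (by rw [mul_assoc t z z, ← mul_assoc z, ← e, mul_assoc])
  rw [eq_inv_of_mul_eq_one_left this, h.zinv]

theorem coset_inj {j j' : G} (hj : j ∉ Nm M) (h1 : j * j = 1) (h2 : j' * j' = 1)
    (e : j⁻¹ * j' ∈ M) : j = j' := by
  have := h.ti j hj _ e (by
    have e2 : j * (j⁻¹ * j') * j⁻¹ = (j⁻¹ * j')⁻¹ := by
      rw [mul_inv_rev, inv_eq_of_sq h2, inv_inv, mul_inv_cancel_left, inv_eq_of_sq h1]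
    rw [e2]; exact inv_mem e)
  exact inv_mul_eq_one.1 this

/-- if some coset outside the normaliser has no involution, there are few involutions -/
theorem card_le {g : G} (hg : g ∉ Nm M) (hno : ∀ x ∈ M, g * x * (g * x) ≠ 1) :
    Nat.card {j : G // orderOf j = 2} ≤ M.index := by
  classical
  let f : {j : G // orderOf j = 2} → G ⧸ M := fun j =>
    if j.1 ∈ Nm M then ((j.1 * z * g : G) : G ⧸ M) else (j.1 : G ⧸ M)
  have key : ∀ j j' : {j : G // orderOf j = 2}, j.1 ∈ Nm M → j'.1 ∉ Nm M → f j ≠ f j' := by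
    intro j j' a b e
    simp only [f, if_pos a, if_neg b] at e
    rw [QuotientGroup.eq] at e
    obtain ⟨j1, j2⟩ := H26.orderOf_eq_two_iff'.1 j.2
    obtain ⟨-, j4⟩ := H26.orderOf_eq_two_iff'.1 j'.2
    have hx := h.invol_mem a j1 j2
    refine hno _ (mul_mem e hx) ?_
    calc g * ((j.1 * z * g)⁻¹ * j'.1 * (j.1 * z)) * (g * ((j.1 * z * g)⁻¹ * j'.1 * (j.1 * z)))
        = (j.1 * z)⁻¹ * (j'.1 * j'.1) * (j.1 * z) := by group
      _ = 1 := by rw [j4]; group
  refine Nat.card_le_card_of_injective f ?_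
  intro j j' e
  obtain ⟨j1, j2⟩ := H26.orderOf_eq_two_iff'.1 j.2
  obtain ⟨j3, j4⟩ := H26.orderOf_eq_two_iff'.1 j'.2
  by_cases a : j.1 ∈ Nm M <;> by_cases b : j'.1 ∈ Nm M
  · simp only [f, if_pos a, if_pos b] at e
    rw [QuotientGroup.eq] at e
    have := h.ti g⁻¹ (fun k => hg (by simpa using k)) _
      (mul_mem (inv_mem (h.invol_mem a j1 j2)) (h.invol_mem b j3 j4))
      (by convert e using 1; group)
    exact Subtype.ext (mul_right_cancel (inv_mul_eq_one.1 this))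
  · exact absurd e (key j j' a b)
  · exact absurd e.symm (key j' j b a)
  · simp only [f, if_neg a, if_neg b] at e
    rw [QuotientGroup.eq] at e
    exact Subtype.ext (h.coset_inj a j2 j4 e)

end Hy

/-- the hypotheses in the case of many involutions -/
structure Hz (M : Subgroup G) (z : G) : Prop extends Hy M z where
  cos : ∀ g, g ∉ Nm M → ∃ x ∈ M, g * x * (g * x) = 1
  nn : ∃ g, g ∉ Nm M

theorem not_mem_mul {N : Subgroup G} {g n : G} (hg : g ∉ N) (hn : n ∈ N) : g * n ∉ N :=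
  fun k => hg (by simpa using mul_mem k (inv_mem hn))

theorem not_mem_mul' {N : Subgroup G} {g n : G} (hg : g ∉ N) (hn : n ∈ N) : n * g ∉ N :=
  fun k => hg (by simpa using mul_mem (inv_mem hn) k)

namespace Hz

variable [Finite G] {M : Subgroup G} {z : G} (h : Hz M z)
include h

theorem exists_t {u : G} (hu : u ∉ Nm M) (uu : u * u = 1) :
    ∃ x ∈ M, u * (z * x) = z * x * u := by
  obtain ⟨x, hx, e⟩ := h.cos (u * z) (not_mem_mul hu h.zN)
  refine ⟨x, hx, ?_⟩
  have t2 : z * x * (z * x) = 1 := by rw [← mul_assoc, h.zx hx, inv_mul_cancel]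
  have e1 : u * (z * x) = (u * (z * x))⁻¹ :=
    (inv_eq_of_sq (by rw [← e]; group)).symm
  rw [e1, mul_inv_rev, inv_eq_of_sq t2, inv_eq_of_sq uu]

theorem l6 {u x : G} (hu : u ∉ Nm M) (uu : u * u = 1) (hx : x ∈ M) (hw : u * x * u ∈ Nm M) :
    x = 1 := by
  obtain ⟨y, hy, e⟩ := h.exists_t hu uu
  obtain ⟨x1, hx1, c, hc, hcz, e2⟩ := h.fac _ hw
  have t2 : z * y * (z * y) = 1 := by rw [← mul_assoc, h.zx hy, inv_mul_cancel]
  have t1 : z * y ≠ 1 := fun k => h.z_not_mem (by rw [eq_inv_of_mul_eq_one_left k]; exact inv_mem hy)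
  have e3 := h.inverts (mul_mem h.zN (leN hy)) t1 t2 hx
  have e4 : z * y * (u * x * u) * (z * y) = (u * x * u)⁻¹ := by
    calc z * y * (u * x * u) * (z * y) = (z * y * u) * x * (u * (z * y)) := by group
      _ = (u * (z * y)) * x * (z * y * u) := by rw [← e]
      _ = u * (z * y * x * (z * y)) * u := by group
      _ = _ := by rw [e3, mul_inv_rev, mul_inv_rev, inv_eq_of_sq uu, mul_assoc]
  have e5 : z * y * (u * x * u) * (z * y) * (u * x * u)⁻¹ ∈ M := by
    rw [e2]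
    have : z * y * (x1 * c) * (z * y) * (x1 * c)⁻¹ =
        (z * (y * x1) * z⁻¹) * (c * y * c⁻¹) * x1⁻¹ := by
      rw [h.zinv]
      calc z * y * (x1 * c) * (z * y) * (x1 * c)⁻¹ = z * y * x1 * (c * z) * y * c⁻¹ * x1⁻¹ := by group
        _ = _ := by rw [hcz]; group
    rw [this]
    exact mul_mem (mul_mem (conj_mem h.zN (mul_mem hy hx1)) (conj_mem hc hy)) (inv_mem hx1)
  rw [e4] at e5
  have e6 : u * (x * x) * u⁻¹ ∈ M := by
    have := inv_mem e5
    convert this using 1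
    rw [inv_eq_of_sq uu, mul_inv_rev, inv_inv]
    calc u * (x * x) * u = u * x * (u * u) * x * u := by rw [uu]; group
      _ = _ := by group
  exact h.eq_one_of_sq hx (h.ti u hu _ (mul_mem hx hx) e6)

theorem inv {u y : G} (hu : u ∉ Nm M) (uu : u * u = 1) (hy : y ∈ Nm M) (hw : u * y * u ∈ Nm M) :
    u * y * u = y⁻¹ := by
  obtain ⟨x, hx, e⟩ := h.cos (u * y) (not_mem_mul hu hy)
  have e1 : u * x * u = (u * y * u)⁻¹ * (y * x)⁻¹ := by
    calc u * x * u = (u * y * u)⁻¹ * (u * y * (u * u) * x * u) := by group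
      _ = (u * y * u)⁻¹ * (u * y * x * (u * y * x)) * (y * x)⁻¹ := by rw [uu]; group
      _ = _ := by rw [e, mul_one]
  have := h.l6 hu uu hx (by rw [e1]; exact mul_mem (inv_mem hw) (inv_mem (mul_mem hy (leN hx))))
  rw [this, mul_one] at e
  calc u * y * u = u * y * (u * y) * y⁻¹ := by group
    _ = _ := by rw [e, one_mul]

theorem l8 {g x : G} (hg : g ∉ Nm M) (hx : x ∈ M) (hw : g * x * g⁻¹ ∈ Nm M) : x = 1 := by
  obtain ⟨y, hy, e⟩ := h.cos g hg
  refine h.l6 (not_mem_mul hg (leN hy)) e hx ?_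
  have : g * y * x * (g * y) = g * x * g⁻¹ := by
    conv_lhs => rw [← inv_eq_of_sq e]
    rw [inv_eq_of_sq e, mul_assoc g y x, h.comm hy hx]
    calc g * (x * y) * (g * y) = g * x * g⁻¹ * (g * y * (g * y)) := by group
      _ = _ := by rw [e, mul_one]
  rw [this]; exact hw

theorem l8' {g x : G} (hg : g ∉ Nm M) (hx : x ∈ M) (hw : g⁻¹ * x * g ∈ Nm M) : x = 1 :=
  h.l8 (g := g⁻¹) (fun k => hg (by simpa using k)) hx (by simpa using hw)

/-- elements outside the normaliser that centralise `z` are involutions -/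
theorem sq_of_comm {g : G} (hg : g ∉ Nm M) (e : g * z = z * g) : g * g = 1 := by
  obtain ⟨x, hx, e1⟩ := h.cos g hg
  have e2 : g * x * z * (g * x) = x⁻¹ * z * x := by
    calc g * x * z * (g * x) = (g * x)⁻¹ * z * (g * x) := by rw [inv_eq_of_sq e1]
      _ = x⁻¹ * g⁻¹ * (z * g) * x := by group
      _ = _ := by rw [← e]; group
  have e3 := h.inv (not_mem_mul hg (leN hx)) e1 h.zN
    (by rw [e2]; exact mul_mem (mul_mem (inv_mem (leN hx)) h.zN) (leN hx))
  rw [e2, h.zinv] at e3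
  have e4 := h.eq_one_of_z hx (by
    calc x * z = x * (x⁻¹ * z * x) := by rw [e3]
      _ = _ := by group)
  rw [e4, mul_one] at e1
  exact e1

theorem inv_of_comm {g c : G} (hg : g ∉ Nm M) (e : g * z = z * g) (hc : c ∈ Nm M)
    (e' : c * z = z * c) : g * c * g = c⁻¹ := by
  have := h.sq_of_comm (not_mem_mul hg hc) (by rw [mul_assoc, e', ← mul_assoc, e, mul_assoc])
  calc g * c * g = g * c * (g * c) * c⁻¹ := by group
    _ = _ := by rw [this, one_mul]

theorem invol_conj {u : G} (hu : u ∉ Nm M) (uu : u * u = 1) :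
    ∃ n ∈ M, n⁻¹ * u * n * z = z * (n⁻¹ * u * n) := by
  obtain ⟨x, hx, e⟩ := h.exists_t hu uu
  obtain ⟨n, hn, e2⟩ := h.exists_conj h.zN h.z1 h.zz (inv_mem hx)
  rw [← h.zx' hx] at e2
  refine ⟨n, hn, ?_⟩
  calc n⁻¹ * u * n * z = n⁻¹ * (u * (n * z * n⁻¹)) * n := by group
    _ = n⁻¹ * ((n * z * n⁻¹) * u) * n := by rw [e2, e]
    _ = _ := by group

theorem dcoset {g : G} (hg : g ∉ Nm M) :
    ∃ a ∈ M, ∃ b ∈ M, ∃ u, u ∉ Nm M ∧ u * z = z * u ∧ g = a * u * b := by
  obtain ⟨x, hx, e⟩ := h.cos g hg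
  have hu := not_mem_mul hg (leN hx)
  obtain ⟨n, hn, e2⟩ := h.invol_conj hu e
  exact ⟨n, hn, n⁻¹ * x⁻¹, mul_mem (inv_mem hn) (inv_mem hx), _,
    not_mem_mul (not_mem_mul' hu (inv_mem (leN hn))) (leN hn), e2, by group⟩

theorem exists_u : ∃ u, u ∉ Nm M ∧ u * z = z * u := by
  obtain ⟨g, hg⟩ := h.nn
  obtain ⟨-, -, -, -, u, h1, h2, -⟩ := h.dcoset hg
  exact ⟨u, h1, h2⟩

/-- the centraliser of `z` in the normaliser acts without fixed points on `M` -/
theorem fpf {c x : G} (hc : c ∈ Nm M) (e : c * z = z * c) (hx : x ∈ M) (h1 : x ≠ 1)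
    (e' : c * x = x * c) : c = 1 := by
  obtain ⟨u, hu, huz⟩ := h.exists_u
  have uu := h.sq_of_comm hu huz
  have e1 := h.inv_of_comm hu huz hc e
  have hg : u * x * u ∉ Nm M := fun k => h1 (h.l6 hu uu hx k)
  have e2 : c * u = u * c⁻¹ := by rw [← e1, ← mul_assoc, ← mul_assoc, uu, one_mul]
  have e2' : c⁻¹ * u = u * c := by rw [← e1, mul_assoc, uu, mul_one]
  have e3 : c * (u * x * u) = u * x * u * c := by
    calc c * (u * x * u) = (c * u) * x * u := by group
      _ = u * (c⁻¹ * x * c) * (c⁻¹ * u) := by rw [e2]; group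
      _ = u * x * (u * c) := by rw [e2', mul_assoc c⁻¹, ← e']; group
      _ = _ := by group
  obtain ⟨y, hy, e4⟩ := h.cos _ hg
  have e5 : u * x * u * y * c * (u * x * u * y) = y⁻¹ * c * y := by
    calc u * x * u * y * c * (u * x * u * y) = (u * x * u * y)⁻¹ * c * (u * x * u * y) := by
          rw [inv_eq_of_sq e4]
      _ = y⁻¹ * (u * x * u)⁻¹ * (c * (u * x * u)) * y := by group
      _ = _ := by rw [e3]; group
  have e6 := h.inv (not_mem_mul hg (leN hy)) e4 hc
    (by rw [e5]; exact mul_mem (mul_mem (inv_mem (leN hy)) hc) (leN hy))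
  rw [e5] at e6
  have e7 : c * c ∈ M := by
    have : c * c = (c * y⁻¹ * c⁻¹) * y := by
      calc c * c = c * (c⁻¹)⁻¹ := by group
        _ = c * (y⁻¹ * c * y)⁻¹ := by rw [e6]
        _ = _ := by group
    rw [this]; exact mul_mem (conj_mem hc (inv_mem hy)) hy
  have e8 := h.eq_one_of_z e7 (by rw [mul_assoc, e, ← mul_assoc, e, mul_assoc])
  exact h.eq_one_of_comm hx h1 e8 e'

theorem cent {g x : G} (hx : x ∈ M) (h1 : x ≠ 1) (e : g * x = x * g) : g ∈ M := by
  have hg : g ∈ Nm M := by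
    by_contra k
    exact h1 (h.ti g k x hx (by rw [e, mul_inv_cancel_right]; exact hx))
  obtain ⟨y, hy, c, hc, hcz, rfl⟩ := h.fac g hg
  have := h.fpf hc hcz hx h1 (by
    rw [← mul_assoc, h.comm hx hy, mul_assoc, mul_assoc] at e
    exact mul_left_cancel e)
  rw [this, mul_one]; exact hy

theorem dcoset_inj {a a' b b' u u' : G} (ha : a ∈ M) (ha' : a' ∈ M) (hb : b ∈ M) (hb' : b' ∈ M)
    (hu : u ∉ Nm M) (e : u * z = z * u) (e' : u' * z = z * u') (k : a * u * b = a' * u' * b') :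
    a = a' ∧ u = u' ∧ b = b' := by
  have hx := mul_mem (inv_mem ha') ha
  have hy := mul_mem hb' (inv_mem hb)
  have e1 : a'⁻¹ * a * u = u' * (b' * b⁻¹) := by
    calc a'⁻¹ * a * u = a'⁻¹ * (a * u * b) * b⁻¹ := by group
      _ = _ := by rw [k]; group
  set x := a'⁻¹ * a with hxd
  set y := b' * b⁻¹ with hyd
  have e2 : x⁻¹ * u = u' * y⁻¹ := by
    rw [← h.zx hx, ← h.zx hy]
    calc z * x * z * u = z * (x * u) * z := by rw [mul_assoc (z * x), ← e]; group
      _ = z * u' * y * z := by rw [e1]; group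
      _ = _ := by rw [← e']; group
  have e3 : u⁻¹ * (x * x) * u = y * y := by
    calc u⁻¹ * (x * x) * u = (x⁻¹ * u)⁻¹ * (x * u) := by group
      _ = _ := by rw [e1, e2]; group
  have e4 := h.eq_one_of_sq hx (h.l8' hu (mul_mem hx hx) (by rw [e3]; exact leN (mul_mem hy hy)))
  rw [e4] at e3 e1
  have e5 := h.eq_one_of_sq hy (by rw [← e3]; group)
  rw [e5, one_mul, mul_one] at e1
  exact ⟨(inv_mul_eq_one.1 e4).symm, e1, (mul_inv_eq_one.1 e5).symm⟩

end Hz

end H8.TI
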