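import Cfsg.Agent.H8.TI1
import Cfsg.Agent.H26.ZS7
import Cfsg.Prelude.Def_Transfer

/-!
Bender's count of involutions: the doubly transitive case.
-/

set_option autoImplicit false
set_option linter.unusedSectionVars false

namespace H8.TI

open Subgroup MulAction

variable {G : Type*} [Group G]

theorem smul_mk {N : Subgroup G} (g a b : G) :
    g • (a : G ⧸ N) = (b : G ⧸ N) ↔ b⁻¹ * g * a ∈ N := by
  rw [MulAction.Quotient.smul_mk, eq_comm, QuotientGroup.eq, smul_eq_mul, mul_assoc]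

theorem char_data {F : Type} [Field F] [Fintype F] [Finite G] {M : Subgroup G}
    (hF : Fintype.card F = Nat.card M) (hM : M ≠ ⊥) (hc : IsMulCommutative M) {p : ℕ}
    (hp : p.Prime) (he : ∀ u ∈ M, u ^ p = 1) :
    ∃ (_ : Fact p.Prime) (_ : CharP F p), Cfsg.IsElementaryAbelian p M := by
  obtain ⟨q, hq⟩ := CharP.exists F
  obtain ⟨n, hq2, hn⟩ := FiniteField.card F q
  obtain ⟨x, hx, x1⟩ : ∃ x ∈ M, x ≠ 1 := by
    by_contra k
    push Not at k
    exact hM ((Subgroup.eq_bot_iff_forall _).2 k)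
  haveI : Fact p.Prime := ⟨hp⟩
  have h1 : orderOf x = p := orderOf_eq_prime (he x hx) x1
  have h2 : p ∣ Nat.card M := h1 ▸ Subgroup.orderOf_dvd_natCard M hx
  rw [← hF, hn] at h2
  have h3 := (Nat.prime_dvd_prime_iff_eq hp hq2).1 (hp.dvd_of_dvd_pow h2)
  subst h3
  exact ⟨⟨hp⟩, hq, hc, he⟩

namespace Hz

variable [Finite G] {M : Subgroup G} {z : G} (h : Hz M z)
include h

theorem mul_mem_N {c : G} (hc : c ∈ Nm M) (e : c * z = z * c) (c1 : c ≠ 1) (cz : c ≠ z)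
    {u v : G} (hu : u ∉ Nm M) (hv : v ∉ Nm M) (eu : u * z = z * u) (ev : v * z = z * v) :
    u * v ∈ Nm M := by
  by_contra k
  have euv : u * v * z = z * (u * v) := by rw [mul_assoc, ev, ← mul_assoc, eu, mul_assoc]
  have e1 := h.inv_of_comm k euv hc e
  have e2 := h.sq_of_comm k euv
  have e3 := h.inv_of_comm hv ev hc e
  have e4 := h.inv_of_comm hu eu (inv_mem hc) (by
    calc c⁻¹ * z = c⁻¹ * (z * c) * c⁻¹ := by group
      _ = _ := by rw [← e]; group)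
  have e5 : u * v = v * u := by
    rw [← inv_eq_of_sq e2, mul_inv_rev, inv_eq_of_sq (h.sq_of_comm hu eu),
      inv_eq_of_sq (h.sq_of_comm hv ev)]
  have e6 : c * c = 1 := by
    calc c * c = c * (u * c⁻¹ * u) := by rw [e4, inv_inv]
      _ = c * (u * (v * c * v) * u) := by rw [e3]
      _ = c * (u * v * c * (v * u)) := by group
      _ = _ := by rw [← e5, e1, mul_inv_cancel]
  rcases h.invol_eq hc e6 e with k | k
  · exact c1 k
  · exact cz k

theorem ker {u : G} (htr : ∀ g, g ∉ Nm M → ∃ x ∈ M, u⁻¹ * x⁻¹ * g ∈ Nm M) :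
    H26.Ker ((1 : G) : G ⧸ Nm M) M := by
  refine ⟨fun x hx => ?_, fun g hg x hx => ?_, fun x hx c hc e => ?_, fun c d hc hd => ?_⟩
  · rw [smul_mk]; simpa using leN hx
  · rw [smul_mk] at hg
    exact conj_mem (by simpa using hg) hx
  · obtain ⟨g, rfl⟩ := QuotientGroup.mk_surjective c
    rw [smul_mk] at e
    exact h.l8' (fun k => hc (by rw [QuotientGroup.eq]; simpa using k)) hx e
  · obtain ⟨g, rfl⟩ := QuotientGroup.mk_surjective c
    obtain ⟨g', rfl⟩ := QuotientGroup.mk_surjective d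
    obtain ⟨x, hx, e⟩ := htr g (fun k => hc (by rw [QuotientGroup.eq]; simpa using k))
    obtain ⟨x', hx', e'⟩ := htr g' (fun k => hd (by rw [QuotientGroup.eq]; simpa using k))
    refine ⟨x' * x⁻¹, mul_mem hx' (inv_mem hx), ?_⟩
    rw [smul_mk]
    convert mul_mem (inv_mem e') e using 1
    group

theorem d2 {u : G} (hu : u ∉ Nm M) (eu : u * z = z * u) {g : G}
    (hg : g ∈ H26.D2 G ((1 : G) : G ⧸ Nm M) (u : G ⧸ Nm M)) :
    g ∈ Nm M ∧ g * z = z * g ∧ u * g * u = g⁻¹ := by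
  obtain ⟨h1, h2⟩ := H26.mem_D2.1 hg
  rw [smul_mk] at h1 h2
  have uu := h.sq_of_comm hu eu
  rw [inv_eq_of_sq uu] at h2
  have g1 : g ∈ Nm M := by simpa using h1
  have e1 := h.inv hu uu g1 h2
  have e2 : u * (g * z) * u = g⁻¹ * z := by
    rw [← e1]
    calc u * (g * z) * u = u * g * (z * u) := by group
      _ = _ := by rw [← eu]; group
  have e3 := h.inv hu uu (mul_mem g1 h.zN) (by rw [e2]; exact mul_mem (inv_mem g1) h.zN)
  rw [e2, mul_inv_rev, h.zinv] at e3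
  refine ⟨g1, ?_, e1⟩
  calc g * z = g * (z * g⁻¹) * g := by group
    _ = _ := by rw [← e3]; group

theorem z3 {u : G} (hu : u ∉ Nm M) (eu : u * z = z * u)
    (htr : ∀ g, g ∉ Nm M → ∃ x ∈ M, u⁻¹ * x⁻¹ * g ∈ Nm M) : H26.Z3 G (G ⧸ Nm M) := by
  have hK := h.ker htr
  have hab : (u : G ⧸ Nm M) ≠ ((1 : G) : G ⧸ Nm M) := fun k => hu (by
    rw [QuotientGroup.eq] at k; simpa using k)
  have hstd : ∀ a b : G ⧸ Nm M, a ≠ b → ∃ g : G, g • a = ((1 : G) : G ⧸ Nm M) ∧ g • b = u := by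
    intro a b hne
    obtain ⟨g, hg⟩ := MulAction.exists_smul_eq G a ((1 : G) : G ⧸ Nm M)
    obtain ⟨x, hx, e⟩ := hK.trans (g • b) u
      (by rw [← hg]; exact fun k => hne (smul_left_cancel g k).symm) hab
    exact ⟨x * g, by rw [mul_smul, hg, hK.fix x hx], by rw [mul_smul, e]⟩
  have h3 : ∀ g : G, ∀ a b c : G ⧸ Nm M, a ≠ b → b ≠ c → a ≠ c → g • a = a → g • b = b →
      g • c = c → g = 1 := by
    intro g a b c hab' hbc hac ga gb gc
    obtain ⟨k, k1, k2⟩ := hstd a b hab'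
    have e : ∀ w : G ⧸ Nm M, g • w = w → (k * g * k⁻¹) • (k • w) = k • w := by
      intro w hw; rw [mul_smul, inv_smul_smul, mul_smul, hw]
    have ea := e a ga
    have eb := e b gb
    have ec := e c gc
    rw [k1] at ea
    rw [k2] at eb
    obtain ⟨g1, g2, g3⟩ := h.d2 hu eu (H26.mem_D2.2 ⟨ea, eb⟩)
    obtain ⟨x, hx, ex⟩ := hK.trans u (k • c) hab
      (by rw [← k1]; exact fun k' => hac (smul_left_cancel k k').symm)
    have x1 : x ≠ 1 := by
      rintro rfl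
      rw [one_smul, ← k2] at ex
      exact hbc (smul_left_cancel k ex)
    set d := k * g * k⁻¹ with hd
    have e2 : (d * x * d⁻¹) • (u : G ⧸ Nm M) = x • (u : G ⧸ Nm M) := by
      rw [mul_smul, H26.inv_fix eb, mul_smul, ex, ec]
    have e3 := hK.eq_of_smul_eq (conj_mem g1 hx) hx hab e2
    have e4 := h.fpf g1 g2 hx x1 (mul_inv_eq_iff_eq_mul.1 e3)
    have : g = k⁻¹ * d * k := by rw [hd]; group
    rw [this, e4]; group
  refine ⟨⟨fun {g g'} e => ?_⟩, MulAction.is_two_pretransitive_iff.2 fun {a b c d} h1 h2 => ?_, h3⟩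
  · obtain ⟨x, hx, x1⟩ := h.exists_ne
    have := h3 (g'⁻¹ * g) _ _ (x • (u : G ⧸ Nm M)) hab.symm
      (fun k => x1 (hK.semi x hx _ hab k.symm))
      (H26.smul_ne_of_fix (hK.fix x hx) hab).symm
      (by rw [mul_smul, e, inv_smul_smul]) (by rw [mul_smul, e, inv_smul_smul])
      (by rw [mul_smul, e, inv_smul_smul])
    exact (inv_mul_eq_one.1 this).symm
  · obtain ⟨k, k1, k2⟩ := hstd a b h1
    obtain ⟨l, l1, l2⟩ := hstd c d h2
    exact ⟨l⁻¹ * k, by rw [mul_smul, k1, ← l1, inv_smul_smul],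
      by rw [mul_smul, k2, ← l2, inv_smul_smul]⟩

theorem caseB {c : G} (hc : c ∈ Nm M) (e : c * z = z * c) (c1 : c ≠ 1) (cz : c ≠ z) :
    ∃ (F : Type) (_ : Field F) (_ : Fintype F) (p : ℕ) (_ : Fact p.Prime) (_ : CharP F p),
      Fintype.card F = Nat.card M ∧ Cfsg.IsElementaryAbelian p M ∧
        (Nonempty (G ≃* (GL (Fin 2) F ⧸ Subgroup.center (GL (Fin 2) F))) ∨
         (Fintype.card F % 4 = 1 ∧
          Nonempty (G ≃* Matrix.ProjectiveSpecialLinearGroup (Fin 2) F))) := by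
  obtain ⟨u, hu, eu⟩ := h.exists_u
  have uu := h.sq_of_comm hu eu
  have htr : ∀ g, g ∉ Nm M → ∃ x ∈ M, u⁻¹ * x⁻¹ * g ∈ Nm M := by
    intro g hg
    obtain ⟨a, ha, b, hb, v, hv, ev, rfl⟩ := h.dcoset hg
    refine ⟨a, ha, ?_⟩
    have := mul_mem (h.mul_mem_N hc e c1 cz hu hv eu ev) (leN hb)
    rw [inv_eq_of_sq uu]
    convert this using 1
    group
  have hK := h.ker htr
  have hZ := h.z3 hu eu htr
  have hab : (u : G ⧸ Nm M) ≠ ((1 : G) : G ⧸ Nm M) := fun k => hu (by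
    rw [QuotientGroup.eq] at k; simpa using k)
  have hzD : z ∈ H26.D2 G ((1 : G) : G ⧸ Nm M) (u : G ⧸ Nm M) := by
    refine H26.mem_D2.2 ⟨?_, ?_⟩
    · rw [smul_mk]; simpa using h.zN
    · rw [smul_mk, mul_assoc, ← eu, inv_mul_cancel_left]; exact h.zN
  have hz2 : orderOf z = 2 := H26.orderOf_eq_two_iff'.2 ⟨h.z1, h.zz⟩
  have he : Even (Nat.card (H26.D2 G ((1 : G) : G ⧸ Nm M) (u : G ⧸ Nm M))) :=
    even_iff_two_dvd.2 (hz2 ▸ Subgroup.orderOf_dvd_natCard _ hzD)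
  have hD1 : H26.D2 G ((1 : G) : G ⧸ Nm M) (u : G ⧸ Nm M) ≠ ⊥ := fun k =>
    h.z1 ((Subgroup.eq_bot_iff_forall _).1 k z hzD)
  have hle := hZ.card_le_of_even hab he
  rw [hK.card_Ω hab] at hle
  have hle' : Nat.card M - 1 ≤ 2 * Nat.card (H26.D2 G ((1 : G) : G ⧸ Nm M) (u : G ⧸ Nm M)) := by
    omega
  obtain ⟨hcm, p, hp, hpe⟩ := hZ.elemAb hK hab hD1 hle'
  have hs : u ∈ H26.Swap G ((1 : G) : G ⧸ Nm M) (u : G ⧸ Nm M) := by
    refine ⟨?_, ?_⟩
    · rw [smul_mk]; simp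
    · rw [smul_mk, mul_assoc, uu]; simp
  have hinv : ∀ d ∈ H26.D2 G ((1 : G) : G ⧸ Nm M) (u : G ⧸ Nm M), u * d * u⁻¹ = d⁻¹ := by
    intro d hd
    rw [inv_eq_of_sq uu]; exact (h.d2 hu eu hd).2.2
  obtain ⟨k, hk⟩ := hZ.dvd hK hab
  have h1 := (Subgroup.one_lt_card_iff_ne_bot _).2 h.ne
  have h2 : 0 < Nat.card (H26.D2 G ((1 : G) : G ⧸ Nm M) (u : G ⧸ Nm M)) := Nat.card_pos
  have : k ≤ 2 := Nat.le_of_mul_le_mul_left (by rw [← hk]; omega) h2
  have hcs : Nat.card M = Nat.card (H26.D2 G ((1 : G) : G ⧸ Nm M) (u : G ⧸ Nm M)) + 1 ∨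
      Nat.card M = 2 * Nat.card (H26.D2 G ((1 : G) : G ⧸ Nm M) (u : G ⧸ Nm M)) + 1 := by
    interval_cases k <;> omega
  rcases hcs with hcs | hcs
  · obtain ⟨F, _, _, hF, hiso⟩ := hZ.pgl_of_comm (hZ.three_trans_of_card hK hab hcs) hK hab h.ne
      (H26.Z3.comm_of_inverts hinv) hs uu (fun d hd => hinv _ (mul_mem hd hd))
    obtain ⟨_, _, hE⟩ := char_data hF h.ne hcm hp hpe
    exact ⟨F, inferInstance, inferInstance, p, inferInstance, inferInstance, hF, hE, Or.inl hiso⟩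
  · obtain ⟨F, _, _, hF, -, hiso⟩ := hZ.psl_of_half hK hab hcs hs uu hinv
    obtain ⟨_, _, hE⟩ := char_data hF h.ne hcm hp hpe
    refine ⟨F, inferInstance, inferInstance, p, inferInstance, inferInstance, hF, hE,
      Or.inr ⟨?_, hiso⟩⟩
    obtain ⟨r, hr⟩ := he
    omega

end Hz

end H8.TI
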