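import Cfsg.Agent.H8.TI1
import Cfsg.Agent.H8.Elt

/-!
Bender's count of involutions: counting in the case of index two.
-/

set_option autoImplicit false
set_option linter.unusedSectionVars false

namespace H8.TI

open Subgroup

variable {G : Type*} [Group G]

theorem arith {m t k c : ℕ} (ht : 1 ≤ t) (hw : t + 2 = 2 ^ k) (hm : Odd m) (h1 : 1 < m)
    (hc : c * (t + 2) = 2 * m + m * t * m) (hle : c ≤ m + m * t) :
    ∃ d, 1 ≤ d ∧ t + 2 = 2 ^ (d + 1) ∧ (m = 2 ^ d + 1 ∨ (m = t + 3 ∧ c = m + m * t)) := by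
  obtain ⟨d, rfl⟩ : ∃ d, k = d + 1 := by
    rcases k with _ | k
    · simp at hw
    · exact ⟨k, rfl⟩
  have hd : 1 ≤ d := by
    rcases d with _ | d
    · simp at hw; omega
    · omega
  refine ⟨d, hd, hw, ?_⟩
  have hco : Nat.Coprime (t + 2) m := by
    rw [hw]; exact Nat.Coprime.pow_left _ (Nat.coprime_two_left.2 hm)
  have hdv : t + 2 ∣ m * (2 + t * m) := ⟨c, by rw [mul_comm (t + 2), hc]; ring⟩
  obtain ⟨r, hr⟩ := hco.dvd_of_dvd_mul_left hdv
  have hcr : c = m * r := by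
    apply Nat.eq_of_mul_eq_mul_right (show 0 < t + 2 by omega)
    rw [hc, mul_assoc m r, mul_comm r, ← hr]; ring
  have hr1 : r ≤ 1 + t := by
    apply Nat.le_of_mul_le_mul_left _ (show 0 < m by omega)
    rw [← hcr]; linarith
  have hmt : m ≤ t + 3 := by
    apply Nat.le_of_mul_le_mul_left _ (show 0 < t by omega)
    nlinarith
  set Q := 2 ^ d with hQ
  have hw' : t + 2 = 2 * Q := by rw [hw, pow_succ, mul_comm]
  have e1 : Q * m + 1 = Q * r + m := by
    have : 2 + t * m + 2 * m = 2 * Q * r + 2 * m := by rw [hr, hw']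
    have e2 : t * m + 2 * m = 2 * Q * m := by rw [← hw']; ring
    nlinarith
  have hQ1 : 1 ≤ Q := Nat.one_le_two_pow
  have hrm : r < m := by
    by_contra k
    have : Q * m ≤ Q * r := Nat.mul_le_mul_left _ (by omega)
    omega
  obtain ⟨s, rfl⟩ : ∃ s, m = r + s := ⟨m - r, by omega⟩
  have e3 : r + s = Q * s + 1 := by rw [mul_add] at e1; omega
  have hs2 : s ≤ 2 := by
    apply Nat.le_of_mul_le_mul_left _ (show 0 < Q by omega)
    omega
  have hs1 : 1 ≤ s := by omega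
  interval_cases s
  · left; omega
  · right
    refine ⟨by omega, ?_⟩
    have : r = 1 + t := by omega
    rw [hcr]; subst this; ring

theorem arith2 {d j : ℕ} (hj : 1 ≤ j) (hle : j ≤ 2 * d) (h : 2 ^ d + 1 ∣ 2 ^ j - 1) : j = 2 * d := by
  have h2 : 2 ≤ 2 ^ j := by
    calc 2 = 2 ^ 1 := rfl
      _ ≤ _ := Nat.pow_le_pow_right (by norm_num) hj
  by_cases k : j ≤ d
  · have := Nat.le_of_dvd (by omega) h
    have h3 : 2 ^ j ≤ 2 ^ d := Nat.pow_le_pow_right (by norm_num) k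
    omega
  obtain ⟨b, rfl⟩ : ∃ b, j = d + b := ⟨j - d, by omega⟩
  have e : (2 ^ d + 1) * 2 ^ b = (2 ^ (d + b) - 1) + (2 ^ b + 1) := by
    rw [add_mul, ← pow_add]; omega
  have h4 : 2 ^ d + 1 ∣ 2 ^ b + 1 := (Nat.dvd_add_right h).1 (e ▸ dvd_mul_right _ _)
  have h5 := Nat.le_of_dvd (by positivity) h4
  have h6 : d ≤ b := (Nat.pow_le_pow_iff_right (by norm_num : 1 < 2)).1 (by omega)
  omega

/-- elements outside the normaliser centralising `z` -/
abbrev Uz (M : Subgroup G) (z : G) : Type _ := {u : G // u ∉ Nm M ∧ u * z = z * u}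

namespace Hz

variable [Finite G] {M : Subgroup G} {z : G} (h : Hz M z)
  (hA : ∀ c ∈ Nm M, c * z = z * c → c = 1 ∨ c = z)
include h hA

theorem memN {g : G} (hg : g ∈ Nm M) : g ∈ M ∨ g * z ∈ M := by
  obtain ⟨x, hx, c, hc, e, rfl⟩ := h.fac g hg
  rcases hA c hc e with rfl | rfl
  · left; simpa using hx
  · right; rw [mul_assoc, h.zz, mul_one]; exact hx

theorem card_N : Nat.card (Nm M) = 2 * Nat.card M := by
  let f : M ⊕ M → Nm M := Sum.elim (fun x => ⟨x, leN x.2⟩) (fun x => ⟨x * z, mul_mem (leN x.2) h.zN⟩)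
  have hf : Function.Bijective f := by
    constructor
    · rintro (a | a) (b | b) e <;> simp only [f, Sum.elim_inl, Sum.elim_inr, Subtype.mk.injEq] at e
      · rw [Subtype.ext e]
      · exact absurd (by simpa [e] using mul_mem (inv_mem b.2) a.2) h.z_not_mem
      · exact absurd (by simpa [← e] using mul_mem (inv_mem a.2) b.2) h.z_not_mem
      · rw [Subtype.ext (mul_right_cancel e)]
    · rintro ⟨g, hg⟩
      rcases h.memN hA hg with k | k
      · exact ⟨Sum.inl ⟨g, k⟩, rfl⟩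
      · exact ⟨Sum.inr ⟨g * z, k⟩, Subtype.ext (by simp [f, mul_assoc, h.zz])⟩
  rw [← Nat.card_eq_of_bijective f hf, Nat.card_sum, two_mul]

theorem card_X : Nat.card (Subgroup.centralizer ({z} : Set G)) = Nat.card (Uz M z) + 2 := by
  let f : Option (Option (Uz M z)) → Subgroup.centralizer ({z} : Set G) := fun o =>
    o.elim 1 (fun o' => o'.elim ⟨z, Subgroup.mem_centralizer_singleton_iff.2 rfl⟩
      (fun u => ⟨u.1, Subgroup.mem_centralizer_singleton_iff.2 u.2.2⟩))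
  have hf : Function.Bijective f := by
    constructor
    · rintro (_ | _ | a) (_ | _ | b) e <;>
        simp only [f, Option.elim_none, Option.elim_some, Subtype.ext_iff, OneMemClass.coe_one] at e
      · rfl
      · exact absurd e.symm h.z1
      · exact absurd (e ▸ one_mem _) b.2.1
      · exact absurd e h.z1
      · rfl
      · exact absurd (e ▸ h.zN) b.2.1
      · exact absurd (e ▸ one_mem _) a.2.1
      · exact absurd (by rw [e]; exact h.zN) a.2.1
      · rw [Subtype.ext e]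
    · rintro ⟨g, hg⟩
      have hg' := Subgroup.mem_centralizer_singleton_iff.1 hg
      by_cases k : g ∈ Nm M
      · rcases hA g k hg' with rfl | rfl
        · exact ⟨none, rfl⟩
        · exact ⟨some none, rfl⟩
      · exact ⟨some (some ⟨g, k, hg'⟩), rfl⟩
  rw [← Nat.card_eq_of_bijective f hf, Finite.card_option, Finite.card_option]

theorem card_G : Nat.card G = 2 * Nat.card M + Nat.card M * Nat.card (Uz M z) * Nat.card M := by
  let f : Nm M ⊕ (M × Uz M z) × M → G := Sum.elim (fun x => x) (fun p => p.1.1 * p.1.2.1 * p.2)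
  have hn : ∀ p : (M × Uz M z) × M, (p.1.1 : G) * p.1.2.1 * p.2 ∉ Nm M := fun p =>
    not_mem_mul (not_mem_mul' p.1.2.2.1 (leN p.1.1.2)) (leN p.2.2)
  have hf : Function.Bijective f := by
    constructor
    · rintro (a | a) (b | b) e <;> simp only [f, Sum.elim_inl, Sum.elim_inr] at e
      · rw [Subtype.ext e]
      · exact absurd (e ▸ a.2) (hn b)
      · exact absurd (e ▸ b.2) (hn a)
      · obtain ⟨e1, e2, e3⟩ := h.dcoset_inj a.1.1.2 b.1.1.2 a.2.2 b.2.2 a.1.2.2.1 a.1.2.2.2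
          b.1.2.2.2 e
        rw [Prod.ext (Prod.ext (Subtype.ext e1) (Subtype.ext e2)) (Subtype.ext e3)]
    · intro g
      by_cases k : g ∈ Nm M
      · exact ⟨Sum.inl ⟨g, k⟩, rfl⟩
      · obtain ⟨a, ha, b, hb, u, h1, h2, rfl⟩ := h.dcoset k
        exact ⟨Sum.inr ⟨⟨⟨a, ha⟩, ⟨u, h1, h2⟩⟩, ⟨b, hb⟩⟩, rfl⟩
  rw [← Nat.card_eq_of_bijective f hf, Nat.card_sum, Nat.card_prod, Nat.card_prod, h.card_N hA]

omit hA in
theorem card_J : Nat.card {j : G // j ≠ 1 ∧ j * j = 1} ≤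
    Nat.card M + Nat.card M * Nat.card (Uz M z) := by
  let f : M ⊕ M × Uz M z → {j : G // j ≠ 1 ∧ j * j = 1} := Sum.elim
    (fun x => ⟨x * z, fun k => h.z_not_mem (by
        rw [eq_inv_of_mul_eq_one_right k]; exact inv_mem x.2), by
      rw [mul_assoc, ← mul_assoc z, h.zx x.2, mul_inv_cancel]⟩)
    (fun p => ⟨p.1 * p.2.1 * p.1⁻¹, fun k => p.2.2.1 (by
        have k' : p.2.1 = 1 := by simpa using k
        rw [k']; exact one_mem _), by
      calc (p.1 : G) * p.2.1 * p.1⁻¹ * (p.1 * p.2.1 * p.1⁻¹) = p.1 * (p.2.1 * p.2.1) * p.1⁻¹ := by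
            simp [mul_assoc]
        _ = 1 := by rw [h.sq_of_comm p.2.2.1 p.2.2.2]; simp⟩)
  have hf : Function.Surjective f := by
    rintro ⟨j, j1, j2⟩
    by_cases k : j ∈ Nm M
    · exact ⟨Sum.inl ⟨j * z, h.invol_mem k j1 j2⟩, Subtype.ext (by simp [f, mul_assoc, h.zz])⟩
    · obtain ⟨n, hn, e⟩ := h.invol_conj k j2
      exact ⟨Sum.inr ⟨⟨n, hn⟩, ⟨n⁻¹ * j * n,
        not_mem_mul (not_mem_mul' k (inv_mem (leN hn))) (leN hn), e⟩⟩,
        Subtype.ext (by simp [f, mul_assoc])⟩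
  rw [← Nat.card_prod, ← Nat.card_sum]
  exact Nat.card_le_card_of_surjective f hf

theorem sq_X {g : G} (e : g * z = z * g) : g * g = 1 := by
  by_cases k : g ∈ Nm M
  · rcases hA g k e with rfl | rfl
    · simp
    · exact h.zz
  · exact h.sq_of_comm k e

theorem pg_X : IsPGroup 2 (Subgroup.centralizer ({z} : Set G)) := fun g =>
  ⟨1, Subtype.ext (by
    simpa [pow_two] using h.sq_X hA (Subgroup.mem_centralizer_singleton_iff.1 g.2))⟩

omit hA in
theorem odd_M : Odd (Nat.card M) := by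
  rw [← Nat.not_even_iff_odd]
  intro k
  obtain ⟨x, hx, x1, x2⟩ := H26.exists_inv_of_even k
  exact x1 (h.eq_one_of_sq hx x2)

theorem cases : ∃ d, 1 ≤ d ∧ Nat.card (Subgroup.centralizer ({z} : Set G)) = 2 ^ (d + 1) ∧
    ((Nat.card M = 2 ^ d + 1 ∧ Nat.card G = Nat.card M * 2 ^ (2 * d + 1)) ∨
      (Nat.card M = 2 ^ (d + 1) + 1 ∧
        Nat.card G = Nat.card M * (2 ^ (d + 1) * (2 ^ (d + 1) - 1)) ∧
        ∀ j : G, j ≠ 1 → j * j = 1 → IsConj z j)) := by
  obtain ⟨k, hk⟩ := IsPGroup.iff_card.1 (h.pg_X hA)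
  have hX := h.card_X hA
  have hG := h.card_G hA
  obtain ⟨u, hu, eu⟩ := h.exists_u
  haveI : Nonempty (Uz M z) := ⟨⟨u, hu, eu⟩⟩
  have ht : 1 ≤ Nat.card (Uz M z) := Nat.card_pos
  let ι : {y : G // IsConj z y} → {j : G // j ≠ 1 ∧ j * j = 1} := fun y => ⟨y.1, by
    obtain ⟨c, hc⟩ := isConj_iff.1 y.2
    rw [← hc]
    refine ⟨fun k => h.z1 (by simpa using k), ?_⟩
    calc c * z * c⁻¹ * (c * z * c⁻¹) = c * (z * z) * c⁻¹ := by group
      _ = 1 := by rw [h.zz]; group⟩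
  have hι : Function.Injective ι := fun a b e => Subtype.ext (by simpa [ι] using e)
  have h1 := Nat.card_le_card_of_injective ι hι
  have h2 := h.card_J
  have h3 := (Subgroup.centralizer ({z} : Set G)).index_mul_card
  rw [← H8.card_conj_class, hX, hG] at h3
  obtain ⟨d, hd, e1, e2⟩ := arith ht (hX.symm.trans hk) h.odd_M
    ((Subgroup.one_lt_card_iff_ne_bot _).2 h.ne) h3 (h1.trans h2)
  refine ⟨d, hd, hX.trans e1, ?_⟩
  rcases e2 with e2 | ⟨e2, e3⟩
  · refine Or.inl ⟨e2, ?_⟩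
    have e4 : 2 ^ (2 * d + 1) = 2 + Nat.card (Uz M z) * Nat.card M := by
      rw [e2]
      have : 2 ^ (2 * d + 1) = 2 ^ (d + 1) * 2 ^ d := by ring
      rw [this, mul_add, mul_one, ← add_assoc, add_right_comm, add_comm 2, e1, ← e1, add_mul,
        ← pow_succ', ← e1]
      ring
    rw [hG, e4]; ring
  · refine Or.inr ⟨by omega, ?_, fun j j1 j2 => ?_⟩
    · rw [hG, ← e1, e2, show Nat.card (Uz M z) + 2 - 1 = Nat.card (Uz M z) + 1 from rfl]; ring
    · obtain ⟨y, hy⟩ := (hι.bijective_of_nat_card_le (by omega)).2 ⟨j, j1, j2⟩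
      have : y.1 = j := congrArg Subtype.val hy
      exact this ▸ y.2

end Hz

end H8.TI
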