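import Mathlib
/-! The unitriangular group of degree four over the field with two elements as an explicit model of a Sylow
2-subgroup of the alternating group of degree eight. -/
set_option autoImplicit false
set_option synthInstance.maxSize 100000
namespace H8.UT4
open Subgroup

abbrev F := ZMod 2

/-- upper unitriangular matrices of degree four -/
@[ext] structure U where
  a12 : F
  a13 : F
  a14 : F
  a23 : F
  a24 : F
  a34 : F
deriving DecidableEq

instance : Mul U := ⟨fun a b => ⟨a.a12 + b.a12, a.a13 + a.a12 * b.a23 + b.a13,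
  a.a14 + a.a12 * b.a24 + a.a13 * b.a34 + b.a14, a.a23 + b.a23, a.a24 + a.a23 * b.a34 + b.a24, a.a34 + b.a34⟩⟩
instance : One U := ⟨⟨0, 0, 0, 0, 0, 0⟩⟩
instance : Inv U := ⟨fun a => ⟨-a.a12, -a.a13 + a.a12 * a.a23,
  -a.a14 + a.a12 * a.a24 + a.a13 * a.a34 - a.a12 * a.a23 * a.a34, -a.a23, -a.a24 + a.a23 * a.a34, -a.a34⟩⟩

theorem U.mul_def (a b : U) : a * b = ⟨a.a12 + b.a12, a.a13 + a.a12 * b.a23 + b.a13,
  a.a14 + a.a12 * b.a24 + a.a13 * b.a34 + b.a14, a.a23 + b.a23, a.a24 + a.a23 * b.a34 + b.a24, a.a34 + b.a34⟩ := rfl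
theorem U.one_def : (1 : U) = ⟨0, 0, 0, 0, 0, 0⟩ := rfl
theorem U.inv_def (a : U) : a⁻¹ = ⟨-a.a12, -a.a13 + a.a12 * a.a23,
  -a.a14 + a.a12 * a.a24 + a.a13 * a.a34 - a.a12 * a.a23 * a.a34, -a.a23, -a.a24 + a.a23 * a.a34, -a.a34⟩ := rfl

instance : Group U := Group.ofLeftAxioms
  (fun a b c => by simp only [U.mul_def]; ext <;> simp only <;> ring)
  (fun a => by simp only [U.mul_def, U.one_def]; ext <;> simp only <;> ring)
  (fun a => by simp only [U.mul_def, U.one_def, U.inv_def]; ext <;> simp only <;> ring)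

def U.eqv : U ≃ F × F × F × F × F × F where
  toFun a := (a.a12, a.a13, a.a14, a.a23, a.a24, a.a34)
  invFun x := ⟨x.1, x.2.1, x.2.2.1, x.2.2.2.1, x.2.2.2.2.1, x.2.2.2.2.2⟩
  left_inv _ := rfl
  right_inv _ := rfl

instance : Fintype U := Fintype.ofEquiv _ U.eqv.symm
theorem card_U : Nat.card U = 64 := by
  rw [Nat.card_congr U.eqv]; simp [Nat.card_prod]

/-- the affine action on three-dimensional space -/
instance : MulAction U (F × F × F) where
  smul a x := (x.1 + a.a12 * x.2.1 + a.a13 * x.2.2 + a.a14, x.2.1 + a.a23 * x.2.2 + a.a24, x.2.2 + a.a34)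
  one_smul x := by
    change (x.1 + 0 * x.2.1 + 0 * x.2.2 + 0, x.2.1 + 0 * x.2.2 + 0, x.2.2 + 0) = x
    simp
  mul_smul a b x := by
    change (_, _, _) = (_, _, _)
    simp only [U.mul_def, HSMul.hSMul, Prod.mk.injEq]
    refine ⟨?_, ?_, ?_⟩ <;> ring

theorem faith : ∀ u : U, (∀ x : F × F × F, u • x = x) → u = 1 := by decide +kernel
theorem sgn : ∀ u : U, Equiv.Perm.sign (MulAction.toPerm u : Equiv.Perm (F × F × F)) = 1 := by decide +kernel

theorem iso (P : Sylow 2 (alternatingGroup (Fin 8))) : Nonempty ((P : Subgroup (alternatingGroup (Fin 8))) ≃* U) := by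
  have := Fact.mk Nat.prime_two
  let e : F × F × F ≃ Fin 8 := Fintype.equivFinOfCardEq (by simp)
  let f : U →* alternatingGroup (Fin 8) :=
    (e.permCongrHom.toMonoidHom.comp (MulAction.toPermHom U (F × F × F))).codRestrict _ fun u => by
      rw [Equiv.Perm.mem_alternatingGroup]
      exact (Equiv.Perm.sign_permCongr e _).trans (sgn u)
  have hf : Function.Injective f := (injective_iff_map_eq_one f).2 fun u h => faith u fun x => by
    have : MulAction.toPerm u = (1 : Equiv.Perm (F × F × F)) :=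
      e.permCongrHom.injective ((congrArg Subtype.val h).trans (map_one _).symm)
    exact congrArg (fun g : Equiv.Perm (F × F × F) => g x) this
  have c : Nat.card (alternatingGroup (Fin 8)) = 2 ^ 6 * 315 := by
    rw [nat_card_alternatingGroup, Nat.card_eq_fintype_card, Fintype.card_fin]; decide
  let Q : Sylow 2 (alternatingGroup (Fin 8)) := Sylow.ofCard f.range (by
    rw [← Nat.card_congr (MonoidHom.ofInjective hf).toEquiv, card_U, c,
      Nat.factorization_mul (by norm_num) (by norm_num), Finsupp.add_apply,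
      Nat.factorization_pow_self Nat.prime_two, Nat.factorization_eq_zero_of_not_dvd (by norm_num)]; norm_num)
  exact ⟨(Sylow.equiv P Q).trans (MonoidHom.ofInjective hf).symm⟩

abbrev D (a b : F) : U := ⟨a, 0, 0, 0, 0, b⟩
def rho : U →* U := MonoidHom.mk' (fun a => D a.a12 a.a34) fun a b => by
  simp only [U.mul_def]; ext <;> simp

theorem mem_ker {a : U} : a ∈ rho.ker ↔ a.a12 = 0 ∧ a.a34 = 0 := by
  rw [MonoidHom.mem_ker]
  change (⟨a.a12, 0, 0, 0, 0, a.a34⟩ : U) = ⟨0, 0, 0, 0, 0, 0⟩ ↔ _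
  simp

def kE : rho.ker ≃ F × F × F × F where
  toFun a := (a.1.a13, a.1.a14, a.1.a23, a.1.a24)
  invFun x := ⟨⟨0, x.1, x.2.1, x.2.2.1, x.2.2.2, 0⟩, mem_ker.2 ⟨rfl, rfl⟩⟩
  left_inv a := by
    obtain ⟨a1, a2⟩ := mem_ker.1 a.2
    apply Subtype.ext
    ext <;> simp [a1, a2]
  right_inv _ := rfl

theorem card_ker : Nat.card rho.ker = 16 := by
  rw [Nat.card_congr kE]; simp [Nat.card_prod]

def cnt (r s : U) : Finset U := Finset.univ.filter fun x => rho x = 1 ∧ x * r = r * x ∧ x * s = s * x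

theorem chk1 : ∀ r : U, rho r ≠ 1 → (cnt r r).card ≤ 4 := by decide +kernel
theorem chk2 : ∀ r s : U, rho r ≠ 1 → rho s ≠ 1 → rho r ≠ rho s → (cnt r s).card ≤ 2 := by decide +kernel

theorem card_inf_le {B : Subgroup U} (hB : IsMulCommutative B) {x y : U} (hx : x ∈ B) (hy : y ∈ B) :
    Nat.card ↥(rho.ker ⊓ B) ≤ (cnt x y).card := by
  have c : ∀ a ∈ B, ∀ b ∈ B, a * b = b * a := fun a ha b hb => congrArg Subtype.val (hB.is_comm.comm ⟨a, ha⟩ ⟨b, hb⟩)
  rw [← Nat.card_eq_finsetCard]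
  refine Nat.card_le_card_of_injective (fun z => ⟨z.1, ?_⟩) fun a b h => Subtype.ext (Subtype.mk.inj h)
  simp only [cnt, Finset.mem_filter, Finset.mem_univ, true_and]
  exact ⟨z.2.1, c _ z.2.2 _ hx, c _ z.2.2 _ hy⟩

theorem card_range : Nat.card rho.range = 4 := by
  have := rho.ker.card_mul_index
  rw [card_ker, card_U, index_ker] at this
  omega

theorem uniq {B : Subgroup U} (hB : IsMulCommutative B) (h2 : Nat.card B = 16) :
    B = rho.ker := by
  have hm : Nat.card ↥(rho.ker ⊓ B) * Nat.card (B.map rho) = 16 := by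
    rw [← h2, ← relIndex_ker, ← inf_relIndex_right]
    have := Subgroup.card_mul_index ((rho.ker ⊓ B).subgroupOf B)
    rw [Nat.card_congr (subgroupOfEquivOfLe (inf_le_right : rho.ker ⊓ B ≤ B)).toEquiv] at this
    exact this
  by_cases h0 : B ≤ rho.ker
  · exact eq_of_le_of_card_ge h0 (by rw [h2, card_ker])
  exfalso
  obtain ⟨x, hx, hx'⟩ := SetLike.not_le_iff_exists.1 h0
  have hx1 : rho x ≠ 1 := hx'
  by_cases h1 : ∃ y ∈ B, rho y ≠ 1 ∧ rho x ≠ rho y
  · obtain ⟨y, hy, a, b⟩ := h1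
    have c1 := (card_inf_le hB hx hy).trans (chk2 _ _ hx1 a b)
    have c2 := card_le_of_le (map_le_range rho B)
    rw [card_range] at c2
    nlinarith
  · push Not at h1
    have c1 := (card_inf_le hB hx hx).trans (chk1 _ hx1)
    have c2 : Nat.card (B.map rho) ≤ Nat.card ({1, rho x} : Set U) := by
      refine Nat.card_le_card_of_injective (fun z => ⟨z.1, ?_⟩) fun a b h => Subtype.ext (Subtype.mk.inj h)
      obtain ⟨_, y, hy, rfl⟩ := z
      by_cases a : rho y = 1
      · exact .inl a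
      · exact .inr (h1 y hy a).symm
    rw [Nat.card_coe_set_eq, Set.ncard_pair hx1.symm] at c2
    nlinarith

theorem cen : ∀ x : U, (∀ y : U, y * x = x * y) → x = 1 ∨ x = ⟨0, 0, 1, 0, 0, 0⟩ := by decide +kernel
theorem coset : ∀ s t : U, s * s = 1 → t * t = 1 → rho t ≠ 1 → rho s = rho t →
    ∃ a : U, rho a = 1 ∧ a * s * a⁻¹ = t := by decide +kernel
theorem rho_sq : ∀ x : U, rho x * rho x = 1 ∧ rho (rho x) = rho x := by decide +kernel
theorem ncent : ∃ a : U, rho a = 1 ∧ ∃ x : U, x * a ≠ a * x := by decide +kernel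

end H8.UT4
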