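import Cfsg.Agent.H27.MCls
import Cfsg.Agent.H27.MSub2
import Cfsg.Agent.H27.Cls
/-! The unitriangular group of degree five over the field with two elements as an explicit model of a Sylow
2-subgroup of the largest Mathieu group, and its quotient by the centre. -/
set_option autoImplicit false
namespace H8.UT5
open H27 MulAction Cfsg

abbrev F := ZMod 2

/-- upper unitriangular matrices of degree five -/
@[ext] structure U where
  a12 : F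
  a13 : F
  a14 : F
  a15 : F
  a23 : F
  a24 : F
  a25 : F
  a34 : F
  a35 : F
  a45 : F
deriving DecidableEq

instance : Mul U := ⟨fun a b => ⟨a.a12 + b.a12, a.a13 + a.a12 * b.a23 + b.a13,
  a.a14 + a.a12 * b.a24 + a.a13 * b.a34 + b.a14, a.a15 + a.a12 * b.a25 + a.a13 * b.a35 + a.a14 * b.a45 + b.a15,
  a.a23 + b.a23, a.a24 + a.a23 * b.a34 + b.a24, a.a25 + a.a23 * b.a35 + a.a24 * b.a45 + b.a25,
  a.a34 + b.a34, a.a35 + a.a34 * b.a45 + b.a35, a.a45 + b.a45⟩⟩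
instance : One U := ⟨⟨0, 0, 0, 0, 0, 0, 0, 0, 0, 0⟩⟩
instance : Inv U := ⟨fun a => ⟨-a.a12, -a.a13 + a.a12 * a.a23,
  -a.a14 + a.a12 * a.a24 + a.a13 * a.a34 - a.a12 * a.a23 * a.a34,
  -a.a15 + a.a12 * a.a25 + a.a13 * a.a35 + a.a14 * a.a45 - a.a12 * a.a23 * a.a35 - a.a12 * a.a24 * a.a45
    - a.a13 * a.a34 * a.a45 + a.a12 * a.a23 * a.a34 * a.a45,
  -a.a23, -a.a24 + a.a23 * a.a34, -a.a25 + a.a23 * a.a35 + a.a24 * a.a45 - a.a23 * a.a34 * a.a45,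
  -a.a34, -a.a35 + a.a34 * a.a45, -a.a45⟩⟩

theorem U.mul_def (a b : U) : a * b = ⟨a.a12 + b.a12, a.a13 + a.a12 * b.a23 + b.a13,
  a.a14 + a.a12 * b.a24 + a.a13 * b.a34 + b.a14, a.a15 + a.a12 * b.a25 + a.a13 * b.a35 + a.a14 * b.a45 + b.a15,
  a.a23 + b.a23, a.a24 + a.a23 * b.a34 + b.a24, a.a25 + a.a23 * b.a35 + a.a24 * b.a45 + b.a25,
  a.a34 + b.a34, a.a35 + a.a34 * b.a45 + b.a35, a.a45 + b.a45⟩ := rfl
theorem U.one_def : (1 : U) = ⟨0, 0, 0, 0, 0, 0, 0, 0, 0, 0⟩ := rfl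
theorem U.inv_def (a : U) : a⁻¹ = ⟨-a.a12, -a.a13 + a.a12 * a.a23,
  -a.a14 + a.a12 * a.a24 + a.a13 * a.a34 - a.a12 * a.a23 * a.a34,
  -a.a15 + a.a12 * a.a25 + a.a13 * a.a35 + a.a14 * a.a45 - a.a12 * a.a23 * a.a35 - a.a12 * a.a24 * a.a45
    - a.a13 * a.a34 * a.a45 + a.a12 * a.a23 * a.a34 * a.a45,
  -a.a23, -a.a24 + a.a23 * a.a34, -a.a25 + a.a23 * a.a35 + a.a24 * a.a45 - a.a23 * a.a34 * a.a45,
  -a.a34, -a.a35 + a.a34 * a.a45, -a.a45⟩ := rfl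

instance : Group U := Group.ofLeftAxioms
  (fun a b c => by simp only [U.mul_def]; ext <;> simp only <;> ring)
  (fun a => by simp only [U.mul_def, U.one_def]; ext <;> simp only <;> ring)
  (fun a => by simp only [U.mul_def, U.one_def, U.inv_def]; ext <;> simp only <;> ring)

def U.eqv : U ≃ F × F × F × F × F × F × F × F × F × F where
  toFun a := (a.a12, a.a13, a.a14, a.a15, a.a23, a.a24, a.a25, a.a34, a.a35, a.a45)
  invFun x := ⟨x.1, x.2.1, x.2.2.1, x.2.2.2.1, x.2.2.2.2.1, x.2.2.2.2.2.1, x.2.2.2.2.2.2.1, x.2.2.2.2.2.2.2.1,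
    x.2.2.2.2.2.2.2.2.1, x.2.2.2.2.2.2.2.2.2⟩
  left_inv _ := rfl
  right_inv _ := rfl

instance : Finite U := Finite.of_equiv _ U.eqv.symm
theorem card_U : Nat.card U = 1024 := by
  rw [Nat.card_congr U.eqv]; simp [Nat.card_prod]

/-- the affine action on four-dimensional space -/
instance : MulAction U (F × F × F × F) where
  smul a x := (x.1 + a.a12 * x.2.1 + a.a13 * x.2.2.1 + a.a14 * x.2.2.2 + a.a15,
    x.2.1 + a.a23 * x.2.2.1 + a.a24 * x.2.2.2 + a.a25, x.2.2.1 + a.a34 * x.2.2.2 + a.a35, x.2.2.2 + a.a45)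
  one_smul x := by
    change (x.1 + 0 * x.2.1 + 0 * x.2.2.1 + 0 * x.2.2.2 + 0, x.2.1 + 0 * x.2.2.1 + 0 * x.2.2.2 + 0,
      x.2.2.1 + 0 * x.2.2.2 + 0, x.2.2.2 + 0) = x
    simp
  mul_smul a b x := by
    change (_, _, _, _) = (_, _, _, _)
    simp only [U.mul_def, HSMul.hSMul, Prod.mk.injEq]
    refine ⟨?_, ?_, ?_, ?_⟩ <;> ring

def eV (i : Nat) : F × F × F × F := ((i % 2 : Nat), (i / 2 % 2 : Nat), (i / 4 % 2 : Nat), (i / 8 % 2 : Nat))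
def us : List U := [⟨0, 0, 0, 1, 0, 0, 0, 0, 1, 1⟩, ⟨0, 1, 0, 0, 1, 0, 1, 1, 1, 0⟩, ⟨1, 1, 1, 0, 0, 1, 1, 0, 0, 0⟩, ⟨0, 1, 0, 1, 1, 0, 0, 1, 0, 0⟩, ⟨0, 1, 1, 0, 1, 1, 0, 1, 0, 0⟩, ⟨1, 1, 1, 0, 0, 1, 0, 0, 0, 0⟩, ⟨1, 0, 0, 0, 0, 0, 0, 1, 0, 0⟩, ⟨0, 0, 1, 0, 0, 0, 0, 0, 0, 0⟩, ⟨0, 0, 0, 0, 0, 0, 0, 1, 0, 0⟩, ⟨0, 0, 0, 0, 0, 1, 0, 1, 0, 0⟩]
def uM : List Net := [(.cons 1 0x5555 (.cons 4 0xf0f (.cons 8 0xff .nil))),
  (.cons 1 0x5005 (.cons 2 0x330 (.cons 4 0xf .nil))),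
  (.cons 1 0x4141 (.cons 2 0x33 .nil)),
  (.cons 1 0x5005 (.cons 2 0x330 (.cons 4 0xf00 .nil))),
  (.cons 1 0x5050 (.cons 2 0x3030 (.cons 4 0xf00 .nil))),
  (.cons 1 0x1414 (.cons 2 0x3300 .nil)),
  (.cons 1 0x4444 (.cons 4 0xf00 .nil)),
  (.cons 1 0x5500 .nil),
  (.cons 4 0xf00 .nil),
  (.cons 2 0x3300 (.cons 4 0xf00 .nil))]
theorem ax {x : U} {N : Net} (h : N.valid 16 = true ∧ ∀ i < 16, x • eV i = eV (N.fn i)) : Acts 16 eV x N :=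
  ⟨Net.ok_of_valid h.1, h.2⟩

theorem iso0 : Nonempty (↥(cl (sy2N.map mm)) ≃* U) :=
  (sy2_acts.sub (l := [0, 6, 12, 5, 1, 13, 15, 2, 22, 17, 3, 10, 21, 14, 23, 8]) (Ms := uM) (by decide +kernel)).iso_cover
    (K := 4) (subT_injOn GE.injOn (by decide +kernel))
    (fun i hi j hj h => (by decide +kernel : ∀ i < 16, ∀ j < 16, eV i = eV j → i = j) i hi j hj h)
    (show ActsL 16 eV us uM from .cons (ax (by decide +kernel)) (.cons (ax (by decide +kernel))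
      (.cons (ax (by decide +kernel)) (.cons (ax (by decide +kernel)) (.cons (ax (by decide +kernel))
      (.cons (ax (by decide +kernel)) (.cons (ax (by decide +kernel)) (.cons (ax (by decide +kernel))
      (.cons (ax (by decide +kernel)) (.cons (ax (by decide +kernel)) .nil))))))))))
    (fun _ hg => mem_cl hg) (c := 1024) (card_sy2.le) (MonoidHom.id _)
    (fun g hg i _ => by rw [show g = 1 from hg, one_smul]) card_U.le (by norm_num)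
    [([1, 11, 9, 9, 1, 15, 6, 8], (.cons 1 0x4114 .nil)),
  ([3, 3, 21, 18, 3, 3, 17, 14], (.cons 1 0x4444 (.cons 2 0x3300 (.cons 4 0xf00 .nil)))),
  ([21, 22, 15, 13, 20], (.cons 1 0x1144 (.cons 2 0x330 .nil))),
  ([7, 16, 23, 7, 10, 16, 7, 7, 14, 8], (.cons 1 0x4114 (.cons 2 0x3300 (.cons 4 0xf00 .nil)))),
  ([1, 4, 4, 6, 4, 7], (.cons 1 0x550 .nil)),
  ([6, 4, 8, 5, 7, 5, 3, 7], (.cons 2 0x330 .nil)),
  ([6, 5], (.cons 1 0x5500 (.cons 2 0x3030 (.cons 4 0xf00 .nil)))),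
  ([4, 0, 0, 0, 4, 3, 1, 2], (.cons 1 0x5500 .nil)),
  ([3, 6, 2, 2, 2, 2, 6, 5], (.cons 1 0x5500 (.cons 2 0x3300 (.cons 4 0xf00 .nil)))),
  ([9, 7, 5, 9], (.cons 4 0xf00 .nil))]
  [10, 11, 12, 13, 14, 15, 16, 17, 18, 19, 9, 8, 7, 6, 5, 4, 3, 2, 1, 0] [(0, 1, 10), (2, 1, 4), (4, 1, 3), (8, 1, 3)]
    (by decide +kernel)

/-- every Sylow 2-subgroup of M24 is the unitriangular group -/
theorem iso (P : Sylow 2 ↥Cfsg.M24) : Nonempty (↥(P : Subgroup ↥Cfsg.M24) ≃* U) := by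
  have := Fact.mk Nat.prime_two
  let Q : Sylow 2 MM := Sylow.ofCard (cl (sy2N.map mm)) (by
    rw [card_sy2, card_MM, show 244823040 = 2 ^ 10 * 239085 by norm_num,
      Nat.factorization_mul (by norm_num) (by norm_num), Finsupp.add_apply,
      Nat.factorization_pow_self Nat.prime_two, Nat.factorization_eq_zero_of_not_dvd (by norm_num)])
  exact ⟨(Sylow.equiv P Q).trans iso0.some⟩

/-- the quotient by the centre -/
@[ext] structure S where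
  a12 : F
  a13 : F
  a14 : F
  a23 : F
  a24 : F
  a25 : F
  a34 : F
  a35 : F
  a45 : F
deriving DecidableEq

instance : Mul S := ⟨fun a b => ⟨a.a12 + b.a12, a.a13 + a.a12 * b.a23 + b.a13,
  a.a14 + a.a12 * b.a24 + a.a13 * b.a34 + b.a14,
  a.a23 + b.a23, a.a24 + a.a23 * b.a34 + b.a24, a.a25 + a.a23 * b.a35 + a.a24 * b.a45 + b.a25,
  a.a34 + b.a34, a.a35 + a.a34 * b.a45 + b.a35, a.a45 + b.a45⟩⟩
instance : One S := ⟨⟨0, 0, 0, 0, 0, 0, 0, 0, 0⟩⟩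
instance : Inv S := ⟨fun a => ⟨-a.a12, -a.a13 + a.a12 * a.a23,
  -a.a14 + a.a12 * a.a24 + a.a13 * a.a34 - a.a12 * a.a23 * a.a34,
  -a.a23, -a.a24 + a.a23 * a.a34, -a.a25 + a.a23 * a.a35 + a.a24 * a.a45 - a.a23 * a.a34 * a.a45,
  -a.a34, -a.a35 + a.a34 * a.a45, -a.a45⟩⟩

theorem S.mul_def (a b : S) : a * b = ⟨a.a12 + b.a12, a.a13 + a.a12 * b.a23 + b.a13,
  a.a14 + a.a12 * b.a24 + a.a13 * b.a34 + b.a14,
  a.a23 + b.a23, a.a24 + a.a23 * b.a34 + b.a24, a.a25 + a.a23 * b.a35 + a.a24 * b.a45 + b.a25,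
  a.a34 + b.a34, a.a35 + a.a34 * b.a45 + b.a35, a.a45 + b.a45⟩ := rfl
theorem S.one_def : (1 : S) = ⟨0, 0, 0, 0, 0, 0, 0, 0, 0⟩ := rfl
theorem S.inv_def (a : S) : a⁻¹ = ⟨-a.a12, -a.a13 + a.a12 * a.a23,
  -a.a14 + a.a12 * a.a24 + a.a13 * a.a34 - a.a12 * a.a23 * a.a34,
  -a.a23, -a.a24 + a.a23 * a.a34, -a.a25 + a.a23 * a.a35 + a.a24 * a.a45 - a.a23 * a.a34 * a.a45,
  -a.a34, -a.a35 + a.a34 * a.a45, -a.a45⟩ := rfl

instance : Group S := Group.ofLeftAxioms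
  (fun a b c => by simp only [S.mul_def]; ext <;> simp only <;> ring)
  (fun a => by simp only [S.mul_def, S.one_def]; ext <;> simp only <;> ring)
  (fun a => by simp only [S.mul_def, S.one_def, S.inv_def]; ext <;> simp only <;> ring)

def S.eqv : S ≃ F × F × F × F × F × F × F × F × F where
  toFun a := (a.a12, a.a13, a.a14, a.a23, a.a24, a.a25, a.a34, a.a35, a.a45)
  invFun x := ⟨x.1, x.2.1, x.2.2.1, x.2.2.2.1, x.2.2.2.2.1, x.2.2.2.2.2.1, x.2.2.2.2.2.2.1, x.2.2.2.2.2.2.2.1,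
    x.2.2.2.2.2.2.2.2⟩
  left_inv _ := rfl
  right_inv _ := rfl

instance : Finite S := Finite.of_equiv _ S.eqv.symm
theorem card_S : Nat.card S = 512 := by
  rw [Nat.card_congr S.eqv]; simp [Nat.card_prod]

def prj : U →* S := MonoidHom.mk' (fun a => ⟨a.a12, a.a13, a.a14, a.a23, a.a24, a.a25, a.a34, a.a35, a.a45⟩)
  fun _ _ => rfl

theorem prj_surj : Function.Surjective prj :=
  fun a => ⟨⟨a.a12, a.a13, a.a14, 0, a.a23, a.a24, a.a25, a.a34, a.a35, a.a45⟩, rfl⟩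

theorem ker_prj : prj.ker = Subgroup.center U := by
  ext a
  rw [MonoidHom.mem_ker, Subgroup.mem_center_iff]
  constructor
  · intro h g
    have h' : (⟨a.a12, a.a13, a.a14, a.a23, a.a24, a.a25, a.a34, a.a35, a.a45⟩ : S) = ⟨0, 0, 0, 0, 0, 0, 0, 0, 0⟩ := h
    simp only [S.mk.injEq] at h'
    obtain ⟨h1, h2, h3, h4, h5, h6, h7, h8, h9⟩ := h'
    simp only [U.mul_def, h1, h2, h3, h4, h5, h6, h7, h8, h9]
    ext <;> simp only <;> ring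
  · intro h
    have h1 := h ⟨1, 0, 0, 0, 0, 0, 0, 0, 0, 0⟩
    have h2 := h ⟨0, 0, 0, 0, 1, 0, 0, 0, 0, 0⟩
    have h3 := h ⟨0, 0, 0, 0, 0, 0, 0, 1, 0, 0⟩
    have h4 := h ⟨0, 0, 0, 0, 0, 0, 0, 0, 0, 1⟩
    simp only [U.mul_def, U.mk.injEq] at h1 h2 h3 h4
    change (⟨a.a12, a.a13, a.a14, a.a23, a.a24, a.a25, a.a34, a.a35, a.a45⟩ : S) = ⟨0, 0, 0, 0, 0, 0, 0, 0, 0⟩
    simp only [S.mk.injEq]
    refine ⟨?_, ?_, ?_, ?_, ?_, ?_, ?_, ?_, ?_⟩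
    · linear_combination -h2.2.1
    · linear_combination -h3.2.2.1
    · linear_combination -h4.2.2.2.1
    · linear_combination h1.2.1
    · linear_combination h1.2.2.1
    · linear_combination h1.2.2.2.1
    · linear_combination h2.2.2.2.2.2.1
    · linear_combination h2.2.2.2.2.2.2.1
    · linear_combination h3.2.2.2.2.2.2.2.2.1

theorem isoS (P : Sylow 2 ↥Cfsg.M24) :
    Nonempty ((↥(P : Subgroup ↥Cfsg.M24) ⧸ Subgroup.center ↥(P : Subgroup ↥Cfsg.M24)) ≃* S) := by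
  obtain ⟨e⟩ := iso P
  refine ⟨(QuotientGroup.quotientMulEquivOfEq ?_).trans
    (QuotientGroup.quotientKerEquivOfSurjective (prj.comp e.toMonoidHom) (prj_surj.comp e.surjective))⟩
  ext x
  rw [MonoidHom.mem_ker, MonoidHom.comp_apply, ← MonoidHom.mem_ker, ker_prj, Subgroup.mem_center_iff,
    Subgroup.mem_center_iff]
  constructor
  · intro h g
    obtain ⟨g, rfl⟩ := e.surjective g
    change e g * e x = e x * e g
    rw [← map_mul, ← map_mul, h]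
  · intro h g
    apply e.injective
    rw [map_mul, map_mul]; exact h (e g)

end H8.UT5
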