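import Cfsg.Agent.S3171
import Cfsg.Agent.H16.Hall
/-! Local facts about the quotient of the unitriangular group of degree five by its centre. -/
set_option autoImplicit false
namespace H8.UT5
open Cfsg Cfsg.Agent.S3171 Subgroup H16
open scoped commutatorElement

theorem comm_rho {a : S} (ha : a ∈ rho.ker) (t : S) : ⁅a, t⁆ = ⁅a, rho t⁆ := by
  obtain ⟨a1, a2, a3⟩ := mem_ker.1 ha
  change _ = ⁅a, (⟨0, 0, 0, t.a23, t.a24, 0, t.a34, 0, 0⟩ : S)⁆
  simp only [commutatorElement_def, S.mul_def, S.inv_def, a1, a2, a3]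
  ext <;> simp only <;> ring

theorem cm_iff {a : S} (ha : a ∈ rho.ker) (t : S) : cm a t ↔ cm a (rho t) := by
  have : ∀ t, cm a t ↔ ⁅a, t⁆ = 1 := fun t => commutatorElement_eq_one_iff_mul_comm.symm
  rw [this, this, comm_rho ha]

theorem comm_mem {a : S} (ha : a ∈ rho.ker) (t : S) : ⁅a, t⁆ ∈ rho.ker := by
  rw [commutatorElement_def, mul_assoc, mul_assoc, ← mul_assoc t]
  exact mul_mem ha (by simpa [mul_assoc] using (inferInstance : rho.ker.Normal).conj_mem _ (inv_mem ha) t)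

theorem card_le_cnt {E : Subgroup S} (hE : E ≤ rho.ker) {x y : S} (hx : ∀ a ∈ E, cm a x) (hy : ∀ a ∈ E, cm a y) :
    Nat.card E ≤ (cnt (rho x) (rho y)).card := by
  rw [← Nat.card_eq_finsetCard]
  refine Nat.card_le_card_of_injective (fun z => ⟨kE ⟨z.1, hE z.2⟩, ?_⟩) fun a b h => ?_
  · simp only [cnt, Finset.mem_filter, Finset.mem_univ, true_and, Equiv.symm_apply_apply]
    exact ⟨cm_rho (hE z.2) (hx _ z.2), cm_rho (hE z.2) (hy _ z.2)⟩
  · exact Subtype.ext (Subtype.mk.inj (kE.injective (Subtype.mk.inj h)))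

abbrev D (a b c : F) : S := ⟨0, 0, 0, a, b, 0, c, 0, 0⟩

set_option synthInstance.maxSize 100000 in
theorem chk3 : ∀ a b c : F, D a b c ≠ 1 → D a b c * D a b c = 1 → (cnt (D a b c) (D a b c)).card = 16 := by
  decide +kernel

theorem rho_sq {t : S} (h : t * t = 1) : rho t * rho t = 1 := by rw [← map_mul, h, map_one]

theorem m1 {t : S} (ht : t ∉ rho.ker) (h2 : t * t = 1) : Nat.card ↥(rho.ker ⊓ C1[t]) = 16 := by
  rw [← chk3 _ _ _ ht (rho_sq h2), ← Nat.card_eq_finsetCard]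
  refine Nat.card_congr (Equiv.ofBijective (fun z => ⟨kE ⟨z.1, z.2.1⟩, ?_⟩) ⟨fun a b h => ?_, fun y => ?_⟩)
  · simp only [cnt, Finset.mem_filter, Finset.mem_univ, true_and, Equiv.symm_apply_apply, and_self]
    exact cm_rho z.2.1 (mem_centralizer_singleton_iff.1 z.2.2)
  · exact Subtype.ext (Subtype.mk.inj (kE.injective (Subtype.mk.inj h)))
  · have := y.2
    simp only [cnt, Finset.mem_filter, Finset.mem_univ, true_and, and_self] at this
    refine ⟨⟨(kE.symm y.1).1, (kE.symm y.1).2,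
      mem_centralizer_singleton_iff.2 ((cm_iff (kE.symm y.1).2 t).2 this)⟩, Subtype.ext ?_⟩
    exact kE.apply_symm_apply _

set_option synthInstance.maxSize 100000 in
theorem chk4 : ∀ a b c a' b' c' : F, D a b c * D a b c = 1 → D a' b' c' * D a' b' c' = 1 →
    cm (D a b c) (D a' b' c') → ∀ x : F × F × F × F × F × F,
      cm ((kE.symm x).1 * D a b c * (kE.symm x).1⁻¹ * (D a b c)⁻¹) (D a' b' c') := by decide +kernel

theorem quad {a s t : S} (ha : a ∈ rho.ker) (hs : s * s = 1) (ht : t * t = 1) (h : cm s t) : cm ⁅a, s⁆ t := by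
  rw [cm_iff (comm_mem ha s), comm_rho ha]
  have := chk4 _ _ _ _ _ _ (rho_sq hs) (rho_sq ht)
    (show cm (rho s) (rho t) by unfold cm at *; rw [← map_mul, ← map_mul, h]) (kE ⟨a, ha⟩)
  rw [Equiv.symm_apply_apply] at this
  exact this

theorem card_mul_map (B : Subgroup S) : Nat.card ↥(rho.ker ⊓ B) * Nat.card (B.map rho) = Nat.card B := by
  rw [← relIndex_ker, ← inf_relIndex_right]
  have := Subgroup.card_mul_index ((rho.ker ⊓ B).subgroupOf B)
  rw [Nat.card_congr (subgroupOfEquivOfLe (inf_le_right : rho.ker ⊓ B ≤ B)).toEquiv] at this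
  exact this

theorem m2 {W : Subgroup S} (hW : IsElementaryAbelian 2 W) (hc : Nat.card W = 32) : rho.ker ≤ N[W] := by
  have c : ∀ a ∈ W, ∀ b ∈ W, cm a b := fun a ha b hb => congrArg Subtype.val (hW.1.is_comm.comm ⟨a, ha⟩ ⟨b, hb⟩)
  have sq : ∀ a ∈ W, a * a = 1 := fun a ha => by rw [← sq]; exact hW.2 a ha
  have hm := card_mul_map W
  rw [hc] at hm
  have l : rho.ker ⊓ W ≤ rho.ker ⊓ C[W] :=
    inf_le_inf_left _ fun x hx => mem_centralizer_iff.2 fun y hy => c y hy x hx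
  have k : ∀ x ∈ W, ∀ a ∈ rho.ker ⊓ C[W], cm a x := fun x hx a ha => (mem_centralizer_iff.1 ha.2 x hx).symm
  have key : W ≤ rho.ker ∨ rho.ker ⊓ W = rho.ker ⊓ C[W] := by
    by_cases h0 : W ≤ rho.ker
    · exact .inl h0
    refine .inr (eq_of_le_of_card_ge l ?_)
    obtain ⟨x, hx, hx'⟩ := SetLike.not_le_iff_exists.1 h0
    have hx1 : rho x ≠ 1 := hx'
    have hle : W.map rho ≤ rho.range := map_le_range _ _
    by_cases h1 : ∃ y ∈ W, rho y ≠ 1 ∧ rho x ≠ rho y
    · obtain ⟨y, hy, a, b⟩ := h1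
      have c1 := (card_le_cnt inf_le_left (k x hx) (k y hy)).trans (chk2 _ _ _ _ _ _ hx1 a b)
      have c2 := card_dvd_of_le hle
      rw [card_range] at c2
      have c3 : Nat.card (W.map rho) ≠ 8 := by
        intro c3
        have e : W.map rho = rho.range := eq_of_le_of_card_ge hle (by rw [c3, card_range])
        have cc := comm_map rho hW.1
        rw [e] at cc
        have := congrArg Subtype.val (cc.is_comm.comm ⟨rho h1, h1, rfl⟩ ⟨rho g1, g1, rfl⟩)
        exact absurd this (by decide +kernel : ¬ rho h1 * rho g1 = rho g1 * rho h1)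
      have c4 : Nat.card (W.map rho) ≤ 4 := by
        have := Nat.le_of_dvd (by norm_num) c2
        generalize Nat.card (W.map rho) = n at *
        interval_cases n <;> simp_all
      nlinarith
    · push Not at h1
      have c1 := (card_le_cnt inf_le_left (k x hx) (k x hx)).trans (chk1 _ _ _ hx1)
      have c2 : Nat.card (W.map rho) ≤ Nat.card ({1, rho x} : Set S) := by
        refine Nat.card_le_card_of_injective (fun z => ⟨z.1, ?_⟩) fun a b h => Subtype.ext (Subtype.mk.inj h)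
        obtain ⟨_, y, hy, rfl⟩ := z
        by_cases a : rho y = 1
        · exact .inl a
        · exact .inr (h1 y hy a).symm
      rw [Nat.card_coe_set_eq, Set.ncard_pair hx1.symm] at c2
      nlinarith
  have cw : ∀ a ∈ rho.ker, ∀ w ∈ W, a * w * a⁻¹ ∈ W := by
    intro a ha w hw
    rcases key with h | h
    · rw [ker_comm ha (h hw), mul_inv_cancel_right]; exact hw
    · have : ⁅a, w⁆ ∈ rho.ker ⊓ C[W] :=
        ⟨comm_mem ha w, mem_centralizer_iff.2 fun y hy => (quad ha (sq w hw) (sq y hy) (c w hw y hy)).symm⟩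
      rw [← h] at this
      have := mul_mem this.2 hw
      rwa [commutatorElement_def, inv_mul_cancel_right] at this
  intro a ha
  rw [mem_normalizer_iff]
  refine fun w => ⟨cw a ha w, fun h => ?_⟩
  have := cw _ (inv_mem ha) _ h
  simpa [mul_assoc] using this

set_option synthInstance.maxSize 100000 in
theorem chk5 : ∀ a b c a' b' c' : F, D a b c ≠ 1 → D a b c * D a b c = 1 → 8 ≤ (cnt (D a b c) (D a' b' c')).card →
    ∀ x : F × F × F × F × F × F,
      cm ((kE.symm x).1 * D a b c * (kE.symm x).1⁻¹ * (D a b c)⁻¹) (D a' b' c') := by decide +kernel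

theorem m3 {s t : S} (ht : t ∉ rho.ker) (h2 : t * t = 1) {E : Subgroup S} (hE : E ≤ rho.ker) (hc : Nat.card E = 8)
    (hs : ∀ a ∈ E, cm a s) (ht' : ∀ a ∈ E, cm a t) {b : S} (hb : b ∈ rho.ker) : cm ⁅b, t⁆ s := by
  rw [cm_iff (comm_mem hb t), comm_rho hb]
  have := chk5 _ _ _ _ _ _ ht (rho_sq h2) (hc ▸ card_le_cnt hE ht' hs) (kE ⟨b, hb⟩)
  rw [Equiv.symm_apply_apply] at this
  exact this

set_option synthInstance.maxSize 100000 in
theorem chk6 : ∀ a b c : F, D a b c ≠ 1 → ∃ x ∈ [g1 * (rho g1)⁻¹, h1 * (rho h1)⁻¹, ⟨0, 1, 0, 0, 0, 0, 0, 0, 0⟩],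
    ∃ y ∈ [g1 * (rho g1)⁻¹, ⟨0, 0, 0, 0, 0, 0, 0, 1, 0⟩], ¬ cm x (D a b c) ∧ ¬ cm y (D a b c) ∧ ¬ cm (x * y) (D a b c) := by
  decide +kernel

theorem m4 {t : S} (ht : t ∉ rho.ker) : ∃ a ∈ rho.ker, ∃ b ∈ rho.ker, ¬ cm a t ∧ ¬ cm b t ∧ ¬ cm (a * b) t := by
  obtain ⟨x, hx, y, hy, a, b, c⟩ := chk6 _ _ _ ht
  have hx' : x ∈ rho.ker := by
    simp only [List.mem_cons, List.not_mem_nil, or_false] at hx
    rcases hx with rfl | rfl | rfl <;> exact mem_ker.2 (by decide +kernel)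
  have hy' : y ∈ rho.ker := by
    simp only [List.mem_cons, List.not_mem_nil, or_false] at hy
    rcases hy with rfl | rfl <;> exact mem_ker.2 (by decide +kernel)
  exact ⟨x, hx', y, hy', by rwa [cm_iff hx'], by rwa [cm_iff hy'], by rwa [cm_iff (mul_mem hx' hy')]⟩

theorem chk7 : ∀ a b c : F, D a b c * D a b c = 1 ∨ (rho (D a b c * D a b c) ≠ 1 ∧
    D a b c * D a b c * (D a b c * D a b c) = 1) := by decide +kernel

theorem m5 {T : Subgroup S} (hT : rho.ker ≤ T) {x : S} (hx : x ∈ T) (hx' : x ∉ rho.ker) :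
    ∃ y ∈ T, y ∉ rho.ker ∧ y * y = 1 := by
  have k : x * (rho x)⁻¹ ∈ rho.ker := by
    rw [MonoidHom.mem_ker, map_mul, map_inv, show rho (rho x) = rho x from rfl, mul_inv_cancel]
  have m : rho x ∈ T := by
    have := mul_mem (inv_mem (hT k)) hx
    simpa using this
  rcases chk7 x.a23 x.a24 x.a34 with h | h
  · exact ⟨rho x, m, hx', h⟩
  · exact ⟨rho x * rho x, mul_mem m m, h.1, h.2⟩

end H8.UT5
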