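import Cfsg.Agent.H8.UT5b
/-! Groups whose Sylow 2-subgroups are the quotient of the unitriangular group of degree five by its centre:
the abelian subgroup of order 64 is strongly closed. -/
set_option autoImplicit false
set_option linter.unusedSectionVars false
namespace H8.UT5
open Cfsg Cfsg.Agent.S3171 Subgroup H16
open scoped commutatorElement

variable {G : Type*} [Group G] [Finite G] {B B₁ B₂ T W E M : Subgroup G} {s t : G}

def HS (G : Type*) [Group G] : Prop :=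
  ∀ T : Subgroup G, IsPGroup 2 T → ∃ ι : S →* G, Function.Injective ι ∧ T ≤ ι.range

structure Ab (B : Subgroup G) : Prop where
  comm : IsMulCommutative B
  card : Nat.card B = 64

theorem Ab.pg (h : Ab B) : IsPGroup 2 B := IsPGroup.of_card (n := 6) h.card
theorem Ab.cj (h : Ab B) (g : G) : Ab (B :^ g) := ⟨(comm_cj g).2 h.comm, (card_cj B g).trans h.card⟩
theorem Ab.mul_comm (h : Ab B) {a b : G} (ha : a ∈ B) (hb : b ∈ B) : a * b = b * a :=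
  congrArg Subtype.val (h.comm.is_comm.comm ⟨a, ha⟩ ⟨b, hb⟩)

theorem comm_of_map {ι : S →* G} (hι : Function.Injective ι) {X : Subgroup S} (h : IsMulCommutative (X.map ι)) :
    IsMulCommutative X := ⟨⟨fun a b => Subtype.ext (hι (by
      have := congrArg Subtype.val (h.is_comm.comm ⟨ι a, mem_map_of_mem ι a.2⟩ ⟨ι b, mem_map_of_mem ι b.2⟩)
      simpa using this))⟩⟩

theorem ex_map {ι : S →* G} (h : W ≤ ι.range) : ∃ X : Subgroup S, X.map ι = W := ⟨_, map_comap_eq_self h⟩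

theorem Ab.eq_map (hB : Ab B) {ι : S →* G} (hι : Function.Injective ι) (h : B ≤ ι.range) : rho.ker.map ι = B := by
  obtain ⟨X, rfl⟩ := ex_map h
  rw [uniq (comm_of_map hι hB.comm) (by rw [← hB.card, card_map_of_injective hι])]

theorem cm_map {ι : S →* G} (hι : Function.Injective ι) {a b : S} : ι a * ι b = ι b * ι a ↔ cm a b := by
  rw [← map_mul, ← map_mul, hι.eq_iff]; rfl

namespace HS
variable (h : HS G) (hT : IsPGroup 2 T)
include h hT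

theorem f0 (b1 : Ab B₁) (b2 : Ab B₂) (l1 : B₁ ≤ T) (l2 : B₂ ≤ T) : B₁ = B₂ := by
  obtain ⟨ι, hι, l⟩ := h T hT
  rw [← b1.eq_map hι (l1.trans l), ← b2.eq_map hι (l2.trans l)]

theorem fN (b : Ab B) (l : B ≤ T) : T ≤ N[B] := fun g hg =>
  cj_eq_self_iff.1 (h.f0 hT (b.cj g) b (cj_le_of_mem hg l) l)

theorem fE (b : Ab B) (l : B ≤ T) {x : G} (hx : x ∈ B) : x * x = 1 := by
  obtain ⟨ι, hι, l'⟩ := h T hT
  rw [← b.eq_map hι (l.trans l')] at hx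
  obtain ⟨y, hy, rfl⟩ := hx
  rw [← map_mul, ← sq, elab_ker.2 y hy, map_one]

theorem f1 (b : Ab B) (l : B ≤ T) (ht : t ∈ T) (hB : t ∉ B) (h2 : t * t = 1) : Nat.card ↥(B ⊓ C1[t]) = 16 := by
  obtain ⟨ι, hι, l'⟩ := h T hT
  obtain rfl := b.eq_map hι (l.trans l')
  obtain ⟨t, rfl⟩ := l' ht
  rw [← m1 (t := t) (fun c => hB (mem_map_of_mem ι c)) (hι (by rw [map_mul, h2, map_one])),
    ← card_map_of_injective hι (K := rho.ker ⊓ C1[t])]
  congr 2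
  ext x
  constructor
  · rintro ⟨⟨y, hy, rfl⟩, c⟩
    exact ⟨y, ⟨hy, mem_cent1.2 ((cm_map hι).1 (mem_cent1.1 c))⟩, rfl⟩
  · rintro ⟨y, hy, rfl⟩
    exact ⟨⟨y, hy.1, rfl⟩, mem_cent1.2 ((cm_map hι).2 (mem_cent1.1 hy.2))⟩

theorem f2 (b : Ab B) (l : B ≤ T) (lW : W ≤ T) (hW : IsElementaryAbelian 2 W) (hc : Nat.card W = 32) :
    B ≤ N[W] := by
  obtain ⟨ι, hι, l'⟩ := h T hT
  obtain rfl := b.eq_map hι (l.trans l')
  obtain ⟨X, rfl⟩ := ex_map (lW.trans l')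
  have := m2 (W := X) ⟨comm_of_map hι hW.1, fun a ha => hι (by
    rw [map_pow, hW.2 _ (mem_map_of_mem ι ha), map_one])⟩ (by rw [← hc, card_map_of_injective hι])
  refine le_norm_iff.2 ?_
  rintro _ ⟨a, ha, rfl⟩ _ ⟨x, hx, rfl⟩
  exact ⟨a * x * a⁻¹, conj_mem (this ha) hx, by simp⟩

theorem f3 (b : Ab B) (l : B ≤ T) (hs : s ∈ T) (ht : t ∈ T) (hB : t ∉ B) (h2 : t * t = 1) (hE : E ≤ B)
    (hc : Nat.card E = 8) (c1 : E ≤ C1[s]) (c2 : E ≤ C1[t]) {x : G} (hx : x ∈ B) : ⁅x, t⁆ ∈ C1[s] := by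
  obtain ⟨ι, hι, l'⟩ := h T hT
  obtain rfl := b.eq_map hι (l.trans l')
  obtain ⟨X, rfl⟩ := ex_map (hE.trans (l.trans l'))
  obtain ⟨t, rfl⟩ := l' ht
  obtain ⟨s, rfl⟩ := l' hs
  obtain ⟨x, hx, rfl⟩ := hx
  rw [← map_commutatorElement, mem_cent1, cm_map hι]
  exact m3 (fun c => hB (mem_map_of_mem ι c)) (hι (by rw [map_mul, h2, map_one]))
    ((map_le_map_iff_of_injective hι).1 hE) (by rw [← hc, card_map_of_injective hι])
    (fun a ha => (cm_map hι).1 (mem_cent1.1 (c1 (mem_map_of_mem ι ha))))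
    (fun a ha => (cm_map hι).1 (mem_cent1.1 (c2 (mem_map_of_mem ι ha)))) hx

theorem f4 (b : Ab B) (l : B ≤ T) (ht : t ∈ T) (hB : t ∉ B) :
    ∃ x ∈ B, ∃ y ∈ B, x ∉ C1[t] ∧ y ∉ C1[t] ∧ x * y ∉ C1[t] := by
  obtain ⟨ι, hι, l'⟩ := h T hT
  obtain rfl := b.eq_map hι (l.trans l')
  obtain ⟨t, rfl⟩ := l' ht
  obtain ⟨x, hx, y, hy, a1, a2, a3⟩ := m4 (t := t) fun c => hB (mem_map_of_mem ι c)
  refine ⟨ι x, mem_map_of_mem ι hx, ι y, mem_map_of_mem ι hy, ?_, ?_, ?_⟩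
  · rwa [mem_cent1, cm_map hι]
  · rwa [mem_cent1, cm_map hι]
  · rwa [← map_mul, mem_cent1, cm_map hι]

theorem f5 (b : Ab B) (l : B ≤ T) (ht : t ∈ T) (hB : t ∉ B) : ∃ y ∈ T, y ∉ B ∧ y * y = 1 := by
  obtain ⟨ι, hι, l'⟩ := h T hT
  obtain rfl := b.eq_map hι (l.trans l')
  obtain ⟨X, rfl⟩ := ex_map l'
  obtain ⟨t, ht, rfl⟩ := ht
  obtain ⟨y, hy, a1, a2⟩ := m5 ((map_le_map_iff_of_injective hι).1 l) ht fun c => hB (mem_map_of_mem ι c)
  exact ⟨ι y, mem_map_of_mem ι hy, fun c => a1 ((mem_map_iff_mem hι).1 c), by rw [← map_mul, a2, map_one]⟩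

omit hT

theorem conjIn (b1 : Ab B₁) (b2 : Ab B₂) (l1 : B₁ ≤ M) (l2 : B₂ ≤ M) : ∃ m ∈ M, B₁ :^ m = B₂ := by
  have := Fact.mk Nat.prime_two
  obtain ⟨P, hP, a⟩ := sy_exists_ge l2 (pg_iff.2 b2.pg)
  obtain ⟨m, hm, c⟩ := sy_conj_le hP l1 (pg_iff.2 b1.pg)
  exact ⟨m, hm, h.f0 (sy_pg hP) (b1.cj m) b2 c a⟩

end HS

/-- the elements centralising `E` and `W/E` -/
def KK (W E : Subgroup G) : Subgroup G where
  carrier := {g | g ∈ C[E] ∧ ∀ w ∈ W, ⁅g, w⁆ ∈ E}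
  one_mem' := ⟨one_mem _, fun w _ => by simp⟩
  mul_mem' := by
    rintro a b ⟨a1, a2⟩ ⟨b1, b2⟩
    refine ⟨mul_mem a1 b1, fun w hw => ?_⟩
    have : ⁅a * b, w⁆ = ⁅b, w⁆ * ⁅a, w⁆ := by
      have := mem_cent.1 a1 _ (b2 w hw)
      simp only [commutatorElement_def] at *
      calc _ = a * (b * w * b⁻¹ * w⁻¹) * (w * a⁻¹ * w⁻¹) := by group
        _ = _ := by rw [← this]; group
    rw [this]; exact mul_mem (b2 w hw) (a2 w hw)
  inv_mem' := by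
    rintro a ⟨a1, a2⟩
    refine ⟨inv_mem a1, fun w hw => ?_⟩
    have : ⁅a⁻¹, w⁆ = ⁅a, w⁆⁻¹ := by
      have := mem_cent.1 a1 _ (inv_mem (a2 w hw))
      simp only [commutatorElement_def] at *
      calc _ = a⁻¹ * ((a * w * a⁻¹ * w⁻¹)⁻¹ * a) := by group
        _ = _ := by rw [this]; group
    rw [this]; exact inv_mem (a2 w hw)

theorem KK_norm {H : Subgroup G} (h1 : E ≤ H) (h2 : H ≤ W) : KK W E ≤ N[H] :=
  le_norm_iff.2 fun a ha x hx => by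
    have := mul_mem (h1 (ha.2 x (h2 hx))) hx
    rwa [commutatorElement_def, inv_mul_cancel_right] at this

theorem norm_KK : N[W] ⊓ C[E] ≤ N[KK W E] :=
  le_norm_iff.2 fun m hm a ha => ⟨mul_mem (mul_mem hm.2 ha.1) (inv_mem hm.2), fun w hw => by
    have := conj_mem (cent_le_norm E hm.2) (ha.2 _ (conj_mem' hm.1 hw))
    simp only [commutatorElement_def] at *
    convert this using 1
    group⟩

theorem idx2 {H : Subgroup G} (l : H ≤ W) (h : Nat.card W = 2 * Nat.card H) {x y : G} (hx : x ∈ W) (hy : y ∈ W)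
    (a : x ∉ H) (b : y ∉ H) : x * y ∈ H := by
  have i : (H.subgroupOf W).index = 2 := by
    have := (H.subgroupOf W).card_mul_index
    rw [Nat.card_congr (subgroupOfEquivOfLe l).toEquiv, h, mul_comm] at this
    exact Nat.eq_of_mul_eq_mul_right Nat.card_pos this
  exact (mul_mem_iff_of_index_two i (a := ⟨x, hx⟩) (b := ⟨y, hy⟩)).2 (iff_of_false a b)

theorem card_inf8 {H K : Subgroup G} (lH : H ≤ W) (lK : K ≤ W) (hW : Nat.card W = 32) (hH : Nat.card H = 16)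
    (hK : Nat.card K = 16) (hne : H ≠ K) : Nat.card ↥(H ⊓ K) = 8 := by
  have n : ¬ H ≤ K := fun c => hne (eq_of_le_of_card_ge c (by rw [hH, hK]))
  obtain ⟨x, hx, hx'⟩ := SetLike.not_le_iff_exists.1 n
  have i : ((H ⊓ K).subgroupOf H).index = 2 := by
    refine index_eq_two_iff.2 ⟨⟨x, hx⟩, fun b => ?_⟩
    simp only [mem_subgroupOf, mem_inf, coe_mul, SetLike.coe_mem, true_and, mul_mem b.2 hx]
    by_cases c : (b : G) ∈ K
    · exact .inr ⟨c, fun d => hx' ((K.mul_mem_cancel_left c).1 d)⟩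
    · exact .inl ⟨idx2 lK (by rw [hW, hK]) (lH b.2) (lH hx) c hx', c⟩
  have := ((H ⊓ K).subgroupOf H).card_mul_index
  rw [Nat.card_congr (subgroupOfEquivOfLe inf_le_left).toEquiv, i, hH] at this
  omega

theorem HS.le_KK (h : HS G) (hW : IsElementaryAbelian 2 W) (hc : Nat.card W = 32) (b1 : Ab B₁) (b2 : Ab B₂)
    (n1 : B₁ ≤ N[W]) (n2 : B₂ ≤ N[W]) (c1 : Nat.card ↥(W ⊓ B₁) = 16) (c2 : Nat.card ↥(W ⊓ B₂) = 16)
    (hne : W ⊓ B₁ ≠ W ⊓ B₂) (hE : E = W ⊓ B₁ ⊓ (W ⊓ B₂)) : B₁ ≤ KK W E := by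
  have := Fact.mk Nat.prime_two
  have cE : Nat.card E = 8 := hE ▸ card_inf8 inf_le_left inf_le_left hc c1 c2 hne
  have E1 : E ≤ W ⊓ B₁ := hE ▸ inf_le_left
  have E2 : E ≤ W ⊓ B₂ := hE ▸ inf_le_right
  have wc : ∀ a ∈ W, ∀ b ∈ W, a * b = b * a := fun a ha b hb =>
    congrArg Subtype.val (hW.1.is_comm.comm ⟨a, ha⟩ ⟨b, hb⟩)
  have pW : IsPGroup 2 W := IsPGroup.of_card (n := 5) hc
  obtain ⟨t, ht, ht'⟩ := SetLike.not_le_iff_exists.1
    (show ¬ W ⊓ B₂ ≤ W ⊓ B₁ from fun c => hne (eq_of_le_of_card_ge c (by rw [c1, c2])).symm)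
  have tB : t ∉ B₁ := fun c => ht' ⟨ht.1, c⟩
  have t2 : t * t = 1 := by rw [← sq]; exact hW.2 t ht.1
  have m1 : B₁ ≤ N[W] ⊓ C[E] := le_inf n1 (comm_cent b1.comm le_rfl (E1.trans inf_le_right))
  have m2 : B₂ ≤ N[W] ⊓ C[E] := le_inf n2 (comm_cent b2.comm le_rfl (E2.trans inf_le_right))
  have m3 : W ≤ N[W] ⊓ C[E] := le_inf (le_norm W) (comm_cent hW.1 le_rfl (E1.trans inf_le_left))
  obtain ⟨T, hT, l⟩ := sy_exists_ge (sup_le m1 m3) (pg_iff.2 (IsPGroup.to_sup_of_normal_right' b1.pg pW n1))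
  have l1 : B₁ ≤ T := le_sup_left.trans l
  have lW : W ≤ T := le_sup_right.trans l
  have pT := sy_pg hT
  have cm1 : ∀ b ∈ B₁, ⁅b, t⁆ ∈ W ⊓ B₁ := fun b hb =>
    ⟨W.mul_mem (conj_mem (n1 hb) ht.1) (W.inv_mem ht.1), by
      rw [commutatorElement_def, mul_assoc, mul_assoc, ← mul_assoc t]
      exact mul_mem hb (conj_mem (h.fN pT b1 l1 (lW ht.1)) (inv_mem hb))⟩
  have red : ∀ b ∈ B₁, ⁅b, t⁆ ∈ E → b ∈ KK W E := by
    intro b hb c
    refine ⟨(m1 hb).2, fun w hw => ?_⟩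
    by_cases d : w ∈ W ⊓ B₁
    · rw [commutatorElement_eq_one_iff_mul_comm.2 (b1.mul_comm hb d.2)]; exact one_mem _
    · have e := idx2 inf_le_left (by rw [hc, c1]) hw (inv_mem ht.1) d (fun c => ht' (inv_mem_iff.1 c))
      have e1 := b1.mul_comm hb e.2
      have e2 := wc _ e.1 _ (cm1 b hb).1
      have : ⁅b, w⁆ = ⁅b, t⁆ := by
        simp only [commutatorElement_def] at *
        calc _ = b * (w * t⁻¹) * (t * b⁻¹ * t⁻¹) * (w * t⁻¹)⁻¹ := by group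
          _ = (w * t⁻¹) * (b * t * b⁻¹ * t⁻¹) * (w * t⁻¹)⁻¹ := by rw [e1]; group
          _ = _ := by rw [e2]; group
      rwa [this]
  obtain ⟨a, ha, a1, a2⟩ : ∃ a ∈ B₁, a ∉ C1[t] ∧ ⁅a, t⁆ ∈ E := by
    obtain ⟨x, hx, y, hy, u1, u2, u3⟩ := h.f4 pT b1 l1 (lW ht.1) tB
    by_cases p : ⁅x, t⁆ ∈ E
    · exact ⟨x, hx, u1, p⟩
    by_cases q : ⁅y, t⁆ ∈ E
    · exact ⟨y, hy, u2, q⟩
    refine ⟨x * y, mul_mem hx hy, u3, ?_⟩
    have : ⁅x * y, t⁆ = ⁅y, t⁆ * ⁅x, t⁆ := by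
      have := b1.mul_comm hx (cm1 y hy).2
      simp only [commutatorElement_def] at *
      calc _ = x * (y * t * y⁻¹ * t⁻¹) * (t * x⁻¹ * t⁻¹) := by group
        _ = _ := by rw [this]; group
    rw [this]
    exact idx2 E1 (by rw [c1, cE]) (cm1 y hy) (cm1 x hx) q p
  obtain ⟨m, hm, e⟩ := h.conjIn b1 b2 m1 m2
  have KM : KK W E ≤ N[W] ⊓ C[E] := fun g hg => ⟨KK_norm (E1.trans inf_le_left) le_rfl hg, hg.1⟩
  have aK : m * a * m⁻¹ ∈ KK W E := conj_mem (norm_KK hm) (red a ha a2)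
  have aB : m * a * m⁻¹ ∈ B₂ := e ▸ cj_mem ha
  obtain ⟨k, hk, u⟩ := sy_conj_le (hl_inf hT KM (hT.1.trans norm_KK)) (zpowers_le.2 aK)
    (pg_iff.2 (b2.pg.to_le (zpowers_le.2 aB)))
  have sT := u (cj_mem (mem_zpowers _))
  set s := k * (m * a * m⁻¹) * k⁻¹ with hs
  have s2 : W ⊓ B₂ ≤ C1[s] := by
    intro x hx
    have := b2.mul_comm (conj_mem' (KK_norm E2 inf_le_left hk) hx).2 aB
    rw [mem_cent1, hs]
    calc _ = k * (k⁻¹ * x * k * (m * a * m⁻¹)) * k⁻¹ := by group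
      _ = _ := by rw [this]; group
  have s3 : ¬ W ≤ C1[s] := by
    intro c
    have := mem_cent1.1 (c (conj_mem (mul_mem (KM hk).1 hm.1) ht.1))
    rw [hs] at this
    apply a1
    rw [mem_cent1]
    calc _ = (k * m)⁻¹ * (k * (m * a * m⁻¹) * k⁻¹ * (k * m * t * (k * m)⁻¹)) * (k * m) := by group
      _ = _ := by rw [← this]; group
  intro b hb
  refine red b hb ?_
  by_contra c
  have d := h.f3 pT b1 l1 sT.1 (lW ht.1) tB t2 (E1.trans inf_le_right) cE (E2.trans s2)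
    (fun x hx => mem_cent1.2 (wc _ (E1 hx).1 _ ht.1)) hb
  have c' : ⁅b, t⁆ ∉ W ⊓ B₂ := fun c' => c (hE ▸ ⟨cm1 b hb, c'⟩)
  refine s3 fun w hw => ?_
  by_cases q : w ∈ W ⊓ B₂
  · exact s2 q
  · exact (C1[s].mul_mem_cancel_right d).1 (s2 (idx2 inf_le_left (by rw [hc, c2]) hw (cm1 b hb).1 q c'))

theorem HS.key (h : HS G) (hW : IsElementaryAbelian 2 W) (hc : Nat.card W = 32) (b1 : Ab B₁) (b2 : Ab B₂)
    (n1 : B₁ ≤ N[W]) (n2 : B₂ ≤ N[W]) (c2 : Nat.card ↥(W ⊓ B₂) = 16) : W ⊓ B₁ = W ⊓ B₂ := by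
  have c1 : Nat.card ↥(W ⊓ B₁) = 16 := by
    obtain ⟨m, hm, e⟩ := h.conjIn b1 b2 n1 n2
    rw [← c2, ← e, ← card_cj _ m, cj_inf, cj_norm hm]
  by_contra hne
  have k1 := h.le_KK hW hc b1 b2 n1 n2 c1 c2 hne rfl
  have k2 := h.le_KK hW hc b2 b1 n2 n1 c2 c1 (Ne.symm hne) (inf_comm _ _)
  obtain ⟨k, hk, e⟩ := h.conjIn b1 b2 k1 k2
  apply hne
  have : (W ⊓ B₁) :^ k = W ⊓ B₁ := cj_norm (KK_norm inf_le_left inf_le_left hk)
  rw [← this, cj_inf, e, cj_norm (KK_norm (inf_le_left.trans inf_le_left) le_rfl hk)]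

theorem HS.sc (h : HS G) (hT : IsPGroup 2 T) (b : Ab B) (l : B ≤ T) {x g : G} (hx : x ∈ B)
    (ht : g * x * g⁻¹ ∈ T) : g * x * g⁻¹ ∈ B := by
  have := Fact.mk Nat.prime_two
  by_contra hB
  set t := g * x * g⁻¹ with e
  have t2 : t * t = 1 := by
    calc t * t = g * (x * x) * g⁻¹ := by rw [e]; group
      _ = 1 := by rw [h.fE hT b l hx]; group
  have b' := b.cj g
  have tB : t ∈ B :^ g := cj_mem hx
  have cE := h.f1 hT b l ht hB t2
  have ot : orderOf t = 2 := orderOf_eq_prime (by rw [sq, t2]) fun c => hB (c ▸ one_mem _)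
  have ez : B ⊓ C1[t] ≤ C[zpowers t] := by rw [cent_zpowers]; exact inf_le_right
  have mem : ∀ w ∈ B ⊓ C1[t] ⊔ zpowers t, w ∈ B ⊓ C1[t] ∨ w * t ∈ B ⊓ C1[t] := by
    intro w hw
    obtain ⟨a, ha, k, hk, rfl⟩ := (mem_sup_r (norm_of_cent ez)).1 hw
    obtain ⟨n, rfl⟩ := mem_zpowers_iff.1 hk
    rcases Int.even_or_odd' n with ⟨m, rfl | rfl⟩
    · left; rwa [zpow_mul, zpow_two, t2, one_zpow, mul_one]
    · right; rwa [zpow_add_one, zpow_mul, zpow_two, t2, one_zpow, one_mul, mul_assoc, t2, mul_one]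
  set W := B ⊓ C1[t] ⊔ zpowers t with hW
  have tW : t ∈ W := mem_sup_right (mem_zpowers t)
  have WB : W ⊓ B = B ⊓ C1[t] := le_antisymm (fun w hw => (mem w hw.1).resolve_right fun c =>
    hB ((B.mul_mem_cancel_left hw.2).1 c.1)) (le_inf le_sup_left inf_le_left)
  have cW : Nat.card W = 32 := by
    have i : ((B ⊓ C1[t]).subgroupOf W).index = 2 := by
      refine index_eq_two_iff.2 ⟨⟨t, tW⟩, fun w => ?_⟩
      simp only [mem_subgroupOf, coe_mul]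
      by_cases c : (w : G) ∈ B ⊓ C1[t]
      · exact .inr ⟨c, fun d => hB ((B.mul_mem_cancel_left c.1).1 d.1)⟩
      · exact .inl ⟨(mem w w.2).resolve_left c, c⟩
    have := ((B ⊓ C1[t]).subgroupOf W).card_mul_index
    rw [Nat.card_congr (subgroupOfEquivOfLe le_sup_left).toEquiv, i, cE] at this
    omega
  have WC : W ≤ C1[t] := sup_le inf_le_right (zpowers_le.2 (cent1_self t))
  have eW : IsElementaryAbelian 2 W := by
    refine ⟨comm_sup (comm_of_le b.comm inf_le_left) (comm_of_cyclic (cyclic_zpowers t)) ez, fun w hw => ?_⟩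
    rcases mem w hw with c | c
    · rw [sq]; exact h.fE hT b l c.1
    · have := h.fE hT b l c.1
      have d := mem_cent1.1 (WC hw)
      rw [sq]
      calc w * w = w * w * (t * t) := by rw [t2, mul_one]
        _ = w * (w * t) * t := by group
        _ = 1 := by rw [d, ← this]; group
  have nB : B ≤ N[W] := h.f2 hT b l (sup_le (inf_le_left.trans l) (zpowers_le.2 ht)) eW cW
  have l' : B :^ g ≤ C1[t] := fun y hy => mem_cent1.2 (b'.mul_comm hy tB)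
  obtain ⟨P, hP, a⟩ := sy_exists_ge l' (pg_iff.2 b'.pg)
  obtain ⟨c, hc, u⟩ := sy_conj_le hP WC (pg_iff.2 (IsPGroup.of_card (n := 5) cW))
  have ct : c * t * c⁻¹ = t := by rw [mem_cent1.1 hc]; group
  have eW' : IsElementaryAbelian 2 (W :^ c) := ⟨(comm_cj c).2 eW.1, fun y hy => by
    have := eW.2 _ (mem_cj.1 hy)
    calc y ^ 2 = c * (c⁻¹ * y * c) ^ 2 * c⁻¹ := by simp only [sq]; group
      _ = 1 := by rw [this]; group⟩
  have cW' : Nat.card (W :^ c) = 32 := (card_cj W c).trans cW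
  have k := h.key eW' cW' b' (b.cj c) (h.f2 (sy_pg hP) b' a u eW' cW') (norm_cj_le nB c)
    (by rw [← cj_inf, card_cj, WB, cE])
  have : t ∈ W :^ c ⊓ B :^ c := k ▸ ⟨ct ▸ cj_mem tW, tB⟩
  exact hB (cj_mem_iff.1 (ct.symm ▸ this.2))

end H8.UT5
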