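import Cfsg.Agent.H8.UT5b
/-! The dihedral group of order eight acting on the sum of the natural three-dimensional module and its dual
normalises no nontrivial group of odd order. -/
set_option autoImplicit false
set_option synthInstance.maxSize 100000
namespace H8.UT5
open Cfsg Cfsg.Agent.S3171 Subgroup

abbrev V := F × F × F × F × F × F
abbrev EV := AddMonoid.End V

def emb (x : V) : S := ⟨x.1, x.2.1, x.2.2.1, 0, 0, x.2.2.2.1, 0, x.2.2.2.2.1, x.2.2.2.2.2⟩
def co (a : S) : V := (a.a12, a.a13, a.a14, a.a25, a.a35, a.a45)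
theorem emb_mem (x : V) : emb x ∈ rho.ker := mem_ker.2 ⟨rfl, rfl, rfl⟩
theorem emb_add (x y : V) : emb (x + y) = emb x * emb y := by
  simp only [emb, S.mul_def]; ext <;> simp
theorem co_emb (x : V) : co (emb x) = x := rfl
theorem emb_inj : Function.Injective emb := fun x y h => by rw [← co_emb x, h, co_emb]
theorem emb_co {a : S} (ha : a ∈ rho.ker) : emb (co a) = a := by
  obtain ⟨a1, a2, a3⟩ := mem_ker.1 ha
  ext <;> simp [emb, co, a1, a2, a3]
theorem emb_act (d : S) (x : V) : emb (co (d * emb x * d⁻¹)) = d * emb x * d⁻¹ :=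
  emb_co ((inferInstance : rho.ker.Normal).conj_mem _ (emb_mem x) d)

def act (d : S) : EV := AddMonoidHom.mk' (fun x => co (d * emb x * d⁻¹)) fun x y => emb_inj (by
  rw [emb_act, emb_add, emb_add, emb_act, emb_act]; group)
theorem act_apply (d : S) (x : V) : act d x = co (d * emb x * d⁻¹) := rfl

def r0 : S := D 0 1 0
def s0 : S := D 1 0 0
def u0 : S := D 0 0 1
def R : EV := act r0
def Sx : EV := act s0
def Ux : EV := act u0

theorem add_self (v : V) : v + v = 0 := by revert v; decide +kernel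
theorem add_selfE (X : EV) : X + X = 0 := AddMonoidHom.ext fun v => add_self (X v)
theorem eq_of_add {X Y : EV} (h : X + Y = 0) : X = Y := by
  rw [← add_zero X, ← add_selfE Y, ← add_assoc, h, zero_add]

theorem fixB {g : EV} {m : ℕ} (hm : Odd m) (h : g ^ m = 1) {v : V} (hv : g (g v + v) = g v + v) : g v = v := by
  have k : ∀ n, (g ^ n) v = v + n • (g v + v) := by
    intro n
    induction n with
    | zero => simp
    | succ n ih =>
      rw [pow_succ', AddMonoid.End.coe_mul, Function.comp_apply, ih, map_add, map_nsmul, hv, succ_nsmul]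
      calc _ = g v + (v + v) + n • (g v + v) := by rw [add_self, add_zero]
        _ = _ := by abel
  obtain ⟨n, rfl⟩ := hm
  have := k (2 * n + 1)
  rw [h, succ_nsmul, mul_nsmul, two_nsmul, add_self, nsmul_zero, zero_add] at this
  change v = _ at this
  rw [add_comm (g v), ← add_assoc, add_self, zero_add] at this
  exact this.symm

def Zp (v : V) : Prop := ∃ w, v = R w + w
instance (v : V) : Decidable (Zp v) := inferInstanceAs (Decidable (∃ w, v = R w + w))
def St (X : EV) : Prop := (∀ v, R (X v + v) = X v + v) ∧ (∀ v, R v = v → Zp (X v + v)) ∧ ∀ v, Zp v → X v = v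

theorem St_s : St Sx := by unfold St; decide +kernel
theorem St_u : St Ux := by unfold St; decide +kernel
theorem Zp_fix : ∀ v, Zp v → R v = v := by decide +kernel
theorem Zp_add : ∀ v w, Zp v → Zp w → Zp (v + w) := by
  rintro _ _ ⟨a, rfl⟩ ⟨b, rfl⟩; exact ⟨a + b, by rw [map_add]; abel⟩

theorem St.mul {X Y : EV} (a : St X) (b : St Y) : St (X * Y) := by
  have e : ∀ v, (X * Y) v + v = (X (Y v) + Y v) + (Y v + v) := fun v => by
    rw [add_assoc, ← add_assoc (Y v), add_self, zero_add]; rfl
  refine ⟨fun v => ?_, fun v hv => ?_, fun v hv => ?_⟩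
  · rw [e, map_add, a.1, b.1]
  · rw [e]
    refine Zp_add _ _ (a.2.1 _ ?_) (b.2.1 v hv)
    have := b.1 v
    rwa [map_add, hv, add_left_inj] at this
  · change X (Y v) = v
    rw [b.2.2 v hv, a.2.2 v hv]

theorem St.conj {X g g' : EV} (a : St X) (h1 : g * g' = 1) (c : g * R = R * g) (c' : g' * R = R * g') :
    St (g * X * g') := by
  have k : ∀ v, g (g' v) = v := fun v => congrArg (fun f : EV => f v) h1
  have d : ∀ v, g (R v) = R (g v) := fun v => congrArg (fun f : EV => f v) c
  have d' : ∀ v, g' (R v) = R (g' v) := fun v => congrArg (fun f : EV => f v) c'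
  have e : ∀ v, (g * X * g') v + v = g (X (g' v) + g' v) := fun v => by rw [map_add, k]; rfl
  refine ⟨fun v => ?_, fun v hv => ?_, ?_⟩
  · rw [e, ← d, a.1]
  · obtain ⟨w, hw⟩ := a.2.1 (g' v) (by rw [← d', hv])
    exact ⟨g w, by rw [e, hw, map_add, d]⟩
  · rintro _ ⟨w, rfl⟩
    change g (X (g' _)) = _
    rw [a.2.2 _ ⟨g' w, by rw [map_add, d']⟩, k]

theorem St.eq_one {X : EV} (a : St X) {m : ℕ} (hm : Odd m) (h : X ^ m = 1) : X = 1 := by
  have k : ∀ v, R v = v → X v = v := fun v hv => fixB hm h (a.2.2 _ (a.2.1 v hv))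
  exact AddMonoidHom.ext fun v => fixB hm h (k _ (a.1 v))

def e12 : V := (1, 0, 0, 0, 0, 0)
def e13 : V := (0, 1, 0, 0, 0, 0)
def e14 : V := (0, 0, 1, 0, 0, 0)
def e25 : V := (0, 0, 0, 1, 0, 0)
def e35 : V := (0, 0, 0, 0, 1, 0)
def e45 : V := (0, 0, 0, 0, 0, 1)

theorem span : ∀ v : V, v = v.1.val • e12 + v.2.1.val • e13 + v.2.2.1.val • e14 + v.2.2.2.1.val • e25 +
    v.2.2.2.2.1.val • e35 + v.2.2.2.2.2.val • e45 := by decide +kernel

theorem cent_one {g : EV} {m : ℕ} (hm : Odd m) (h : g ^ m = 1) (cs : g * Sx = Sx * g) (cu : g * Ux = Ux * g) :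
    g = 1 := by
  have ds : ∀ v, g (Sx v) = Sx (g v) := fun v => congrArg (fun f : EV => f v) cs
  have du : ∀ v, g (Ux v) = Ux (g v) := fun v => congrArg (fun f : EV => f v) cu
  have inj : ∀ v, g v = 0 → v = 0 := by
    intro v hv
    obtain ⟨n, rfl⟩ := hm
    have : (g ^ (2 * n + 1)) v = 0 := by rw [pow_succ, AddMonoid.End.coe_mul, Function.comp_apply, hv, map_zero]
    rwa [h] at this
  have f14 : g e14 = e14 := by
    have e : g e14 = Ux (g e13) + g e13 := by
      rw [← du, ← map_add]; exact congrArg g (by decide +kernel)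
    have := (by decide +kernel : ∀ w, Sx (Ux w + w) = Ux w + w → Ux w + w = 0 ∨ Ux w + w = e14) (g e13)
      (by rw [← e, ← ds]; exact congrArg g (by decide +kernel))
    rw [← e] at this
    exact this.resolve_left fun c => absurd (inj _ c) (by decide +kernel)
  have f25 : g e25 = e25 := by
    have e : g e25 = Sx (g e35) + g e35 := by
      rw [← ds, ← map_add]; exact congrArg g (by decide +kernel)
    have := (by decide +kernel : ∀ w, Ux (Sx w + w) = Sx w + w → Sx w + w = 0 ∨ Sx w + w = e25) (g e35)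
      (by rw [← e, ← du]; exact congrArg g (by decide +kernel))
    rw [← e] at this
    exact this.resolve_left fun c => absurd (inj _ c) (by decide +kernel)
  have f13 : g e13 = e13 := by
    have e : g e13 = Sx (g e12) + g e12 := by
      rw [← ds, ← map_add]; exact congrArg g (by decide +kernel)
    have := (by decide +kernel : ∀ w, Ux (Sx w + w) + (Sx w + w) = e14 → Sx w + w + e13 = 0 ∨ Sx w + w + e13 = e25)
      (g e12) (by rw [← e, ← du, ← map_add, ← f14]; exact congrArg g (by decide +kernel))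
    rw [← e] at this
    refine fixB hm h ?_
    rcases this with c | c <;> rw [c]
    exacts [map_zero g, f25]
  have f35 : g e35 = e35 := by
    have e : g e35 = Ux (g e45) + g e45 := by
      rw [← du, ← map_add]; exact congrArg g (by decide +kernel)
    have := (by decide +kernel : ∀ w, Sx (Ux w + w) + (Ux w + w) = e25 → Ux w + w + e35 = 0 ∨ Ux w + w + e35 = e14)
      (g e45) (by rw [← e, ← ds, ← map_add, ← f25]; exact congrArg g (by decide +kernel))
    rw [← e] at this
    refine fixB hm h ?_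
    rcases this with c | c <;> rw [c]
    exacts [map_zero g, f14]
  have mid : ∀ v : V, v.1 = 0 → v.2.2.2.2.2 = 0 → g v = v := by
    intro v a b
    rw [span v]
    simp only [map_add, map_nsmul, f13, f14, f25, f35, a, b, ZMod.val_zero, zero_nsmul, map_zero]
  have f12 : g e12 = e12 := by
    have := (by decide +kernel : ∀ x, Sx x + x = e13 → Ux x = x → (x + e12).1 = 0 ∧ (x + e12).2.2.2.2.2 = 0) (g e12)
      (by rw [← ds, ← map_add, ← f13]; exact congrArg g (by decide +kernel))
      (by rw [← du]; exact congrArg g (by decide +kernel))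
    exact fixB hm h (mid _ this.1 this.2)
  have f45 : g e45 = e45 := by
    have := (by decide +kernel : ∀ x, Ux x + x = e35 → Sx x = x → (x + e45).1 = 0 ∧ (x + e45).2.2.2.2.2 = 0) (g e45)
      (by rw [← du, ← map_add, ← f35]; exact congrArg g (by decide +kernel))
      (by rw [← ds]; exact congrArg g (by decide +kernel))
    exact fixB hm h (mid _ this.1 this.2)
  refine AddMonoidHom.ext fun v => ?_
  change g v = v
  rw [span v]
  simp only [map_add, map_nsmul, f12, f13, f14, f25, f35, f45]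

theorem sq0 {g X : EV} {m : ℕ} (hm : Odd m) (h : g ^ m = 1) (a : (g + 1) * ((g + 1) * X) = 0) : (g + 1) * X = 0 := by
  refine AddMonoidHom.ext fun v => ?_
  have b : g (g (X v) + X v) + (g (X v) + X v) = 0 := congrArg (fun f : EV => f v) a
  have := fixB hm h (v := X v) (by rw [← add_zero (g _), ← add_self (g (X v) + X v), ← add_assoc, b, zero_add])
  change g (X v) + X v = 0
  rw [this, add_self]

theorem lemA {g X : EV} {m : ℕ} (hm : Odd m) (h : g ^ m = 1) (hr : g * R * g = R) (a : R * X = X)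
    (b : g * X = X * g) : (g + 1) * X = 0 := by
  have k : g * g * X = X := by
    calc g * g * X = g * (R * X) * g := by rw [a, mul_assoc, mul_assoc, b]
      _ = g * R * (g * X) := by rw [b]; simp only [mul_assoc]
      _ = X := by rw [← mul_assoc, hr, a]
  refine sq0 hm h ?_
  calc _ = g * g * X + X + (g * X + g * X) := by noncomm_ring
    _ = 0 := by rw [k, add_selfE, add_selfE, add_zero]

theorem rel1 : R * (Sx + 1) = Sx + 1 := AddMonoidHom.ext (by decide +kernel : ∀ v, R (Sx v + v) = Sx v + v)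
theorem rel2 : Ux * (R + 1) = R + 1 := AddMonoidHom.ext (by decide +kernel : ∀ v, Ux (R v + v) = R v + v)
theorem rel3 : Ux * Sx * Ux = R * Sx := AddMonoidHom.ext (by decide +kernel : ∀ v, Ux (Sx (Ux v)) = R (Sx v))
theorem rel4 : Ux * Ux = 1 := AddMonoidHom.ext (by decide +kernel : ∀ v, Ux (Ux v) = v)
theorem rel5 : Sx * Sx = 1 := AddMonoidHom.ext (by decide +kernel : ∀ v, Sx (Sx v) = v)
theorem rel6 : R * R = 1 := AddMonoidHom.ext (by decide +kernel : ∀ v, R (R v) = v)
theorem rel7 : Ux * R = R * Ux := AddMonoidHom.ext (by decide +kernel : ∀ v, Ux (R v) = R (Ux v))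
theorem rel8 : Sx * R = R * Sx := AddMonoidHom.ext (by decide +kernel : ∀ v, Sx (R v) = R (Sx v))

theorem inv_one {g : EV} {m : ℕ} (hm : Odd m) (h : g ^ m = 1) (hr : g * R * g = R) (cs : g * Sx = Sx * g)
    (cu : g * (Ux * g * Ux) = Ux * g * Ux * g) : g = 1 := by
  have a := lemA hm h hr rel1 (by rw [mul_add, add_mul, cs, mul_one, one_mul])
  have a' : Sx * (g + 1) = g + 1 := eq_of_add (by
    rw [← a, mul_add, mul_add, add_mul, add_mul, cs]; noncomm_ring)
  set k := Ux * (g + 1) * Ux with hk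
  have hk' : k = Ux * g * Ux + 1 := by rw [hk, mul_add, add_mul, mul_one, rel4]
  have b : R * Sx * k = k := by
    rw [← rel3, hk]
    calc _ = Ux * (Sx * (Ux * Ux) * (g + 1)) * Ux := by simp only [mul_assoc]
      _ = _ := by rw [rel4, mul_one, a']
  have gk : g * k = k * g := by rw [hk', mul_add, add_mul, cu, mul_one, one_mul]
  have hk2 : (g + 1) * k = k * (g + 1) := by rw [mul_add, add_mul, gk, mul_one, one_mul]
  have c : (g + 1) * k = 0 := by
    refine sq0 hm h (lemA hm h hr ?_ ?_)
    · calc R * ((g + 1) * k) = R * (Sx * (g + 1) * k) := by rw [a']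
        _ = R * Sx * k * (g + 1) := by rw [mul_assoc Sx, hk2]; simp only [mul_assoc]
        _ = _ := by rw [b, hk2]
    · rw [← mul_assoc, mul_assoc (g + 1), ← gk]; noncomm_ring
  obtain ⟨n, rfl⟩ := id hm
  have i1 : g * g ^ (2 * n) = 1 := by rw [← pow_succ', h]
  have z : (R + 1) * (g + 1) = (g + 1) * (g ^ (2 * n) * R + 1) := by
    have : R * g = g ^ (2 * n) * R := by
      rw [← one_mul (R * g), ← h, pow_succ, mul_assoc, ← mul_assoc g, hr]
    rw [add_mul R, mul_add R, this, mul_add (g + 1), add_mul g 1 (_ * R), ← mul_assoc, i1]; noncomm_ring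
  have d : (g + 1) * ((R + 1) * (g + 1)) = 0 := by
    calc _ = (g + 1) * (Ux * ((R + 1) * (g + 1))) := by rw [← mul_assoc Ux, rel2]
      _ = (g + 1) * (Ux * (g + 1) * (Ux * Ux)) * (g ^ (2 * n) * R + 1) := by
        rw [z, rel4, mul_one]; simp only [mul_assoc]
      _ = (g + 1) * k * (Ux * (g ^ (2 * n) * R + 1)) := by rw [hk]; simp only [mul_assoc]
      _ = 0 := by rw [c, zero_mul]
  rw [z] at d
  have e := sq0 hm h d
  rw [← z, add_mul, one_mul] at e
  have f := lemA hm h hr (eq_of_add e) (by noncomm_ring)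
  have := sq0 hm h (X := 1) (by rwa [mul_one])
  rw [mul_one] at this
  exact eq_of_add this

def uu (X : EV) (h : X * X = 1) : EVˣ := ⟨X, X, h, h⟩

theorem odd_triv (Γ : Subgroup EVˣ) {m : ℕ} (hm : Odd m) (h : ∀ γ ∈ Γ, γ ^ m = 1)
    (nr : ∀ γ ∈ Γ, uu R rel6 * γ * uu R rel6 ∈ Γ) (ns : ∀ γ ∈ Γ, uu Sx rel5 * γ * uu Sx rel5 ∈ Γ)
    (nu : ∀ γ ∈ Γ, uu Ux rel4 * γ * uu Ux rel4 ∈ Γ) : Γ = ⊥ := by
  haveI : Finite EV := DFunLike.finite _
  have hv : ∀ γ ∈ Γ, (γ : EV) ^ m = 1 := fun γ hγ => by rw [← Units.val_pow_eq_pow_val, h γ hγ, Units.val_one]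
  set r := uu R rel6
  set s := uu Sx rel5
  set u := uu Ux rel4
  have r2 : r * r = 1 := Units.ext rel6
  have s2 : s * s = 1 := Units.ext rel5
  have u2 : u * u = 1 := Units.ext rel4
  have q3 : u * s * u = r * s := Units.ext rel3
  have q7 : u * r = r * u := Units.ext rel7
  have q8 : s * r = r * s := Units.ext rel8
  have one : ∀ γ ∈ Γ, r * γ * r = γ → γ = 1 := by
    intro γ hγ c
    have c1 : γ * r = r * γ := by rw [← one_mul (γ * r), ← r2, mul_assoc, ← mul_assoc r γ, c]
    have c2 : γ⁻¹ * r = r * γ⁻¹ := (Commute.inv_left c1).eq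
    have k : ∀ d : EVˣ, d * d = 1 → St d → d * γ⁻¹ * d ∈ Γ → γ * d = d * γ := by
      intro d d2 a b
      have := ((a.conj (g := (γ : EV)) (g' := (γ⁻¹ : EVˣ)) (Units.mul_inv γ) (congrArg Units.val c1)
        (congrArg Units.val c2)).mul a).eq_one hm (by
          have := hv _ (mul_mem hγ b)
          simpa only [Units.val_mul, mul_assoc] using this)
      have e : γ * d * γ⁻¹ * d = 1 := Units.ext this
      rw [← d2, mul_left_inj, mul_inv_eq_iff_eq_mul] at e
      exact e
    exact Units.ext (cent_one hm (hv γ hγ) (congrArg Units.val (k s s2 St_s (ns _ (inv_mem hγ))))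
      (congrArg Units.val (k u u2 St_u (nu _ (inv_mem hγ)))))
  let σ : Γ →* Γ := MonoidHom.mk' (fun γ => ⟨r * γ * r, nr _ γ.2⟩) fun a b => Subtype.ext (by
    change r * (a * b) * r = r * a * r * (r * b * r)
    calc _ = r * a * (r * r) * b * r := by rw [r2]; group
      _ = _ := by group)
  have fp : MonoidHom.FixedPointFree σ := fun γ c => Subtype.ext (one _ γ.2 (congrArg Subtype.val c))
  have iv : Function.Involutive σ := fun γ => Subtype.ext (by
    change r * (r * γ * r) * r = γ
    calc _ = (r * r) * γ * (r * r) := by group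
      _ = _ := by rw [r2]; group)
  have inv : ∀ γ ∈ Γ, r * γ * r = γ⁻¹ := fun γ hγ =>
    congrArg Subtype.val (congrFun (fp.coe_eq_inv_of_involutive iv) ⟨γ, hγ⟩)
  have com : ∀ a ∈ Γ, ∀ b ∈ Γ, a * b = b * a := fun a ha b hb =>
    congrArg Subtype.val (fp.commute_all_of_involutive iv ⟨a, ha⟩ ⟨b, hb⟩).eq
  have fin : ∀ γ ∈ Γ, s * γ * s = γ → γ = 1 := by
    intro γ hγ c
    have c1 : γ * s = s * γ := by rw [← one_mul (γ * s), ← s2, mul_assoc, ← mul_assoc s γ, c]
    have c2 : γ * r * γ = r := by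
      calc _ = γ * (r * γ * r) * r := by rw [mul_assoc γ (r * γ * r), mul_assoc (r * γ), r2]; group
        _ = _ := by rw [inv γ hγ]; group
    exact Units.ext (inv_one hm (hv γ hγ) (congrArg Units.val c2) (congrArg Units.val c1)
      (congrArg Units.val (com _ hγ _ (nu γ hγ))))
  refine eq_bot_iff.2 fun x hx => mem_bot.2 ?_
  have a := fin _ (mul_mem hx (ns x hx)) (by
    rw [com _ hx _ (ns x hx)]
    calc _ = (s * s) * x * (s * x * s) := by group
      _ = _ := by rw [s2, one_mul, com _ hx _ (ns x hx)])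
  have b : s * x * s = r * x * r := by rw [inv x hx]; exact eq_inv_of_mul_eq_one_right a
  have c := fin _ (nu x hx) (by
    have e1 : s * u = u * (r * s) := by rw [← q3, ← mul_assoc, ← mul_assoc, u2, one_mul]
    have e2 : u * s = (s * r) * u := by rw [q8, ← q3, mul_assoc, u2, mul_one]
    calc _ = (s * u) * x * (u * s) := by group
      _ = u * (r * (s * x * s) * r) * u := by rw [e1, e2]; group
      _ = u * ((r * r) * x * (r * r)) * u := by rw [b]; group
      _ = _ := by rw [r2]; group)
  calc x = (u * u) * x * (u * u) := by rw [u2]; group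
    _ = u * (u * x * u) * u := by group
    _ = 1 := by rw [c, mul_one, u2]

end H8.UT5
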